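import Cfsg.Agent.Solv.Core
import Cfsg.Agent.S0033
import Cfsg.Agent.AutCl.OGF

/-! Local balance in almost simple groups, abstract part: admissible subgroups `Adm`, the property
`Kill` (every admissible subgroup is trivial), the criterion `bal_iff`; linear groups with the
properties `NPs` (normal `p'`-subgroups are scalar) and `Cent` (centraliser is scalar), `kill`. -/

set_option autoImplicit false

namespace Cfsg.Agent.Mult.Bal

section Abs
variable {X : Type*} [Group X] {p : ℕ} {K : Subgroup X} {x : X} {M : Subgroup X}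

/-- `M` is a `p'`-group centralising `x`, normalised by `C_K(x)`. -/
structure Adm (p : ℕ) (K : Subgroup X) (x : X) (M : Subgroup X) : Prop where
  cop : (Nat.card M).Coprime p
  cen : ∀ y ∈ M, y * x = x * y
  nrm : ∀ k ∈ K, k * x = x * k → ∀ y ∈ M, k * y * k⁻¹ ∈ M

/-- Every admissible subgroup is trivial. -/
def Kill (p : ℕ) (K : Subgroup X) (x : X) : Prop := ∀ M, Adm p K x M → M = ⊥

theorem Adm.cop_order [Finite X] (h : Adm p K x M) {y : X} (hy : y ∈ M) : (orderOf y).Coprime p :=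
  h.cop.coprime_dvd_left (by rw [← Subgroup.orderOf_mk y hy]; exact orderOf_dvd_natCard _)

theorem Adm.inf [Finite X] (h : Adm p K x M) {R : Subgroup X} (hR : K ≤ R) : Adm p K x (M ⊓ R) :=
  ⟨h.cop.coprime_dvd_left (Subgroup.card_dvd_of_le inf_le_left), fun y hy => h.cen y hy.1,
    fun k hk hx y hy => ⟨h.nrm k hk hx y hy.1, R.mul_mem (R.mul_mem (hR hk) hy.2) (R.inv_mem (hR hk))⟩⟩

theorem Kill.core [Finite X] (h : Kill p K x) {A : Subgroup X} (hK : K ≤ A) :
    pPrimeCore p ↥(A ⊓ Subgroup.centralizer {x}) = ⊥ := by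
  have := h ((pPrimeCore p ↥(A ⊓ Subgroup.centralizer {x})).map (Subgroup.subtype _))
    ⟨Solv.coprime_card_map_pPrimeCore _, ?_, ?_⟩
  · exact (Subgroup.map_eq_bot_iff_of_injective _ (Subgroup.subtype_injective _)).1 this
  · rintro _ ⟨y, -, rfl⟩
    exact Subgroup.mem_centralizer_singleton_iff.1 y.2.2
  · rintro k hk hx _ ⟨y, hy, rfl⟩
    exact ⟨_, Subgroup.Normal.conj_mem inferInstance y hy
      ⟨k, hK hk, Subgroup.mem_centralizer_singleton_iff.2 hx⟩, rfl⟩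

theorem Kill.conj [K.Normal] {α : X} (h : Kill p K (α * x * α⁻¹)) : Kill p K x := fun M hM => by
  have := h (M.map (MulAut.conj α).toMonoidHom) ⟨?_, ?_, ?_⟩
  · exact (Subgroup.map_eq_bot_iff_of_injective _ (MulAut.conj α).injective).1 this
  · rw [Subgroup.card_map_of_injective (MulAut.conj α).injective]; exact hM.cop
  · rintro _ ⟨y, hy, rfl⟩
    have := hM.cen y hy
    simp only [MulEquiv.coe_toMonoidHom, MulAut.conj_apply]
    calc _ = α * (y * x) * α⁻¹ := by group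
      _ = _ := by rw [this]; group
  · rintro k hk hx _ ⟨y, hy, rfl⟩
    refine ⟨_, hM.nrm (α⁻¹ * k * α) (Subgroup.Normal.conj_mem' ‹_› k hk α) ?_ y hy, ?_⟩
    · calc _ = α⁻¹ * (k * (α * x * α⁻¹)) * α := by group
        _ = _ := by rw [hx]; group
    · simp only [MulEquiv.coe_toMonoidHom, MulAut.conj_apply]; group

theorem kill_of_two [Finite X] [K.Normal] {R : Subgroup X} (hR : K ≤ R)
    (h1 : ∀ M ≤ R, Adm p K x M → M = ⊥)
    (h2 : ∀ y, y * x = x * y → (orderOf y).Coprime p → (∀ k ∈ K, k * x = x * k → k * y = y * k) → y ∈ R) :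
    Kill p K x := fun M hM => by
  have h0 := h1 _ inf_le_right (hM.inf hR)
  refine (Subgroup.eq_bot_iff_forall _).2 fun y hy => ?_
  refine Subgroup.mem_bot.1 (h0 ▸ ⟨hy, h2 y (hM.cen y hy) (hM.cop_order hy) fun k hk hx => ?_⟩)
  have : k * y * k⁻¹ * y⁻¹ ∈ M ⊓ R := ⟨M.mul_mem (hM.nrm k hk hx y hy) (M.inv_mem hy), hR (by
    have := mul_mem hk (Subgroup.Normal.conj_mem ‹_› _ (inv_mem hk) y)
    simpa [mul_assoc] using this)⟩
  rw [h0, Subgroup.mem_bot, mul_inv_eq_one, mul_inv_eq_iff_eq_mul] at this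
  exact this

theorem kill_of_index_two [Finite X] [K.Normal] {R : Subgroup X} (hR : K ≤ R) (hi : R.index = 2)
    (h1 : ∀ M ≤ R, Adm 2 K x M → M = ⊥) : Kill 2 K x :=
  kill_of_two hR h1 fun y _ hy _ => by
    have := Subgroup.normal_of_index_eq_two hi
    have h2 : y ^ 2 ∈ R := hi ▸ Subgroup.pow_index_mem R y
    obtain ⟨k, hk⟩ := (Nat.coprime_two_right.1 hy)
    have : y = (y ^ 2) ^ (k + 1) := by
      rw [← pow_mul, show 2 * (k + 1) = orderOf y + 1 by omega, pow_succ, pow_orderOf_eq_one, one_mul]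
    exact this ▸ pow_mem h2 _

end Abs

section Aut
variable {T : Type*} [Group T] [Finite T] {p : ℕ} [Fact p.Prime]

theorem dvd_card_fix {x : MulAut T} (hx : orderOf x = p) (h : p ∣ Nat.card T) :
    p ∣ Nat.card ↥(MonoidHom.eqLocus x.toMonoidHom (MonoidHom.id T)) := by
  have hP : IsPGroup p (Subgroup.zpowers x) := IsPGroup.of_card (n := 1) (by simp [hx])
  have h1 := hP.card_modEq_card_fixedPoints T
  have h2 : Nat.card (MulAction.fixedPoints (Subgroup.zpowers x) T) =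
      Nat.card ↥(MonoidHom.eqLocus x.toMonoidHom (MonoidHom.id T)) := by
    refine Nat.card_congr (Equiv.subtypeEquivRight fun t => ⟨fun h => h ⟨x, Subgroup.mem_zpowers x⟩,
      fun h y => ?_⟩)
    have : Subgroup.zpowers x ≤ MulAction.stabilizer _ t := Subgroup.zpowers_le.2 h
    exact this y.2
  exact (Nat.modEq_zero_iff_dvd.1 ((h2 ▸ h1).symm.trans (Nat.modEq_zero_iff_dvd.2 h)))

omit [Finite T] [Fact p.Prime] in
theorem conj_comm_iff (hZ : Subgroup.center T = ⊥) (x : MulAut T) (t : T) :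
    MulAut.conj t * x = x * MulAut.conj t ↔ x t = t := by
  constructor
  · intro h
    have : t⁻¹ * x t ∈ Subgroup.center T := Subgroup.mem_center_iff.2 fun g => by
      obtain ⟨g, rfl⟩ := x.surjective g
      have := congrArg (fun φ : MulAut T => φ g) h
      simp only [MulAut.mul_apply, MulAut.conj_apply, map_mul, map_inv] at this
      calc _ = t⁻¹ * (t * x g * t⁻¹) * x t := by group
        _ = _ := by rw [this]; group
    rw [hZ, Subgroup.mem_bot, inv_mul_eq_one] at this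
    exact this.symm
  · intro h; ext g; simp [h]

theorem exists_of_dvd_fix (hZ : Subgroup.center T = ⊥) {x : MulAut T}
    (h : p ∣ Nat.card ↥(MonoidHom.eqLocus x.toMonoidHom (MonoidHom.id T))) :
    ∃ k ∈ Cfsg.Inn T, k * x = x * k ∧ k ≠ 1 ∧ k ^ p = 1 := by
  obtain ⟨t, ht⟩ := exists_prime_orderOf_dvd_card' p h
  refine ⟨MulAut.conj t.1, ⟨_, rfl⟩, (conj_comm_iff hZ x _).2 t.2, fun h1 => ?_, ?_⟩
  · have : t.1 ∈ Subgroup.center T := Subgroup.mem_center_iff.2 fun g => by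
      have := congrArg (fun φ : MulAut T => φ g) h1
      simp only [MulAut.conj_apply, MulAut.one_apply] at this
      exact (mul_inv_eq_iff_eq_mul.1 this).symm
    rw [hZ, Subgroup.mem_bot] at this
    rw [show t = 1 from Subtype.ext this, orderOf_one] at ht
    exact (Fact.out : p.Prime).one_lt.ne ht
  · rw [← map_pow, ← Subgroup.coe_pow, ← ht, pow_orderOf_eq_one]; simp

theorem bal_iff [IsSimpleGroup T] (hZ : Subgroup.center T = ⊥) {A : Subgroup (MulAut T)}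
    (hinn : ∀ k : T, MulAut.conj k ∈ A) {x : MulAut T} (hx : orderOf x = p) {P : Prop}
    (h1 : (∃ k ∈ Cfsg.Inn T, k * x = x * k ∧ k ≠ 1 ∧ k ^ p = 1) → Kill p (Cfsg.Inn T) x)
    (h2 : ¬ p ∣ Nat.card T → P) :
    pPrimeCore p ↥(A ⊓ Subgroup.centralizer {x}) ≠ ⊥ ↔
      (P ∧ Nat.Coprime p (Nat.card ↥(MonoidHom.eqLocus x.toMonoidHom (MonoidHom.id T)))) := by
  have hA : Cfsg.Inn T ≤ A := by rintro _ ⟨k, rfl⟩; exact hinn k
  rw [(Fact.out : p.Prime).coprime_iff_not_dvd]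
  constructor
  · intro h
    have h3 := fun hd => h ((h1 (exists_of_dvd_fix hZ hd)).core hA)
    refine ⟨h2 fun hd => h3 (dvd_card_fix hx hd), h3⟩
  · rintro ⟨-, h⟩ h0
    have h3 := Solv.le_map_pPrimeCore (p := p) (H := A ⊓ Subgroup.centralizer {x})
      (Q := (MonoidHom.eqLocus x.toMonoidHom (MonoidHom.id T)).map MulAut.conj) ?_ ?_ ?_
    · rw [h0, Subgroup.map_bot, le_bot_iff] at h3
      have := S0033.result x (fun t ht => by
        have h4 : MulAut.conj t ∈ (⊥ : Subgroup (MulAut T)) := h3 ▸ ⟨t, ht, rfl⟩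
        have : t ∈ Subgroup.center T := Subgroup.mem_center_iff.2 fun g => by
          have := congrArg (fun φ : MulAut T => φ g) (Subgroup.mem_bot.1 h4)
          simp only [MulAut.conj_apply, MulAut.one_apply] at this
          exact (mul_inv_eq_iff_eq_mul.1 this).symm
        rwa [hZ] at this) p Fact.out hx
      exact Group.IsNilpotent.center_ne_bot T hZ
    · rintro _ ⟨t, ht, rfl⟩
      exact ⟨hinn t, Subgroup.mem_centralizer_singleton_iff.2 ((conj_comm_iff hZ x t).2 ht)⟩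
    · intro a ha
      have ha := Subgroup.mem_centralizer_singleton_iff.1 ha.2
      have key : ∀ a : MulAut T, a * x = x * a → ∀ t, x t = t → x (a t) = a t := fun a ha t ht => by
        rw [← MulAut.mul_apply, ← ha, MulAut.mul_apply, ht]
      refine Subgroup.mem_normalizer_iff.2 fun b => ⟨?_, ?_⟩
      · rintro ⟨t, ht, rfl⟩
        exact ⟨a t, key a ha t ht, by ext; simp⟩
      · rintro ⟨t, ht, e⟩
        refine ⟨a⁻¹ t, key a⁻¹ (Commute.inv_left ha) t ht, ?_⟩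
        rw [show b = a⁻¹ * MulAut.conj t * a by rw [e]; group]
        ext; simp
    · exact (((Fact.out : p.Prime).coprime_iff_not_dvd.2 h).symm).coprime_dvd_left
        (Subgroup.card_map_dvd _ _)

end Aut

section Lin
variable {F : Type*} [Field F] {V : Type*} [AddCommGroup V] [Module F V]

/-- Scalar maps. -/
def Scal (g : V ≃ₗ[F] V) : Prop := ∃ c : F, ∀ v, g v = c • v

/-- Subgroups normalised by `G` whose elements have `p'`-order modulo scalars are scalar. -/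
def NPs (p : ℕ) (G : Subgroup (V ≃ₗ[F] V)) : Prop :=
  ∀ N ≤ G, (∀ g ∈ G, ∀ n ∈ N, g * n * g⁻¹ ∈ N) → (∀ n ∈ N, ∃ k : ℕ, k.Coprime p ∧ Scal (n ^ k)) →
    ∀ n ∈ N, Scal n

/-- Semilinear maps commuting with `G` modulo scalars are scalar. -/
def Cent (G : Subgroup (V ≃ₗ[F] V)) : Prop :=
  ∀ (T : V ≃+ V) (ρ : F ≃+* F), (∀ (c : F) v, T (c • v) = ρ c • T v) →
    (∀ g ∈ G, ∃ c : F, ∀ v, T (g v) = c • g (T v)) → ρ = 1 ∧ ∃ c : F, ∀ v, T v = c • v

/-- `y` acts on the image of `G` as the semilinear map `T`. -/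
def Ind {X : Type*} [Group X] {G : Subgroup (V ≃ₗ[F] V)} (ℓ : G →* X) (y : X) (T : V ≃+ V) : Prop :=
  ∀ g : G, ∃ g' : G, (∀ v, g'.1 (T v) = T (g.1 v)) ∧ y * ℓ g * y⁻¹ = ℓ g'

theorem kill {X : Type*} [Group X] [Finite X] {p : ℕ} {K : Subgroup X} {x : X} {M : Subgroup X}
    (hM : Adm p K x M) {G : Subgroup (V ≃ₗ[F] V)} (hN : NPs p G) (hC : Cent G) (ℓ : G →* X)
    (hℓ : ∀ g, ℓ g = 1 ↔ Scal g.1) (hK : ∀ g, ℓ g ∈ K ∧ ℓ g * x = x * ℓ g)
    {y : X} (hy : y ∈ M) {T : V ≃+ V} {ρ : F ≃+* F}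
    (hT : ∀ (c : F) v, T (c • v) = ρ c • T v) (hI : Ind ℓ y T) : ρ = 1 ∧ ∃ c : F, ∀ v, T v = c • v := by
  have h1 : ∀ g, ℓ g ∈ M → ℓ g = 1 := fun g hg => (hℓ g).2 (hN ((M.comap ℓ).map G.subtype)
    (Subgroup.map_subtype_le _) (by
      rintro a ha _ ⟨n, hn, rfl⟩
      refine ⟨⟨a, ha⟩ * n * ⟨a, ha⟩⁻¹, ?_, rfl⟩
      simpa using hM.nrm _ (hK ⟨a, ha⟩).1 (hK _).2 _ hn) (by
      rintro _ ⟨n, hn, rfl⟩
      exact ⟨_, hM.cop_order hn, (hℓ (n ^ orderOf (ℓ n))).1 (by rw [map_pow, pow_orderOf_eq_one])⟩)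
      _ ⟨g, hg, rfl⟩)
  refine hC T ρ hT fun g hg => ?_
  obtain ⟨g', e, e'⟩ := hI ⟨g, hg⟩
  have h2 : ℓ (g' * ⟨g, hg⟩⁻¹) ∈ M := by
    rw [map_mul, ← e', map_inv]
    simpa [mul_assoc] using mul_mem hy (hM.nrm _ (hK ⟨g, hg⟩).1 (hK _).2 _ (inv_mem hy))
  obtain ⟨c, hc⟩ := (hℓ _).1 (h1 _ h2)
  exact ⟨c, fun v => by simpa [e] using hc (g (T v))⟩

theorem pow_mem_of_sup {G : Type*} [Group G] {N U : Subgroup G} {r : ℕ}
    (h : ∀ u ∈ U, ∀ n ∈ N, u * n * u⁻¹ ∈ N) (hU : IsPGroup r U) {g : G} (hg : g ∈ N ⊔ U) :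
    ∃ a, g ^ r ^ a ∈ N := by
  let S : Subgroup G :=
    { carrier := {g | ∃ u ∈ U, g * u⁻¹ ∈ N}
      mul_mem' := fun {a b} ⟨u, hu, e⟩ ⟨u', hu', e'⟩ => ⟨_, mul_mem hu hu', by
        simpa [mul_assoc] using mul_mem e (h u hu _ e')⟩
      one_mem' := ⟨1, one_mem _, by simpa using one_mem N⟩
      inv_mem' := fun {a} ⟨u, hu, e⟩ => ⟨_, inv_mem hu, by
        simpa [mul_assoc] using h _ (inv_mem hu) _ (inv_mem e)⟩ }
  obtain ⟨u, hu, e⟩ : g ∈ S := (sup_le (fun n hn => ⟨1, one_mem _, by simpa using hn⟩)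
    fun u hu => ⟨u, hu, by simpa using one_mem N⟩ : N ⊔ U ≤ S) hg
  have key : ∀ k : ℕ, g ^ k * (u ^ k)⁻¹ ∈ N := fun k => by
    induction k with
    | zero => simpa using one_mem N
    | succ k ih =>
      have := mul_mem ih (h _ (pow_mem hu k) _ e)
      rw [pow_succ, pow_succ]; convert this using 1; group
  obtain ⟨a, ha⟩ := hU ⟨u, hu⟩
  exact ⟨a, by simpa [show u ^ r ^ a = 1 from congrArg Subtype.val ha] using key (r ^ a)⟩

end Lin

end Cfsg.Agent.Mult.Bal
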