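import Cfsg.Agent.Mult.Bal1

/-! The Eichler group `EG Φ` of a formed space: it is normalised by semisimilarities (`semi_EG`), its
centraliser consists of scalars (`cent_EG`), and normal `p'`-subgroups are scalar (`np_two`,
`np_of_ord`). -/

set_option autoImplicit false

namespace Cfsg.Agent.Mult.Bal

open Cfsg.Agent.Geom Cfsg.Agent.Geom.Formed Cfsg.Agent.AutCl Module

variable {F : Type*} [Field F] {σ : F →+* F} {V : Type*} [AddCommGroup V] [Module F V]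
  {Φ : Formed σ V}

/-- The group generated by the Eichler maps. -/
def EG (Φ : Formed σ V) : Subgroup (V ≃ₗ[F] V) := Subgroup.closure {g | ∃ p a d, IsE Φ p a d g}

theorem mem_EG {p a : V} {d : F} {g : V ≃ₗ[F] V} (h : IsE Φ p a d g) : g ∈ EG Φ :=
  Subgroup.subset_closure ⟨p, a, d, h⟩

theorem EG_le {S : Subgroup (V ≃ₗ[F] V)} (h : ∀ p a d g, IsE Φ p a d g → g ∈ S) : EG Φ ≤ S :=
  (Subgroup.closure_le _).2 fun _ ⟨_, _, _, e⟩ => h _ _ _ _ e

theorem EG_le_isom : EG Φ ≤ Φ.isom := EG_le fun _ _ _ _ h => h.mem_isom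

/-- Standing hypotheses. -/
structure Gd (Φ : Formed σ V) : Prop where
  nd : Φ.Nondeg
  dim : 3 ≤ finrank F V
  pair : ∃ a b, Φ.IsPair a b
  tau : Φ.τ = 0 ∨ Φ.τ = 1

theorem exists_sconj {T : V ≃+ V} {ρ : F ≃+* F} (h : ∀ (c : F) v, T (c • v) = ρ c • T v)
    (g : V ≃ₗ[F] V) : ∃ g' : V ≃ₗ[F] V, ∀ v, g' (T v) = T (g v) :=
  ⟨{ (T.symm.trans g.toAddEquiv).trans T with
      map_smul' := fun c v => by
        obtain ⟨v, rfl⟩ := T.surjective v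
        obtain ⟨c, rfl⟩ := ρ.surjective c
        change T (g (T.symm _)) = _ • T (g (T.symm _))
        rw [← h, T.symm_apply_apply, T.symm_apply_apply, map_smul, h]; rfl }, fun v => by
    change T (g (T.symm _)) = _
    simp⟩

theorem semi_EG [Finite F] (G : Gd Φ) {T : V ≃+ V} {ρ : F ≃+* F} {κ : F} (h : Semi Φ T ρ κ)
    {g : V ≃ₗ[F] V} (hg : g ∈ EG Φ) : ∃ g' ∈ EG Φ, ∀ v, g' (T v) = T (g v) := by
  induction hg using Subgroup.closure_induction with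
  | mem e he =>
    obtain ⟨p, a, d, he⟩ := he
    obtain ⟨e', he'⟩ := exists_sconj h.smul e
    refine ⟨e', mem_EG (p := T p) (a := κ⁻¹ • T a) (d := κ⁻¹ * ρ d) ?_, he'⟩
    have hκ : σ κ = κ := by
      obtain ⟨a, b, hab⟩ := G.pair
      have e1 := h.B b a
      rw [Φ.symm, h.B a b, hab.ef, hab.fe, ringAut_eps] at e1
      exact mul_left_cancel₀ Φ.ε_ne_zero (by simpa [mul_comm] using e1)
    have hτ' : ρ Φ.τ = Φ.τ := by rcases G.tau with h | h <;> simp [h]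
    have hκ' : σ κ⁻¹ = κ⁻¹ := by rw [map_inv₀, hκ]
    have h0 := h.ne
    refine ⟨h.sing.2 he.sp, by simp [h.B, he.pa], ?_, ?_, fun x => ?_⟩
    · rw [Φ.Q_smul, h.Q, ← he.hQ, map_mul, hτ']; field_simp
    · rw [Φ.B_smul_left, Φ.B_smul_right, h.B, ← he.hB, map_mul, hκ', map_add, map_mul, ringAut_eps,
        ringAut_sigma Φ]; field_simp
    · obtain ⟨x, rfl⟩ := T.surjective x
      rw [he', he.app, map_sub, map_add, h.smul, h.smul, Φ.B_smul_left, h.B, h.B, hκ']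
      simp only [map_sub, map_mul, ringAut_eps]
      match_scalars <;> field_simp
  | one => exact ⟨1, one_mem _, fun _ => rfl⟩
  | mul a b _ _ ha hb =>
    obtain ⟨a', ha, e⟩ := ha
    obtain ⟨b', hb, e'⟩ := hb
    exact ⟨a' * b', mul_mem ha hb, fun v => by simp [e, e']⟩
  | inv a _ ha =>
    obtain ⟨a', ha, e⟩ := ha
    exact ⟨a'⁻¹, inv_mem ha, fun v => a'.injective (by simp [e])⟩

theorem exists_d {W : Submodule F V} {a b : V} (ha : a ∈ W) (hb : b ∈ W) (h : Φ.B a b = 1) :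
    ∃ c ∈ W, ∃ d, d ≠ 0 ∧ Φ.τ * d = Φ.Q c ∧ Φ.ε * d + σ d = Φ.B c c := by
  by_cases hs : ∀ c ∈ W, Φ.Sing c
  · have h1 := (hs _ (W.add_mem ha hb)).1
    have h2 := (hs _ (W.add_mem ha hb)).2
    rw [Φ.Q_add, (hs a ha).1, (hs b hb).1, h] at h1
    simp only [map_add, LinearMap.add_apply, (hs a ha).2, (hs b hb).2, h, Φ.symm a b, map_one] at h2
    exact ⟨0, W.zero_mem, 1, one_ne_zero, by simpa using h1, by simp; linear_combination h2⟩
  · push Not at hs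
    obtain ⟨c, hc, hs⟩ := hs
    obtain ⟨d, h1, h2⟩ := Φ.trace c
    refine ⟨c, hc, d, ?_, h1, h2⟩
    rintro rfl
    exact hs ⟨by simpa using h1.symm, by simpa using h2.symm⟩

variable [FiniteDimensional F V]

theorem exists_pp (hn : Φ.Nondeg) {p r z : V} (hr : Φ.IsPair p r) (hz : z ∈ Φ.pairPerp p r)
    (hz0 : z ≠ 0) : ∃ t ∈ Φ.pairPerp p r, Φ.B z t = 1 :=
  let ⟨b, hb⟩ := (hr.nondeg_pairPerp hn).exists_eq_one (x := ⟨z, hz⟩)
    fun h => hz0 (congrArg Subtype.val h)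
  ⟨b, b.2, hb⟩

theorem exists_opp (G : Gd Φ) {p r : V} (hr : Φ.IsPair p r) :
    ∃ a ∈ Φ.pairPerp p r, ∃ d e, d ≠ 0 ∧ IsE Φ p a d e := by
  obtain ⟨w, hw, hw0⟩ := exists_mem_pairPerp (Φ := Φ) G.dim p r
  obtain ⟨t, ht, h⟩ := exists_pp G.nd hr hw hw0
  obtain ⟨c, hc, d, hd, h1, h2⟩ := exists_d hw ht h
  obtain ⟨e, he⟩ := exists_isE G.nd hr.se (Φ.mem_pairPerp.1 hc).1 h1 h2
  exact ⟨c, hc, d, e, hd, he⟩

theorem cent_EG [Finite F] (G : Gd Φ) : Cent (EG Φ) := by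
  intro T ρ hT h
  obtain ⟨ℓ, hℓ⟩ := CharP.exists F
  haveI : Fact ℓ.Prime := ⟨CharP.char_is_prime F ℓ⟩
  obtain ⟨p, r, hr⟩ := G.pair
  have hcomm : ∀ q a d e, IsE Φ q a d e → ∀ v, T (e v) = e (T v) := by
    intro q a d e he
    obtain ⟨c, hc⟩ := h e (mem_EG he)
    have h1 : ∀ (k : ℕ) v, T ((e ^ k) v) = c ^ k • (e ^ k) (T v) := fun k => by
      induction k with
      | zero => simp
      | succ k ih => intro v; rw [pow_succ', LinearEquiv.mul_apply, hc, ih, map_smul, smul_smul, pow_succ']; rfl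
    have h2 := h1 (ℓ ^ 2) p
    rw [he.pow_char ℓ] at h2
    have h3 : c ^ ℓ ^ 2 = 1 := smul_left_injective F (m := T p) (by simpa using hr.left_ne_zero)
      (by simpa using h2.symm)
    simpa [eq_one_of_pow_char h3] using hc
  have key : ∀ {p r}, Φ.IsPair p r → ∃ α : F, T p = α • p := fun {p r} hr => by
    obtain ⟨w, hw, hw0⟩ := exists_mem_pairPerp (Φ := Φ) G.dim p r
    exact par_of_comm G.nd hr hw hw0 fun a d e he => by rw [← hcomm p a d e he, he.apply_p]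
  have key2 : ∀ {p r} {α β : F}, Φ.IsPair p r → T p = α • p → T r = β • r →
      ∀ a ∈ Φ.pairPerp p r, ∃ t : F, T a = β • a + t • p := fun {p r α β} hr hα hβ a ha => by
    obtain ⟨d, e, he⟩ := exists_isE' G.nd hr.se (Φ.mem_pairPerp.1 ha).1
    have h1 := hcomm _ _ _ _ he r
    rw [hβ, map_smul, he.apply_r hr (Φ.mem_pairPerp.1 ha).2, map_sub, map_sub, hT, hT, hα, hβ,
      ringAut_eps] at h1
    refine ⟨Φ.ε * (β * d - ρ d * α), ?_⟩
    have : T a = Φ.ε • Φ.ε • T a := by rw [smul_smul, Φ.εε, one_smul]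
    rw [this, show Φ.ε • T a = β • r - ρ d • α • p - β • (r - d • p - Φ.ε • a) by rw [← h1]; abel]
    match_scalars
    · ring
    · ring
    · linear_combination β * Φ.εε
  obtain ⟨α, hα⟩ := key hr
  obtain ⟨β, hβ⟩ := key (IsPair.symm' hr)
  have h1 : ∀ a ∈ Φ.pairPerp p r, T a = β • a := fun a ha => by
    obtain ⟨t, ht⟩ := key2 hr hα hβ a ha
    obtain ⟨t', ht'⟩ := key2 (IsPair.symm' hr) hβ (β := α) (by rw [hT, hα, ringAut_eps, smul_comm]) a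
      (by rw [Φ.mem_pairPerp] at ha ⊢; simp [ha])
    have := congrArg (Φ.B r) (ht.symm.trans ht')
    simp [(Φ.mem_pairPerp.1 ha).2, hr.fe, hr.sf.2, Φ.ε_ne_zero] at this
    simpa [this] using ht
  obtain ⟨w, hw, hw0⟩ := exists_mem_pairPerp (Φ := Φ) G.dim p r
  have hβ0 : β ≠ 0 := by rintro rfl; exact hr.right_ne_zero (by simpa using hβ)
  have hαβ : α = β := by
    obtain ⟨t', ht'⟩ := key2 (IsPair.symm' hr) hβ (β := α) (by rw [hT, hα, ringAut_eps, smul_comm]) w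
      (by rw [Φ.mem_pairPerp] at hw ⊢; simp [hw])
    have := congrArg (Φ.B p) ((h1 w hw).symm.trans ht')
    simp [(Φ.mem_pairPerp.1 hw).1, hr.ef] at this
    rw [h1 w hw, ← this, zero_smul, add_zero] at ht'
    exact (smul_left_injective F hw0 ht').symm
  have hρ : ∀ c, ρ c = c := fun c => by
    have := h1 _ (Submodule.smul_mem _ c hw)
    rw [hT, h1 w hw, smul_smul, smul_smul, mul_comm β] at this
    exact mul_right_cancel₀ hβ0 (smul_left_injective F hw0 this)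
  refine ⟨RingEquiv.ext hρ, β, fun v => ?_⟩
  obtain ⟨a, b, w, hw, rfl⟩ := hr.exists_decomp v
  rw [map_add, map_add, hT, hT, hρ, hρ, hα, hβ, h1 w hw, hαβ]
  module

theorem scal_of_fix (G : Gd Φ) {g : V ≃ₗ[F] V} (hg : g ∈ Φ.isom)
    (h : ∀ p, Φ.Sing p → ∃ c : F, g p = c • p) : Scal g := by
  obtain ⟨p, r, hr⟩ := G.pair
  obtain ⟨α, hα⟩ := h p hr.se
  obtain ⟨β, hβ⟩ := h r hr.sf
  have hα0 : α ≠ 0 := by rintro rfl; exact hr.left_ne_zero (by simpa using hα)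
  have hβ0 : β ≠ 0 := by rintro rfl; exact hr.right_ne_zero (by simpa using hβ)
  have key : ∀ a ∈ Φ.pairPerp p r, ∀ d e, IsE Φ p a d e → d * α = d * β ∧ g a = β • a := by
    intro a ha d e he
    obtain ⟨γ, hγ⟩ := h _ (hr.sf.map he.mem_isom)
    obtain ⟨h1, h2⟩ := Φ.mem_pairPerp.1 ha
    obtain ⟨h3, h4⟩ := Φ.mem_pairPerp.1 (map_mem_pairPerp hg hα0 hβ0 hα hβ ha)
    rw [he.apply_r hr h2, map_sub, map_sub, map_smul, map_smul, hα, hβ] at hγ
    have e1 := congrArg (Φ.B p) hγ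
    have e2 := congrArg (Φ.B r) hγ
    simp only [map_sub, B_smul_right, h1, h2, h3, h4, hr.ef, hr.fe, hr.se.2, hr.sf.2] at e1 e2
    obtain rfl : β = γ := by linear_combination e1
    have e3 : d * α = d * β := mul_left_cancel₀ Φ.ε_ne_zero (by linear_combination -e2)
    refine ⟨e3, smul_right_injective V Φ.ε_ne_zero ?_⟩
    change Φ.ε • g a = Φ.ε • β • a
    rw [show Φ.ε • g a = β • r - d • α • p - β • (r - d • p - Φ.ε • a) by rw [← hγ]; abel, smul_smul d, e3]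
    module
  obtain ⟨a, ha, d, e, hd, he⟩ := exists_opp G hr
  have hαβ := mul_left_cancel₀ hd (key a ha d e he).1
  refine ⟨β, fun v => ?_⟩
  obtain ⟨a, b, w, hw, rfl⟩ := hr.exists_decomp v
  obtain ⟨d, e, he⟩ := exists_isE' G.nd hr.se (Φ.mem_pairPerp.1 hw).1
  rw [map_add, map_add, map_smul, map_smul, hα, hβ, (key w hw d e he).2, hαβ]
  module

theorem exists_move (hn : Φ.Nondeg) {z x y : V} (hz : Φ.Sing z) (hx : Φ.Sing x) (hy : Φ.Sing y)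
    (h1 : Φ.B z x ≠ 0) (h2 : Φ.B z y ≠ 0) : ∃ u ∈ QP Φ z hz, ∃ c : F, c ≠ 0 ∧ u x = c • y := by
  obtain ⟨a, -, d, u, hu, e⟩ := exists_isE_apply hn (isPair_smul hz hx h1) (isPair_smul hz hy h2)
  refine ⟨u, ⟨a, d, hu⟩, Φ.B z x * (Φ.B z y)⁻¹, by simp [h1, h2], ?_⟩
  rw [mul_smul, ← e, map_smul, smul_smul, mul_inv_cancel₀ h1, one_smul]

theorem exists_shift (hn : Φ.Nondeg) {z x : V} (hz : Φ.Sing z) (h : ¬ ∃ c : F, x = c • z) (t : F) :
    ∃ a d u, IsE Φ z a d u ∧ Φ.B a x = t := by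
  obtain ⟨w, hw, e⟩ := hn.exists_perp_eq_one (H := F ∙ z) (x := x)
    fun hx => h (let ⟨c, hc⟩ := Submodule.mem_span_singleton.1 hx; ⟨c, hc.symm⟩)
  obtain ⟨d, u, hu⟩ := exists_isE' hn hz (a := σ t • w) (by simp [Φ.mem_perp_span_singleton.1 hw])
  exact ⟨_, d, u, hu, by rw [B_smul_left, Φ.σσ, e, mul_one]⟩

section Orb
variable {N : Subgroup (V ≃ₗ[F] V)}

/-- The points `x`, `y` lie in one `N`-orbit. -/
def Orb (N : Subgroup (V ≃ₗ[F] V)) (x y : V) : Prop := ∃ n ∈ N, ∃ c : F, c ≠ 0 ∧ y = c • n x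

omit [FiniteDimensional F V]

theorem Orb.symm {x y : V} (h : Orb N x y) : Orb N y x :=
  let ⟨n, hn, c, hc, e⟩ := h
  ⟨n⁻¹, inv_mem hn, c⁻¹, inv_ne_zero hc, by simp [e, hc]⟩

theorem Orb.trans {x y z : V} (h : Orb N x y) (h' : Orb N y z) : Orb N x z :=
  let ⟨n, hn, c, hc, e⟩ := h
  let ⟨n', hn', c', hc', e'⟩ := h'
  ⟨n' * n, mul_mem hn' hn, c' * c, mul_ne_zero hc' hc, by simp [e, e', mul_smul]⟩

theorem Orb.smul {x y : V} (h : Orb N x y) {c : F} (hc : c ≠ 0) : Orb N x (c • y) :=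
  h.trans ⟨1, one_mem _, c, hc, rfl⟩

theorem Orb.conj (hN : ∀ g ∈ EG Φ, ∀ n ∈ N, g * n * g⁻¹ ∈ N) {x y : V} (h : Orb N x y)
    {g : V ≃ₗ[F] V} (hg : g ∈ EG Φ) : Orb N (g x) (g y) :=
  let ⟨n, hn, c, hc, e⟩ := h
  ⟨_, hN g hg n hn, c, hc, by simp [e]⟩

theorem Orb.QP_le (hle : N ≤ EG Φ) {x y : V} (h : Orb N x y) (hx : Φ.Sing x) (hy : Φ.Sing y) :
    QP Φ y hy ≤ N ⊔ QP Φ x hx := by
  obtain ⟨n, hn, c, hc, rfl⟩ := h
  rintro e ⟨a, d, he⟩
  have hi := EG_le_isom (hle hn)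
  have h1 := (he.of_smul (hx.map hi) hc).conj (inv_mem hi)
  rw [show (n⁻¹) (n x) = x by simp] at h1
  have := mul_mem (mul_mem (Subgroup.mem_sup_left hn) (Subgroup.mem_sup_right
    (show _ ∈ QP Φ x hx from ⟨_, _, h1⟩))) (Subgroup.mem_sup_left (inv_mem hn))
  simpa [mul_assoc] using this

variable [FiniteDimensional F V]

theorem Orb.opp (hn : Φ.Nondeg) (hN : ∀ g ∈ EG Φ, ∀ n ∈ N, g * n * g⁻¹ ∈ N) {x y z : V}
    (h : Orb N x y) (hx : Φ.Sing x) (hy : Φ.Sing y) (hz : Φ.Sing z) (h1 : Φ.B x y ≠ 0)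
    (h2 : Φ.B x z ≠ 0) : Orb N x z := by
  obtain ⟨u, ⟨a, d, hu⟩, c, hc, e⟩ := exists_move hn hx hy hz h1 h2
  have := (h.conj hN (mem_EG hu)).smul (inv_ne_zero hc)
  rwa [hu.apply_p, e, smul_smul, inv_mul_cancel₀ hc, one_smul] at this

theorem exists_orb (G : Gd Φ) (hle : N ≤ EG Φ) {n : V ≃ₗ[F] V} (hn : n ∈ N) (h : ¬ Scal n) :
    ∃ x y, Φ.Sing x ∧ Φ.Sing y ∧ x ≠ 0 ∧ (¬ ∃ c : F, y = c • x) ∧ Orb N x y := by
  have := mt (scal_of_fix G (EG_le_isom (hle hn))) h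
  push Not at this
  obtain ⟨x, hx, h1⟩ := this
  exact ⟨x, n x, hx, hx.map (EG_le_isom (hle hn)), by rintro rfl; simpa using h1 0,
    fun ⟨c, e⟩ => h1 c e, n, hn, 1, one_ne_zero, (one_smul _ _).symm⟩

end Orb

variable {r : ℕ} [Fact r.Prime] [CharP F r]

theorem np_two (G : Gd Φ) (hr : r ≠ 2) : NPs 2 (EG Φ) := by
  intro N hle hN hk n hn
  by_contra h
  obtain ⟨x, y, hx, hy, hx0, hxy, ho⟩ := exists_orb G hle hn h
  obtain ⟨w, hw, c, c', hc, e, e'⟩ : ∃ w ∈ N ⊔ QP Φ x hx, ∃ c c' : F, c ≠ 0 ∧ w x = c • y ∧ w y = c' • x := by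
    by_cases h0 : Φ.B x y = 0
    · obtain ⟨a, d, u₀, hu₀, h1⟩ := exists_shift G.nd hx hxy 1
      have h2 := ho.conj hN (mem_EG hu₀)
      have hz := hy.map hu₀.mem_isom
      rw [hu₀.apply_p] at h2
      rw [hu₀.apply_perp h0, h1, one_smul] at h2 hz
      obtain ⟨b, d', u, hu, h3⟩ := exists_shift G.nd hz (x := x) (fun ⟨c, e⟩ => hxy ⟨c⁻¹ * (1 - c), by
        have hc : c ≠ 0 := by rintro rfl; exact hx0 (by simpa using e)
        rw [mul_smul, sub_smul, one_smul, eq_inv_smul_iff₀ hc, eq_sub_iff_add_eq, ← smul_add, ← e]⟩) (-1)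
      obtain ⟨b', d'', v, hv, h4⟩ := exists_shift G.nd hy (x := x) (fun ⟨c, e⟩ => hxy ⟨c⁻¹, by
        have hc : c ≠ 0 := by rintro rfl; exact hx0 (by simpa using e)
        rw [e, smul_smul, inv_mul_cancel₀ hc, one_smul]⟩) (-2)
      have h5 : Φ.B b y = 1 := by
        have := hu.ap
        rw [map_add, h3] at this; linear_combination this
      have hyx := Φ.B_eq_zero_symm h0
      refine ⟨v * u, mul_mem (ho.QP_le hle hx hy ⟨_, _, hv⟩) (h2.QP_le hle hx hz ⟨_, _, hu⟩), -1, 1,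
        by simp, ?_, ?_⟩
      · rw [LinearEquiv.mul_apply, hu.apply_perp (by simp [hx.2, hyx]), h3]
        simp [hv.apply_p]
      · rw [LinearEquiv.mul_apply, hu.apply_perp (by simp [hy.2, h0]), h5, one_smul, map_add, map_add,
          hv.apply_p, hv.apply_perp hyx, h4]
        module
    · have hp := isPair_smul hx hy h0
      obtain ⟨a, ha, d, e, hd, he⟩ := exists_opp G hp
      have hz := hp.sf.map he.mem_isom
      have h1 : Φ.B x (e ((Φ.B x y)⁻¹ • y)) ≠ 0 := by rw [he.B_p, hp.ef]; exact one_ne_zero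
      have h2 : Φ.B (e ((Φ.B x y)⁻¹ • y)) y ≠ 0 := fun h => by
        have := congrArg (Φ.B ((Φ.B x y)⁻¹ • y)) (he.apply_r hp (Φ.mem_pairPerp.1 ha).2)
        rw [B_smul_left, Φ.B_eq_zero_symm h, map_sub, map_sub, hp.sf.2, B_smul_right, B_smul_right,
          hp.fe, (Φ.mem_pairPerp.1 ha).2] at this
        simp [hd, Φ.ε_ne_zero] at this
      obtain ⟨u, hu, c, hc, e1⟩ := exists_move G.nd hz hx hy (fun h => h1 (Φ.B_eq_zero_symm h)) h2
      have hui : u ∈ Φ.isom := let ⟨_, _, h⟩ := hu; h.mem_isom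
      obtain ⟨v, ⟨b, d', hv⟩, c', -, e2⟩ := exists_move G.nd hy (hy.map hui) hx (fun h => h0 (by
        rw [← (Φ.mem_isom.1 hui).1, e1, B_smul_left, h, mul_zero])) fun h => h0 (Φ.B_eq_zero_symm h)
      exact ⟨v * u, mul_mem (ho.QP_le hle hx hy ⟨_, _, hv⟩) ((ho.opp G.nd hN hx hy hz h0 h1).QP_le hle hx hz hu),
        c, c', hc, by rw [LinearEquiv.mul_apply, e1, map_smul, hv.apply_p], e2⟩
  obtain ⟨a, ha⟩ := pow_mem_of_sup (U := QP Φ x hx) (fun u ⟨_, _, hu⟩ => hN u (mem_EG hu)) (isPGroup_QP r hx) hw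
  obtain ⟨k, hk, l, hl⟩ := hk _ ha
  obtain ⟨j, hj⟩ : Odd (r ^ a * k) :=
    ((Fact.out : r.Prime).odd_of_ne_two hr).pow.mul (Nat.coprime_two_right.1 hk)
  have key : ∀ j : ℕ, ∃ t : F, (w ^ (2 * j + 1)) x = t • y := fun j => by
    induction j with
    | zero => exact ⟨c, by simpa using e⟩
    | succ j ih =>
      obtain ⟨t, ht⟩ := ih
      exact ⟨t * c' * c, by
        rw [show 2 * (j + 1) + 1 = 2 * j + 1 + 1 + 1 by ring, pow_succ', pow_succ', LinearEquiv.mul_apply,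
          LinearEquiv.mul_apply, ht, map_smul, e', map_smul, map_smul, e, smul_smul, smul_smul]⟩
  obtain ⟨t, ht⟩ := key j
  have ht0 : t ≠ 0 := by rintro rfl; exact hx0 (by simpa using ht)
  rw [← hj, pow_mul, hl] at ht
  exact hxy ⟨t⁻¹ * l, by rw [mul_smul, ht, smul_smul, inv_mul_cancel₀ ht0, one_smul]⟩

theorem np_of_ord (G : Gd Φ) (h3 : (∃ t ≠ 0, Φ.τ * t = 0 ∧ Φ.ε * t + σ t = 0) ∨ 5 ≤ finrank F V)
    {p : ℕ} (hp : p.Prime) (hpr : p ≠ r) {g : V ≃ₗ[F] V} (hg : g ∈ EG Φ)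
    (hord : ∀ k, Scal (g ^ k) → p ∣ k) : NPs p (EG Φ) := by
  intro N hle hN hk n hn
  by_contra h
  obtain ⟨x, y, hx, hy, hxy, ho⟩ : ∃ x y, Φ.Sing x ∧ Φ.Sing y ∧ Φ.B x y ≠ 0 ∧ Orb N x y := by
    obtain ⟨x, y, hx, hy, hx0, hxy, ho⟩ := exists_orb G hle hn h
    by_cases h0 : Φ.B x y = 0
    swap
    · exact ⟨x, y, hx, hy, h0, ho⟩
    obtain ⟨z, hz, h1, -, h2⟩ := exists_sing_sep G.nd hy h0 h0 fun ⟨α, β, e⟩ =>
      hxy ⟨α + β, by rw [e, add_smul]⟩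
    have hp : Φ.IsPair y z := ⟨hy, hz, h2⟩
    have hzx := Φ.B_eq_zero_symm h1
    have hyx := Φ.B_eq_zero_symm h0
    obtain ⟨c, hc, d, hd, h4, h5⟩ : ∃ c ∈ Φ.perp (Submodule.span F {x, y, z}), ∃ d, d ≠ 0 ∧
        Φ.τ * d = Φ.Q c ∧ Φ.ε * d + σ d = Φ.B c c := by
      rcases h3 with ⟨t, ht, h4, h5⟩ | h3
      · exact ⟨0, Submodule.zero_mem _, t, ht, by simpa using h4, by simpa using h5⟩
      obtain ⟨t, ht, h4⟩ := exists_pp G.nd hp (Φ.mem_pairPerp.2 ⟨hyx, hzx⟩) hx0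
      obtain ⟨h5, h6⟩ := Φ.mem_pairPerp.1 ht
      obtain ⟨a, ha0, ha⟩ := exists_ne_zero_perp (Φ := Φ) ![x, y, z, t] h3
      have a0 : Φ.B x a = 0 := ha 0
      have a1 : Φ.B y a = 0 := ha 1
      have a2 : Φ.B z a = 0 := ha 2
      have a3 : Φ.B t a = 0 := ha 3
      obtain ⟨b, hb, h7⟩ := G.nd.exists_perp_eq_one' (H := Submodule.span F {x, y, z}) (x := a) fun h => by
        obtain ⟨α, β, γ, rfl⟩ := Submodule.mem_span_triple.1 h
        simp [hyx, hy.2, h2] at a1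
        simp [hzx, hz.2, hp.fe, Φ.ε_ne_zero] at a2
        simp [a1, a2, Φ.symm x t, h4, Φ.ε_ne_zero] at a3
        simp [a1, a2, a3] at ha0
      exact exists_d (Φ.mem_perp_span.2 (by simp [a0, a1, a2])) hb h7
    have hc := Φ.mem_perp_span.1 hc
    obtain ⟨e, he⟩ := exists_isE G.nd hz (hc z (by simp)) h4 h5
    have h6 := ho.conj hN (mem_EG he)
    rw [he.apply_perp hzx, Φ.B_eq_zero_symm (hc x (by simp)), zero_smul, add_zero] at h6
    refine ⟨y, e y, hy, hy.map he.mem_isom, ?_, ho.symm.trans h6⟩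
    rw [he.app]
    simp [hy.2, h2, hp.fe, hc y, Φ.B_eq_zero_symm (hc y (by simp)), hd, Φ.ε_ne_zero]
  have hall : ∀ z, Φ.Sing z → z ≠ 0 → Orb N x z := fun z hz hz0 => by
    by_cases h0 : Φ.B x z = 0
    swap
    · exact ho.opp G.nd hN hx hy hz hxy h0
    obtain ⟨w, hw, h1, h2⟩ : ∃ w, Φ.Sing w ∧ Φ.B x w ≠ 0 ∧ Φ.B z w ≠ 0 := by
      have hp := isPair_smul hx hy hxy
      by_cases h1 : Φ.B z ((Φ.B x y)⁻¹ • y) = 0
      swap
      · exact ⟨_, hp.sf, by simp [hxy], h1⟩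
      obtain ⟨t, ht, h2⟩ := exists_pp G.nd hp (Φ.mem_pairPerp.2 ⟨h0, Φ.B_eq_zero_symm h1⟩) hz0
      obtain ⟨d, e, he⟩ := exists_isE' G.nd hx (Φ.mem_pairPerp.1 ht).1
      refine ⟨_, hp.sf.map he.mem_isom, by rw [he.B_p, hp.ef]; exact one_ne_zero, ?_⟩
      rw [he.apply_r hp (Φ.mem_pairPerp.1 ht).2, map_sub, map_sub, h1, B_smul_right, B_smul_right,
        Φ.B_eq_zero_symm h0, h2]
      simp [Φ.ε_ne_zero]
    have h3 := ho.opp G.nd hN hx hy hw hxy h1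
    exact h3.trans (h3.symm.opp G.nd hN hw hx hz (fun h => h1 (Φ.B_eq_zero_symm h))
      fun h => h2 (Φ.B_eq_zero_symm h))
  have hE : EG Φ ≤ N ⊔ QP Φ x hx := EG_le fun z a d e he => by
    rcases eq_or_ne z 0 with rfl | hz0
    · rw [show e = 1 from LinearEquiv.ext fun v => by simp [he.app]]; exact one_mem _
    · exact (hall z he.sp hz0).QP_le hle hx he.sp ⟨_, _, he⟩
  obtain ⟨a, ha⟩ := pow_mem_of_sup (U := QP Φ x hx) (fun u ⟨_, _, hu⟩ => hN u (mem_EG hu)) (isPGroup_QP r hx) (hE hg)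
  obtain ⟨k, hk, hl⟩ := hk _ ha
  rw [← pow_mul] at hl
  rcases (Nat.Prime.dvd_mul hp).1 (hord _ hl) with h | h
  · exact hpr ((Nat.prime_dvd_prime_iff_eq hp Fact.out).1 (hp.dvd_of_dvd_pow h))
  · exact hp.one_lt.ne' (Nat.Coprime.eq_one_of_dvd hk.symm h)

end Cfsg.Agent.Mult.Bal
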