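import Cfsg.Agent.Mult.Bal2

/-! Galois descent of admissible subgroups: semilinear maps commuting with `g τ g⁻¹` descend to the
fixed field (`desc_act`, `desc_semi`), `desc_kill`, `desc_kill_EG`. -/

set_option autoImplicit false

namespace Cfsg.Agent.Mult.Bal

open Cfsg.Agent.Geom Cfsg.Agent.Geom.Formed Cfsg.Agent.AutCl Module SemidirectProduct
open Matrix hiding inv_inj mul_inv_rev

section POrd
variable {F : Type*} [Field F] {V : Type*} [AddCommGroup V] [Module F V]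

/-- The order of `a` modulo scalars is divisible by `p`. -/
def POrd (p : ℕ) (a : V ≃ₗ[F] V) : Prop := ∀ j, Scal (a ^ j) → p ∣ j

theorem POrd.of_pow {p m : ℕ} {a u : V ≃ₗ[F] V} (h : POrd p a) (hm : p.Coprime m) {c : F}
    (e : ∀ v, (a ^ m) v = c • u v) : POrd p u := fun j ⟨d, hd⟩ => by
  have key : ∀ (j : ℕ) v, ((a ^ m) ^ j) v = c ^ j • (u ^ j) v := fun j => by
    induction j with
    | zero => simp
    | succ j ih => intro v; rw [pow_succ', LinearEquiv.mul_apply, e, ih, map_smul, smul_smul, pow_succ', pow_succ' u]; rfl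
  exact hm.dvd_of_dvd_mul_left (h _ ⟨c ^ j * d, fun v => by rw [pow_mul, key, hd, mul_smul]⟩)

end POrd

variable {ι : Type} [Fintype ι] [DecidableEq ι] {F : Type*} [Field F] {σ : F →+* F}
  {F₀ : Type*} [Field F₀] {σ₀ : F₀ →+* F₀} {f : F₀ →+* F} {τ : F ≃+* F} {g : GL ι F}

theorem scal_glEquiv_iff [Nonempty ι] {s : GL ι F} : Scal (glEquiv ι F s) ↔ ∃ c, s = scal c :=
  ⟨fun ⟨_, h⟩ => let ⟨c, _, e⟩ := exists_scal h; ⟨c, e⟩, fun ⟨c, e⟩ => ⟨c, fun v => by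
    rw [e]; exact scal_mulVec c v⟩⟩

theorem gal_ext_span {s : Set (ι → F)} (hs : Submodule.span F s = ⊤) {n m : GaL ι F}
    (h1 : n.right = m.right) (h : ∀ x ∈ s, act n x = act m x) : n = m :=
  GaL.ext' h1 fun v => by
    induction (hs ▸ Submodule.mem_top : v ∈ Submodule.span F s) using Submodule.span_induction with
    | mem y hy => exact h y hy
    | zero => simp
    | add y z _ _ h h' => rw [map_add, map_add, h, h']
    | smul c y _ h => rw [act_smul, act_smul, h, h1]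

theorem rh_eq_scal_iff [Nonempty ι] {h : GL ι F₀} : (∃ c, rh g f h = scal c) ↔ ∃ c, h = scal c := by
  refine ⟨fun ⟨c, e⟩ => exists_scal_of_map (f := f) (c := c) ?_, fun ⟨c, e⟩ => ⟨Units.map (f : F₀ →* F) c, ?_⟩⟩
  · rw [rh_apply, mul_inv_eq_iff_eq_mul, scal_comm] at e
    exact mul_left_cancel e
  · rw [rh_apply, e, map_scal, ← scal_comm, mul_inv_cancel_right]

variable [Finite F]

theorem desc_act [Nonempty ι] (hf : IsFix f τ) {n n' : GaL ι F} {d c : Fˣ}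
    (hn : n = inl (scal d) * (inl g * inr τ * (inl g)⁻¹)) (h : n' * n * n'⁻¹ = inl (scal c) * n) :
    ∃ (n₀ : GaL ι F₀) (e : Fˣ), (∀ a, f (n₀.right a) = n'.right (f a)) ∧
      ∀ x, act n' (tw g f x) = (e : F) • tw g f (act n₀ x) := by
  have := hf.finite
  have := isCyclic_ringAut (F := F)
  have hc : n'.right * τ = τ * n'.right := mul_comm' _ _
  obtain ⟨ρ₀, hρ⟩ := hf.exists_restrict (n'.right : F →+* F) fun x =>
    (congrArg (fun φ : F ≃+* F => φ x) hc).symm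
  set m : GaL ι F := (inl g)⁻¹ * n' * inl g with hm
  have hr : m.right = n'.right := by simp [hm]
  obtain ⟨e, s, hs⟩ := hf.exists_of_comm (s := m.left)
    (c := (Units.map (n'.right : F →* F) d)⁻¹ * c * d) (by
      have h1 : (inl m.left : GaL ι F) = m * (inr n'.right)⁻¹ := by
        rw [eq_mul_inv_iff_mul_eq, ← hr, inl_left_mul_inr_right]
      have h2 : (inr n'.right : GaL ι F)⁻¹ * inr τ * inr n'.right = inr τ := by
        rw [mul_assoc, ← map_mul, ← hc, map_mul, inv_mul_cancel_left]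
      rw [hn, ← mul_assoc n', mul_inl_scal, mul_assoc, mul_assoc, ← eq_inv_mul_iff_mul_eq,
        ← map_inv inl (scal _), ← scal_inv, ← mul_assoc (inl (scal c)), ← mul_assoc (inl (scal _⁻¹)),
        ← map_mul, ← map_mul, ← scal_mul, ← scal_mul, ← mul_assoc _ c] at h
      rw [h1, _root_.mul_inv_rev, inv_inv, show m * (inr n'.right)⁻¹ * inr τ * (inr n'.right * m⁻¹) =
        m * ((inr n'.right)⁻¹ * inr τ * inr n'.right) * m⁻¹ by group, h2, hm]
      calc _ = (inl g)⁻¹ * (n' * (inl g * inr τ * (inl g)⁻¹ * n'⁻¹)) * inl g := by group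
        _ = _ := by rw [h, ← mul_assoc, ← map_inv, inl_mul_inl_scal, map_inv]; group)
  refine ⟨⟨s, RingEquiv.ofBijective ρ₀ (Finite.injective_iff_bijective.1 ρ₀.injective)⟩, e, hρ, fun x => ?_⟩
  have h1 : n' = inl g * m * (inl g)⁻¹ := by rw [hm]; group
  rw [h1, act_mul, act_mul, tw_apply, ← act_inl g, act_inv_act, act_inl, act_apply, hs, hr, tw_apply,
    ← mulVec_smul, Units.val_mul, ← mulVec_mulVec, scal_mulVec, act_apply, ← map_mulVec_comp]
  congr 3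
  ext i; exact (hρ _).symm

omit [Finite F] in
theorem desc_semi {Φ₀ : Formed σ₀ (ι → F₀)} {Φ : Formed σ (ι → F)} {μ : F}
    (D : IsDesc f Φ₀ Φ (tw g f) (rh g f) μ) {a b : ι → F₀} (hab : Φ₀.B a b = 1) {n' : GaL ι F}
    (hn' : n' ∈ GamS Φ) {n₀ : GaL ι F₀} {e : Fˣ} (h1 : ∀ a, f (n₀.right a) = n'.right (f a))
    (h2 : ∀ x, act n' (tw g f x) = (e : F) • tw g f (act n₀ x)) : n₀ ∈ GamS Φ₀ := by
  obtain ⟨κ, h⟩ := hn'
  have hμ := D.ne
  have hκ := h.ne
  have he := e.ne_zero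
  have he' : σ e ≠ 0 := by simp
  have hμ' : n'.right μ ≠ 0 := by simpa
  have hB : ∀ x y, f (Φ₀.B (act n₀ x) (act n₀ y)) =
      μ * κ / (σ e * e * n'.right μ) * f (n₀.right (Φ₀.B x y)) := fun x y => by
    have := h.B (tw g f x) (tw g f y)
    rw [h2, h2, B_smul_left, B_smul_right] at this
    rw [← D.B, h1, ← D.B, map_mul]
    field_simp
    linear_combination this
  have hQ : ∀ x, f (Φ₀.Q (act n₀ x)) =
      μ * κ / (σ e * e * n'.right μ) * f (n₀.right (Φ₀.Q x)) := fun x => by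
    have := h.Q (tw g f x)
    rw [h2, Φ.Q_smul, mul_assoc, mul_left_comm, ← Φ.σ_mul_Q] at this
    have h3 := Φ.σ_mul_Q e (tw g f (act n₀ x))
    rw [← D.Q, h1, ← D.Q, map_mul]
    field_simp
    linear_combination this + (σ e - e) * h3 - (σ e - e) * h3
  have h3 := hB a b
  rw [hab, map_one, map_one, mul_one] at h3
  exact ⟨Φ₀.B (act n₀ a) (act n₀ b), fun h0 => div_ne_zero (mul_ne_zero hμ hκ) (mul_ne_zero (mul_ne_zero he' he) hμ')
      (by rw [← h3, h0, map_zero]), act_smul _,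
    fun x y => f.injective (by rw [hB, map_mul, h3]), fun x => f.injective (by rw [hQ, map_mul, h3])⟩

theorem eq_one_of_fix (hf : IsFix f τ) {ρ : F ≃+* F} (hc : (orderOf ρ).Coprime (orderOf τ))
    (h : ∀ a, ρ (f a) = f a) : ρ = 1 := by
  have := hf.finite
  obtain ⟨K, hK, h1⟩ := exists_isFix_card ρ
  letI : Algebra F₀ K := (f.codRestrict K fun a => by simpa using (hK _).2 (h a)).toAlgebra
  rw [Module.natCard_eq_pow_finrank (K := F₀) (V := K), ← hf.card_pow, ← pow_mul] at h1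
  have h2 := Nat.pow_right_injective (Finite.one_lt_card (α := F₀)) h1
  exact orderOf_eq_one_iff.1 (hc.eq_one_of_dvd ⟨_, h2.symm.trans (mul_comm _ _)⟩)

variable {Γ : Subgroup (GaL ι F)} {X : Type*} [Group X] {θ : Γ →* X} {S : Subgroup (GL ι F)}
  {H K : Subgroup X} {p : ℕ} {n : Γ} {d : Fˣ}

theorem desc_kill [Finite X] (P : PMod Γ θ S H) (hf : IsFix f τ) (hτ : orderOf τ = p)
    (hn : n.1 = inl (scal d) * (inl g * inr τ * (inl g)⁻¹))
    {G₀ : Subgroup ((ι → F₀) ≃ₗ[F₀] (ι → F₀))} (hN : NPs p G₀) (hC : Cent G₀)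
    (hK : ∀ h : GL ι F₀, glEquiv ι F₀ h ∈ G₀ → ∃ hs : rh g f h ∈ S, θ ⟨_, P.le _ hs⟩ ∈ K)
    (hG : ∀ (n' : Γ) (n₀ : GaL ι F₀) (e : Fˣ), (∀ a, f (n₀.right a) = n'.1.right (f a)) →
      (∀ x, act n'.1 (tw g f x) = (e : F) • tw g f (act n₀ x)) →
      ∀ u ∈ G₀, ∃ u' ∈ G₀, ∀ v, u' (act n₀ v) = act n₀ (u v))
    {M : Subgroup X} (hM : M ≤ θ.range) (hA : Adm p K (θ n) M) : M = ⊥ := by
  have := P.ne
  have hS : ∀ u : G₀, rh g f ((glEquiv ι F₀).symm u.1) ∈ S := fun u => (hK _ (by simp)).1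
  let ℓ : G₀ →* X := P.hom.comp ((((rh g f).comp (glEquiv ι F₀).symm.toMonoidHom).comp
    G₀.subtype).codRestrict S hS)
  have hℓ : ∀ u, ℓ u = θ ⟨_, P.le _ (hS u)⟩ := fun _ => rfl
  refine (Subgroup.eq_bot_iff_forall _).2 fun y hy => ?_
  obtain ⟨n', rfl⟩ := hM hy
  have h1 := hA.cen _ hy
  rw [← mul_inv_eq_iff_eq_mul, ← map_inv, ← map_mul, ← map_mul, P.eq_iff] at h1
  obtain ⟨c, hc⟩ := h1
  obtain ⟨n₀, e, h1, h2⟩ := desc_act hf hn hc
  obtain ⟨h3, c', h4⟩ := kill hA hN hC ℓ (fun u => by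
    rw [hℓ, P.ker]
    conv_rhs => rw [← (glEquiv ι F₀).apply_symm_apply u.1, scal_glEquiv_iff, ← rh_eq_scal_iff (g := g) (f := f)]
    exact exists_congr fun c => by simp) (fun u => ⟨(hK _ (by simp)).2, by
      rw [hℓ, ← map_mul, ← map_mul]
      congr 1
      refine Subtype.ext ?_
      change inl _ * n.1 = n.1 * inl _
      rw [hn, ← mul_assoc, inl_mul_inl_scal, mul_assoc, (hf.rh_comm g _).eq, mul_assoc (inl (scal d))]⟩)
    hy (T := act n₀) (act_smul n₀) fun u => by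
      obtain ⟨u', hu', e'⟩ := hG n' n₀ e h1 h2 u u.2
      refine ⟨⟨u', hu'⟩, e', ?_⟩
      rw [hℓ, hℓ, ← map_inv, ← map_mul, ← map_mul]
      congr 1
      refine Subtype.ext (mul_inv_eq_iff_eq_mul.2 (gal_ext_span (span_tw (f := f) g) (by simp) ?_))
      rintro _ ⟨x, rfl⟩
      change act (n'.1 * inl _) _ = act (inl _ * n'.1) _
      rw [act_mul, act_mul, act_inl, act_inl, rh_apply, rh_apply, mulVec_tw, h2, h2, mulVec_smul,
        mulVec_tw, glEquiv_symm_mulVec, glEquiv_symm_mulVec, e']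
  have h5 : n'.1.right = 1 := eq_one_of_fix hf
    (hτ ▸ (hA.cop_order hy).coprime_dvd_left (P.orderOf_dvd n')) fun a => by rw [← h1, h3]; rfl
  have hc' : c' ≠ 0 := by
    rintro rfl
    exact one_ne_zero (congrFun ((act n₀).map_eq_zero_iff.1 ((h4 fun _ => 1).trans (zero_smul _ _)))
      (_root_.Classical.arbitrary ι))
  refine (P.ker _).2 ⟨e * Units.map (f : F₀ →* F) (Units.mk0 c' hc'),
    gal_ext_span (span_tw (f := f) g) h5 ?_⟩
  rintro _ ⟨x, rfl⟩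
  rw [h2, h4, tw_smul, act_inl, scal_mulVec, smul_smul]; rfl

theorem desc_ord (P : PMod Γ θ S H) (hf : IsFix f τ) (hp : p.Prime)
    (hn : n.1 = inl (scal d) * (inl g * inr τ * (inl g)⁻¹)) {k : X} (hk : k ∈ H)
    (hx : k * θ n = θ n * k) (h1 : k ≠ 1) (hkp : k ^ p = 1) :
    ∃ h : GL ι F₀, rh g f h ∈ S ∧ POrd p (glEquiv ι F₀ h) := by
  have := P.ne
  have := Fact.mk hp
  obtain ⟨h, hh, rfl⟩ := (P.mem_cen_iff hf hn k).1 ⟨hk, Subgroup.mem_centralizer_singleton_iff.2 hx⟩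
  refine ⟨h, hh, fun j hj => ?_⟩
  rw [← orderOf_eq_prime hkp h1, orderOf_dvd_iff_pow_eq_one, ← map_pow, P.ker]
  rw [← map_pow, scal_glEquiv_iff, ← rh_eq_scal_iff (g := g) (f := f), map_pow] at hj
  exact hj.imp fun c e => by rw [← e, map_pow]; rfl

theorem desc_kill_EG [Finite X] {Φ₀ : Formed σ₀ (ι → F₀)} {Φ : Formed σ (ι → F)} {μ : F}
    {θ : GamS Φ →* X} {n : GamS Φ} (P : PMod _ θ S H) (hf : IsFix f τ) (hτ : orderOf τ = p)
    (hn : n.1 = inl (scal d) * (inl g * inr τ * (inl g)⁻¹))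
    (D : IsDesc f Φ₀ Φ (tw g f) (rh g f) μ) (G : Gd Φ₀) (hN : NPs p (EG Φ₀))
    (hK : ∀ h : GL ι F₀, glEquiv ι F₀ h ∈ EG Φ₀ → ∃ hs : rh g f h ∈ S, θ ⟨_, P.le _ hs⟩ ∈ K)
    {M : Subgroup X} (hM : M ≤ θ.range) (hA : Adm p K (θ n) M) : M = ⊥ :=
  have := hf.finite
  desc_kill P hf hτ hn hN (cent_EG G) hK (fun n' _ _ h1 h2 _ hu =>
    let ⟨_, _, hab⟩ := G.pair
    let ⟨_, h⟩ := desc_semi D hab.ef n'.2 h1 h2
    semi_EG G h hu) hM hA

end Cfsg.Agent.Mult.Bal
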