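import Cfsg.Agent.Mult.Bal3

/-! Local balance for classical groups: helper lemmas for `Cl`, the Eichler group of a quadratic
form is `Ω`, field automorphisms of orthogonal groups (`orth_field_kill`). -/

set_option autoImplicit false

namespace Cfsg.Agent.Mult.Bal

open Cfsg.Agent.Geom Cfsg.Agent.Geom.Formed Cfsg.Agent.AutCl Module SemidirectProduct
open Matrix hiding inv_inj mul_inv_rev

section Gen
variable {F : Type*} [Field F] {σ : F →+* F} {V : Type*} [AddCommGroup V] [Module F V]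
  [FiniteDimensional F V] {Φ : Formed σ V}

theorem exists_not_scal (G : Gd Φ) : ∃ e ∈ EG Φ, ¬ Scal e := by
  obtain ⟨p, r, hr⟩ := G.pair
  obtain ⟨a, ha, d, e, hd, he⟩ := exists_opp G hr
  refine ⟨e, mem_EG he, fun ⟨c, hc⟩ => ?_⟩
  have := congrArg (Φ.B r) ((hc r).symm.trans (he.apply_r hr (Φ.mem_pairPerp.1 ha).2))
  simp [hr.sf.2, hr.fe, (Φ.mem_pairPerp.1 ha).2, hd, Φ.ε_ne_zero] at this

theorem mem_EG_quad [Finite F] {Q : QuadraticForm F V} (hQ : (ofQuad Q).Nondeg) (hx : NotExc Q)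
    (h3 : 3 ≤ finrank F V) {g : V ≃ₗ[F] V} :
    g ∈ EG (ofQuad Q) ↔ ∃ k ∈ commutator (OG Q), k.1 = g := by
  refine ⟨fun h => EG_le (S := (commutator (OG Q)).map (OG Q).subtype) (fun p a d g h => ?_) h, ?_⟩
  · refine ⟨_, eich_mem_commutator hQ hx p a, LinearEquiv.ext fun x => ?_⟩
    have hd : d = Q a := by simpa using (one_mul d).symm.trans h.hQ
    rw [Subgroup.coe_subtype, eich_apply h.sp.1 h.pa, ← hd]
    exact ((h.app x).trans (by rw [show (ofQuad Q).ε = 1 from rfl, one_mul]; rfl)).symm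
  · rintro ⟨k, hk, rfl⟩
    rw [← eichGroup_eq_commutator' hQ hx h3] at hk
    refine eichGroup_le (N := (EG _).subgroupOf _) (fun p a => ?_) hk
    by_cases h : Q p = 0 ∧ QuadraticMap.polar Q p a = 0
    · refine mem_EG (p := p) (a := a) (d := Q a) ⟨⟨h.1, by simp [polar_self', h.1]⟩, h.2, one_mul _,
        by simp [show (ofQuad Q).ε = 1 from rfl, polar_self', two_mul], fun x => ?_⟩
      rw [Subgroup.coe_subtype, eich_apply h.1 h.2, show (ofQuad Q).ε = 1 from rfl, one_mul]; rfl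
    · rw [eich_of_not h]; exact one_mem _

theorem gd_quad [Finite F] {Q : QuadraticForm F V} (hQ : (ofQuad Q).Nondeg) (h3 : 3 ≤ finrank F V) :
    Gd (ofQuad Q) :=
  ⟨hQ, h3, let ⟨p, hp0, hp⟩ := exists_sing_of_finite Q h3
    let ⟨w, hw⟩ := Geom.exists_isPair hQ hp0 hp
    ⟨p, w, hw⟩, Or.inr rfl⟩

end Gen

variable {ι : Type} [Fintype ι] [DecidableEq ι] {F : Type*} [Field F] [Finite F] {σ : F →+* F}

section Cl
variable {Φ : Formed σ (ι → F)} {H : Type*} [Group H] {j : H →* GL ι F} (C : Cl Φ j)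
include C

theorem cl_gd : Gd Φ := ⟨C.setup.nondeg, by simpa using C.dim, C.pair, C.setup.tau⟩

theorem cl_center : Subgroup.center (H ⧸ Subgroup.center H) = ⊥ := by
  refine (Subgroup.eq_bot_iff_forall _).2 fun t ht => ?_
  induction t using QuotientGroup.induction_on with
  | H h =>
    obtain ⟨c, hc⟩ := (C.theta_eq_one_iff ⟨_, C.inl_mem h⟩).1 (by
      rw [C.theta_inl]
      ext x; simp [← Subgroup.mem_center_iff.1 ht x])
    exact (QuotientGroup.eq_one_iff _).2 ((C.mem_center_iff h).2 ⟨c, inl_injective hc⟩)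

theorem cl_inn {s : GL ι F} (h : ∃ h, j h = s) :
    ∃ hs : s ∈ Sim Φ, C.theta ⟨_, C.pSim.le _ hs⟩ ∈ Cfsg.Inn (H ⧸ Subgroup.center H) := by
  obtain ⟨h, rfl⟩ := h
  exact ⟨C.inl_mem h, _, (C.theta_inl h).symm⟩

theorem cl_even {r : ℕ} [Fact r.Prime] [CharP F r] (hr : r ≠ 2) :
    2 ∣ Nat.card (H ⧸ Subgroup.center H) := by
  by_contra h
  have := C.nonempty
  obtain ⟨e, he, h1⟩ := exists_not_scal (cl_gd C)
  refine h1 (np_two (cl_gd C) hr _ le_rfl (fun g hg n hn => mul_mem (mul_mem hg hn) (inv_mem hg))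
    (fun n hn => ⟨_, (Nat.prime_two.coprime_iff_not_dvd.2 h).symm, ?_⟩) e he)
  obtain ⟨k, rfl⟩ := EG_le (fun _ _ _ _ h => C.setup.eich h) hn
  rw [← map_pow]
  exact scal_glEquiv_iff.2 ((C.mem_center_iff _).1 ((QuotientGroup.eq_one_iff _).1 (by
    rw [QuotientGroup.mk_pow, pow_card_eq_one'])))

theorem cl_finite : Finite (MulAut (H ⧸ Subgroup.center H)) :=
  have := C.finite
  Finite.of_injective (fun φ : MulAut _ => (φ : _ → _)) DFunLike.coe_injective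

theorem cl_left {n : GamS Φ} (h : n.1.right = 1) : ∃ hs : n.1.left ∈ Sim Φ, n = ⟨inl n.1.left, hs⟩ :=
  ⟨by have := n.2; rwa [inl_left_of_right h] at this, Subtype.ext (inl_left_of_right h)⟩

theorem cl_std (h : Std Φ) (n : GamS Φ) :
    ∃ δ ∈ C.inD (Sim Φ), C.theta n = δ * C.theta (h.fa n.1.right) :=
  have hs : n.1.left ∈ Sim Φ := let ⟨_, e⟩ := n.2; ⟨_, h.semi_left e⟩
  ⟨_, C.mem_inD.2 ⟨_, hs, hs, rfl⟩, by
    rw [← map_mul]; exact congrArg _ (Subtype.ext (inl_left_mul_inr_right _).symm)⟩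

end Cl

theorem orth_field_kill {Q : QuadraticForm F (ι → F)} (hQ : (ofQuad Q).Nondeg) (h7 : 7 ≤ Fintype.card ι)
    {r p : ℕ} [Fact r.Prime] [CharP F r] (hp : p.Prime) (hpr : p ≠ r) {n : GamS (ofQuad Q)}
    (h1 : n.1.right ≠ 1) (ho : orderOf ((clO hQ h7).theta n) = p)
    (hk : ∃ k ∈ Cfsg.Inn (POmega F ⇑Q), k * (clO hQ h7).theta n = (clO hQ h7).theta n * k ∧ k ≠ 1 ∧ k ^ p = 1)
    {M : Subgroup (MulAut (POmega F ⇑Q))} (hM : M ≤ (clO hQ h7).theta.range)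
    (hA : Adm p (Cfsg.Inn _) ((clO hQ h7).theta n) M) : M = ⊥ := by
  have C := clO hQ h7
  have P := C.pSim
  have := P.ne
  have := cl_finite C
  have ho' := P.orderOf_right h1 hp ho
  obtain ⟨d, g, hn⟩ := P.exists_descent ho' (ho ▸ pow_orderOf_eq_one _)
  obtain ⟨K, hf, -⟩ := exists_isFix_card n.1.right
  obtain ⟨Q₁, μ, D⟩ := hf.desc_quad hQ (good_of_eq hn)
  have hQ₁ := D.nondeg hQ
  have h3 : 3 ≤ finrank K (ι → K) := by simp; omega
  have G := gd_quad hQ₁ h3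
  refine desc_kill_EG P hf ho' hn D G ?_ (fun h hh => cl_inn C ?_) hM hA
  · by_cases h2 : p = 2
    · subst h2; exact np_two G hpr.symm
    obtain ⟨k, hk, hx, hk1, hkp⟩ := hk
    obtain ⟨h, hh, ho⟩ := desc_ord P hf hp hn (C.inn_le_inD C.inl_mem hk) hx hk1 hkp
    obtain ⟨t, u, hu, e⟩ := pow_four_mem hQ₁ h7 ((D.mem_Sim_iff hQ h).2 hh)
    exact np_of_ord G (Or.inr (by simp; omega)) hp hpr
      ((mem_EG_quad hQ₁ (notExc_of_h7 h7) h3).2 ⟨u, hu, rfl⟩)
      (ho.of_pow (m := 4) (c := t) (((Nat.coprime_primes hp Nat.prime_two).2 h2).pow_right 2) fun v => by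
        rw [← map_pow, e, glEquiv_apply, Units.val_mul, ← mulVec_mulVec, scal_mulVec, ogl_mulVec])
  · obtain ⟨k, hk, e⟩ := (mem_EG_quad hQ₁ (notExc_of_h7 h7) h3).1 hh
    exact exists_jO_iff.2 ⟨D.og k, map_mem_commutator _ hk, by
      rw [D.ogl_og, show ogl Q₁ k = h from (glEquiv ι K).injective (by rw [glEquiv_ogl, e])]⟩

end Cfsg.Agent.Mult.Bal
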