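import Cfsg.Agent.Mult.Bal4
import Cfsg.Agent.S2600

/-! Local balance for symplectic groups: `symp_field_kill`, the exceptional automorphisms of
`Sp₄(2^e)` move transvections (`mem_range_of_transv`), `symp_bal`. -/

set_option autoImplicit false

namespace Cfsg.Agent.Mult.Bal

open Cfsg.Agent.Geom Cfsg.Agent.Geom.Formed Cfsg.Agent.AutCl Module SemidirectProduct
open Matrix hiding inv_inj mul_inv_rev

section Shift
variable {ι : Type} [Fintype ι] [DecidableEq ι] {F : Type*} [Field F] {σ : F →+* F}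
  {F₀ : Type*} [Field F₀] {σ₀ : F₀ →+* F₀} {f : F₀ →+* F} {τ : F ≃+* F} {g : GL ι F}

theorem desc_shift {Φ₀ : Formed σ₀ (ι → F₀)} {Φ : Formed σ (ι → F)}
    (D : IsDesc f Φ₀ Φ (tw 1 f) (rh 1 f) 1) (hs : g ∈ Sim Φ) :
    ∃ μ, IsDesc f Φ₀ Φ (tw g f) (rh g f) μ := by
  obtain ⟨κ, h⟩ := mem_Sim.1 hs
  have := h.ne
  refine ⟨κ⁻¹, isDesc_tw (inv_ne_zero this) (fun x y => ?_) fun x => ?_⟩
  · rw [tw_apply, tw_apply, h.B, ← D.B, tw_one, tw_one]; field_simp
  · rw [tw_apply, h.Q, ← D.Q, tw_one]; field_simp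

theorem hn_shift (hf : IsFix f τ) {n : GaL ι F} {d : Fˣ}
    (hn : n = inl (scal d) * (inl g * inr τ * (inl g)⁻¹)) (h : GL ι F₀) :
    n = inl (scal d) * (inl (g * GeneralLinearGroup.map f h * 1⁻¹) * inr τ *
      (inl (g * GeneralLinearGroup.map f h * 1⁻¹))⁻¹) := by
  rw [hn, inv_one, mul_one, map_mul, mul_assoc (inl g), mul_assoc (inl g) (inl _), hf.inl_comm]
  group

end Shift

section Tv
variable {F : Type*} [Field F] [Finite F] {V : Type*} [AddCommGroup V] [Module F V]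
  [FiniteDimensional F V] {Φ : Formed (RingHom.id F) V} {S : Subgroup (V ≃ₗ[F] V)}
  {ρ : (V ≃ₗ[F] V) → (V ≃ₗ[F] V) → Prop}

theorem transvOK_of_fix [CharP F 2] (hS : Setup Φ S) (hΓ : Gour S ρ) (hall : ∀ x, Φ.Sing x)
    (hSI : Φ.isom ≤ S) {z : V} {t : F} {s : V ≃ₗ[F] V} (hs : IsE Φ z 0 t s) (hz : z ≠ 0) (ht : t ≠ 0)
    (h : ρ s s) : TransvOK Φ ρ := by
  have hn := hS.nondeg
  have nrm : ∀ {z t s}, IsE Φ z 0 t s → z ≠ 0 → t ≠ 0 → ∃ z', z' ≠ 0 ∧ IsE Φ z' 0 1 s :=
    fun {z t s} hs hz ht => by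
      obtain ⟨c, hc⟩ := (bijective_frobenius F 2).2 t
      have hc : c ^ 2 = t := hc
      have h0 : c ≠ 0 := by rintro rfl; exact ht (by simpa using hc.symm)
      exact ⟨_, smul_ne_zero h0 hz, (hs.smul h0).congr (by simp) (by
        rw [← hc, RingHom.id_apply]; field_simp)⟩
  rintro x y a d g g' hy0 ⟨c, hg⟩ he hρ
  by_cases h1 : x = 0 ∨ c = 0
  · obtain rfl : g = 1 := LinearEquiv.ext fun v => by rcases h1 with h1 | h1 <;> simp [hg.app0, h1]
    obtain ⟨l, hl⟩ := hΓ.kerR hρ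
    rw [(he.unip 2).eq_one_of_scalar hl]
    exact ⟨0, isE_one he.sp⟩
  push Not at h1
  obtain ⟨x', hx', hg⟩ := nrm hg h1.1 h1.2
  obtain ⟨z', hz', hs⟩ := nrm hs hz ht
  obtain ⟨r, hr⟩ := hn.exists_isPair hx' (hall _)
  obtain ⟨r', hr'⟩ := hn.exists_isPair hz' (hall _)
  obtain ⟨u, hu, e, -⟩ := exists_isom_pair hn hr' hr
  obtain ⟨u', hu'⟩ := hΓ.exR u (hSI hu)
  have h2 := hs.conj hu
  rw [e, map_zero] at h2
  have h3 := (hs.conj (hS.le (hΓ.memR hu'))).congr (map_zero _) rfl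
  rw [← hΓ.uniqU hρ (hg.ext h2 ▸ hΓ.conj h hu') (he.unip 2) (h3.unip 2)] at h3
  obtain ⟨w, hw⟩ := hn.exists_isPair hy0 (hall y)
  obtain ⟨a, ha, d, he⟩ := he.exists_perp hw
  rcases eq_or_ne a 0 with rfl | ha0
  · exact ⟨d, he⟩
  exfalso
  obtain ⟨b, hb, hab⟩ := exists_pp hn hw ha ha0
  obtain ⟨h4, h5⟩ := Φ.mem_pairPerp.1 hb
  have e1 := (he.apply_perp h4).symm.trans (h3.app0 b)
  have e2 := (he.apply_r hw (Φ.mem_pairPerp.1 ha).2).symm.trans (h3.app0 w)
  rw [hab, one_smul, sub_eq_add_neg, add_right_inj] at e1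
  have e3 := congrArg (fun v => Φ.B v b) e1
  have e4 := congrArg (fun v => Φ.B v b) e2
  simp [h4] at e3
  simp [h4, h5, hab, e3, Φ.ε_ne_zero] at e4

end Tv

variable {F : Type*} [Field F] [Finite F] {m : ℕ}

omit [Finite F] in
theorem symp_le_EG : (sympFormed m F).isom ≤ EG (sympFormed m F) := fun g hg => by
  obtain ⟨s, rfl⟩ := (range_jSp m).ge hg
  refine (Classical.eq_top_of_spT_mem ((EG _).comap ((glEquiv _ F).toMonoidHom.comp (jSp m F)))
    fun v c => mem_EG (p := v) (a := 0) (d := c) ⟨symp_sing _, by simp, zero_mul _, ?_, fun x => ?_⟩).ge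
    (Subgroup.mem_top s)
  · change -1 * c + c = _
    simp
  · refine Eq.trans ?_ ((Classical.spT_smul v c x).trans ?_)
    · change (jSp m F _).1 *ᵥ x = _
      rw [coe_jSp]; rfl
    · rw [sympFormed_B, sympFormed_B, Classical.sympForm_swap v x]
      simp

theorem symp_index (hm : 2 ≤ m) [CharP F 2] (h2 : m = 2) : (clSp (F := F) hm).theta.range.index = 2 := by
  subst h2
  have C := clSp (F := F) hm
  have := C.finite
  have := cl_finite C
  cases nonempty_fintype F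
  obtain ⟨f, -, hF⟩ := FiniteField.card F 2
  have h1 := (S2600.result f.pos hF).2
  have h2 := C.card_range_outHom
  rw [card_out_symp hm, card_ringAut hF, Nat.card_eq_fintype_card, hF, Nat.coprime_two_left.2
    (Nat.Even.sub_odd Nat.one_le_two_pow ((Nat.even_pow' f.ne_zero).2 even_two) odd_one), one_mul] at h2
  have h3 := C.theta.range.index_mul_card
  rw [← (Cfsg.Inn _).index_mul_card, C.card_inn, show (Cfsg.Inn _).index = _ from h1, ← h2, mul_assoc 2] at h3
  exact Nat.eq_of_mul_eq_mul_right (Nat.mul_pos f.pos Nat.card_pos) h3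

theorem mem_range_of_transv (hm : 2 ≤ m) [CharP F 2] {y : MulAut (PSp m F)}
    {s : Matrix.symplecticGroup (Fin m) F} {z : Fin m ⊕ Fin m → F} {t : F}
    (hs : IsE (sympFormed m F) z 0 t (glEquiv _ F (jSp m F s))) (hz : z ≠ 0) (ht : t ≠ 0)
    (h : y (QuotientGroup.mk s) = QuotientGroup.mk s) : y ∈ (clSp (F := F) hm).theta.range := by
  have C := clSp (F := F) hm
  obtain ⟨a, b, hab⟩ := C.pair
  refine C.mem_range_of_semi (exists_semi_T C.setup (C.gour y) (symp_hT m) (Or.inr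
    ⟨transvOK_of_fix C.setup (C.gour y) symp_sing (range_jSp m).ge hs hz ht ⟨s, s, rfl, rfl, h⟩,
      transvOK_of_fix C.setup (C.gour y).symm symp_sing (range_jSp m).ge hs hz ht ⟨s, s, rfl, rfl, h⟩⟩)
    (fun x r _ => ?_) hab)
  obtain ⟨w, hw, hw0⟩ := exists_mem_pairPerp (Φ := sympFormed m F) (by simpa using C.dim) x r
  exact ⟨w, hw, hw0, symp_sing _⟩

theorem symp_bal {r : ℕ} [Fact r.Prime] [CharP F r] (hm : 2 ≤ m) [IsSimpleGroup (PSp m F)]
    {A : Subgroup (MulAut (PSp m F))} (hinn : ∀ k, MulAut.conj k ∈ A) {p : ℕ} [Fact p.Prime]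
    (hpr : p ≠ r) {x : MulAut (PSp m F)} (hord : orderOf x = p) (hnot : ¬ IsInnerDiagonalAutPSp x) :
    pPrimeCore p ↥(A ⊓ Subgroup.centralizer {x}) ≠ ⊥ ↔ (IsFieldAutClassPSp x ∧
      Nat.Coprime p (Nat.card ↥(MonoidHom.eqLocus x.toMonoidHom (MonoidHom.id _)))) := by
  have C := clSp (F := F) hm
  have hp : p.Prime := Fact.out
  have := C.finite
  have := cl_finite C
  have P := C.pSim
  have := P.ne
  have hn := sympFormed_nondeg m F
  obtain ⟨n, rfl⟩ : x ∈ C.theta.range := by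
    by_cases h : m = 2 → r ≠ 2
    · exact clSp_surj hm h x
    push Not at h
    obtain ⟨h, rfl⟩ := h
    have hi := symp_index (F := F) hm h
    have := Subgroup.normal_of_index_eq_two hi
    have h2 : x ^ 2 ∈ C.theta.range := hi ▸ Subgroup.pow_index_mem _ x
    exact Subgroup.zpowers_le.2 h2 (mem_zpowers_pow_iff.2 (by
      rw [hord]; exact ((Nat.coprime_primes Nat.prime_two hp).2 hpr.symm)))
  have h1 : n.1.right ≠ 1 := fun h => hnot (by
    obtain ⟨hs, e⟩ := cl_left C h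
    exact ⟨n.1.left, (gSp_eq m F).ge hs, (C.eq_theta_iff ⟨_, hs⟩ _).2 (congrArg _ e)⟩)
  have ho := P.orderOf_right h1 hp hord
  obtain ⟨K, hf, -⟩ := exists_isFix_card n.1.right
  refine bal_iff (cl_center C) hinn hord (fun hk => ?_) fun _ => ?_
  · obtain ⟨d, g, e⟩ := P.exists_descent ho (hord ▸ pow_orderOf_eq_one _)
    obtain ⟨h, hh⟩ := good_symp hf (by omega) (good_of_eq e)
    obtain ⟨μ, D⟩ := desc_shift (isDesc_symp K.subtype m) hh
    have e := hn_shift hf e h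
    generalize g * GeneralLinearGroup.map K.subtype h * 1⁻¹ = g at D e
    have G := cl_gd (clSp (F := K) hm)
    have hK : ∀ h : GL _ K, glEquiv _ K h ∈ EG (sympFormed m K) → ∃ s, jSp m F s = rh g K.subtype h :=
      fun h hh => by
        have := D.simi (simi_one_iff.2 (EG_le_isom hh))
        rw [map_one] at this
        obtain ⟨s, hs⟩ := (range_jSp m).ge (simi_one_iff.1 this)
        exact ⟨s, (glEquiv _ F).injective hs⟩
    refine kill_of_two C.inn_le_range (fun M hM hA =>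
      desc_kill_EG P hf ho e D G ?_ (fun h hh => cl_inn C (hK h hh)) hM hA) fun y _ _ hy => ?_
    · by_cases h2 : p = 2
      · subst h2; exact np_two G hpr.symm
      obtain ⟨k, hk, hx, hk1, hkp⟩ := hk
      obtain ⟨h, hh, ho⟩ := desc_ord P hf hp e (C.inn_le_inD C.inl_mem hk) hx hk1 hkp
      obtain ⟨κ, hκ⟩ := mem_Sim.1 ((D.mem_Sim_iff hn h).2 hh)
      obtain ⟨u, hu, e⟩ := Semi.exists_isom (t := Units.mk0 κ hκ.ne) (semi_inl_iff.2 (hκ.mul hκ))
      exact np_of_ord G (Or.inl (symp_hT m)) hp hpr (symp_le_EG hu)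
        (ho.of_pow (m := 2) (c := κ) ((Nat.coprime_primes hp Nat.prime_two).2 h2) fun v => by
          rw [← map_pow, sq, e, glEquiv_apply, Units.val_mul, ← mulVec_mulVec, scal_mulVec]; rfl)
    · by_cases h : m = 2 → r ≠ 2
      · exact clSp_surj hm h y
      push Not at h
      obtain ⟨-, rfl⟩ := h
      obtain ⟨a, b, hab⟩ := G.pair
      obtain ⟨u, hu⟩ := exists_isE G.nd hab.se (a := 0) (d := 1) (by simp) (zero_mul _)
        (by change -1 * 1 + (1 : K) = _; simp)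
      obtain ⟨u', hu'⟩ := exists_isE hn (symp_sing (tw g K.subtype a)) (a := 0) (d := μ) (by simp) (zero_mul _)
        (by change -1 * μ + μ = _; simp)
      obtain ⟨u, rfl⟩ := (glEquiv _ K).surjective u
      obtain ⟨u', rfl⟩ := (glEquiv _ F).surjective u'
      obtain ⟨s, hs⟩ := hK u (mem_EG hu)
      obtain rfl : jSp m F s = u' := hs.trans (gl_ext_of_span D.span (by
        rintro _ ⟨v, rfl⟩
        rw [D.act, ← glEquiv_apply, ← glEquiv_apply, hu.app0, hu'.app0, map_sub, D.smul, D.B, one_mul]))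
      refine mem_range_of_transv hm hu' (fun h => hab.left_ne_zero (D.inj (h.trans (map_zero _).symm)))
        D.ne ((conj_comm_iff (cl_center C) y _).1 (hy _ ⟨_, rfl⟩ ?_))
      rw [← C.theta_inl]
      exact Subgroup.mem_centralizer_singleton_iff.1 ((P.hom_mem_cen hf e ⟨_, C.inl_mem s⟩).2
        ⟨1, u, by rw [scal_one, one_mul]; exact hs⟩)
  · obtain ⟨δ, hδ, e⟩ := cl_std C (std_symp m) n
    obtain ⟨α, -, hα⟩ := P.lang hf ((std_symp m).fa_eq n.1.right) (fun s hs d g e => good_symp hf (by omega)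
      (good_of_mul hs e)) hδ (by rw [← e, ho, ← hord, pow_orderOf_eq_one])
    have h3 : α⁻¹ * C.theta n * α⁻¹⁻¹ = C.theta ((std_symp m).fa n.1.right) := by rw [e, hα]; group
    exact ⟨α⁻¹, n.1.right, h1, (C.field_iff ((std_symp m).fa n.1.right).2 _).2 h3⟩

end Cfsg.Agent.Mult.Bal
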