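import Cfsg.Agent.Mult.Gr2

/-! Involutory graph automorphisms of `PSU`: the systems `psu_sys` and `psu_split`. -/

set_option autoImplicit false

namespace Cfsg.Agent.Mult.Gr

open Cfsg.Agent.Geom Cfsg.Agent.Geom.Formed Cfsg.Agent.AutCl Module SemidirectProduct
open Matrix hiding inv_inj mul_inv_rev

variable {F : Type*} [Field F] [Fintype F] {q n : ℕ} (hF : Fintype.card F = q ^ 2)
  {F₀ : Type*} [Field F₀] {f : F₀ →+* F} {τ : F ≃+* F}

/-- `B` is the form carried by the `F₀`-structure `g F₀ⁿ` of the unitary space. -/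
def Carr (f : F₀ →+* F) (g : GL (Fin n) F) (μ : F) (B : BF (Fin n) F₀) : Prop :=
  μ ≠ 0 ∧ ∀ x y, μ * (hermFormed hF n).B (tw g f x) (tw g f y) = f (B x y)

/-- The form attached to a graph automorphism of `PSU`. -/
def psuR (hn : 3 ≤ n) (f : F₀ →+* F) (τ : F ≃+* F) (γ : MulAut (PSU n F q)) (B : BF (Fin n) F₀) :
    Prop := ∃ (x : GamS (hermFormed hF n)) (d : Fˣ) (g : GL (Fin n) F) (μ : F),
  γ = (clSU hF hn).theta x ∧ x.1 = inl (scal d) * (inl g * inr τ * (inl g)⁻¹) ∧ Carr hF f g μ B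

variable {hF} {g g' : GL (Fin n) F} {μ μ' : F} {B B' : BF (Fin n) F₀}

theorem Carr.simi (C : Carr hF f g μ B) (C' : Carr hF f g' μ' B') {h : GL (Fin n) F₀} {c : F₀}
    (hc : c ≠ 0) (hh : ∀ u v, B' (h.1 *ᵥ u) (h.1 *ᵥ v) = c * B u v) :
    Simi (hermFormed hF n) (hermFormed hF n) (g' * GeneralLinearGroup.map f h * g⁻¹)
      (f c * μ / μ') := by
  refine simi_of_span (span_tw (f := f) g)
    (div_ne_zero (mul_ne_zero ((map_ne_zero f).2 hc) C.1) C'.1) rfl ?_ (by simp [hermFormed_Q])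
  rintro _ ⟨x, rfl⟩ _ ⟨y, rfl⟩
  refine mul_left_cancel₀ C'.1 ?_
  rw [mulVec_tw, mulVec_tw, C'.2, hh, map_mul, ← C.2]
  have := C'.1
  field_simp

theorem Carr.of_sim [Nonempty (Fin n)] (hB : Rf B) (C : Carr hF f g μ B) (C' : Carr hF f g' μ' B')
    {h : GL (Fin n) F₀} (hs : g' * GeneralLinearGroup.map f h * g⁻¹ ∈ Sim (hermFormed hF n)) :
    ∃ c, c ≠ 0 ∧ ∀ u v, B' (h.1 *ᵥ u) (h.1 *ᵥ v) = c * B u v := by
  obtain ⟨κ, hκ⟩ := mem_Sim.1 hs
  have key : ∀ u v, f (B' (h.1 *ᵥ u) (h.1 *ᵥ v)) = μ' * κ / μ * f (B u v) := fun u v => by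
    rw [← C'.2, ← C.2, ← mulVec_tw g, ← mulVec_tw g, hκ.B]
    have := C.1
    field_simp
  obtain ⟨u, v, h0⟩ := hB.exists_ne
  have e : f (B' (h.1 *ᵥ u) (h.1 *ᵥ v) / B u v) = μ' * κ / μ := by
    rw [map_div₀, key, mul_div_cancel_right₀ _ ((map_ne_zero f).2 h0)]
  refine ⟨_, (map_ne_zero f).1 (e ▸ div_ne_zero (mul_ne_zero C'.1 hκ.ne) C.1),
    fun x y => f.injective ?_⟩
  rw [map_mul, e, key]

theorem Carr.mem_iff [Nonempty (Fin n)] (hB : Rf B) (C : Carr hF f g μ B) (h : GL (Fin n) F₀) :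
    h ∈ simB B ↔ g * GeneralLinearGroup.map f h * g⁻¹ ∈ Sim (hermFormed hF n) :=
  ⟨fun ⟨c, hc⟩ => mem_Sim.2 ⟨_, C.simi C c.ne_zero hc⟩, fun hs => mem_simB'.2 (C.of_sim hB C hs)⟩

variable (hf : IsFix f τ) (hτ : ∀ x, τ x = x ^ q)
include hf hτ

theorem Carr.rf [Nonempty (Fin n)] (C : Carr hF f g μ B) : Rf B := by
  have nd : ∀ x, (∀ y, B x y = 0) → x = 0 := fun x hx => by
    have := nondeg_of_span (span_tw (f := f) g) (hermFormed_nondeg hF n) (x := tw g f x) (by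
      rintro _ ⟨y, rfl⟩
      exact (mul_eq_zero.1 ((C.2 x y).trans (by rw [hx, map_zero]))).resolve_left C.1)
    exact tw_inj g (this.trans (map_zero _).symm)
  have h0 : τ μ ≠ 0 := by simpa using C.1
  have key : ∀ x y, f (B x y) = μ / τ μ * f (B y x) := fun x y => by
    rw [← hf.apply (B y x), ← C.2, ← C.2, map_mul, (hermFormed hF n).symm, frobq_apply, ← hτ]
    change _ * (1 * _) = _
    field_simp
  obtain ⟨u, v, h1⟩ : ∃ u v, B u v ≠ 0 := by
    by_contra! H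
    exact one_ne_zero (congrFun (nd (fun _ => 1) (H _)) (_root_.Classical.arbitrary _))
  exact rf_of_scalar nd (c := B v u / B u v) fun x y => f.injective (by
    rw [map_mul, map_div₀, key v u, mul_div_cancel_right₀ _ ((map_ne_zero f).2 h1), key])

omit hτ in
theorem Carr.frob (C : Carr hF f g μ B) : Carr hF f (glField τ g) (τ μ) B := by
  refine ⟨by simpa using C.1, fun x y => ?_⟩
  have e : ∀ x, tw (glField τ g) f x = act (inr τ : GaL (Fin n) F) (tw g f x) := fun x => by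
    rw [act_inr, tw_apply, tw_apply, map_mulVec', coe_glField]
    congr 1; ext; simp [hf.apply]
  rw [e, e, (std_herm hF n τ).B, ← hf.apply, ← C.2]; simp

omit hf hτ [Fintype F] in
theorem conj_inr_eq (g : GL (Fin n) F) :
    (inl g * inr τ * (inl g)⁻¹ : GaL (Fin n) F) = inl (g * (glField τ g)⁻¹) * inr τ := by
  ext1 <;> simp

theorem exists_carr (hB : Rf B) : ∃ g μ, Carr hF f g μ B := by
  obtain ⟨μ, h0, hμ⟩ : ∃ μ : F, μ ≠ 0 ∧ ∀ x y, (τ μ)⁻¹ * f (B y x) = μ⁻¹ * f (B x y) := by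
    rcases hB.sy with s | s
    · exact ⟨1, one_ne_zero, fun x y => by simp [s x y]⟩
    · obtain ⟨t, h0, -, ht⟩ := herm_hT (n := n) hF
      have ht : τ t = -t := by
        rw [frobq_apply, ← hτ] at ht; exact eq_neg_of_add_eq_zero_right (by
          rw [← ht]; exact congrArg (· + τ t) (one_mul t).symm)
      exact ⟨t, h0, fun x y => by simp [s x y, ht]⟩
  have h1 : (LinearMap.BilinForm.toMatrix' B).det ≠ 0 := by
    rw [Ne, ← Matrix.exists_vecMul_eq_zero_iff]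
    rintro ⟨v, hv, e⟩
    refine hv (hB.nd v fun y => ?_)
    rw [← Matrix.toBilin'_toMatrix' B, Matrix.toBilin'_apply', dotProduct_mulVec, e, zero_dotProduct]
  let N : GL (Fin n) F := scal (Units.mk0 μ h0)⁻¹ *
    GeneralLinearGroup.map f (GeneralLinearGroup.mkOfDetNeZero _ h1)
  have hN : ∀ i j, N.1 i j = μ⁻¹ * f (B (Pi.single i 1) (Pi.single j 1)) := fun i j => by
    simp [N, scal]
  obtain ⟨h, hh⟩ := exists_of_herm hF hτ (g := N) (by
    rw [← inv_inj, inv_inv, Units.ext_iff, coe_gf_inv]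
    ext i j; simp [hN, hf.apply, hμ])
  refine ⟨(glField τ (glIT h))⁻¹, μ, h0, fun x y => ?_⟩
  have e : ∀ u v : Fin n → F, (hermFormed hF n).B u v = (fun i => τ (u i)) ⬝ᵥ v := fun u v => by
    simp [hermFormed_B, hermForm, dotProduct, hτ, mul_comm]
  have e2 : ∀ z, τ (τ z) = z := fun z => by rw [hτ, hτ, pow_q_pow_q hF]
  rw [e, tw_apply, tw_apply, map_mulVec', ← vecMul_transpose, ← dotProduct_mulVec, mulVec_mulVec,
    show ((glField τ (glIT h))⁻¹).1.map τ = h.1ᵀ by rw [coe_gf_inv]; ext; simp [e2], transpose_transpose,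
    ← Units.val_mul, ← hh, ← Matrix.toBilin'_toMatrix' B, Matrix.toBilin'_apply]
  simp only [dotProduct, mulVec, hN, map_sum, map_mul, Finset.mul_sum, Function.comp, hf.apply,
    LinearMap.BilinForm.toMatrix'_apply]
  exact Finset.sum_congr rfl fun _ _ => Finset.sum_congr rfl fun _ _ => by field_simp

omit hf hτ in
theorem isInnerDiagPSU_iff (hn : 3 ≤ n) (β : MulAut (PSU n F q)) :
    IsInnerDiagonalAutPSU β ↔ β ∈ (clSU hF hn).inD (Sim (hermFormed hF n)) := by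
  rw [← inD_GU hF hn, Cl.mem_inD]
  exact exists_congr fun g => and_congr_right fun hg =>
    ((clSU hF hn).eq_theta_iff ⟨inl g, gu_le_Sim hF hg⟩ β).trans ⟨fun h => ⟨_, h⟩, fun ⟨_, h⟩ => h⟩

theorem psu_sys (hn : 3 ≤ n) : GrSys (inndiagPSU n F q)
    (fun γ => IsGraphAutClassPSU γ ∧ orderOf γ = 2) (psuR hF hn f τ) := by
  have : Nonempty (Fin n) := ⟨⟨0, by omega⟩⟩
  have P := (clSU hF hn).pSim
  have ho := orderOf_frobq hF hτ
  rw [inndiagPSU_eq hF hn]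
  refine ⟨?_, fun B hB => ?_, ?_, ?_⟩
  · rintro _ ⟨⟨-, δ, φ, σ, h1, h2, h3, rfl⟩, h4⟩
    obtain ⟨s, hs, rfl⟩ := (P.mem _).1 ((isInnerDiagPSU_iff hn δ).1 h2)
    obtain rfl : φ = (clSU hF hn).theta ((std_herm hF n).fa σ) := ((clSU hF hn).field_iff _ _).1 h3
    rw [← map_mul] at h4 ⊢
    have h5 := P.orderOf_dvd (⟨inl s, P.le s hs⟩ * (std_herm hF n).fa σ)
    have h6 : (⟨inl s, P.le s hs⟩ * (std_herm hF n).fa σ : GamS _).1.right = σ := one_mul σ
    have := isCyclic_ringAut (F := F)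
    have := finite_ringAut (F := F)
    rw [h4, h6] at h5
    obtain rfl : σ = τ := eq_of_orderOf_two (Nat.dvd_antisymm h5 h1.two_dvd) ho
    obtain ⟨d, g, e⟩ := P.exists_descent (r := 2) (h6.symm ▸ ho) (h4 ▸ pow_orderOf_eq_one _)
    rw [h6] at e
    obtain ⟨b, hb, hb0⟩ := exists_tw_ne (f := f) (hermFormed_nondeg hF n) g
    obtain ⟨B, -, hB, -⟩ := hf.exists_forms (σ₀ := RingHom.id F₀)
      (fun a => by rw [frobq_apply, ← hτ, hf.apply]; rfl) (good_of_eq e) hb hb0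
    have C : Carr hF f g b⁻¹ B := ⟨inv_ne_zero hb0, hB⟩
    exact ⟨B, C.rf hf hτ, _, d, g, _, rfl, e, C⟩
  · obtain ⟨g, μ, C⟩ := exists_carr (hF := hF) hf hτ hB
    have h1 : g * (glField τ g)⁻¹ ∈ Sim (hermFormed hF n) := mem_Sim.2 ⟨_, by
      simpa using (C.frob hf).simi C (h := 1) one_ne_zero (by simp)⟩
    have e : (⟨inl _, P.le _ h1⟩ * (std_herm hF n).fa τ : GamS _).1 =
        inl (scal 1) * (inl g * inr τ * (inl g)⁻¹) := by
      rw [scal_one, map_one, one_mul, conj_inr_eq]; rfl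
    exact ⟨_, ⟨⟨hn, _, _, τ, by simp [ho], (isInnerDiagPSU_iff hn _).2 ((P.mem _).2 ⟨_, h1, rfl⟩),
      ((clSU hF hn).field_iff _ _).2 rfl, map_mul _ _ _⟩, (P.orderOf_eq e).trans ho⟩,
      _, 1, g, μ, rfl, e, C⟩
  · rintro _ _ B B' hB hB' ⟨x, d, g, μ, rfl, e, C⟩ ⟨x', d', g', μ', rfl, e', C'⟩
    refine ⟨fun ⟨β, h1, h2⟩ => ?_, fun ⟨ε, c, hc, h⟩ => P.conj_of hf e e' (h := (glEquiv _ F₀).symm ε)
      (mem_Sim.2 ⟨_, C.simi C' hc fun u v => by rw [glEquiv_symm_mulVec, glEquiv_symm_mulVec, h]⟩)⟩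
    obtain ⟨s, hs, rfl⟩ := (P.mem _).1 h1
    rw [← map_inv, ← map_mul, ← map_mul, P.eq_iff] at h2
    obtain ⟨c, hc⟩ := h2
    change x'.1 = _ * (inl s * x.1 * (inl s)⁻¹) at hc
    obtain ⟨t, h, ht⟩ := hf.exists_of_comm (s := g'⁻¹ * s * g) (c := d⁻¹ * c⁻¹ * d') (by
      rw [e, e', ← mul_assoc (inl s), inl_mul_inl_scal] at hc
      rw [← mul_right_inj (inl g'), ← mul_left_inj (inl g')⁻¹, ← mul_assoc _ (inl (scal _)),
        inl_mul_inl_scal, scal_mul, scal_mul, scal_inv, scal_inv]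
      simp only [map_mul, map_inv, mul_assoc] at hc ⊢
      rw [hc]
      group)
    have h3 : s = scal t * (g' * GeneralLinearGroup.map f h * g⁻¹) := by
      rw [← mul_assoc, ← mul_assoc, scal_comm, mul_assoc g', ← ht]; group
    obtain ⟨k, hk, h4⟩ := C.of_sim hB C' (((Sim _).mul_mem_cancel_left (scal_mem_Sim t)).1 (h3 ▸ hs))
    exact ⟨glEquiv _ F₀ h, k, hk, h4⟩
  · rintro _ B hB ⟨x, d, g, μ, rfl, e, C⟩
    exact P.cen_equiv hf e _ (C.mem_iff hB)

theorem psu_split (hn : 3 ≤ n) : GrSplit (inndiagPSU n F q) (Inn (PSU n F q)) (psuR hF hn f τ)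
    (rootsOfUnity (q + 1) F) fun k d c => ∃ z : F, z ^ (q + 1) * f k = 1 ∧ (c.1 : F) = z ^ n * f d := by
  have : Nonempty (Fin n) := ⟨⟨0, by omega⟩⟩
  have P := (clSU hF hn).pSim
  have hq : ∀ a, f a ^ (q + 1) = f a ^ 2 := fun a => by rw [pow_succ, ← hτ, hf.apply, sq]
  have mk : ∀ w : F, w ^ (q + 1) = 1 → ∃ b : rootsOfUnity (q + 1) F, (b.1 : F) = w := fun w h =>
    ⟨⟨Units.mk0 w (by rintro rfl; simp at h), (mem_rootsOfUnity' _ _).2 h⟩, rfl⟩
  rw [inndiagPSU_eq hF hn]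
  refine ⟨?_, ⟨1, by simp⟩, fun t c _ ⟨z, h1, h2⟩ => ?_, fun m hm k c _ ⟨z, h1, h2⟩ => ?_,
    fun m hm b => ?_, fun h2 => ?_⟩
  · rintro _ B hB ⟨x, d, g, μ, rfl, e, C⟩ A h1 h2
    have key : ∀ (z : Fˣ) h k, Mu B h k → Simi (hermFormed hF n) (hermFormed hF n)
        (scal z * rh g f h) ((z : F) ^ (q + 1) * f k) := fun z h k hk => by
      have := (simi_scal z).mul (C.simi C (hk.ne_zero hB) hk)
      rwa [mul_div_cancel_right₀ _ C.1, frobq_apply, ← pow_succ] at this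
    have hd : ∀ (z : Fˣ) h, (scal z * rh g f h).1.det = (z : F) ^ n * f h.1.det := fun z h => by
      rw [Units.val_mul, det_mul, det_scal, rh_apply, Units.val_mul, Units.val_mul, det_units_conj,
        Fintype.card_fin, RingHom.map_det]; rfl
    rw [Fintype.card_fin] at h1 ⊢
    refine split_of_hom (guAut hF hn) (range_guAut hF hn) ((clSU hF hn).inn_le_inD (clSU hF hn).inl_mem)
      _ _ (guChi_surj hF (by omega)) _ A (guAut_mem_inn hF hn) (fun s hs => ?_) fun c hc => ?_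
    · obtain ⟨z, h, hz⟩ := (P.hom_mem_cen hf e _).1 hs
      have hz : s.1 = _ := hz
      obtain ⟨k, hk⟩ := (C.mem_iff hB h).2
        (((Sim _).mul_mem_cancel_left (scal_mem_Sim z)).1 (hz ▸ gu_le_Sim hF s.2))
      exact h1 h k _ hk ⟨z, (key z h k hk).unique (hermFormed_nondeg hF n)
        (hz ▸ (mem_GU_iff_simi hF).1 s.2), by rw [coe_guChi, hz, hd]⟩
    · obtain ⟨h, k, hk, z, h3, h4⟩ := h2 c hc
      have h0 : z ≠ 0 := by rintro rfl; simp at h3
      exact ⟨⟨_, (mem_GU_iff_simi hF).2 (h3 ▸ key (Units.mk0 z h0) h k hk)⟩,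
        (P.hom_mem_cen hf e _).2 ⟨_, h, rfl⟩, Subtype.ext (Units.ext (by rw [coe_guChi, hd, h4]; rfl))⟩
  · obtain ⟨b, hb⟩ := mk (z * f t) (by rw [mul_pow, hq, ← map_pow, h1])
    exact ⟨b, Subtype.ext (Units.ext (by simp [h2, hb, mul_pow]))⟩
  · obtain ⟨b, hb⟩ := mk (z ^ 2 * f k) (by rw [mul_pow, hq, pow_right_comm, ← mul_pow, h1, one_pow])
    rw [Fintype.card_fin] at hm
    exact ⟨b, Subtype.ext (Units.ext (by simp [h2, hb, mul_pow, hm, pow_mul]))⟩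
  · have hb : (b.1 : F) ^ (q + 1) = 1 := (mem_rootsOfUnity' _ _).1 b.2
    obtain ⟨z, hz⟩ := exists_of_nrm_eq_one (orderOf_frobq hF hτ) two_pos (c := b.1) (by
      rw [nrm_succ, nrm_succ, pow_one]; exact Units.ext (by simpa [nrm, hτ, pow_succ'] using hb))
    have hz : (b.1 : F) * z ^ q = z := by simpa [hτ] using congrArg Units.val hz
    obtain ⟨k, hk⟩ := (hf ((z : F) ^ (q + 1))⁻¹).2 (by
      rw [map_inv₀, pow_succ, map_mul, hτ, hτ, pow_q_pow_q hF, mul_comm])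
    rw [Fintype.card_fin] at hm
    refine ⟨k, (map_ne_zero f).1 (by simp [hk]), z, by simp [hk], ?_⟩
    have : (b.1 : F) = z ^ 2 * f k := by
      rw [hk, pow_succ (z : F) q]; field_simp; linear_combination hz
    simp [hm, pow_mul, ← mul_pow, this]
  · have h3 : (2 : F) ≠ 0 := map_ofNat f 2 ▸ (map_ne_zero f).2 h2
    obtain ⟨b, hb⟩ := mk (-1) (by simpa using hq (-1))
    refine ⟨b, orderOf_eq_prime (Subtype.ext (Units.ext (by simp [hb]))) fun e => h3 ?_,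
      fun k d c ⟨z, h4, h5⟩ => ⟨z, h4, by simp [hb, h5]⟩⟩
    rw [e] at hb
    have : (1 : F) = -1 := hb
    linear_combination this

omit hf hτ in
theorem exists_frobq (hF : Fintype.card F = q ^ 2) (F₀ : Type*) [Field F₀] [Fintype F₀]
    (hF₀ : Fintype.card F₀ = q) : ∃ (f : F₀ →+* F) (τ : F ≃+* F), IsFix f τ ∧ ∀ x, τ x = x ^ q := by
  let τ : F ≃+* F := RingEquiv.ofBijective (frobq hF) (Function.Involutive.bijective (frobq_frobq hF))
  obtain ⟨f, hf⟩ := exists_isFix τ F₀ (by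
    rw [orderOf_frobq hF (σ := τ) (frobq_apply hF), Nat.card_eq_fintype_card, Nat.card_eq_fintype_card,
      hF, hF₀])
  exact ⟨f, τ, hf, frobq_apply hF⟩

omit hτ in
theorem psuR_dot (hn : 3 ≤ n) (hτ : ∀ x, τ x = x ^ q) {φ : MulAut (PSU n F q)}
    (h : IsFieldAutPSUOf τ φ) : psuR hF hn f τ φ (dotB (Fin n) F₀) :=
  ⟨(std_herm hF n).fa τ, 1, 1, 1, ((clSU hF hn).field_iff _ _).1 h, (std_herm hF n).fa_eq τ,
    one_ne_zero, fun x y => by
      simp [tw_one, hermFormed_B, hermForm, dotB_apply, dotProduct, ← hτ, hf.apply, mul_comm]⟩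

end Cfsg.Agent.Mult.Gr
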