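import Cfsg.Agent.Mult.Bal5
import Cfsg.Agent.Mult.Gr3

/-! Local balance for unitary groups: formed spaces of reflexive bilinear forms (`gd_bilin`),
elements of order `p` in the Eichler group of a Hermitian space (`herm_np`), `psu_bal`. -/

set_option autoImplicit false

namespace Cfsg.Agent.Mult.Bal

open Cfsg.Agent.Geom Cfsg.Agent.Geom.Formed Cfsg.Agent.AutCl Module SemidirectProduct
open Matrix hiding inv_inj mul_inv_rev

theorem not_simple_72 {G : Type*} [Group G] [Finite G] (h : Nat.card G = 72) : ¬ IsSimpleGroup G := by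
  intro hs
  have : Fact (Nat.Prime 3) := ⟨Nat.prime_three⟩
  obtain ⟨P⟩ : Nonempty (Sylow 3 G) := inferInstance
  have h0 : Nat.card P = 9 := by
    rw [P.card_eq_multiplicity, h, show 72 = 3 ^ 2 * 8 from rfl,
      Nat.factorization_mul (by norm_num) (by norm_num), Finsupp.add_apply, Nat.prime_three.factorization_pow,
      Nat.factorization_eq_zero_of_not_dvd (by norm_num)]; simp
  have h1 := card_sylow_modEq_one 3 G
  have h2 := P.card_dvd_index
  have h3 := (P : Subgroup G).index_mul_card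
  rw [h0, h] at h3
  rw [show (P : Subgroup G).index = 8 by omega] at h2
  rcases (MonoidHom.normal_ker (MulAction.toPermHom G (Sylow 3 G))).eq_bot_or_eq_top with h4 | h4
  · have h5 := Subgroup.card_dvd_of_injective _ ((MonoidHom.ker_eq_bot_iff _).1 h4)
    cases nonempty_fintype (Sylow 3 G)
    classical
    rw [h, Nat.card_eq_fintype_card, Fintype.card_perm, ← Nat.card_eq_fintype_card] at h5
    have h6 := Nat.le_of_dvd (by norm_num) h2
    generalize Nat.card (Sylow 3 G) = k at *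
    interval_cases k <;> simp_all (decide := true)
  · have : (P : Subgroup G).Normal := Subgroup.normalizer_eq_top_iff.1 (eq_top_iff.2 fun g _ =>
      Sylow.smul_eq_iff_mem_normalizer.1 (congrArg (fun φ : Equiv.Perm _ => φ P)
        (MonoidHom.mem_ker.1 (h4.ge (Subgroup.mem_top g)))))
    rcases this.eq_bot_or_eq_top with h5 | h5 <;> simp [h5, h] at h0

theorem gd_bilin {F : Type*} [Field F] [Finite F] {V : Type*} [AddCommGroup V] [Module F V]
    [FiniteDimensional F V] (h2 : (2 : F) ≠ 0) (h3 : 3 ≤ finrank F V) {B : LinearMap.BilinForm F V}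
    (hn : ∀ x, (∀ y, B x y = 0) → x = 0) {ε : F} (h : ∀ x y, B y x = ε * B x y) :
    ∃ Φ : Formed (RingHom.id F) V, Φ.B = B ∧ (∀ x, Φ.Q x = 0) ∧ Gd Φ := by
  have : Nontrivial V := finrank_pos_iff.1 (show 0 < finrank F V by omega)
  obtain ⟨x, hx⟩ := exists_ne (0 : V)
  obtain ⟨y, hy⟩ : ∃ y, B x y ≠ 0 := by by_contra! H; exact hx (hn x H)
  rcases mul_self_eq_one_iff.1 (mul_right_cancel₀ hy (show ε * ε * B x y = 1 * B x y by
    rw [mul_assoc, ← h, ← h, one_mul])) with rfl | rfl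
  · obtain ⟨p, hp0, hp⟩ := exists_sing_of_finite B.toQuadraticMap h3
    have hS : B.IsSymm := ⟨fun x y => by simpa using h y x⟩
    obtain ⟨w, hw⟩ := Nondeg.exists_isPair (Φ := ofSymm h2 B hS) hn hp0 ⟨rfl, hp⟩
    exact ⟨ofSymm h2 B hS, rfl, fun _ => rfl, hn, h3, ⟨p, w, hw⟩, Or.inl rfl⟩
  · have hA : B.IsAlt := fun x => mul_left_cancel₀ h2 (by linear_combination h x x)
    obtain ⟨w, hw⟩ := Nondeg.exists_isPair (Φ := ofAlt B hA) hn hx ⟨rfl, hA x⟩
    exact ⟨ofAlt B hA, rfl, fun _ => rfl, hn, h3, ⟨x, w, hw⟩, Or.inl rfl⟩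

theorem pord_diag {ι : Type} [Fintype ι] [DecidableEq ι] {F : Type*} [Field F] {i j : ι} (hij : i ≠ j)
    {a : Fˣ} {p : ℕ} (hp : p.Prime) (h2 : p ≠ 2) (ha : orderOf a = p) :
    POrd p (glEquiv ι F (SpecialLinearGroup.toGL (SpecialLinearGroup.diag2n hij a.1 a.ne_zero))) := fun k ⟨c, hc⟩ => by
  have h1 : ∀ l, (if l = i then a.1 else if l = j then a.1⁻¹ else 1) ^ k = c := fun l => by
    have := congrFun (hc (Pi.single l 1)) l
    rw [← map_pow, glEquiv_apply, Units.val_pow_eq_pow_val] at this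
    change ((diagonal _ ^ k) *ᵥ _) l = _ at this
    simpa [diagonal_pow, mulVec_diagonal] using this
  have h3 := (h1 i).trans (h1 j).symm
  rw [if_pos rfl, if_neg hij.symm, if_pos rfl, inv_pow, ← mul_eq_one_iff_eq_inv₀ (by simp), ← pow_add,
    ← two_mul, ← Units.val_pow_eq_pow_val, Units.val_eq_one, ← orderOf_dvd_iff_pow_eq_one, ha] at h3
  exact ((Nat.coprime_primes hp Nat.prime_two).2 h2).dvd_of_dvd_mul_left h3

theorem pord_three {F : Type*} [Field F] [CharP F 2] {σ : F →+* F} {V : Type*} [AddCommGroup V]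
    [Module F V] [FiniteDimensional F V] {Φ : Formed σ V} (G : Gd Φ) (hτ : Φ.τ = 0) (hε : Φ.ε = 1) :
    ∃ w ∈ EG Φ, POrd 3 w := by
  obtain ⟨p, r, hr⟩ := G.pair
  have h2 : (1 : F) + 1 = 0 := CharTwo.add_self_eq_zero 1
  have h2' : ∀ v : V, v + v = 0 := fun v => by rw [← one_smul F v, ← add_smul, h2, zero_smul]
  have hn : ∀ v : V, -v = v := fun v => neg_eq_of_add_eq_zero_left (h2' v)
  obtain ⟨e, he⟩ := exists_isE G.nd hr.se (a := 0) (d := 1) (by simp) (by simp [hτ]) (by simp [hε, h2])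
  obtain ⟨e', he'⟩ := exists_isE G.nd hr.sf (a := 0) (d := 1) (by simp) (by simp [hτ]) (by simp [hε, h2])
  have e1 : e r = r + p := by rw [he.app0, hr.ef, sub_eq_add_neg, hn]; simp
  have e2 : (e * e') p = r := by
    rw [LinearEquiv.mul_apply, he'.app0, hr.fe, hε, sub_eq_add_neg, hn, one_mul, one_smul, map_add,
      he.apply_p, e1, add_comm r, ← add_assoc, h2', zero_add]
  have e3 : (e * e') r = r + p := by rw [LinearEquiv.mul_apply, he'.apply_p, e1]
  have e4 : ((e * e') ^ 3) p = p := by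
    rw [pow_succ, pow_succ, pow_one, LinearEquiv.mul_apply, LinearEquiv.mul_apply, e2, e3, map_add, e2, e3,
      add_right_comm, h2', zero_add]
  refine ⟨e * e', mul_mem (mem_EG he) (mem_EG he'), fun k ⟨c, hc⟩ => ?_⟩
  have e5 : ∀ j, (((e * e') ^ 3) ^ j) p = p := fun j => by
    induction j with
    | zero => rfl
    | succ j ih => rw [pow_succ, LinearEquiv.mul_apply, e4, ih]
  have h3 := congrArg (Φ.B p) (hc p)
  rw [← Nat.mod_add_div k 3, pow_add, pow_mul, LinearEquiv.mul_apply, e5] at h3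
  have : k % 3 = 0 ∨ k % 3 = 1 ∨ k % 3 = 2 := by omega
  rcases this with h | h | h
  · omega
  · simp [h, e2, hr.ef, hr.se.2] at h3
  · rw [h, sq, LinearEquiv.mul_apply, e2, e3] at h3
    simp [hr.ef, hr.se.2] at h3

variable {F : Type*} [Field F] [Fintype F] {q n : ℕ} (hF : Fintype.card F = q ^ 2)

theorem su_le_EG (h : q ≠ 2 ∨ 4 ≤ n) {g : (Fin n → F) ≃ₗ[F] (Fin n → F)}
    (hg : g ∈ (hermFormed hF n).isom) (hd : LinearEquiv.det g = 1) : g ∈ EG (hermFormed hF n) := by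
  have := Fact.mk hF
  obtain ⟨s, rfl⟩ := (mem_range_jSU hF).2 ⟨hg, hd⟩
  refine (Classical.SU_eq_top_of_suT_mem h ((EG _).comap ((glEquiv _ F).toMonoidHom.comp (jSU n F q)))
    fun v c hv hc => mem_EG (p := v) (a := 0) (d := -c) ⟨⟨rfl, hv⟩, by simp, zero_mul _, ?_, fun x => ?_⟩).ge
    (Subgroup.mem_top s)
  · change 1 * -c + _ = _
    rw [map_neg, frobq_apply]; simp only [map_zero]; linear_combination -hc
  · refine (Classical.suT_smul v c hv hc x).trans ?_
    rw [hermFormed_B hF n v x]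
    simp

theorem herm_np {r p : ℕ} [Fact r.Prime] [CharP F r] (hn : 3 ≤ n) (hp : p.Prime) (h2 : p ≠ 2)
    (hpr : p ≠ r) {h : GL (Fin n) F} (hh : h ∈ Sim (hermFormed hF n)) (ho : POrd p (glEquiv _ F h)) :
    NPs p (EG (hermFormed hF n)) := by
  have G := cl_gd (clSU hF hn)
  have := Fact.mk hF
  have := Fact.mk hp
  have hq := two_le_of_card_eq_sq hF
  suffices ∃ w ∈ EG (hermFormed hF n), POrd p w from
    let ⟨_, hw, h⟩ := this; np_of_ord G (Or.inl (herm_hT hF)) hp hpr hw h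
  obtain ⟨c, u, hu, rfl⟩ := exists_GU hF hn h hh
  have hu' := simi_one_iff.1 ((mem_GU_iff_simi hF).1 hu)
  by_cases h3 : q ≠ 2 ∨ 4 ≤ n
  swap
  · obtain ⟨rfl, rfl⟩ : q = 2 ∧ n = 3 := by omega
    have : CharP F 2 := charP_of_card_eq (p := 2) (f := 2) hF
    have h4 := (ho.of_pow (m := 1) (u := glEquiv _ F u) (c := c) (by simp) fun v => by
      rw [pow_one, glEquiv_apply, Units.val_mul, ← mulVec_mulVec, scal_mulVec]; rfl) (2 ^ 3 * 3 ^ 4) ⟨1, by
        have := congrArg Subtype.val (pow_card_eq_one' (x := (⟨u, hu⟩ : GU 3 F 2)))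
        rw [Classical.card_GU] at this
        rw [← map_pow, show u ^ (2 ^ 3 * 3 ^ 4) = 1 from this]; simp⟩
    obtain rfl : p = 3 := by
      rcases (Nat.Prime.dvd_mul hp).1 h4 with h | h
      · exact absurd ((Nat.prime_dvd_prime_iff_eq hp Nat.prime_two).1 (hp.dvd_of_dvd_pow h)) h2
      · exact (Nat.prime_dvd_prime_iff_eq hp Nat.prime_three).1 (hp.dvd_of_dvd_pow h)
    exact pord_three G rfl rfl
  by_cases hd : p ∣ q + 1
  · obtain ⟨a, ha⟩ := exists_prime_orderOf_dvd_card' (G := Fˣ) p (by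
      rw [Nat.card_units, Nat.card_eq_fintype_card, hF]
      exact hd.trans ⟨_, by simpa using Nat.sq_sub_sq q 1⟩)
    have hij : (⟨0, by omega⟩ : Fin n) ≠ ⟨1, by omega⟩ := by simp
    have h4 : a.1 * a.1 ^ q = 1 := by
      rw [← pow_succ', ← Units.val_pow_eq_pow_val, orderOf_dvd_iff_pow_eq_one.1 (ha ▸ hd)]; rfl
    refine ⟨_, su_le_EG hF h3 ((mem_hermFormed_isom hF n).2 fun u v => Finset.sum_congr rfl fun i _ => ?_)
      (by rw [linearEquiv_det_glEquiv]; simp), pord_diag hij hp h2 ha⟩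
    change (diagonal _ *ᵥ u) i * (diagonal _ *ᵥ v) i ^ q = _
    rw [mulVec_diagonal, mulVec_diagonal, mul_pow, mul_mul_mul_comm]
    split_ifs
    · rw [h4, one_mul]
    · rw [inv_pow, ← mul_inv, h4, inv_one, one_mul]
    · simp
  · refine ⟨glEquiv _ F u ^ (q + 1), su_le_EG hF h3 (pow_mem hu' _) ?_,
      ho.of_pow (m := q + 1) (c := c ^ (q + 1)) (hp.coprime_iff_not_dvd.2 hd) fun v => ?_⟩
    · rw [map_pow, linearEquiv_det_glEquiv]
      exact (guChi hF (by omega) ⟨u, hu⟩).2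
    · rw [← map_pow, (show Commute _ _ from scal_comm c u).mul_pow, glEquiv_apply, Units.val_mul,
        ← mulVec_mulVec, ← map_pow, show scal c ^ (q + 1) = scal (c ^ (q + 1)) from (map_pow _ _ _).symm,
        scal_mulVec]; rfl

include hF

theorem psu_ne (hn : 3 ≤ n) [hs : IsSimpleGroup (PSU n F q)] : ¬ (n = 3 ∧ q = 2) := by
  rintro ⟨rfl, rfl⟩
  have := Fact.mk hF
  have h := Classical.card_PSU_mul (F := F) (q := 2) (n := 3) (by omega)
  rw [Classical.card_GU, show 2 ^ (3 * (3 - 1) / 2) * ∏ i ∈ Finset.range 3,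
    (if Even i then 2 ^ (i + 1) + 1 else 2 ^ (i + 1) - 1) = 648 by decide] at h
  have := (clSU hF hn).finite
  exact not_simple_72 (by norm_num at h; omega) hs

theorem psu_bal {r : ℕ} [Fact r.Prime] [CharP F r] (hn : 3 ≤ n) [IsSimpleGroup (PSU n F q)]
    {A : Subgroup (MulAut (PSU n F q))} (hinn : ∀ k, MulAut.conj k ∈ A) {p : ℕ} [Fact p.Prime]
    (hpr : p ≠ r) {x : MulAut (PSU n F q)} (hord : orderOf x = p) (hnot : ¬ IsInnerDiagonalAutPSU x) :
    pPrimeCore p ↥(A ⊓ Subgroup.centralizer {x}) ≠ ⊥ ↔ ((∃ γ φ : MulAut (PSU n F q),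
      IsInnerDiagonalAutPSU γ ∧ (∃ σ : F ≃+* F, IsFieldAutPSUOf σ φ) ∧ x = φ.trans γ) ∧
      Nat.Coprime p (Nat.card ↥(MonoidHom.eqLocus x.toMonoidHom (MonoidHom.id _)))) := by
  have C := clSU hF hn
  have hp : p.Prime := Fact.out
  have := C.finite
  have := cl_finite C
  have P := C.pSim
  have := P.ne
  have hnd := hermFormed_nondeg hF n
  have hs := clSU_surj hF hn (psu_ne hF hn)
  obtain ⟨m, rfl⟩ := hs x
  have h1 : m.1.right ≠ 1 := fun h => hnot ((Gr.isInnerDiagPSU_iff (hF := hF) hn _).2 (by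
    obtain ⟨hs, e⟩ := cl_left C h
    exact C.mem_inD.2 ⟨_, hs, hs, congrArg _ e⟩))
  have ho := P.orderOf_right h1 hp hord
  refine bal_iff (cl_center C) hinn hord (fun hk M hA => ?_) fun _ => ?_
  swap
  · obtain ⟨δ, hδ, e⟩ := cl_std C (std_herm hF n) m
    exact ⟨δ, _, (Gr.isInnerDiagPSU_iff (hF := hF) hn _).2 hδ,
      ⟨_, (C.field_iff ((std_herm hF n).fa m.1.right).2 _).2 rfl⟩, e⟩
  obtain ⟨d, g, e⟩ := P.exists_descent ho (hord ▸ pow_orderOf_eq_one _)
  have key : ∀ {K : Subfield F} {σ₀ : K →+* K} {Φ₀ : Formed σ₀ (Fin n → K)} {g μ},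
      IsFix K.subtype m.1.right → m.1 = inl (scal d) * (inl g * inr m.1.right * (inl g)⁻¹) →
      IsDesc K.subtype Φ₀ (hermFormed hF n) (tw g K.subtype) (rh g K.subtype) μ → Gd Φ₀ →
      NPs p (EG Φ₀) → M = ⊥ := fun {K σ₀ Φ₀ g μ} hf e D G hN =>
    desc_kill_EG P hf ho e D G hN (fun h hh => cl_inn C (by
      have h1 := D.simi (simi_one_iff.2 (EG_le_isom hh))
      rw [map_one] at h1
      have h2 : LinearEquiv.det (glEquiv _ K h) = 1 :=
        EG_le (S := LinearEquiv.det.ker) (fun _ _ _ _ h => (h.unip r).det_eq_one) hh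
      rw [linearEquiv_det_glEquiv] at h2
      obtain ⟨s, hs⟩ := (mem_range_jSU hF).2 ⟨simi_one_iff.1 h1, by
        rw [linearEquiv_det_glEquiv]
        exact Units.ext ((D.det h).trans (by rw [show h.1.det = 1 from congrArg Units.val h2, map_one]; rfl))⟩
      exact ⟨s, (glEquiv _ F).injective hs⟩)) (fun y _ => hs y) hA
  by_cases h2 : p = 2
  · subst h2
    obtain ⟨K, hf, -⟩ := exists_isFix_card m.1.right
    have := isCyclic_ringAut (F := F)
    have := finite_ringAut (F := F)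
    have hτ : ∀ x, m.1.right x = frobq hF x := by
      let s : F ≃+* F := RingEquiv.ofRingHom (frobq hF) (frobq hF) (RingHom.ext (frobq_frobq hF))
        (RingHom.ext (frobq_frobq hF))
      rw [eq_of_orderOf_two ho (orderOf_frobq hF (σ := s) fun _ => rfl)]
      exact fun _ => rfl
    have hσ : ∀ a, K.subtype (RingHom.id K a) = frobq hF (K.subtype a) := fun a => by
      rw [← hτ, hf.apply]; rfl
    obtain ⟨b, ⟨x₀, y₀, hb⟩, hb0⟩ := exists_tw_ne (f := K.subtype) hnd g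
    obtain ⟨B₀, -, hB, -⟩ := hf.exists_forms hσ (good_of_eq e) ⟨_, _, hb⟩ hb0
    have h3 : ∀ x y, K.subtype (B₀ y x) = b⁻¹ * frobq hF b * K.subtype (B₀ x y) := fun x y => by
      have h0 : K.subtype (B₀ x y) = frobq hF (K.subtype (B₀ x y)) := hσ _
      rw [h0, ← hB, ← hB, (hermFormed hF n).symm, map_mul, map_inv₀]
      change _ * (1 * _) = _
      have : frobq hF b ≠ 0 := (map_ne_zero _).2 hb0
      field_simp
    obtain ⟨Φ₀, h4, h5, G⟩ := gd_bilin (two_ne_of_map K.subtype (mt (two_eq_zero_iff F r).1 hpr.symm))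
      (V := Fin n → K) (by simpa) (B := B₀) (fun x hx => tw_inj g ((nondeg_of_span (span_tw g) hnd (by
        rintro _ ⟨y, rfl⟩
        exact (mul_eq_zero.1 ((hB x y).trans (by rw [hx, map_zero]))).resolve_left (inv_ne_zero hb0))).trans
        (map_zero _).symm)) (ε := B₀ y₀ x₀) fun x y => K.subtype.injective (by
          rw [map_mul, h3 x₀, h3, ← hB x₀, hb, inv_mul_cancel₀ hb0, mul_one])
    exact key hf e (isDesc_tw (inv_ne_zero hb0) (h4 ▸ hB) fun x => by simp [h5, hermFormed_Q]) G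
      (np_two G hpr.symm)
  · obtain ⟨k, hq⟩ := exists_prime_pow_of_card_eq_sq hF
    rw [ringChar.eq F r] at hq
    have hF' : Fintype.card F = r ^ (2 * k) := by rw [hF, hq, pow_mul']
    have hd : p ∣ k := ((Nat.coprime_primes hp Nat.prime_two).2 h2).dvd_of_dvd_mul_left
      (ho ▸ orderOf_dvd_of_card hF' _)
    obtain ⟨K, hf, hc⟩ := exists_isFix_pf hF' m.1.right
    have := Fintype.ofFinite K
    rw [ho, Nat.mul_div_assoc _ hd, pow_mul', Nat.card_eq_fintype_card] at hc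
    have hσ := frobq_compat hF hc (hp.odd_of_ne_two h2) (by rw [← pow_mul, Nat.div_mul_cancel hd, hq]) K.subtype
    obtain ⟨h, hh⟩ := good_herm hF hc hf hσ (by omega) (good_of_eq e)
    obtain ⟨μ, D⟩ := desc_shift (isDesc_herm hF hc hσ n) hh
    have e := hn_shift hf e h
    obtain ⟨k, hk, hx, hk1, hkp⟩ := hk
    obtain ⟨h, hh, ho⟩ := desc_ord P hf hp e (C.inn_le_inD C.inl_mem hk) hx hk1 hkp
    exact key hf e D (cl_gd (clSU hc hn)) (herm_np hc hn hp h2 hpr ((D.mem_Sim_iff hnd h).2 hh) ho)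

end Cfsg.Agent.Mult.Bal
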