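import Cfsg.Agent.Mult.Bal6

/-! Local balance for `PSL`: `lin_kill` (linear version of `desc_kill`), `np_SL`, `cent_SL`,
`psl_field_kill`, `psl_graph_kill`, `psl_bal`. -/

set_option autoImplicit false

namespace Cfsg.Agent.Mult.Bal

open Cfsg.Agent.Geom Cfsg.Agent.Geom.Formed Cfsg.Agent.AutCl Module SemidirectProduct
open Matrix hiding inv_inj mul_inv_rev
open scoped LinearAlgebra.Projectivization

variable {ι : Type} [Fintype ι] [DecidableEq ι] {F : Type*} [Field F]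

theorem lin_kill {Γ : Subgroup (GaL ι F)} {X : Type*} [Group X] [Finite X] {θ : Γ →* X}
    {S : Subgroup (GL ι F)} {H K : Subgroup X} {p : ℕ} {x : X} (P : PMod Γ θ S H)
    {G : Subgroup ((ι → F) ≃ₗ[F] (ι → F))} (hN : NPs p G) (hC : Cent G)
    (hK : ∀ h : GL ι F, glEquiv ι F h ∈ G → ∃ hs : h ∈ S,
      θ ⟨_, P.le _ hs⟩ ∈ K ∧ θ ⟨_, P.le _ hs⟩ * x = x * θ ⟨_, P.le _ hs⟩)
    (hG : ∀ n : Γ, θ n * x = x * θ n → ∀ u ∈ G, ∃ u' ∈ G, ∀ v, u' (AutCl.act n.1 v) = AutCl.act n.1 (u v))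
    {M : Subgroup X} (hM : M ≤ θ.range) (hA : Adm p K x M) : M = ⊥ := by
  have := P.ne
  have hS : ∀ u : G, (glEquiv ι F).symm u.1 ∈ S := fun u => (hK _ (by simp)).1
  let ℓ : G →* X := P.hom.comp ((((glEquiv ι F).symm.toMonoidHom).comp G.subtype).codRestrict S hS)
  have hℓ : ∀ u, ℓ u = θ ⟨_, P.le _ (hS u)⟩ := fun _ => rfl
  refine (Subgroup.eq_bot_iff_forall _).2 fun y hy => ?_
  obtain ⟨n, rfl⟩ := hM hy
  obtain ⟨h3, c, h4⟩ := kill hA hN hC ℓ (fun u => by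
    rw [hℓ, P.ker]
    conv_rhs => rw [← (glEquiv ι F).apply_symm_apply u.1, scal_glEquiv_iff]
    exact exists_congr fun c => by simp) (fun u => (hK _ (by simp)).2)
    hy (T := AutCl.act n.1) (act_smul n.1) fun u => by
      obtain ⟨u', hu', e'⟩ := hG n (hA.cen _ hy) u u.2
      refine ⟨⟨u', hu'⟩, e', ?_⟩
      rw [hℓ, hℓ, ← map_inv, ← map_mul, ← map_mul]
      congr 1
      refine Subtype.ext (mul_inv_eq_iff_eq_mul.2 (GaL.ext_act fun v => ?_))
      change AutCl.act (n.1 * inl _) _ = AutCl.act (inl _ * n.1) _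
      rw [AutCl.act_mul, AutCl.act_mul, act_inl, act_inl, glEquiv_symm_mulVec, glEquiv_symm_mulVec, e']
  have e := inl_left_of_right h3
  obtain ⟨c', -, e'⟩ := exists_scal (g := n.1.left) (c := c) fun v => by rw [← h4, e]; rfl
  exact (P.ker _).2 ⟨c', e' ▸ e⟩

theorem exists_SL {g : (ι → F) ≃ₗ[F] (ι → F)} (hg : g ∈ LinearEquiv.det.ker) :
    ∃ s : SpecialLinearGroup ι F, glEquiv ι F (SpecialLinearGroup.toGL s) = g := by
  obtain ⟨g, rfl⟩ := (glEquiv ι F).surjective g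
  rw [MonoidHom.mem_ker, linearEquiv_det_glEquiv] at hg
  exact ⟨⟨g.1, congrArg Units.val hg⟩, congrArg _ (Units.ext rfl)⟩

theorem SL_mem (s : SpecialLinearGroup ι F) :
    glEquiv ι F (SpecialLinearGroup.toGL s) ∈ LinearEquiv.det.ker := by
  rw [MonoidHom.mem_ker, linearEquiv_det_glEquiv]; simp

theorem np_SL [Nonempty ι] {r p : ℕ} [Fact r.Prime] [CharP F r] (hp : p.Prime) (hpr : p ≠ r)
    {w : (ι → F) ≃ₗ[F] (ι → F)} (hw : w ∈ LinearEquiv.det.ker) (ho : POrd p w) :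
    NPs p (LinearEquiv.det.ker : Subgroup ((ι → F) ≃ₗ[F] (ι → F))) := by
  intro N hle hN hk n hn
  let φ : SpecialLinearGroup ι F →* ((ι → F) ≃ₗ[F] (ι → F)) :=
    (glEquiv ι F).toMonoidHom.comp SpecialLinearGroup.toGL
  have : (N.comap φ).Normal := ⟨fun a ha g => by
    rw [Subgroup.mem_comap, map_mul, map_mul, map_inv]; exact hN _ (SL_mem g) _ ha⟩
  by_cases h : MulAction.fixedPoints (N.comap φ) (ℙ F (ι → F)) = .univ
  · obtain ⟨s, rfl⟩ := exists_SL (hle hn)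
    obtain ⟨c, hc⟩ := eq_scalar_of_forall_par s.1 fun v => by
      by_cases hv : v = 0
      · exact ⟨0, by simp [hv]⟩
      obtain ⟨c, hc⟩ := (Projectivization.mk_eq_mk_iff' _ _ _ _ _).1
        (Set.eq_univ_iff_forall.1 h (.mk F v hv) ⟨s, hn⟩)
      exact ⟨c, hc.symm⟩
    exact ⟨c, fun v => by
      change s.1 *ᵥ v = _
      rw [hc]; ext; simp [mulVec_diagonal]⟩
  exfalso
  have := MulAction.IsQuasiPreprimitive.isPretransitive_of_normal h
  have hv : (fun _ => 1 : ι → F) ≠ 0 := fun h => one_ne_zero (congrFun h (_root_.Classical.arbitrary ι))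
  have hU : IsPGroup r (SpecialLinearGroup.lineStab (Projectivization.mk F _ hv).submodule) := fun ⟨A, hA⟩ => by
    rw [Projectivization.submodule_mk] at hA
    refine ⟨1, Subtype.ext (SL_ext_mulVec fun v => ?_)⟩
    obtain ⟨c, hc⟩ := Submodule.mem_span_singleton.1 (hA v)
    have h1 := SpecialLinearGroup.lineStab_fix_of_span _ hv A hA
    have : ∀ k : ℕ, (A ^ k) • v = v + ((k : F) * c) • fun _ => 1 := fun k => by
      induction k with
      | zero => simp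
      | succ k ih =>
        rw [pow_succ', mul_smul, ih, smul_add, smul_comm, h1, ← sub_add_cancel (A • v) v, ← hc]
        push_cast; module
    have := this r
    rw [CharP.cast_eq_zero, zero_mul, zero_smul, add_zero] at this
    rw [pow_one]
    exact this.trans (one_mulVec v).symm
  obtain ⟨s, rfl⟩ := exists_SL hw
  have hs : s ∈ N.comap φ ⊔ SpecialLinearGroup.lineStab (Projectivization.mk F _ hv).submodule := by
    refine SetLike.le_def.1 (?_ : ⊤ ≤ _) (Subgroup.mem_top s)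
    rw [← Classical.iSup_lineStab_eq_top.resolve_right (by simp), iSup_le_iff]
    intro x
    obtain ⟨g, rfl⟩ := MulAction.exists_smul_eq (N.comap φ) (Projectivization.mk F _ hv) x
    rw [Subgroup.smul_def, PSL.smul_submodule, SpecialLinearGroup.lineStab_smul]
    rintro _ ⟨k, hk, rfl⟩
    exact mul_mem (mul_mem (Subgroup.mem_sup_left g.2) (Subgroup.mem_sup_right hk))
      (inv_mem (Subgroup.mem_sup_left g.2))
  obtain ⟨a, ha⟩ := pow_mem_of_sup (fun u _ n hn => Subgroup.Normal.conj_mem ‹_› n hn u) hU hs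
  obtain ⟨k, hk, hs⟩ := hk _ ha
  rw [map_pow, ← pow_mul] at hs
  rcases (Nat.Prime.dvd_mul hp).1 (ho _ hs) with h | h
  · exact hpr ((Nat.prime_dvd_prime_iff_eq hp Fact.out).1 (hp.dvd_of_dvd_pow h))
  · exact hp.one_lt.ne' (hk.symm.eq_one_of_dvd h)

theorem cent_SL (h2 : 2 ≤ Fintype.card ι) :
    Cent (LinearEquiv.det.ker : Subgroup ((ι → F) ≃ₗ[F] (ι → F))) := by
  intro T ρ hT h
  have key : ∀ u, ∃ c : F, T u = c • u := fun u => by
    obtain ⟨φ, hφ, e⟩ := exists_dot_zero_one h2 u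
    rw [dotProduct_comm] at e
    obtain ⟨c, hc⟩ := h _ (SL_mem (tv u φ e))
    have hc' : ∀ v, T (v + (φ ⬝ᵥ v) • u) = c • (T v + (φ ⬝ᵥ T v) • u) := fun v => by
      rw [← tv_mulVec u φ e, ← tv_mulVec u φ e]; exact hc v
    by_cases h1 : c = 1
    · obtain ⟨v, hv⟩ := exists_dot_eq_one hφ
      exact ⟨φ ⬝ᵥ T v, by simpa [h1, hv] using hc' v⟩
    · have := hc' u
      rw [e, zero_smul, add_zero] at this
      refine ⟨(1 - c)⁻¹ * (c * φ ⬝ᵥ T u), ?_⟩
      rw [mul_smul, eq_inv_smul_iff₀ (sub_ne_zero.2 (Ne.symm h1)), sub_smul, one_smul, sub_eq_iff_eq_add']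
      rw [mul_smul, ← smul_add]; exact this
  obtain ⟨n, rfl, rfl⟩ := exists_act T ρ hT
  obtain ⟨i, j, hij⟩ := Fintype.exists_pair_of_one_lt_card (α := ι) (by omega)
  have hs : ∀ k (a : F), AutCl.act n (Pi.single k a) = n.right a • AutCl.act n (Pi.single k 1) := fun k a => by
    rw [← act_smul, ← Pi.single_smul, smul_eq_mul, mul_one]
  have h1 : n.right = 1 := RingEquiv.ext fun a => by
    obtain ⟨b, hb⟩ := key (Pi.single i 1)
    obtain ⟨c, hc⟩ := key (Pi.single j 1)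
    obtain ⟨d, hd⟩ := key (Pi.single i 1 + Pi.single j 1)
    obtain ⟨e, he⟩ := key (Pi.single i 1 + Pi.single j a)
    have hc0 : c ≠ 0 := by rintro rfl; simpa using hc
    rw [map_add, hb, hc] at hd
    rw [map_add, hs j, hb, hc] at he
    have h1 := congrFun hd i
    have h2 := congrFun hd j
    have h3 := congrFun he i
    have h4 := congrFun he j
    simp [hij, hij.symm] at h1 h2 h3 h4
    rw [← h3, h1, ← h2, mul_comm] at h4
    exact mul_left_cancel₀ hc0 h4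
  obtain ⟨c, hc⟩ := eq_scalar_of_forall_par n.left.1 fun v => by
    simpa [act_apply, h1] using key v
  exact ⟨h1, c, fun v => by rw [act_apply, hc, h1]; ext; simp [mulVec_diagonal]⟩

theorem exists_pord_SL [Finite F] (h2 : 2 ≤ Fintype.card ι) {r p : ℕ} [Fact r.Prime] [CharP F r]
    (hp : p.Prime) (hpr : p ≠ r) {h : GL ι F} (ho : POrd p (glEquiv ι F h)) :
    ∃ w ∈ (LinearEquiv.det.ker : Subgroup ((ι → F) ≃ₗ[F] (ι → F))), POrd p w := by
  obtain ⟨i, j, hij⟩ := Fintype.exists_pair_of_one_lt_card (α := ι) (by omega)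
  have := Fact.mk hp
  by_cases h2 : p = 2
  · subst h2
    let s : SpecialLinearGroup ι F := tv (Pi.single i 1) (Pi.single j 1) (by simp [hij.symm]) *
      tv (-Pi.single j 1) (Pi.single i 1) (by simp [hij]) * tv (Pi.single i 1) (Pi.single j 1) (by simp [hij.symm])
    have h1 : s.1 *ᵥ Pi.single i 1 = -Pi.single j 1 := by
      rw [SL_mul_mulVec, SL_mul_mulVec, tv_mulVec, tv_mulVec, tv_mulVec]; simp [hij, hij.symm]
    have h2 : s.1 *ᵥ Pi.single j 1 = Pi.single i 1 := by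
      rw [SL_mul_mulVec, SL_mul_mulVec, tv_mulVec, tv_mulVec, tv_mulVec]; simp [hij, hij.symm]
    refine ⟨_, SL_mem s, fun k ⟨c, hc⟩ => ?_⟩
    have h3 : ∀ m : ℕ, (glEquiv ι F (SpecialLinearGroup.toGL s) ^ (2 * m)) (Pi.single j 1) =
        (-1 : F) ^ m • Pi.single j 1 := fun m => by
      induction m with
      | zero => simp
      | succ m ih =>
        rw [mul_add, mul_one, pow_add, LinearEquiv.mul_apply, sq, LinearEquiv.mul_apply]
        change (_ ^ _ : _ ≃ₗ[F] _) (s.1 *ᵥ (s.1 *ᵥ _)) = _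
        rw [h2, h1, map_neg, ih, pow_succ]; simp
    by_contra hk
    obtain ⟨m, rfl⟩ : ∃ m, k = 1 + 2 * m := ⟨k / 2, by omega⟩
    have h4 := congrFun (hc (Pi.single j 1)) i
    rw [pow_add, pow_one, LinearEquiv.mul_apply, h3, map_smul] at h4
    change (_ • (s.1 *ᵥ _)) i = _ at h4
    simp [h2, hij] at h4
  by_cases hd : p ∣ Nat.card Fˣ
  · obtain ⟨a, ha⟩ := exists_prime_orderOf_dvd_card' p hd
    exact ⟨_, SL_mem _, pord_diag hij hp h2 ha⟩
  · exact ⟨glEquiv ι F h ^ Nat.card Fˣ, by rw [MonoidHom.mem_ker, map_pow, pow_card_eq_one'],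
      ho.of_pow (c := 1) (hp.coprime_iff_not_dvd.2 hd) fun v => (one_smul _ _).symm⟩

theorem det_semi (n : GaL ι F) {u : (ι → F) ≃ₗ[F] (ι → F)} (hu : u ∈ LinearEquiv.det.ker) :
    ∃ u' ∈ (LinearEquiv.det.ker : Subgroup ((ι → F) ≃ₗ[F] (ι → F))),
      ∀ v, u' (AutCl.act n v) = AutCl.act n (u v) := by
  obtain ⟨s, rfl⟩ := exists_SL hu
  refine ⟨_, SL_mem (slConj n.left (slField n.right s)), fun v => ?_⟩
  change (slConj n.left (slField n.right s)).1 *ᵥ _ = AutCl.act n (s.1 *ᵥ v)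
  rw [slConj_coe, slField_coe, act_apply, act_apply, map_mulVec', ← mulVec_mulVec, GL_inv_mulVec,
    mulVec_mulVec]

theorem diagAut_mem_inn {g : GL ι F} (h : g.1.det = 1) :
    (diagAut g : MulAut (ProjectiveSpecialLinearGroup ι F)) ∈ Cfsg.Inn _ :=
  ⟨QuotientGroup.mk ⟨g.1, h⟩, (conj_mk_eq_diagAut _).trans (congrArg _ (Units.ext rfl))⟩

variable [Finite F] {r : ℕ} [Fact r.Prime] [CharP F r]

omit [Finite F] in
include r in
theorem par_of_fix_graph {h : GL ι F} {ρ : F ≃+* F} {u φ : ι → F} {e : φ ⬝ᵥ u = 0} (hu : u ≠ 0) (hφ : φ ≠ 0)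
    (H : (diagAut h * fieldAut ρ * itAut : MulAut (ProjectiveSpecialLinearGroup ι F))
      (QuotientGroup.mk (tv u φ e)) = QuotientGroup.mk (tv u φ e)) : ∃ c : F, u = c • h.1 *ᵥ (ρ ∘ φ) := by
  refine par_of_mem_TP (p := r) (h := e) hu hφ ?_
  rw [← TP_map_diagAut, ← TP_map_fieldAut, ← TH_map_itAut, ← map_mul_aut, ← map_mul_aut]
  exact ⟨_, mk_tv_mem_TH e, H⟩

include r in
theorem graph_order {n : ℕ} (hn : 3 ≤ n) (g : GL (Fin n) F) (σ : F ≃+* F) {k : ℕ}
    (h : (diagAut g * fieldAut σ * itAut : MulAut (ProjectiveSpecialLinearGroup (Fin n) F)) ^ k = 1) :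
    2 ∣ k ∧ σ ^ k = 1 := by
  obtain ⟨π, -, h1, h2⟩ := exists_autHom_three (p := r) (F := F) hn
  have h3 := congrArg π h
  rw [map_pow, mul_assoc, map_mul, show π (diagAut g) = 1 from h1.ge ⟨g, rfl⟩, one_mul, map_one,
    show fieldAut σ * itAut = fieldGraphHom (σ, Multiplicative.ofAdd 1) by
      rw [fieldGraphHom_apply, itHom_eq, if_neg (by decide)], h2] at h3
  refine ⟨?_, congrArg Prod.fst h3⟩
  have := orderOf_dvd_of_pow_eq_one (congrArg Prod.snd h3)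
  rwa [show orderOf (Multiplicative.ofAdd (1 : ZMod 2)) = 2 by
    rw [orderOf_ofAdd_eq_addOrderOf, ZMod.addOrderOf_one]] at this

theorem psl_field_kill {n : ℕ} (hn : 2 ≤ n) (hZ : Subgroup.center (ProjectiveSpecialLinearGroup (Fin n) F) = ⊥)
    {p : ℕ} (hp : p.Prime) (hpr : p ≠ r) {m : (⊤ : Subgroup (GaL (Fin n) F))} (h1 : m.1.right ≠ 1)
    (hord : orderOf (pslTheta m) = p) (hk : ∃ k ∈ Cfsg.Inn _, k * pslTheta m = pslTheta m * k ∧ k ≠ 1 ∧ k ^ p = 1) :
    Kill p (Cfsg.Inn _) (pslTheta m) := by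
  have h2 : 2 ≤ Fintype.card (Fin n) := by simpa
  have P := pMod_psl (F := F) h2
  have := P.ne
  have ho := P.orderOf_right h1 hp hord
  obtain ⟨d, g, e⟩ := P.exists_descent ho (hord ▸ pow_orderOf_eq_one _)
  obtain ⟨K, hf, -⟩ := exists_isFix_card m.1.right
  obtain ⟨k, hk, hx, hk1, hkp⟩ := hk
  obtain ⟨h, -, hh⟩ := desc_ord P hf hp e (inn_le_range_diagAut hk) hx hk1 hkp
  obtain ⟨w, hw, hw'⟩ := exists_pord_SL h2 hp hpr hh
  refine Kill.conj (α := (diagAut g)⁻¹) ?_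
  have h5 : pslTheta m = pslTheta ⟨inl g * inr m.1.right * (inl g)⁻¹, Subgroup.mem_top _⟩ :=
    (P.eq_iff _ _).2 ⟨d, e⟩
  have h6 : (diagAut g)⁻¹ * pslTheta m * (diagAut g)⁻¹⁻¹ = pslTheta ⟨inr m.1.right, Subgroup.mem_top _⟩ := by
    rw [h5]
    simp [pslTheta_apply, mul_assoc, fieldAut_mul_diagAut]
  rw [h6]
  refine kill_of_two (R := pslTheta.range) (fun _ hk => ?_) (fun M hM hA => desc_kill P hf ho (d := 1) (g := 1)
    (by simp [scal_one]) (np_SL hp hpr hw hw') (cent_SL h2) (fun s hs => ⟨Subgroup.mem_top _, ?_⟩)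
    (fun _ n₀ _ _ _ u hu => det_semi n₀ hu) hM hA) fun y _ _ hy => ?_
  · obtain ⟨s, rfl⟩ := inn_le_range_diagAut hk
    exact ⟨⟨inl s, Subgroup.mem_top _⟩, by simp [pslTheta_apply]⟩
  · rw [MonoidHom.mem_ker, linearEquiv_det_glEquiv] at hs
    simp only [pslTheta_apply, left_inl, right_inl, map_one, mul_one]
    refine diagAut_mem_inn ?_
    rw [rh_apply, one_mul, inv_one, mul_one]
    have := GeneralLinearGroup.map_det K.subtype s
    rw [hs, map_one] at this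
    exact congrArg Units.val this
  obtain ⟨h, ρ, γ, rfl | ⟨h3, rfl⟩, rfl⟩ := exists_decomp (p := r) hn y
  · exact ⟨⟨⟨h, ρ⟩, Subgroup.mem_top _⟩, (mul_one _).symm⟩
  exfalso
  have hs : ∀ i : Fin n, m.1.right ∘ Pi.single i 1 = Pi.single i 1 := fun i => by
    ext; simp [Pi.single_apply, apply_ite m.1.right]
  have key : ∀ i j : Fin n, i ≠ j → ∃ c : F, Pi.single i 1 = c • h.1 *ᵥ Pi.single j 1 := fun i j hij => by
    have e : (Pi.single j 1 : Fin n → F) ⬝ᵥ Pi.single i 1 = 0 := by simp [hij.symm]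
    simpa [show ρ ∘ Pi.single j 1 = Pi.single j 1 by ext; simp [Pi.single_apply, apply_ite ρ]] using
      par_of_fix_graph (r := r) (h := h) (ρ := ρ) (e := e) (by simp) (by simp)
      ((conj_comm_iff hZ _ _).1 (hy _ ⟨_, rfl⟩ ((conj_comm_iff hZ _ _).2 (by
        rw [← fieldAut_eq, fieldAut_mk, slField_tv]; exact congrArg _ (tv_congr (hs i) (hs j))))))
  obtain ⟨a, ha⟩ := key ⟨0, by omega⟩ ⟨1, by omega⟩ (by simp)
  obtain ⟨b, hb⟩ := key ⟨0, by omega⟩ ⟨2, by omega⟩ (by simp)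
  have h4 := congrArg (h⁻¹.1 *ᵥ ·) (ha.symm.trans hb)
  simp only [mulVec_smul, GL_inv_mulVec] at h4
  have h5 := congrFun h4 ⟨1, by omega⟩
  simp at h5
  simp [h5] at ha

omit [Fact r.Prime] [CharP F r] in
theorem gr_comm (h2 : 2 ≤ Fintype.card ι) (g : GL ι F) (σ : F ≃+* F) (n : (⊤ : Subgroup (GaL ι F))) :
    pslTheta n * (diagAut g * fieldAut σ * itAut) = diagAut g * fieldAut σ * itAut * pslTheta n ↔
      ∃ c : Fˣ, ∀ u v, (σ ∘ AutCl.act n.1 u) ⬝ᵥ (g⁻¹.1 *ᵥ AutCl.act n.1 v) =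
        c * n.1.right ((σ ∘ u) ⬝ᵥ (g⁻¹.1 *ᵥ v)) := by
  obtain ⟨⟨h, ρ⟩, -⟩ := n
  have := isCyclic_ringAut (F := F)
  have hc : σ * ρ = ρ * σ := mul_comm' _ _
  have e1 : (diagAut h * fieldAut ρ * (diagAut g * fieldAut σ * itAut) :
      MulAut (ProjectiveSpecialLinearGroup ι F)) = diagAut (h * glField ρ g) * (fieldAut (ρ * σ) * itAut) := by
    rw [map_mul, map_mul]
    simp only [mul_assoc]
    rw [← mul_assoc (fieldAut ρ), fieldAut_mul_diagAut, mul_assoc]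
  have e2 : (diagAut g * fieldAut σ * itAut * (diagAut h * fieldAut ρ) :
      MulAut (ProjectiveSpecialLinearGroup ι F)) =
      diagAut (g * glField σ (glIT h)) * (fieldAut (ρ * σ) * itAut) := by
    rw [← hc, map_mul, map_mul, mul_assoc (diagAut g), mul_assoc (diagAut g), ← mul_assoc (_ * itAut),
      gf_mul_diagAut]
    simp only [mul_assoc, (commute_itAut_fieldAut ρ).eq]
  simp only [pslTheta_apply]
  rw [e1, e2, mul_left_inj, ← mul_inv_eq_one, ← map_inv, ← map_mul, diagAut_eq_one_iff h2]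
  refine exists_congr fun c => ?_
  have e3 : ∀ u v, (σ ∘ AutCl.act ⟨h, ρ⟩ u) ⬝ᵥ (g⁻¹.1 *ᵥ AutCl.act ⟨h, ρ⟩ v) =
      Matrix.toBilin' ((glField σ (glIT h))⁻¹ * g⁻¹ * h).1 (σ ∘ ρ ∘ u) (ρ ∘ v) := fun u v => by
    rw [toBilin'_apply', act_apply, act_apply, Units.val_mul, Units.val_mul, coe_gf_inv, ← mulVec_mulVec,
      ← mulVec_mulVec, dotProduct_mulVec (σ ∘ ρ ∘ u), vecMul_transpose]
    exact congrArg (· ⬝ᵥ _) (map_mulVec' σ _ _)
  have e4 : ∀ u v, ρ ((σ ∘ u) ⬝ᵥ (g⁻¹.1 *ᵥ v)) =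
      Matrix.toBilin' (glField ρ g)⁻¹.1 (σ ∘ ρ ∘ u) (ρ ∘ v) := fun u v => by
    rw [toBilin'_apply', ← dot_map, ← map_inv]
    congr 1
    · ext i; exact (congrArg (fun φ : F ≃+* F => φ (u i)) hc).symm
    · exact map_mulVec' ρ _ _
  simp only [e3, e4]
  rw [show (∀ u v, _) ↔ ∀ u v, Matrix.toBilin' ((glField σ (glIT h))⁻¹ * g⁻¹ * h).1 u v =
      c * Matrix.toBilin' (glField ρ g)⁻¹.1 u v from ⟨fun H u v => by
        simpa [Function.comp_def] using H (ρ.symm ∘ σ.symm ∘ u) (ρ.symm ∘ v), fun H u v => H _ _⟩,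
    Gr.toBilin'_eq_iff, show c.1 • (glField ρ g)⁻¹.1 = (scal c * (glField ρ g)⁻¹).1 by
      ext; simp [scal, diagonal_mul], Units.val_inj, eq_mul_inv_iff_mul_eq, mul_inv_eq_iff_eq_mul,
    mul_assoc _ h, ← _root_.mul_inv_rev, inv_mul_eq_iff_eq_mul, scal_comm]

theorem psl_graph_kill {n : ℕ} (hn : 3 ≤ n) (hr : r ≠ 2) {g : GL (Fin n) F} {σ : F ≃+* F} {σ' : F →+* F}
    {Φ : Formed σ' (Fin n → F)} (G : Gd Φ) (hB : ∀ u v, Φ.B u v = (σ ∘ u) ⬝ᵥ (g⁻¹.1 *ᵥ v))
    (hQ : ∀ u, Φ.Q u = 0) : Kill 2 (Cfsg.Inn (ProjectiveSpecialLinearGroup (Fin n) F))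
      (diagAut g * fieldAut σ * itAut) := by
  have h2 : 2 ≤ Fintype.card (Fin n) := by simp; omega
  have P := pMod_psl (F := F) h2
  refine kill_of_two (R := pslTheta.range) (fun _ hk => ?_) (fun M hM hA => lin_kill P (np_two G hr)
    (cent_EG G) (fun s hs => ⟨Subgroup.mem_top _, ?_, (gr_comm h2 _ _ _).2 ⟨1, fun u v => ?_⟩⟩)
    (fun m hm u hu => ?_) hM hA) fun y _ hy _ => ?_
  · obtain ⟨s, rfl⟩ := inn_le_range_diagAut hk
    exact ⟨⟨inl s, Subgroup.mem_top _⟩, by simp [pslTheta_apply]⟩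
  · have h2 : LinearEquiv.det (glEquiv _ F s) = 1 :=
      EG_le (S := LinearEquiv.det.ker) (fun _ _ _ _ h => (h.unip r).det_eq_one) hs
    rw [linearEquiv_det_glEquiv] at h2
    simp only [pslTheta_apply, left_inl, right_inl, map_one, mul_one]
    exact diagAut_mem_inn (congrArg Units.val h2)
  · rw [← hB, ← hB]; simpa using (EG_le_isom hs).1 u v
  · obtain ⟨c, hc⟩ := (gr_comm h2 _ _ _).1 hm
    exact semi_EG G ⟨c.ne_zero, act_smul _, fun x y => by rw [hB, hB, hc], fun x => by simp [hQ]⟩ hu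
  obtain ⟨h, ρ, γ, rfl | ⟨h3, rfl⟩, rfl⟩ := exists_decomp (p := r) (by omega) y
  · exact ⟨⟨⟨h, ρ⟩, Subgroup.mem_top _⟩, (mul_one _).symm⟩
  · exact absurd (hy.symm.eq_one_of_dvd (graph_order (r := r) hn h ρ (pow_orderOf_eq_one _)).1) (by norm_num)

theorem psl_bal {F : Type*} [Field F] [Fintype F] [CharP F r] {n : ℕ} (hn : 2 ≤ n)
    [hK : IsSimpleGroup (ProjectiveSpecialLinearGroup (Fin n) F)]
    {A : Subgroup (MulAut (ProjectiveSpecialLinearGroup (Fin n) F))} (hinn : ∀ k, MulAut.conj k ∈ A)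
    {p : ℕ} [Fact p.Prime] (hpr : p ≠ r) {x : MulAut (ProjectiveSpecialLinearGroup (Fin n) F)}
    (hord : orderOf x = p) (hnot : ¬ IsInnerDiagonalAutPSL x) :
    pPrimeCore p ↥(A ⊓ Subgroup.centralizer {x}) ≠ ⊥ ↔ ((∃ γ φ : MulAut (ProjectiveSpecialLinearGroup (Fin n) F),
      IsInnerDiagonalAutPSL γ ∧ IsFieldAutPSL φ ∧ x = φ.trans γ) ∧
      Nat.Coprime p (Nat.card ↥(MonoidHom.eqLocus x.toMonoidHom (MonoidHom.id _)))) := by
  have hp : p.Prime := Fact.out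
  have h2 : 2 ≤ Fintype.card (Fin n) := by simpa
  obtain ⟨i, j, hij⟩ := Fintype.exists_pair_of_one_lt_card (α := Fin n) (by omega)
  have hZ : Subgroup.center (ProjectiveSpecialLinearGroup (Fin n) F) = ⊥ := by
    refine (Subgroup.Normal.eq_bot_or_eq_top inferInstance).resolve_right fun h => ?_
    have e : (Pi.single j 1 : Fin n → F) ⬝ᵥ Pi.single i 1 = 0 := by simp [hij]
    have e' : (Pi.single i 1 : Fin n → F) ⬝ᵥ Pi.single j 1 = 0 := by simp [hij.symm]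
    have := commute_of_mk (p := r) (Subgroup.mem_center_iff.1 (h.ge (Subgroup.mem_top
      (QuotientGroup.mk (tv _ _ e)))) (QuotientGroup.mk (tv _ _ e')))
    rw [tv_conj] at this
    obtain ⟨c, hc⟩ := (par_of_tv_eq (by simp) (by simp) this.symm).1
    rw [tv_mulVec] at hc
    have h0 := congrFun hc i
    have h1 := congrFun hc j
    simp [hij, hij.symm] at h0 h1
    simp [← h1] at h0
  obtain ⟨g, σ, γ, rfl | ⟨h3, rfl⟩, rfl⟩ := exists_decomp (p := r) hn x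
  · rw [mul_one] at *
    refine bal_iff hZ hinn hord (psl_field_kill hn hZ hp hpr (m := ⟨⟨g, σ⟩, Subgroup.mem_top _⟩) ?_ hord)
      fun _ => ⟨_, _, (isInnerDiagonal_iff _).2 ⟨g, rfl⟩, ⟨σ, (isStdField_iff σ _).2 rfl⟩, rfl⟩
    rintro rfl
    exact hnot ((isInnerDiagonal_iff _).2 ⟨g, by simp⟩)
  have hx := pow_orderOf_eq_one (diagAut g * fieldAut σ * itAut : MulAut (ProjectiveSpecialLinearGroup (Fin n) F))
  rw [hord] at hx
  obtain ⟨h4, h5⟩ := graph_order (r := r) h3 g σ hx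
  obtain rfl := ((Nat.prime_dvd_prime_iff_eq Nat.prime_two hp).1 h4).symm
  have hr : (2 : F) ≠ 0 := mt (two_eq_zero_iff F r).1 hpr.symm
  refine bal_iff hZ hinn hord (fun _ => ?_) fun h => absurd ?_ h
  swap
  · let t := SpecialLinearGroup.diag2n hij (-1 : F) (by simp)
    have ht : orderOf (QuotientGroup.mk t : ProjectiveSpecialLinearGroup (Fin n) F) = 2 := by
      refine orderOf_eq_prime ?_ fun h => ?_
      · rw [← QuotientGroup.mk_pow, show t ^ 2 = 1 from Subtype.ext ?_]; rfl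
        change diagonal _ ^ 2 = 1
        rw [diagonal_pow, ← diagonal_one]
        congr 1; ext i; dsimp; split_ifs <;> simp
      · obtain ⟨c, -, hc⟩ := Matrix.SpecialLinearGroup.mem_center_iff.1
          ((QuotientGroup.eq_one_iff (N := Subgroup.center _) t).1 h)
        obtain ⟨k, hik, hkj⟩ := Classical.exists_ne_ne_of_three_le (by simpa) i j
        have h0 := congrFun (congrFun hc i) i
        have h1 := congrFun (congrFun hc k) k
        simp [t, SpecialLinearGroup.diag2n_coe, hik.symm, hkj] at h0 h1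
        exact hr (by linear_combination h0 - h1)
    exact ht ▸ orderOf_dvd_natCard _
  by_cases hσ : σ = 1
  · subst hσ
    have := (pMod_psl (F := F) h2).ne
    obtain ⟨c, hc⟩ := (Gr.psl_sq h2 g).1 (by simpa using hx)
    obtain ⟨Φ, h6, h7, G⟩ := gd_bilin hr (by simpa) (Gr.nd_toBilin' g⁻¹) fun x y => hc y x
    exact psl_graph_kill h3 hpr.symm G (fun u v => by rw [h6]; exact toBilin'_apply' _ _ _) h7
  · obtain ⟨k, -, hF⟩ := FiniteField.card F r
    obtain ⟨-, hF', hq⟩ := eq_frobq_of_order hF (orderOf_eq_prime h5 hσ)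
    obtain ⟨α, -, e⟩ := lang_gf hF' hq hn ⟨g, rfl⟩ (by rwa [← mul_assoc])
    refine Kill.conj (α := α⁻¹) ?_
    rw [mul_assoc (diagAut g), e, show α⁻¹ * (α * (fieldAut σ * itAut) * α⁻¹) * α⁻¹⁻¹ =
      diagAut 1 * fieldAut σ * itAut by simp [mul_assoc]]
    exact psl_graph_kill h3 hpr.symm (cl_gd (clSU hF' h3)) (fun u v => by
      simp [hermForm, dotProduct, hq, mul_comm]) fun _ => rfl

end Cfsg.Agent.Mult.Bal
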