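import Cfsg.Agent.Mult.Bal7
import Mathlib.Algebra.QuadraticAlgebra.Basic

/-! Local balance for graph involutions of even-dimensional orthogonal groups: `emb_kill`,
`orth_half`, `orth_inv_kill`, `orth_ext_kill`, `orth_graph_kill`. -/

set_option autoImplicit false

namespace Cfsg.Agent.Mult.Bal

open Cfsg.Agent.Geom Cfsg.Agent.Geom.Formed Cfsg.Agent.AutCl Module SemidirectProduct
open Matrix hiding inv_inj mul_inv_rev

section Lin
variable {F : Type*} [Field F] {V : Type*} [AddCommGroup V] [Module F V]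

theorem kill' {X : Type*} [Group X] [Finite X] {p : ℕ} {K : Subgroup X} {x : X} {M : Subgroup X}
    (hM : Adm p K x M) {G : Subgroup (V ≃ₗ[F] V)} (hN : NPs p G) (hC : Cent G) (ℓ : G →* X)
    (hℓ : ∀ g, ℓ g = 1 → Scal g.1) (hK : ∀ g, ℓ g ∈ K ∧ ℓ g * x = x * ℓ g)
    {y : X} (hy : y ∈ M) {T : V ≃+ V} {ρ : F ≃+* F}
    (hT : ∀ (c : F) v, T (c • v) = ρ c • T v) (hI : Ind ℓ y T) : ρ = 1 ∧ ∃ c : F, ∀ v, T v = c • v := by
  have h1 : ∀ g, ℓ g ∈ M → Scal g.1 := fun g hg => hN ((M.comap ℓ).map G.subtype)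
    (Subgroup.map_subtype_le _) (by
      rintro a ha _ ⟨n, hn, rfl⟩
      refine ⟨⟨a, ha⟩ * n * ⟨a, ha⟩⁻¹, ?_, rfl⟩
      simpa using hM.nrm _ (hK ⟨a, ha⟩).1 (hK _).2 _ hn) (by
      rintro _ ⟨n, hn, rfl⟩
      exact ⟨_, hM.cop_order hn, hℓ (n ^ orderOf (ℓ n)) (by rw [map_pow, pow_orderOf_eq_one])⟩)
      _ ⟨g, hg, rfl⟩
  refine hC T ρ hT fun g hg => ?_
  obtain ⟨g', e, e'⟩ := hI ⟨g, hg⟩
  have h2 : ℓ (g' * ⟨g, hg⟩⁻¹) ∈ M := by
    rw [map_mul, ← e', map_inv]
    simpa [mul_assoc] using mul_mem hy (hM.nrm _ (hK ⟨g, hg⟩).1 (hK _).2 _ (inv_mem hy))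
  obtain ⟨c, hc⟩ := h1 _ h2
  exact ⟨c, fun v => by simpa [e] using hc (g (T v))⟩

/-- Extension by the identity on a complement. -/
noncomputable def extG {W W' : Submodule F V} (h : IsCompl W W') : (W ≃ₗ[F] W) →* (V ≃ₗ[F] V) where
  toFun g := (W.prodEquivOfIsCompl W' h).symm ≪≫ₗ g.prodCongr (.refl F W') ≪≫ₗ W.prodEquivOfIsCompl W' h
  map_one' := LinearEquiv.ext fun v => (W.prodEquivOfIsCompl W' h).apply_symm_apply v
  map_mul' _ _ := LinearEquiv.ext fun v => by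
    simp only [LinearEquiv.trans_apply, LinearEquiv.mul_apply, LinearEquiv.symm_apply_apply]; rfl

theorem extG_apply {W W' : Submodule F V} (h : IsCompl W W') (g : W ≃ₗ[F] W) (w : W) (w' : W') :
    extG h g (w + w') = g w + w' := by
  change W.prodEquivOfIsCompl W' h (g.prodCongr (.refl F W') ((W.prodEquivOfIsCompl W' h).symm
    (W.prodEquivOfIsCompl W' h (w, w')))) = _
  rw [LinearEquiv.symm_apply_apply]; rfl

theorem isCompl_inv (h2 : (2 : F) ≠ 0) {S : V →ₗ[F] V} (h : ∀ v, S (S v) = v) :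
    IsCompl (LinearMap.ker (S - 1)) (LinearMap.ker (S + 1)) := by
  refine ⟨Submodule.disjoint_def.2 fun v h1 h3 => ?_, codisjoint_iff.2 (Submodule.eq_top_iff'.2 fun v =>
    Submodule.mem_sup.2 ⟨(2 : F)⁻¹ • (v + S v), by simp [h, add_comm], (2 : F)⁻¹ • (v - S v), by simp [h], ?_⟩)⟩
  · simp only [LinearMap.mem_ker, LinearMap.sub_apply, LinearMap.add_apply, Module.End.one_apply] at h1 h3
    rw [sub_eq_zero.1 h1, ← two_smul F] at h3
    exact (smul_eq_zero.1 h3).resolve_left h2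
  · rw [← smul_add, add_add_sub_cancel, ← two_smul F, smul_smul, inv_mul_cancel₀ h2, one_smul]

theorem det_inv [FiniteDimensional F V] (h2 : (2 : F) ≠ 0) {S : V →ₗ[F] V} (h : ∀ v, S (S v) = v) :
    LinearMap.det S = (-1) ^ finrank F (LinearMap.ker (S + 1)) := by
  have h1 : ∀ w ∈ LinearMap.ker (S + 1), S w = -w := fun w hw => eq_neg_of_add_eq_zero_left hw
  have h3 : LinearMap.ker (S + 1) ≤ (LinearMap.ker (S + 1)).comap S := fun w hw => by
    rw [Submodule.mem_comap, h1 w hw]; exact neg_mem hw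
  rw [S.det_eq_det_mul_det _ h3, show S.restrict h3 = (-1 : F) • LinearMap.id from
    LinearMap.ext fun w => Subtype.ext (by simp [h1 w.1 w.2]), LinearMap.det_smul, LinearMap.det_id,
    show Submodule.mapQ _ _ S h3 = LinearMap.id from LinearMap.ext fun x => by
      induction x using Submodule.Quotient.induction_on with
      | _ w => simp [Submodule.Quotient.eq, h], LinearMap.det_id, mul_one, mul_one]

end Lin

variable {ι : Type} [Fintype ι] [DecidableEq ι] {F : Type*} [Field F] [Finite F]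
  {Q : QuadraticForm F (ι → F)} (hQ : (ofQuad Q).Nondeg) (h7 : 7 ≤ Fintype.card ι)
  {r : ℕ} [Fact r.Prime] [CharP F r] (hr : r ≠ 2) {s : GL ι F} {hs : s ∈ Sim (ofQuad Q)}
  {M : Subgroup (MulAut (POmega F ⇑Q))}
  (hA : Adm 2 (Cfsg.Inn _) ((clO hQ h7).theta ⟨inl s, hs⟩) M)

omit [CharP F r] in
include hQ h7 hr in
theorem mem_comm_of_unip {g : OG Q} (h : Unip r g.1) : g ∈ commutator (OG Q) := by
  obtain ⟨k, hk⟩ := h
  have hk : g ^ r ^ k = 1 := Subtype.ext hk
  have key : ∀ φ : OG Q →* ℤˣ, φ g = 1 := fun φ => by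
    have := congrArg φ hk
    rwa [map_pow, map_one, Int.units_pow_eq_pow_mod_two,
      Nat.odd_iff.1 ((Fact.out : r.Prime).odd_of_ne_two hr).pow, pow_one] at this
  exact (mem_commutator_iff hQ (notExc_of_h7 h7) g).2 ⟨key (dickHom hQ (notExc_of_h7 h7)),
    key (spinHom hQ (notExc_of_h7 h7))⟩

include hr hA in
theorem emb_kill {E W : Type*} [Field E] [Finite E] [CharP E r] [AddCommGroup W] [Module E W]
    [FiniteDimensional E W] {σ : E →+* E} {Φ : Formed σ W} (G : Gd Φ)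
    (J : (W ≃ₗ[E] W) →* ((ι → F) ≃ₗ[F] (ι → F)))
    (hJ : ∀ g ∈ Φ.isom, J g ∈ OG Q ∧ (∀ v, J g (s.1 *ᵥ v) = s.1 *ᵥ J g v) ∧ (Scal (J g) → Scal g))
    {n : GamS (ofQuad Q)} (hy : (clO hQ h7).theta n ∈ M) {T : W ≃+ W} {ρ : E ≃+* E} {κ : E}
    (hT : Semi Φ T ρ κ) (hI : ∀ g g' : W ≃ₗ[E] W, (∀ w, g' (T w) = T (g w)) →
      ∀ v, J g' (AutCl.act n.1 v) = AutCl.act n.1 (J g v)) : ρ = 1 ∧ ∃ c : E, ∀ w, T w = c • w := by
  have C := clO hQ h7
  have P := C.pSim
  have := P.ne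
  have := cl_finite C
  have hK : ∀ u : EG Φ, ∃ hs : (glEquiv ι F).symm (J u) ∈ Sim (ofQuad Q),
      C.theta ⟨_, P.le _ hs⟩ ∈ Cfsg.Inn (POmega F ⇑Q) := fun u => cl_inn C (by
    obtain ⟨k, hk, e⟩ := EG_le (S := ((commutator (OG Q)).map (Subgroup.subtype _)).comap J)
      (fun _ _ _ g h => ⟨⟨_, (hJ g h.mem_isom).1⟩, mem_comm_of_unip hQ h7 hr
        ⟨2, by rw [← map_pow, h.pow_char r, map_one]⟩, rfl⟩) u.2
    exact exists_jO_iff.2 ⟨k, hk, (glEquiv ι F).injective (by rw [glEquiv_ogl]; simpa using e)⟩)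
  let ℓ : EG Φ →* MulAut (POmega F ⇑Q) := P.hom.comp
    (((glEquiv ι F).symm.toMonoidHom.comp (J.comp (EG Φ).subtype)).codRestrict _ fun u => (hK u).1)
  have hℓ : ∀ u, ℓ u = C.theta ⟨_, P.le _ (hK u).1⟩ := fun _ => rfl
  refine kill' hA (np_two G hr) (cent_EG G) ℓ (fun u hu => (hJ _ (EG_le_isom u.2)).2.2 ?_)
    (fun u => ⟨(hK u).2, ?_⟩) hy hT.smul fun u => ?_
  · obtain ⟨c, hc⟩ := (P.ker _).1 hu
    exact ⟨c, fun v => by rw [← glEquiv_symm_mulVec, show (glEquiv ι F).symm (J u) = scal c from inl_injective hc,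
      scal_mulVec]⟩
  · rw [hℓ, ← map_mul, ← map_mul]
    congr 1
    refine Subtype.ext (GaL.ext_act fun v => ?_)
    change AutCl.act (inl _ * inl _) _ = AutCl.act (inl _ * inl _) _
    rw [AutCl.act_mul, AutCl.act_mul, act_inl, act_inl, act_inl, act_inl, glEquiv_symm_mulVec,
      glEquiv_symm_mulVec, (hJ _ (EG_le_isom u.2)).2.1]
  · obtain ⟨u', hu', e'⟩ := semi_EG G hT u.2
    refine ⟨⟨u', hu'⟩, e', ?_⟩
    rw [hℓ, hℓ, ← map_inv, ← map_mul, ← map_mul]
    congr 1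
    refine Subtype.ext (mul_inv_eq_iff_eq_mul.2 (GaL.ext_act fun v => ?_))
    change AutCl.act (n.1 * inl _) _ = AutCl.act (inl _ * n.1) _
    rw [AutCl.act_mul, AutCl.act_mul, act_inl, act_inl, glEquiv_symm_mulVec, glEquiv_symm_mulVec, hI _ _ e']

theorem theta_sq {n : GamS (ofQuad Q)} (h1 : n.1.right = 1) {κ : F}
    (h : ∀ v, AutCl.act n.1 (AutCl.act n.1 v) = κ • v) : (clO hQ h7).theta n ^ 2 = 1 := by
  have P := (clO hQ h7).pSim
  have := P.ne
  have e := inl_left_of_right (n := n.1 * n.1) (by simp [h1])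
  obtain ⟨c, -, e'⟩ := exists_scal (g := (n.1 * n.1).left) (c := κ) fun v => by
    rw [← h, ← AutCl.act_mul, ← act_inl, ← e]
  rw [← map_pow, P.ker, sq]
  exact ⟨c, e' ▸ e⟩

include hQ h7 hA in
theorem exists_lam {n : GamS (ofQuad Q)} (hy : (clO hQ h7).theta n ∈ M) :
    ∃ l : Fˣ, ∀ v, AutCl.act n.1 (s.1 *ᵥ v) = (l : F) • s.1 *ᵥ AutCl.act n.1 v := by
  have h := hA.cen _ hy
  rw [← map_mul, ← map_mul, (clO hQ h7).pSim.eq_iff] at h
  obtain ⟨l, h⟩ := h
  exact ⟨l, fun v => by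
    simpa [AutCl.act_mul, ← mulVec_mulVec] using congrArg (AutCl.act · v) h⟩

include hr hA in
theorem orth_half (h1 : ∀ v, s.1 *ᵥ (s.1 *ᵥ v) = v) (hμ : Simi (ofQuad Q) (ofQuad Q) s 1)
    {n : GamS (ofQuad Q)} (hy : (clO hQ h7).theta n ∈ M) {κ : F}
    (hn : Semi (ofQuad Q) (AutCl.act n.1) n.1.right κ)
    (hc : ∀ v, AutCl.act n.1 (s.1 *ᵥ v) = s.1 *ᵥ AutCl.act n.1 v)
    (ho : Odd (finrank F (LinearMap.ker (toLin' s.1 - 1)))) :
    (finrank F (LinearMap.ker (toLin' s.1 - 1)) ≠ 1 → n.1.right = 1) ∧ (n.1.right = 1 →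
      ∀ w, s.1 *ᵥ w = w → AutCl.act n.1 (AutCl.act n.1 w) = κ • w) := by
  have h2 : (2 : F) ≠ 0 := mt (two_eq_zero_iff F r).1 hr
  have hW := isCompl_inv h2 (S := toLin' s.1) (by simpa using h1)
  set W := LinearMap.ker (toLin' s.1 - 1)
  set W' := LinearMap.ker (toLin' s.1 + 1)
  have mW : ∀ w, w ∈ W ↔ s.1 *ᵥ w = w := fun w => by simp [W, sub_eq_zero]
  have mW' : ∀ w, w ∈ W' ↔ s.1 *ᵥ w = -w := fun w => by simp [W', add_eq_zero_iff_eq_neg]
  have dec : ∀ v : ι → F, ∃ (w : W) (w' : W'), v = w + w' := fun v =>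
    let ⟨w, w', e, _⟩ := Submodule.existsUnique_add_of_isCompl hW v; ⟨w, w', e.symm⟩
  have perp : ∀ (w : W) (w' : W'), Q.polarBilin w w' = 0 := fun w w' => by
    have := hμ.B w w'
    rw [(mW _).1 w.2, (mW' _).1 w'.2, map_neg] at this
    change -Q.polarBilin w w' = 1 * Q.polarBilin w w' at this
    exact mul_left_cancel₀ h2 (by linear_combination -this)
  have nd : ∀ x : W, (∀ y : W, Q.polarBilin x y = 0) → x = 0 := fun x hx => Subtype.ext (hQ _ fun v => by
    obtain ⟨w, w', rfl⟩ := dec v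
    exact (map_add _ _ _).trans (by rw [show (ofQuad Q).B x w = 0 from hx w, show (ofQuad Q).B x w' = 0 from
      perp x w', add_zero]))
  have hnW : ∀ w : W, AutCl.act n.1 w ∈ W := fun w => (mW _).2 (by rw [← hc, (mW _).1 w.2])
  have hnW' : ∀ w : W', AutCl.act n.1 w ∈ W' := fun w => (mW' _).2 (by rw [← hc, (mW' _).1 w.2, map_neg])
  have key : finrank F W ≠ 1 → n.1.right = 1 ∧ ∃ a : F, ∀ w : W, AutCl.act n.1 w = a • w := fun h3 => by
    obtain ⟨Φ, hB, hQ', G⟩ := gd_bilin h2 (V := W) (by obtain ⟨k, hk⟩ := ho; omega)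
      (B := LinearMap.BilinForm.restrict Q.polarBilin W) nd (ε := 1) fun x y => by
        simp [QuadraticMap.polar_comm]
    let T : W ≃+ W :=
      { toFun w := ⟨_, hnW w⟩
        invFun w := ⟨AutCl.act n.1⁻¹ w, (mW _).2 ((AutCl.act n.1).injective (by simp [hc, (mW _).1 w.2]))⟩
        left_inv w := by simp
        right_inv w := by simp
        map_add' u v := Subtype.ext (map_add _ _ _) }
    refine (fun ⟨h4, a, h5⟩ => ⟨h4, a, fun w => congrArg Subtype.val (h5 w)⟩) <| emb_kill hQ h7 hr hA G (extG hW) (fun g hg => ⟨?_, fun v => ?_, fun ⟨c, h⟩ => ⟨c, fun w =>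
      Subtype.ext (by simpa using (extG_apply hW g w 0).symm.trans (h _))⟩⟩) hy (T := T) (ρ := n.1.right) (κ := κ)
      ⟨hn.ne, fun c x => Subtype.ext (hn.smul c x), fun x y => by rw [hB]; exact hn.B x y, fun x => by simp [hQ']⟩
      fun g g' h v => ?_
    · refine mem_isom_ofQuad.2 fun v => ?_
      obtain ⟨w, w', rfl⟩ := dec v
      have h4 := hg.1 w w
      have h5 := perp w w'
      have h6 := perp (g w) w'
      rw [hB] at h4
      simp only [LinearMap.BilinForm.restrict_apply, LinearMap.domRestrict_apply, QuadraticMap.polarBilin_apply_apply,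
        QuadraticMap.polar_self, QuadraticMap.polar] at h4 h5 h6
      rw [extG_apply]
      refine mul_left_cancel₀ h2 ?_
      simp only [← two_smul F, QuadraticMap.map_smul, smul_eq_mul] at h4
      linear_combination 2 * h6 - 2 * h5 + h4
    · obtain ⟨w, w', rfl⟩ := dec v
      rw [extG_apply, mulVec_add, mulVec_add, (mW _).1 w.2, (mW' _).1 w'.2, (mW _).1 (g w).2]
      exact extG_apply hW g w (-w')
    · obtain ⟨w, w', rfl⟩ := dec v
      rw [extG_apply, map_add (AutCl.act n.1), map_add (AutCl.act n.1)]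
      exact (extG_apply hW g' (T w) ⟨_, hnW' w'⟩).trans (by rw [h]; rfl)
  refine ⟨fun h => (key h).1, fun h4 w hw => ?_⟩
  obtain ⟨a, ha⟩ : ∃ a : F, ∀ w : W, AutCl.act n.1 w = a • w := by
    by_cases h3 : finrank F W = 1
    · obtain ⟨v, -, hv⟩ := finrank_eq_one_iff'.1 h3
      obtain ⟨a, ha⟩ := hv ⟨_, hnW v⟩
      refine ⟨a, fun w => ?_⟩
      obtain ⟨c, rfl⟩ := hv w
      rw [Submodule.coe_smul, act_smul, h4, smul_comm, show a • v.1 = AutCl.act n.1 v from congrArg Subtype.val ha]; rfl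
    · exact (key h3).2
  by_cases h0 : w = 0
  · simp [h0]
  obtain ⟨y, hy⟩ : ∃ y : W, Q.polarBilin w y ≠ 0 := by
    by_contra! H; exact h0 (congrArg Subtype.val (nd ⟨w, (mW _).2 hw⟩ H))
  have h5 := hn.B w y
  rw [ha ⟨w, (mW _).2 hw⟩, ha y, h4, B_smul_left, B_smul_right, ← mul_assoc] at h5
  rw [ha ⟨w, (mW _).2 hw⟩, act_smul, ha ⟨w, (mW _).2 hw⟩, h4, smul_smul, ← mul_right_cancel₀ hy h5]; rfl

include hr hA in
theorem orth_inv_kill (he : Even (Fintype.card ι)) (h1 : ∀ v, s.1 *ᵥ (s.1 *ᵥ v) = v)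
    (hμ : Simi (ofQuad Q) (ofQuad Q) s 1) (hd : s.1.det ≠ 1) (hM : M ≤ (clO hQ h7).theta.range) : M = ⊥ := by
  have h2 : (2 : F) ≠ 0 := mt (two_eq_zero_iff F r).1 hr
  have C := clO hQ h7
  have := C.nonempty
  have := cl_finite C
  refine (Subgroup.eq_bot_iff_forall _).2 fun y hy => ?_
  obtain ⟨n, rfl⟩ := hM hy
  obtain ⟨l, hl⟩ := exists_lam hQ h7 hA hy
  have hl2 : (l : F) * l = 1 := by
    have := hl (s.1 *ᵥ AutCl.act n.1⁻¹ fun _ => 1)
    rw [h1, hl, mulVec_smul, h1, smul_smul, act_act_inv] at this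
    simpa using (congrFun this (_root_.Classical.arbitrary ι)).symm
  have hc : ∀ v, AutCl.act (n * n).1 (s.1 *ᵥ v) = s.1 *ᵥ AutCl.act (n * n).1 v := fun v => by
    rw [Subgroup.coe_mul, AutCl.act_mul, AutCl.act_mul, hl, act_smul, hl, smul_smul]
    rcases mul_self_eq_one_iff.1 hl2 with h | h <;> simp [h]
  have hy2 : C.theta (n * n) ∈ M := by rw [map_mul]; exact mul_mem hy hy
  obtain ⟨κ, hn⟩ := (n * n).2
  have hs' : scal (-1) * s ∈ Sim (ofQuad Q) := mul_mem (scal_mem_Sim _) hs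
  have e : ∀ v, (scal (-1) * s : GL ι F).1 *ᵥ v = -(s.1 *ᵥ v) := fun v => by simp [← mulVec_mulVec]
  have hW := isCompl_inv h2 (S := toLin' s.1) (by simpa using h1)
  have h3 := det_inv h2 (S := toLin' s.1) (by simpa using h1)
  have h4 := Submodule.finrank_add_eq_of_isCompl hW
  rw [LinearMap.det_toLin'] at h3
  rw [Module.finrank_fintype_fun_eq_card] at h4
  have o2 : Odd (finrank F (LinearMap.ker (toLin' s.1 + 1))) :=
    Nat.not_even_iff_odd.1 fun h => hd (by rw [h3, h.neg_one_pow])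
  have o1 : Odd (finrank F (LinearMap.ker (toLin' s.1 - 1))) := by
    rw [← h4, Nat.even_add'] at he; exact he.2 o2
  have e2 : LinearMap.ker (toLin' (scal (-1) * s : GL ι F).1 - 1) = LinearMap.ker (toLin' s.1 + 1) := by
    ext v; simp only [LinearMap.mem_ker, LinearMap.sub_apply, LinearMap.add_apply, toLin'_apply, e,
      Module.End.one_apply]; rw [← neg_eq_zero, neg_sub', neg_neg, sub_neg_eq_add]
  obtain ⟨a1, a2⟩ := orth_half hQ h7 hr hA h1 hμ hy2 hn hc o1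
  obtain ⟨b1, b2⟩ := orth_half hQ h7 hr (hs := hs') (by rwa [C.theta_scal_mul (-1) hs hs'])
    (fun v => by rw [e, e, mulVec_neg, h1, neg_neg]) ⟨one_ne_zero, fun x y => by
      rw [e, e, map_neg, map_neg, LinearMap.neg_apply, neg_neg, hμ.B], fun x => by
      rw [e]; exact (QuadraticMap.map_neg Q _).trans (hμ.Q x)⟩ hy2 hn
    (fun v => by rw [e, e, map_neg, hc]) (e2 ▸ o2)
  have h5 : (n * n).1.right = 1 := by
    by_contra h; have := mt a1 h; have := mt b1 h; rw [e2] at this; omega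
  have h6 := theta_sq hQ h7 h5 (κ := κ) fun v => by
    obtain ⟨w, w', rfl, -⟩ := Submodule.existsUnique_add_of_isCompl hW v
    rw [map_add, map_add, a2 h5 w (sub_eq_zero.1 w.2), b2 h5 w' (by
      rw [e, neg_eq_iff_eq_neg, ← add_eq_zero_iff_eq_neg]; exact w'.2), smul_add]
  rw [map_mul, ← sq, ← pow_mul] at h6
  exact orderOf_eq_one_iff.1 (((hA.cop_order hy).pow_right 2).eq_one_of_dvd (orderOf_dvd_of_pow_eq_one h6))

include hr hA in
theorem orth_ext_kill {c : F} (hc : ¬ IsSquare c) (h1 : ∀ v, s.1 *ᵥ (s.1 *ᵥ v) = c • v)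
    (hB : ∀ x y, Q.polarBilin (s.1 *ᵥ x) y = Q.polarBilin x (s.1 *ᵥ y))
    (hM : M ≤ (clO hQ h7).theta.range) : M = ⊥ := by
  have h2 : (2 : F) ≠ 0 := mt (two_eq_zero_iff F r).1 hr
  have C := clO hQ h7
  have := C.nonempty
  have := cl_finite C
  have hc0 : c ≠ 0 := by rintro rfl; exact hc IsSquare.zero
  have : Fact (∀ x : F, x ^ 2 ≠ c + 0 * x) := ⟨fun x h => hc ⟨x, by rw [← sq, h]; ring⟩⟩
  have : Finite (QuadraticAlgebra F c 0) := Module.finite_of_finite F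
  have : CharP (QuadraticAlgebra F c 0) r := charP_of_injective_algebraMap (algebraMap F _).injective r
  letI : Module (QuadraticAlgebra F c 0) (ι → F) := Module.compHom _ (QuadraticAlgebra.lift
    ⟨(toLin' s.1 : Module.End F (ι → F)), LinearMap.ext fun v => by simp [h1]⟩).toRingHom
  have hz : ∀ (z : QuadraticAlgebra F c 0) (v : ι → F), z • v = z.re • v + z.im • s.1 *ᵥ v := fun _ _ => rfl
  have : IsScalarTower F (QuadraticAlgebra F c 0) (ι → F) := ⟨fun a z v => by simp [hz, smul_smul]⟩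
  have : FiniteDimensional (QuadraticAlgebra F c 0) (ι → F) := Module.Finite.of_restrictScalars_finite F _ _
  have hd := Module.finrank_mul_finrank F (QuadraticAlgebra F c 0) (ι → F)
  rw [QuadraticAlgebra.finrank_eq_two, Module.finrank_fintype_fun_eq_card] at hd
  have hsy : ∀ x y, Q.polarBilin y x = Q.polarBilin x y := fun x y => by simp [QuadraticMap.polar_comm]
  let b : LinearMap.BilinForm (QuadraticAlgebra F c 0) (ι → F) := LinearMap.mk₂ _
    (fun x y => ⟨Q.polarBilin x y, c⁻¹ * Q.polarBilin x (s.1 *ᵥ y)⟩)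
    (fun _ _ _ => by ext <;> simp only [map_add, LinearMap.add_apply, QuadraticAlgebra.re_add,
      QuadraticAlgebra.im_add, mul_add])
    (fun z x y => by
      ext <;> simp only [hz, map_add, map_smul, LinearMap.add_apply, LinearMap.smul_apply, smul_eq_mul, hB, h1,
        QuadraticAlgebra.re_mul, QuadraticAlgebra.im_mul] <;> field_simp <;> ring)
    (fun _ _ _ => by ext <;> simp only [map_add, mulVec_add, QuadraticAlgebra.re_add,
      QuadraticAlgebra.im_add, mul_add])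
    (fun z x y => by
      ext <;> simp only [hz, map_add, map_smul, mulVec_add, mulVec_smul, smul_eq_mul, h1,
        QuadraticAlgebra.re_mul, QuadraticAlgebra.im_mul] <;> field_simp <;> ring)
  have hb : ∀ x y, b x y = ⟨Q.polarBilin x y, c⁻¹ * Q.polarBilin x (s.1 *ᵥ y)⟩ := fun _ _ => rfl
  obtain ⟨x₀, y₀, h0⟩ : ∃ x y, b x y ≠ 0 := by
    by_contra! H
    exact one_ne_zero (congrFun (hQ (fun _ => 1) fun y => congrArg QuadraticAlgebra.re (H _ y))
      (_root_.Classical.arbitrary ι))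
  obtain ⟨Φ, hΦ, hQ', G⟩ := gd_bilin (F := QuadraticAlgebra F c 0) (V := ι → F)
    (mt (two_eq_zero_iff _ r).1 hr) (by omega) (B := b)
    (fun x hx => hQ x fun y => congrArg QuadraticAlgebra.re (hx y)) (ε := 1) fun x y => by
      rw [one_mul, hb, hb, hsy x, ← hB y, hsy x (s.1 *ᵥ y)]
  refine (Subgroup.eq_bot_iff_forall _).2 fun y hy => ?_
  obtain ⟨n, rfl⟩ := hM hy
  obtain ⟨l, hl⟩ := exists_lam hQ h7 hA hy
  obtain ⟨κ, hn⟩ := n.2
  have hl0 := l.ne_zero
  have hl2 : n.1.right c = l * l * c := by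
    have := hl (s.1 *ᵥ AutCl.act n.1⁻¹ fun _ => 1)
    rw [h1, hl, mulVec_smul, h1, act_smul, smul_smul, smul_smul, act_act_inv] at this
    simpa using congrFun this (_root_.Classical.arbitrary ι)
  let ρ₀ : QuadraticAlgebra F c 0 →+* QuadraticAlgebra F c 0 :=
    { toFun z := ⟨n.1.right z.re, l * n.1.right z.im⟩
      map_one' := by ext <;> simp [QuadraticAlgebra.re_one, QuadraticAlgebra.im_one]
      map_mul' z w := by ext <;> simp [hl2] <;> ring
      map_zero' := by ext <;> simp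
      map_add' z w := by ext <;> simp [mul_add] }
  let ρ := RingEquiv.ofBijective ρ₀ (Finite.injective_iff_bijective.1 ρ₀.injective)
  have hρ : ∀ z, ρ z = ⟨n.1.right z.re, l * n.1.right z.im⟩ := fun _ => rfl
  have hT : Semi Φ (AutCl.act n.1) ρ ⟨κ, 0⟩ := ⟨fun h => hn.ne (congrArg QuadraticAlgebra.re h),
    fun z v => by rw [hz, hz, hρ, map_add, act_smul, act_smul, hl, smul_smul, mul_comm l.1], fun x y => by
      have h3 := hn.B x y
      have h4 := hn.B x (s.1 *ᵥ y)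
      rw [hl, B_smul_right, ofQuad_B] at h4
      rw [hΦ, hb, hb, hρ]
      ext
      · simpa using h3
      · simp only [QuadraticAlgebra.im_mul, map_mul, map_inv₀, hl2]
        field_simp
        linear_combination h4, fun x => by simp [hQ']⟩
  obtain ⟨h4, e, h5⟩ := emb_kill hQ h7 hr hA G (MonoidHom.mk' (·.restrictScalars F) fun _ _ => rfl)
    (fun g hg => ⟨mem_isom_ofQuad.2 fun v => mul_left_cancel₀ h2 (by
      have := congrArg QuadraticAlgebra.re (hΦ ▸ hg.1 v v : b _ _ = b _ _)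
      change 2 * Q (g v) = _
      simpa [hb, QuadraticMap.polar_self, two_mul, two_smul] using this), fun v => show g _ = s.1 *ᵥ g v by
      simpa [hz] using g.map_smul ⟨0, 1⟩ v, fun ⟨a, h⟩ => ⟨⟨a, 0⟩, fun v => (h v).trans (by simp [hz])⟩⟩) hy hT
    fun g g' h => h
  have h6 : n.1.right = 1 := RingEquiv.ext fun a =>
    congrArg QuadraticAlgebra.re ((hρ ⟨a, 0⟩).symm.trans (by rw [h4]))
  have h8 := hT.B x₀ y₀
  rw [h5, h5, h4, B_smul_left, B_smul_right, ← mul_assoc, hΦ] at h8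
  have h9 := theta_sq hQ h7 h6 (κ := κ) fun v => by
    rw [h5, h5, smul_smul, show e * e = ⟨κ, 0⟩ from mul_right_cancel₀ h0 h8, hz]; simp
  exact orderOf_eq_one_iff.1 ((hA.cop_order hy).eq_one_of_dvd (orderOf_dvd_of_pow_eq_one h9))

theorem orth_graph_kill (E : EvO Q) (hr : r ≠ 2) (h : s ∉ E.SimP)
    (ho : (clO E.nd E.h7).theta ⟨inl s, hs⟩ ^ 2 = 1) (hM : M ≤ (clO E.nd E.h7).theta.range)
    (hA : Adm 2 (Cfsg.Inn _) ((clO E.nd E.h7).theta ⟨inl s, hs⟩) M) : M = ⊥ := by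
  have h2 : (2 : F) ≠ 0 := mt (two_eq_zero_iff F r).1 hr
  have C := clO E.nd E.h7
  have := C.nonempty
  rw [← map_pow, C.pSim.ker] at ho
  obtain ⟨c, hc⟩ := ho
  have h1 : ∀ v, s.1 *ᵥ (s.1 *ᵥ v) = (c : F) • v := fun v => by
    simpa [sq, AutCl.act_mul] using congrArg (AutCl.act · v) hc
  obtain ⟨μ, hμ⟩ := mem_Sim.1 hs
  have hB : ∀ x y, (c : F) * Q.polarBilin (s.1 *ᵥ x) y = μ * Q.polarBilin x (s.1 *ᵥ y) := fun x y => by
    have := hμ.B x (s.1 *ᵥ y)
    rwa [h1, B_smul_right] at this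
  have hsy : ∀ x y, Q.polarBilin y x = Q.polarBilin x y := fun x y => by simp [QuadraticMap.polar_comm]
  obtain ⟨x, y, h0⟩ : ∃ x y, Q.polarBilin x y ≠ 0 := by
    by_contra! H
    exact one_ne_zero (congrFun (E.nd (fun _ => 1) (H _)) (_root_.Classical.arbitrary ι))
  have h3 : μ * μ = c * c := mul_right_cancel₀ h0 (by
    have h3 := hμ.B (s.1 *ᵥ x) (s.1 *ᵥ y)
    rw [h1, h1, hμ.B, B_smul_left, B_smul_right] at h3
    simpa [mul_assoc] using h3.symm)
  rw [E.mem_SimP_iff_det h2 hμ] at h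
  rcases mul_self_eq_mul_self_iff.1 h3 with rfl | rfl
  swap
  · obtain ⟨k, hk⟩ := E.ev
    have h4 : ∀ x y, Q.polarBilin (s.1 *ᵥ x) y = -Q.polarBilin x (s.1 *ᵥ y) := fun x y =>
      mul_left_cancel₀ c.ne_zero (by linear_combination hB x y)
    refine absurd ((Gr.alt_det (B := Q.polarBilin.compl₁₂ (toLin' s.1) .id) ⟨fun x hx => ?_, Or.inr fun x y => ?_⟩
      (fun x => ?_) (m := k) (by omega) hμ.ne fun x y => hμ.B _ _).trans (by congr 1; omega)) h
    · simpa [h1] using congrArg (s.1 *ᵥ ·) (E.nd _ hx)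
    · exact (h4 x y).trans (by rw [hsy]; rfl)
    · exact mul_left_cancel₀ h2 (by
        have := h4 x x; rw [hsy (s.1 *ᵥ x)] at this; change 2 * Q.polarBilin (s.1 *ᵥ x) x = _
        linear_combination this)
  by_cases hq : IsSquare (c : F)
  swap
  · exact orth_ext_kill E.nd E.h7 hr hA hq h1 (fun x y => mul_left_cancel₀ c.ne_zero (hB x y)) hM
  obtain ⟨t, k, rfl⟩ := hμ.exists_ogl' hq
  have h4 := (simi_zs t k).unique E.nd hμ
  refine orth_inv_kill E.nd E.h7 hr (s := ogl Q k) (hs := ⟨_, semi_inl_iff.2 (simi_ogl k)⟩)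
    (by rwa [C.theta_scal_mul t] at hA) E.ev (fun v => ?_) (simi_ogl k) (fun h5 => h ?_) hM
  · have := h1 v
    simp only [Units.val_mul, ← mulVec_mulVec, scal_mulVec, mulVec_smul, smul_smul, h4] at this
    exact smul_right_injective _ c.ne_zero this
  · rw [Units.val_mul, det_mul, h5, det_scal, mul_one, ← h4, E.pow_half]

end Cfsg.Agent.Mult.Bal
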