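import Cfsg.Agent.Mult.Bal8

/-! Local balance for minus-type orthogonal groups: transport of `PΩ` along a similarity
(`exists_psi`), `minus_field_class`, `evO_two`, `minus_bal`. -/

set_option autoImplicit false

namespace Cfsg.Agent.Mult.Bal

open Cfsg.Agent.Geom Cfsg.Agent.Geom.Formed Cfsg.Agent.AutCl Module SemidirectProduct
open Matrix hiding inv_inj mul_inv_rev

variable {ι : Type} [Fintype ι] [DecidableEq ι] {F : Type*} [Field F] {Q Q' : QuadraticForm F (ι → F)}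

theorem omega_conj {u : GL ι F} {κ : F} (h : Simi (ofQuad Q') (ofQuad Q) u κ) (k : Omega F ⇑Q') :
    ∃ k' : Omega F ⇑Q, jO ⇑Q k' = u * jO ⇑Q' k * u⁻¹ := by
  have D := isDesc_quad (f := RingHom.id F) (Q₀ := Q') (Q := Q) (g := u) (inv_ne_zero h.ne) fun x =>
    (inv_mul_eq_iff_eq_mul₀ h.ne).2 (h.Q x)
  obtain ⟨g, hg, e⟩ := exists_jO_iff.1 ⟨k, rfl⟩
  exact exists_jO_iff.2 ⟨D.og g, map_mem_commutator _ hg, by rw [D.ogl_og, e]; rfl⟩

theorem exists_psi {u : GL ι F} {κ : F} (h : Simi (ofQuad Q') (ofQuad Q) u κ) :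
    ∃ (ψ₀ : Omega F ⇑Q ≃* Omega F ⇑Q') (ψ : POmega F ⇑Q ≃* POmega F ⇑Q'),
      (∀ k, jO ⇑Q' (ψ₀ k) = u⁻¹ * jO ⇑Q k * u) ∧ ∀ k, ψ (QuotientGroup.mk k) = QuotientGroup.mk (ψ₀ k) := by
  have inj : ∀ R : QuadraticForm F (ι → F), Function.Injective (jO ⇑R) := fun R a b e =>
    Subtype.ext (Subtype.ext e)
  choose f hf using omega_conj h
  choose f' hf' using omega_conj h.inv
  let ψ₀ : Omega F ⇑Q ≃* Omega F ⇑Q' :=
    { toFun := f', invFun := f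
      left_inv k := inj _ (by simp [hf, hf', mul_assoc])
      right_inv k := inj _ (by simp [hf, hf', mul_assoc])
      map_mul' a b := inj _ (by simp [hf', mul_assoc]) }
  refine ⟨ψ₀, QuotientGroup.congr _ _ ψ₀ (Subgroup.ext fun x => ?_), fun k => (hf' k).trans (by rw [inv_inv]), fun _ => rfl⟩
  obtain ⟨x, rfl⟩ := ψ₀.surjective x
  exact (Subgroup.mem_map_iff_mem ψ₀.injective).trans (MulEquivClass.apply_mem_center_iff ψ₀).symm

variable [Finite F]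

theorem field_transport (hQ : (ofQuad Q).Nondeg) (h7 : 7 ≤ Fintype.card ι) {n : GamS (ofQuad Q)} {d : Fˣ}
    {u : GL ι F} {τ : F ≃+* F} (hn : n.1 = inl (scal d) * (inl u * inr τ * (inl u)⁻¹)) {κ : F}
    (hs : Simi (ofQuad Q') (ofQuad Q) u κ) : ∃ ψ : POmega F ⇑Q ≃* POmega F ⇑Q',
      IsFieldAutPOmegaOf ⇑Q' τ ((ψ.symm.trans ((clO hQ h7).theta n)).trans ψ) := by
  have C := clO hQ h7
  obtain ⟨ψ₀, ψ, h3, h4⟩ := exists_psi hs
  refine ⟨ψ, fun s s' hs => ?_⟩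
  obtain ⟨s, rfl⟩ := ψ₀.surjective s
  change ψ (C.theta n (ψ.symm _)) = _
  rw [← h4, ψ.symm_apply_apply, C.theta_mk, h4]
  congr 1
  refine Subtype.ext (Subtype.ext ?_)
  change jO _ _ = jO _ s'
  have h5 := C.inl_j_nu n s
  rw [h3, show jO _ s' = glField τ (jO _ (ψ₀ s)) from Units.ext hs, h3]
  refine inl_injective (φ := glField) ?_
  rw [map_mul, map_mul, h5, inl_aut, map_mul, map_mul, map_inv, map_inv, hn, mul_assoc (inl (scal d)),
    mul_assoc (inl (scal d)), _root_.mul_inv_rev (inl (scal d)), ← mul_assoc _ _ (inl (scal d))⁻¹,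
    ← map_inv inl (scal d), ← scal_inv, mul_inl_scal]
  simp only [mul_right, right_inl, right_inr, inv_right, mul_inv_cancel, one_mul, mul_one, inv_one]
  rw [← mul_assoc (inl (scal d)), ← map_mul, ← scal_mul, show d * Units.map ((1 : F ≃+* F) : F →* F) d⁻¹ = 1 from
    Units.ext d.mul_inv]
  simp [scal_one, mul_assoc]

theorem minus_desc {m : ℕ} (hm : 3 ≤ m) {a b : F}
    (hab : ∀ z₁ z₂ : F, z₁ ^ 2 + a * z₁ * z₂ + b * z₂ ^ 2 = 0 → z₁ = 0 ∧ z₂ = 0)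
    {n : GamS (ofQuad (qM F m a b))} {d : Fˣ} {g : GL _ F} {τ : F ≃+* F} (hodd : Odd (orderOf τ))
    (hn : n.1 = inl (scal d) * (inl g * inr τ * (inl g)⁻¹)) : ∃ (a' b' : F) (u : GL _ F) (κ : F),
      (∀ z₁ z₂ : F, z₁ ^ 2 + a' * z₁ * z₂ + b' * z₂ ^ 2 = 0 → z₁ = 0 ∧ z₂ = 0) ∧ τ a' = a' ∧ τ b' = b' ∧
      n.1 = inl (scal d) * (inl u * inr τ * (inl u)⁻¹) ∧
      Simi (ofQuad (qM F m a' b')) (ofQuad (qM F m a b)) u κ := by
  have E := evO_minus hm hab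
  have := E.ne
  obtain ⟨K, hf, -⟩ := exists_isFix_card τ
  obtain ⟨Q₁, μ, D⟩ := hf.desc_quad E.nd (good_of_eq hn)
  obtain ⟨k, hk⟩ := (D.nondeg E.nd).exists_wittIndex
  rw [(D.witt_odd hf hodd E hk).unique (qM_witt m hab)] at hk
  obtain ⟨a₀, b₀, hab₀⟩ := Gr.exists_aniso K
  obtain ⟨e, he⟩ := exists_isIso_minus (D.nondeg E.nd) (by simp [two_mul]) hk hab₀
  have D' := isDesc_minus (f := K.subtype) m a₀ b₀
  exact ⟨_, _, _, _, hf.aniso hodd hab₀, hf.apply _, hf.apply _, hn_shift hf hn ((glEquiv _ K).symm e.symm),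
    simi_of_span (span_tw (f := K.subtype) 1) (inv_ne_zero D.ne) rfl (by
      rintro _ ⟨x, rfl⟩ _ ⟨y, rfl⟩
      rw [mulVec_tw, mulVec_tw, eq_inv_mul_iff_mul_eq₀ D.ne, D.B, glEquiv_symm_mulVec, glEquiv_symm_mulVec,
        ← he.1, e.apply_symm_apply, e.apply_symm_apply, ← qM_eq, ← D'.B, one_mul]) (by
      rintro _ ⟨x, rfl⟩
      rw [mulVec_tw, eq_inv_mul_iff_mul_eq₀ D.ne, D.Q, glEquiv_symm_mulVec,
        ← he.2, e.apply_symm_apply, ← qM_eq, ← D'.Q, one_mul])⟩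

theorem evO_two (E : EvO Q) {s : GL ι F} {hs : s ∈ Sim (ofQuad Q)} (h : s ∉ E.SimP) {p : ℕ} (hp : p.Prime)
    (ho : orderOf ((clO E.nd E.h7).theta ⟨inl s, hs⟩) = p) : p = 2 := by
  by_contra h2
  obtain ⟨c, hc⟩ := ((clO E.nd E.h7).pSim.ker (⟨inl s, hs⟩ ^ p)).1 (by rw [map_pow, ← ho, pow_orderOf_eq_one])
  have h3 := (E.coe_mem_SimP (⟨s, hs⟩ ^ p)).1 (by
    rw [show ((⟨s, hs⟩ ^ p : Sim _) : GL ι F) = scal c from inl_injective ((map_pow _ _ _).trans hc)]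
    exact E.scal_mem_SimP c)
  rw [map_pow, Int.units_pow_eq_pow_mod_two, Nat.odd_iff.1 (hp.odd_of_ne_two h2), pow_one] at h3
  exact h ((E.coe_mem_SimP ⟨s, hs⟩).2 h3)

theorem even_bal (E : EvO Q) (hs : ∀ β, β ∈ (clO E.nd E.h7).theta.range) {r : ℕ} [Fact r.Prime] [CharP F r]
    [IsSimpleGroup (POmega F ⇑Q)] {A : Subgroup (MulAut (POmega F ⇑Q))}
    (hinn : ∀ k, MulAut.conj k ∈ A) {p : ℕ} [Fact p.Prime] (hpr : p ≠ r) {x : MulAut (POmega F ⇑Q)}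
    (hord : orderOf x = p) (hnot : ∀ s ∈ E.SimP, ¬ IsInducedBySemilinearPOmega ⇑Q s (RingEquiv.refl F) x)
    {P : Prop} (hP : p ≠ 2 → ∀ n, n.1.right ≠ 1 → x = (clO E.nd E.h7).theta n → P) :
    pPrimeCore p ↥(A ⊓ Subgroup.centralizer {x}) ≠ ⊥ ↔ (P ∧
      Nat.Coprime p (Nat.card ↥(MonoidHom.eqLocus x.toMonoidHom (MonoidHom.id _)))) := by
  have C := clO E.nd E.h7
  have := C.finite
  obtain ⟨n, rfl⟩ := hs x
  by_cases h1 : n.1.right = 1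
  · obtain ⟨hs', e⟩ := cl_left C h1
    have h3 : n.1.left ∉ E.SimP := fun h => hnot _ h ((C.eq_theta_iff ⟨_, hs'⟩ _).2 (congrArg _ e))
    rw [e] at hord ⊢
    obtain rfl := evO_two E h3 Fact.out hord
    exact bal_iff (cl_center C) hinn hord (fun _ M hM => orth_graph_kill E hpr.symm h3
      (hord ▸ pow_orderOf_eq_one _) (fun y _ => hs y) hM) fun h => absurd (cl_even C hpr.symm) h
  · exact bal_iff (cl_center C) hinn hord (fun hk M hM => orth_field_kill E.nd E.h7 Fact.out hpr h1 hord hk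
      (fun y _ => hs y) hM) fun h => hP (by rintro rfl; exact h (cl_even C hpr.symm)) n h1 rfl

theorem minus_field_class {m : ℕ} (hm : 3 ≤ m) {a b : F}
    (hab : ∀ z₁ z₂ : F, z₁ ^ 2 + a * z₁ * z₂ + b * z₂ ^ 2 = 0 → z₁ = 0 ∧ z₂ = 0)
    {n : GamS (ofQuad (qM F m a b))} (h1 : n.1.right ≠ 1) {p : ℕ} (hp : p.Prime) (h2 : p ≠ 2)
    {x : MulAut (POmega F (quadFormMinus m F a b))} (ho : orderOf x = p)
    (hx : x = (clO (evO_minus hm hab).nd (evO_minus hm hab).h7).theta n) : IsFieldAutClassPOmegaMinus m x := by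
  have E := evO_minus hm hab
  have hxr : orderOf ((clO E.nd E.h7).theta n) = p := hx ▸ ho
  have ho' := E.pMod.orderOf_right h1 hp hxr
  obtain ⟨d, g, hn⟩ := E.pMod.exists_descent ho' (hxr ▸ pow_orderOf_eq_one _)
  obtain ⟨a', b', u, κ, h3, h4, h5, h6, h7⟩ := minus_desc hm hab (ho' ▸ hp.odd_of_ne_two h2) hn
  obtain ⟨ψ, hψ⟩ := field_transport E.nd E.h7 h6 h7
  exact ⟨a', b', ψ, _, h3, h1, h4, h5, hx ▸ hψ⟩

end Cfsg.Agent.Mult.Bal
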