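import Cfsg.Agent.Mult.Derang1
import Cfsg.Agent.S0713
import Cfsg.Agent.S2119
import Cfsg.Agent.S3573
import Mathlib.GroupTheory.GroupAction.SubMulAction.Combination
import Mathlib.GroupTheory.GroupAction.Jordan

/-! Derangements of prime order for primitive groups with alternating socle
(`Derang.core`, `Derang.derangement`). -/

set_option autoImplicit false

namespace Cfsg.Agent.Mult.Derang

open Subgroup Equiv Equiv.Perm MulAction
open scoped Pointwise

theorem prim_of_cycle {α : Type*} [Fintype α] [DecidableEq α] (K : Subgroup (Perm α))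
    [IsPretransitive K α] {c : Perm α} (hc : c ∈ K) (hp : (orderOf c).Prime)
    (h : Fintype.card α < 2 * orderOf c) : IsPreprimitive K α := by
  have hcyc := isCycle_of_prime_order' hp h
  refine ⟨fun {B} hB => ?_⟩
  by_contra hcon
  obtain ⟨h1, h2⟩ := not_or.1 hcon
  obtain ⟨a, ha, b, hb, hab⟩ := Set.not_subsingleton_iff.1 h1
  obtain ⟨x, hx, -⟩ := hcyc
  obtain ⟨g, hg⟩ := exists_smul_eq K a x
  have hB' := hB.translate g
  have hxB : x ∈ g • B := hg ▸ Set.smul_mem_smul_set ha
  have hst : (⟨c, hc⟩ : K) ∈ stabilizer K (g • B) := by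
    have hy : g • b ∈ g • B := Set.smul_mem_smul_set hb
    have hxy : g • b ≠ x := fun e => hab (smul_left_cancel g (hg.trans e.symm))
    by_cases hfix : c (g • b) = g • b
    · exact isBlock_iff_smul_eq_of_mem.1 hB' hy (by
        change c (g • b) ∈ _
        rwa [hfix])
    obtain ⟨i, hi⟩ := (isCycle_of_prime_order' hp h).exists_pow_eq hx hfix
    have h3 : (⟨c, hc⟩ : K) ^ i ∈ stabilizer K (g • B) :=
      isBlock_iff_smul_eq_of_mem.1 hB' hxB (by
        change (c ^ i) x ∈ _
        rwa [hi])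
    have h4 : (orderOf c).Coprime i := (Nat.Prime.coprime_iff_not_dvd hp).2 fun hd => hxy (by
      rw [← hi, orderOf_dvd_iff_pow_eq_one.1 hd]; rfl)
    obtain ⟨j, hj⟩ := exists_pow_eq_self_of_coprime h4.symm
    have h5 : (⟨c, hc⟩ : K) = ((⟨c, hc⟩ : K) ^ i) ^ j := Subtype.ext hj.symm
    rw [h5]
    exact pow_mem h3 j
  have hsub : (c.support : Set α) ⊆ g • B := fun y hy => by
    obtain ⟨i, hi⟩ := (isCycle_of_prime_order' hp h).exists_pow_eq hx (mem_support.1 hy)
    have h3 : (⟨c, hc⟩ : K) ^ i • g • B = g • B := pow_mem hst i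
    rw [← h3, ← hi]
    exact Set.smul_mem_smul_set (a := (⟨c, hc⟩ : K) ^ i) hxB
  have h6 := Set.ncard_le_ncard hsub
  rw [Set.ncard_coe_finset, ← (isCycle_of_prime_order' hp h).orderOf] at h6
  have h7 := hB'.eq_univ_of_card_lt (by rw [Nat.card_eq_fintype_card]; omega)
  exact h2 (by simpa using congrArg (fun s => g⁻¹ • s) h7)

theorem core {m : ℕ} (hm : 5 ≤ m) (K : Subgroup (Perm (Fin m)))
    (hKA : K ≤ alternatingGroup (Fin m)) {r : ℕ} (hr : r.Prime)
    (hrd : r ∣ K.relIndex (alternatingGroup (Fin m)))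
    (hmax : ∀ s : ℕ, s.Prime → s ∣ K.relIndex (alternatingGroup (Fin m)) → s ≤ r)
    (hN : m ≠ 6 → ∀ x : Fin m, m < 2 * (orbit K x).ncard → orbit K x ≠ Set.univ →
      ∀ σ ∈ alternatingGroup (Fin m), σ • orbit K x = orbit K x → σ ∈ K) :
    ∃ g ∈ alternatingGroup (Fin m), orderOf g = r ∧
      ∀ x ∈ alternatingGroup (Fin m), x * g * x⁻¹ ∉ K := by
  classical
  haveI : Nontrivial (Fin m) := Fin.nontrivial_iff_two_le.2 (by omega)
  set A := alternatingGroup (Fin m) with hA
  set n := K.relIndex A with hn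
  have hcard : 2 * (Nat.card K * n) = m.factorial := by
    have h1 := (K.subgroupOf A).card_mul_index
    rw [Nat.card_congr (subgroupOfEquivOfLe hKA).toEquiv] at h1
    have h2 := two_mul_nat_card_alternatingGroup (α := Fin m)
    rw [Nat.card_perm, Nat.card_fin] at h2
    rw [← h2, ← h1]; rfl
  have hcA : Nat.card A = Nat.card K * n := by
    have h2 := two_mul_nat_card_alternatingGroup (α := Fin m)
    rw [Nat.card_perm, Nat.card_fin, ← hcard] at h2
    exact Nat.eq_of_mul_eq_mul_left two_pos h2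
  have hAK : ¬ A ≤ K := fun h => hr.not_dvd_one (relIndex_eq_one.2 h ▸ hrd)
  have hoc : ∀ x g : Perm (Fin m), orderOf (x * g * x⁻¹) = orderOf g := fun x g =>
    MulEquiv.orderOf_eq (MulAut.conj x) g
  have hbig : ∀ s : ℕ, s.Prime → m < 2 * s → s ∣ n → ¬ s ∣ Nat.card K := fun s hs h1 h2 h3 =>
    not_sq_dvd hs h1 (hcard ▸ (pow_two s ▸ Nat.mul_dvd_mul h3 h2).mul_left 2)
  by_cases hL : m < 2 * r
  · haveI := Fact.mk hr
    obtain ⟨g, hg⟩ := exists_prime_orderOf_dvd_card' (G := A) r (hcA ▸ hrd.mul_left _)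
    refine ⟨g, g.2, (orderOf_coe g).trans hg, fun x _ hx => hbig r hr hL hrd ?_⟩
    rw [← hg, ← orderOf_coe, ← hoc x]
    exact K.orderOf_dvd_natCard hx
  obtain ⟨p, hp, hp1, hp2⟩ := Nat.exists_prime_lt_and_le_two_mul (m / 2) (by omega)
  have hpK : p ∣ Nat.card K := by
    have h1 : p ∣ 2 * (Nat.card K * n) := hcard ▸ hp.dvd_factorial.2 (by omega)
    have h2 := ((Nat.Prime.dvd_mul hp).1 h1).resolve_left fun h => by
      have := Nat.le_of_dvd two_pos h
      omega
    refine ((Nat.Prime.dvd_mul hp).1 h2).resolve_right fun h => ?_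
    have := hmax p hp h
    omega
  haveI := Fact.mk hp
  obtain ⟨⟨c, hc⟩, hco⟩ := exists_prime_orderOf_dvd_card' (G := K) p hpK
  rw [← orderOf_coe] at hco
  change orderOf c = p at hco
  have hcm : Fintype.card (Fin m) < 2 * orderOf c := by rw [Fintype.card_fin, hco]; omega
  have hcyc := isCycle_of_prime_order' (hco ▸ hp) hcm
  obtain ⟨x, hx, -⟩ := id hcyc
  have hsub : (c.support : Set (Fin m)) ⊆ orbit K x := fun y hy => by
    obtain ⟨i, hi⟩ := hcyc.exists_pow_eq hx (mem_support.1 hy)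
    exact ⟨⟨c, hc⟩ ^ i, hi⟩
  have hO := Set.ncard_le_ncard hsub
  rw [Set.ncard_coe_finset, ← hcyc.orderOf, hco] at hO
  by_cases htr : orbit K x = Set.univ
  · haveI : IsPretransitive K (Fin m) := (isPretransitive_iff_orbit_eq_univ x).2 htr
    have hprim := prim_of_cycle K hc (hco ▸ hp) hcm
    have h3 : 3 ∣ n := by
      by_contra h3
      obtain ⟨t, ht⟩ := (exists_with_cycleType_iff (Fin m) (m := {3})).2 ⟨by simp; omega, by simp⟩
      have ht' : t.IsThreeCycle := ht
      let t' : A := ⟨t, ht'.mem_alternatingGroup⟩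
      have hp3 : IsPGroup 3 (zpowers t') := IsPGroup.of_card (n := 1) (by
        rw [Nat.card_zpowers, ← orderOf_coe]; exact ht'.orderOf)
      obtain ⟨q, hq⟩ := hp3.nonempty_fixed_point_of_prime_not_dvd_card (A ⧸ K.subgroupOf A) h3
      induction q using QuotientGroup.induction_on with
      | H y =>
      have h4 : ((t' * y : A) : A ⧸ K.subgroupOf A) = y := hq ⟨t', mem_zpowers _⟩
      have h5' : y⁻¹ * (t' * y) ∈ K.subgroupOf A := QuotientGroup.eq.1 h4.symm
      have h5 : (y : Perm (Fin m))⁻¹ * (t * y) ∈ K := h5'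
      refine hAK (alternatingGroup_le_of_isPreprimitive_of_isThreeCycle_mem hprim ?_ h5)
      have := cycleType_conj (σ := t) (τ := (y : Perm (Fin m))⁻¹)
      rw [inv_inv, mul_assoc] at this
      exact this.trans ht
    have hr3 := hmax 3 Nat.prime_three h3
    obtain ⟨g, hg⟩ := (exists_with_cycleType_iff (Fin m) (m := {r})).2
      ⟨by simp; omega, by simpa using hr.two_le⟩
    have hgc : g.IsCycle := card_cycleType_eq_one.1 (by rw [hg]; rfl)
    have hgs : g.support.card = r := by rw [← sum_cycleType, hg]; simp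
    refine ⟨g, ?_, hgc.orderOf.trans hgs, fun y _ hy => hAK (S0713.result K hprim hr
      (by simpa using hm) (by simp; omega) hgc.conj (by rw [card_support_conj, hgs]) hy)⟩
    rw [mem_alternatingGroup, hgc.sign, hgs, (hr.odd_of_ne_two (by omega)).neg_one_pow, neg_neg]
  set Δ : Finset (Fin m) := (orbit K x)ᶜ.toFinset with hΔ
  have hΔm : ∀ y, y ∈ Δ ↔ y ∉ orbit K x := fun y => by simp [hΔ]
  have hk : (orbit K x).ncard + Δ.card = m := by
    rw [← Set.ncard_coe_finset, hΔ, Set.coe_toFinset, Set.ncard_add_ncard_compl, Nat.card_fin]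
  have hk1 : 1 ≤ Δ.card := by
    obtain ⟨y, hy⟩ := (Set.ne_univ_iff_exists_notMem _).1 htr
    exact Finset.card_pos.2 ⟨y, (hΔm y).2 hy⟩
  have hKΔ : ∀ σ ∈ K, ∀ y, σ y ∈ Δ ↔ y ∈ Δ := fun σ hσ y => by
    rw [hΔm, hΔm, not_iff_not]
    exact ⟨fun h => by simpa [Subgroup.smul_def] using mem_orbit_of_mem_orbit (⟨σ, hσ⟩⁻¹ : K) h,
      fun h => mem_orbit_of_mem_orbit (⟨σ, hσ⟩ : K) h⟩
  haveI := Set.powersetCard.isPretransitive_alternatingGroup (α := Fin m) (n := Δ.card)
    (by simp; omega)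
  let s0 : Set.powersetCard (Fin m) Δ.card := ⟨Δ, rfl⟩
  have hS : (stabilizer A s0).index = m.choose Δ.card := by
    rw [index_stabilizer_of_transitive, Set.powersetCard.card, Nat.card_fin]
  have hSm : ∀ σ : A, σ ∈ stabilizer A s0 ↔ ∀ y, (σ : Perm (Fin m)) y ∈ Δ ↔ y ∈ Δ := fun σ => by
    rw [← S3573.image_eq_iff, mem_stabilizer_iff, Subtype.ext_iff]
    rfl
  have hle : K.subgroupOf A ≤ stabilizer A s0 := fun σ hσ => (hSm σ).2 (hKΔ σ hσ)
  have hdn : m.choose Δ.card ∣ n := hS ▸ index_dvd_of_le hle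
  obtain ⟨r0, hr0, a0, b0⟩ := exists_prime hk1 (show 2 * Δ.card ≤ m by omega)
  have hr0r := hmax r0 hr0 (a0.trans hdn)
  have b1 : Δ.card < r ∨ m < r ^ 2 :=
    b0.imp (fun h => h.trans_le hr0r) fun h => h.trans_le (Nat.pow_le_pow_left hr0r 2)
  have a1 : r ∣ m.choose Δ.card := by
    by_cases h6 : m = 6
    · subst h6
      have hp5 : p = 5 := by
        have : p ≠ 4 := by rintro rfl; norm_num at hp
        have : p ≠ 6 := by rintro rfl; norm_num at hp
        omega
      have e1 : Δ.card = 1 := by omega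
      rw [e1] at hdn ⊢
      have := hmax 3 Nat.prime_three (Dvd.dvd.trans (by norm_num) hdn)
      obtain rfl : r = 3 := by omega
      norm_num
    have : stabilizer A s0 ≤ K.subgroupOf A := fun σ hσ => by
      refine hN h6 x (by omega) htr σ σ.2 ?_
      ext y
      have := (hSm σ).1 hσ ((σ : Perm (Fin m))⁻¹ y)
      rw [hΔm, hΔm, not_iff_not] at this
      rw [Set.mem_smul_set_iff_inv_smul_mem]
      simpa using this.symm
    rw [← hS, ← le_antisymm hle this]
    exact hrd
  have hlt := mod_lt hr (by omega) a1 b1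
  obtain ⟨g, hg1, hg2⟩ : ∃ g : Perm (Fin m), orderOf g = r ∧
      ∀ s : Finset (Fin m), s.card = Δ.card → s.image g ≠ s := by
    by_contra hcon
    push Not at hcon
    exact absurd ((S3573.main m Δ.card r (by omega) hr (by omega)).1 hcon) (by omega)
  refine ⟨g, ?_, hg1, fun y _ hy => hg2 (Δ.image (y⁻¹ : Perm (Fin m)))
    (Finset.card_image_of_injective _ (y⁻¹).injective) ((S3573.image_eq_iff _ _).2 fun z => ?_)⟩
  · rw [mem_alternatingGroup]
    rcases hr.eq_two_or_odd' with rfl | hodd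
    · have e1 : Δ.card = 1 := by omega
      have hfix : g.support = Finset.univ := Finset.eq_univ_iff_forall.2 fun z =>
        mem_support.2 fun h => hg2 {z} (by rw [e1]; rfl) (by simp [h])
      have e2 := cycleType_of_pow_prime_eq_one (p := 2) (hg1 ▸ pow_orderOf_eq_one g)
      have e3 := sum_cycleType g
      rw [hfix, Finset.card_univ, Fintype.card_fin] at e3
      have e4 : g.cycleType.card * 2 = m := by
        rwa [e2, Multiset.sum_replicate, smul_eq_mul] at e3
      rw [e1, Nat.choose_one_right] at hdn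
      obtain ⟨q, hq, hq'⟩ := Nat.exists_prime_and_dvd (show g.cycleType.card ≠ 1 by omega)
      have e5 := hmax q hq ((hq'.trans (Dvd.intro _ e4)).trans hdn)
      obtain rfl : q = 2 := le_antisymm e5 hq.two_le
      rw [sign_of_cycleType, e3]
      exact Even.neg_one_pow ⟨g.cycleType.card + g.cycleType.card / 2, by omega⟩
    · have := congrArg sign (hg1 ▸ pow_orderOf_eq_one g : g ^ r = 1)
      rw [map_pow, map_one] at this
      rcases Int.units_eq_one_or (sign g) with h | h
      · exact h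
      · rw [h, hodd.neg_one_pow] at this
        exact absurd this (by decide)
  · have e : ∀ w, w ∈ Δ.image (y⁻¹ : Perm (Fin m)) ↔ y w ∈ Δ := fun w => by
      rw [← (y⁻¹).injective.mem_finset_image (s := Δ)]; simp
    rw [e, e, ← hKΔ _ hy (y z)]
    simp

theorem derangement {G Ω : Type*} [Group G] [MulAction G Ω] [FaithfulSMul G Ω] [Finite Ω]
    (T : Subgroup G) [hT : T.Normal] {m : ℕ} (hm : 5 ≤ m) (eT : T ≃* alternatingGroup (Fin m))
    [hprim : IsPreprimitive G Ω] [Nontrivial Ω] {r : ℕ} (hr : r.Prime) (hrd : r ∣ Nat.card Ω)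
    (hmax : ∀ s : ℕ, s.Prime → s ∣ Nat.card Ω → s ≤ r) :
    ∃ g : G, orderOf g = r ∧ ∀ ω : Ω, g • ω ≠ ω := by
  classical
  haveI : Nontrivial (alternatingGroup (Fin m)) :=
    alternatingGroup.nontrivial_of_three_le_card (by simp; omega)
  haveI : Nontrivial T := eT.toEquiv.nontrivial
  haveI : IsPretransitive T Ω := IsQuasiPreprimitive.isPretransitive_of_normal fun h => by
    obtain ⟨t, ht⟩ := exists_ne (1 : T)
    refine ht (Subtype.ext (FaithfulSMul.eq_of_smul_eq_smul (α := Ω) fun ω => ?_))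
    have : ω ∈ fixedPoints T Ω := h ▸ Set.mem_univ ω
    exact (this t).trans (one_smul G ω).symm
  obtain ⟨ω0, -⟩ := exists_pair_ne Ω
  set A := alternatingGroup (Fin m) with hA
  set K := ((stabilizer T ω0).map eT.toMonoidHom).map A.subtype with hK
  have hKm : ∀ t : T, (eT t : Perm (Fin m)) ∈ K ↔ (t : G) • ω0 = ω0 := fun t =>
    (mem_map_iff_mem A.subtype_injective).trans (mem_map_iff_mem (f := eT.toMonoidHom) eT.injective)
  have hn : K.relIndex A = Nat.card Ω := by
    rw [relIndex, ← comap_subtype, comap_map_eq_self_of_injective A.subtype_injective,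
      ← index_stabilizer_of_transitive T ω0]
    exact index_map_equiv _ eT
  obtain ⟨g, hg, ho, h⟩ := core hm K (map_subtype_le _) hr (hn ▸ hrd) (hn ▸ hmax) (by
    intro h6 x hx hx' σ hσ hfix
    let e := MulEquiv.ofBijective _ (S2119.result m (by omega) h6)
    let Φ : G →* Perm (Fin m) := e.symm.toMonoidHom.comp
      ((MulAut.congr eT).toMonoidHom.comp MulAut.conjNormal)
    have hΦ : ∀ (g : G) (t : T), Φ g * eT t * (Φ g)⁻¹ = eT (MulAut.conjNormal g t) := by
      intro g t
      have : e (Φ g) = MulAut.congr eT (MulAut.conjNormal g) := e.apply_symm_apply _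
      have h1 := congrArg (fun f : MulAut A => (f (eT t) : Perm (Fin m))) this
      simpa [e] using h1
    have hΦT : ∀ t : T, Φ t = eT t := fun t => by
      apply e.injective
      ext1 a
      obtain ⟨u, rfl⟩ := eT.surjective a
      apply Subtype.ext
      change Φ t * eT u * (Φ t)⁻¹ = eT t * eT u * (eT t : Perm (Fin m))⁻¹
      rw [hΦ, ← Subgroup.coe_inv, ← Subgroup.coe_mul, ← Subgroup.coe_mul, ← map_inv, ← map_mul,
        ← map_mul]
      rfl
    have hle : stabilizer G ω0 ≤ (stabilizer (Perm (Fin m)) (orbit K x)).comap Φ := by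
      intro g hg
      have hconj : ∀ g ∈ stabilizer G ω0, ∀ k ∈ K, Φ g * k * (Φ g)⁻¹ ∈ K := by
        rintro g hg _ ⟨_, ⟨t, ht, rfl⟩, rfl⟩
        change Φ g * eT t * (Φ g)⁻¹ ∈ K
        rw [hΦ, hKm]
        exact (stabilizer G ω0).mul_mem ((stabilizer G ω0).mul_mem hg ht) (inv_mem hg)
      have e1 : Φ g • orbit K x = orbit K (Φ g x) := by
        ext y
        constructor
        · rintro ⟨_, ⟨k, rfl⟩, rfl⟩
          exact ⟨⟨_, hconj g hg k k.2⟩, by simp [Subgroup.smul_def]⟩
        · rintro ⟨k, rfl⟩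
          exact ⟨_, ⟨⟨_, hconj g⁻¹ (inv_mem hg) k k.2⟩, rfl⟩, by simp [Subgroup.smul_def]⟩
      change Φ g • orbit K x = orbit K x
      refine ((orbit.eq_or_disjoint (G := K) (Φ g x) x).imp_left e1.trans).resolve_right fun hd => ?_
      have e2 := Set.ncard_union_eq hd
      have e3 := Set.ncard_le_card (orbit K (Φ g x) ∪ orbit K x)
      rw [e2, ← e1, Set.ncard_smul_set, Nat.card_fin] at e3
      omega
    have hne : (stabilizer (Perm (Fin m)) (orbit K x)).comap Φ ≠ ⊤ := fun htop => by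
      obtain ⟨y, hy⟩ := (Set.ne_univ_iff_exists_notMem _).1 hx'
      haveI := alternatingGroup.isPretransitive_of_three_le_card (Fin m) (by simp; omega)
      obtain ⟨a, ha⟩ := exists_smul_eq A x y
      obtain ⟨t, rfl⟩ := eT.surjective a
      have : Φ t • orbit K x = orbit K x := (htop ▸ mem_top (t : G) :
        (t : G) ∈ (stabilizer (Perm (Fin m)) (orbit K x)).comap Φ)
      rw [← this, hΦT, ← ha] at hy
      exact hy (Set.smul_mem_smul_set (mem_orbit_self x))
    have heq := ((IsPreprimitive.isCoatom_stabilizer_of_isPreprimitive G ω0).le_iff.1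
      hle).resolve_left hne
    obtain ⟨t, ht⟩ := eT.surjective ⟨σ, hσ⟩
    have e4 : (eT t : Perm (Fin m)) = σ := congrArg Subtype.val ht
    rw [← e4, hKm, ← mem_stabilizer_iff, ← heq]
    change Φ t • orbit K x = orbit K x
    rw [hΦT, e4, hfix])
  obtain ⟨t, ht⟩ := eT.surjective ⟨g, hg⟩
  refine ⟨t, by rw [orderOf_coe, ← eT.orderOf_eq, ht, ← orderOf_coe, ho], fun ω hω => ?_⟩
  obtain ⟨u, rfl⟩ := exists_smul_eq T ω0 ω
  refine h (eT u⁻¹) (eT u⁻¹).2 ?_
  have := (hKm (u⁻¹ * t * u⁻¹⁻¹)).2 (by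
    rw [inv_inv, Subgroup.coe_mul, Subgroup.coe_mul, mul_smul, mul_smul, Subgroup.coe_inv,
      inv_smul_eq_iff]
    exact hω)
  rwa [map_mul, map_mul, map_inv eT u⁻¹, ht] at this

end Cfsg.Agent.Mult.Derang
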