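import Cfsg.Agent.Mult.EqOrd
import Cfsg.Agent.Gen2.EqO1
import Cfsg.Agent.FG.BGrp
import Cfsg.Agent.AutCl.FieldAut
import Cfsg.Agent.Loc.TT
import Cfsg.Agent.Perm.Affine

/-! Solvable groups whose abelian subgroups of equal order are conjugate. (helper1) -/

set_option autoImplicit false

namespace Cfsg.Agent.Mult

open Subgroup Pointwise Cfsg.Agent.Solv Cfsg.Agent.FG.BGrp Cfsg.Agent.BG

universe u

theorem eo_good {R : Type*} [Group R] [Finite R] {r : ℕ} [hr : Fact r.Prime] (hn : ¬ IsCyclic R)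
    (h : (∀ x : R, x ^ r = 1) ∨ ∃ n, 1 ≤ n ∧ Nonempty (R ≃* QuaternionGroup (2 ^ n))) :
    ∃ o : ℕ, (∀ X : Subgroup R, (∀ x, orderOf x = o → x ∈ X) → ∀ x, x ∈ X) ∧
      ∀ (Y : Type) [Group Y] [IsCyclic Y] (f : R →* Y), ∃ x, orderOf x = o ∧ f x = 1 := by
  rcases h with h | ⟨n, h1, ⟨e⟩⟩
  · refine ⟨r, fun X hX x => ?_, fun Y _ _ f => by_contra fun hf => hn (isCyclic_of_injective f
      ((injective_iff_map_eq_one f).2 fun x hx => by_contra fun x1 => hf ⟨x, orderOf_eq_prime (h x) x1, hx⟩))⟩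
    by_cases x1 : x = 1
    · rw [x1]; exact one_mem _
    · exact hX x (orderOf_eq_prime (h x) x1)
  open QuaternionGroup in
  have o4 : ∀ i, orderOf (e.symm (xa i)) = 4 := fun i => by rw [MulEquiv.orderOf_eq, orderOf_xa]
  open QuaternionGroup in
  refine ⟨4, fun X hX x => ?_, fun Y _ _ f => ?_⟩
  · obtain ⟨i | i, rfl⟩ := e.symm.surjective x
    · have := mul_mem (hX _ (o4 0)) (hX _ (o4 (i - (2 ^ n : ℕ))))
      rwa [← map_mul, xa_mul_xa, sub_zero, add_sub_cancel] at this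
    · exact hX _ (o4 i)
  letI := IsCyclic.commGroup (α := Y)
  let g := f.comp e.symm.toMonoidHom
  have a1 : g (a 1) * g (a 1) = 1 := by
    have : g (xa 0) * g (a 1) = g (a 1) * g (xa 0) := mul_comm _ _
    rw [← map_mul, ← map_mul, xa_mul_a, a_mul_xa, show xa (0 + 1) = xa (0 - 1) * a 1 * a 1 by simp, map_mul, map_mul,
      mul_assoc, mul_eq_left] at this
    exact this
  obtain ⟨n, rfl⟩ := Nat.exists_eq_add_of_le' h1
  have a2 : g (xa 0) * g (xa 0) = 1 := by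
    rw [← map_mul, xa_mul_xa, add_zero, sub_zero, ← a_one_pow, map_pow]
    generalize g (a 1) = u at a1
    rw [pow_succ' 2, pow_mul, sq, a1, one_pow]
  by_cases b1 : g (xa 0) = 1
  · exact ⟨_, o4 0, b1⟩
  by_cases b2 : g (a 1) = 1
  · refine ⟨e.symm (a 1 ^ 2 ^ n), ?_, by change g _ = 1; rw [map_pow, b2, one_pow]⟩
    rw [MulEquiv.orderOf_eq, orderOf_pow_of_dvd (by positivity) (by rw [orderOf_a_one]; exact ⟨4, by ring⟩),
      orderOf_a_one]
    exact Nat.div_eq_of_eq_mul_left (by positivity) (by ring)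
  refine ⟨_, o4 (0 + 1), ?_⟩
  change g _ = 1
  rw [← xa_mul_a, map_mul, Loc.eq_of_isCyclic_of_mul_self a2 b1 a1 b2, a1]

variable {G : Type u} [Group G] [Finite G] {p : ℕ}

theorem eo_cyc (hB : BG G) {r : ℕ} [Fact r.Prime] {C Z R : Subgroup G} [C.Normal] [Z.Normal] (hR : IsPGroup r R)
    (hC : ¬ R ≤ C) {Y Y' : Type} [Group Y] [IsCyclic Y] [Group Y'] [IsCyclic Y'] (α : Z →* Y)
    (hα : ∀ z, α z = 1 → z.1 ∈ C) (β : R →* Y') (hβ : ∀ x, β x = 1 → x.1 ∈ Z) : IsCyclic R := by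
  by_contra hn
  obtain ⟨o, h1, h2⟩ := eo_good (r := r) hn ((rk1_or_exp hB hR).symm.imp (fun h x => Subtype.ext (h x x.2))
    fun h => ((h.isCyclic_or_quaternion hR).resolve_left hn).2)
  have key : ∀ (X : Subgroup G) [X.Normal] (x : R), orderOf x = o → x.1 ∈ X → R ≤ X := fun X _ x a b y hy =>
    h1 (X.subgroupOf R) (fun z hz => S3909.mem_of hB X z ⟨x, b, by rw [orderOf_coe, orderOf_coe, a, hz]⟩) ⟨y, hy⟩
  obtain ⟨x, a, b⟩ := h2 _ β
  have hZ := key Z x a (hβ x b)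
  obtain ⟨x, a, b⟩ := h2 _ (α.comp (inclusion hZ))
  exact hC (key C x a (hα _ b))

omit [Finite G] in
theorem eo_lin3 {V F : Type*} [AddCommGroup V] [Field F] (ρ : G → V → V) (h1 : ∀ v, ρ 1 v = v)
    (h2 : ∀ g h v, ρ (g * h) v = ρ g (ρ h v)) (e : V ≃+ F)
    (he : ∀ g, ∃ (a : F) (σ : F ≃+* F), ∀ v, e (ρ g v) = a * σ (e v)) :
    ∃ (β : G →* (F ≃+* F)) (α : β.ker →* Fˣ), ∀ z, α z = 1 → ∀ v, ρ z v = v := by
  choose a σ he using he
  have a1 : a 1 = 1 := by simpa [h1] using (he 1 (e.symm 1)).symm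
  have am : ∀ g h, a (g * h) = a g * σ g (a h) := fun g h => by
    have := he (g * h) (e.symm 1)
    rw [h2, he, he] at this
    simpa using this.symm
  have a0 : ∀ g, a g ≠ 0 := fun g h => by simpa [h, a1] using am g g⁻¹
  let β : G →* (F ≃+* F) := MonoidHom.mk' σ fun g h => RingEquiv.ext fun x => by
    have := he (g * h) (e.symm x)
    rw [h2, he, he, map_mul, ← mul_assoc, ← am, e.apply_symm_apply] at this
    exact (mul_left_cancel₀ (a0 _) this).symm
  refine ⟨β, MonoidHom.mk' (fun g => Units.mk0 (a g) (a0 g)) fun g h => Units.ext ?_, fun z hz v => e.injective ?_⟩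
  · have : σ g = 1 := g.2
    simp [am, this]
  · have : σ z = 1 := z.2
    have h3 : a z = 1 := congrArg Units.val hz
    simp [he, this, h3]

theorem eo_mat2 [hp : Fact p.Prime] (τ : G →* Matrix (Fin 2) (Fin 2) (ZMod p)) (R : Subgroup G)
    (h0 : ∀ g ∈ R, τ g 1 0 = 0) (hp' : ∀ g ∈ R, ¬ p ∣ orderOf g) :
    ∃ (Z : Subgroup G) (_ : Z.Normal) (α : Z →* (ZMod p)ˣ) (β : R →* (ZMod p)ˣ),
      (∀ z, α z = 1 → τ z = 1) ∧ ∀ x, β x = 1 → x.1 ∈ Z := by
  let Z : Subgroup G :=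
    { carrier := {g | ∃ c : ZMod p, τ g = c • 1}
      one_mem' := ⟨1, by simp⟩
      mul_mem' := by
        rintro a b ⟨c, hc⟩ ⟨d, hd⟩
        exact ⟨d * c, by simp [hc, hd, smul_smul]⟩
      inv_mem' := by
        rintro a ⟨c, hc⟩
        have : τ a * τ a⁻¹ = 1 := by rw [← map_mul, mul_inv_cancel, map_one]
        rw [hc, Matrix.smul_mul, one_mul] at this
        have c0 : c ≠ 0 := fun e => by simp [e] at this
        exact ⟨c⁻¹, by rw [← this, smul_smul, inv_mul_cancel₀ c0, one_smul]⟩ }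
  have d : ∀ (S : Subgroup G) (i : Fin 2), (∀ g ∈ S, τ g 1 0 = 0) → ∃ f : S →* (ZMod p)ˣ, ∀ g, (f g : ZMod p) = τ g i i :=
    fun S i h => ⟨MonoidHom.toHomUnits
      { toFun := fun g => τ g i i
        map_one' := by simp
        map_mul' := fun a b => by
          have := h a a.2
          have := h b b.2
          fin_cases i <;> simp [Matrix.mul_apply, Fin.sum_univ_two, *] }, fun _ => rfl⟩
  obtain ⟨α, hα⟩ := d Z 0 (by rintro g ⟨c, hc⟩; simp [hc])
  obtain ⟨l, hl⟩ := d R 0 h0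
  obtain ⟨m, hm⟩ := d R 1 h0
  refine ⟨Z, ⟨?_⟩, α, l / m, ?_, fun x hx => ⟨l x, ?_⟩⟩
  · rintro a ⟨c, hc⟩ g
    exact ⟨c, by rw [map_mul, map_mul, hc, Matrix.mul_smul, Matrix.smul_mul, mul_one, ← map_mul, mul_inv_cancel, map_one]⟩
  · rintro z hz
    obtain ⟨c, hc⟩ := z.2
    have := hα z
    rw [hz, hc] at this
    rw [hc, show c = 1 by simpa using this.symm, one_smul]
  have e : l x = m x := div_eq_one.1 hx
  have e1 := h0 x x.2
  have e2 : τ x 1 1 = τ x 0 0 := by rw [← hm, ← e, hl]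
  have pw : ∀ k : ℕ, (τ x ^ k) 1 1 = τ x 0 0 ^ k ∧ (τ x ^ k) 1 0 = 0 ∧ τ x 0 0 * (τ x ^ k) 0 1 = k * τ x 0 0 ^ k * τ x 0 1 := by
    intro k
    induction k with
    | zero => simp
    | succ k ih =>
      simp only [pow_succ' (τ x), Matrix.mul_apply, Fin.sum_univ_two, e1, e2, ih.1, ih.2.1, mul_add, ih.2.2]
      refine ⟨by ring, by ring, by push_cast; ring⟩
  have := (pw (orderOf x.1)).2.2
  rw [← map_pow, pow_orderOf_eq_one, map_one] at this
  have e3 : τ x 0 1 = 0 := by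
    have a1 : ((orderOf x.1 : ℕ) : ZMod p) ≠ 0 := fun h => hp' x x.2 ((ZMod.natCast_eq_zero_iff _ _).1 h)
    have a2 : τ x 0 0 ≠ 0 := hl x ▸ (l x).ne_zero
    rw [Matrix.one_apply_ne (by decide), mul_zero, eq_comm, mul_eq_zero, mul_eq_zero] at this
    exact this.resolve_left (not_or.2 ⟨a1, pow_ne_zero _ a2⟩)
  ext i j
  fin_cases i <;> fin_cases j <;> simp [e1, e2, e3, hl]

theorem eo_sylow [Group.IsSolvable G] [hp : Fact p.Prime] (hB : BG G) {N A R : Subgroup G} [N.Normal]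
    (hN : IsElementaryAbelian p N) (h2 : p ^ 2 ∣ Nat.card N) (hA : A < N) (h0 : A ≠ ⊥) {r : ℕ} [hr : Fact r.Prime]
    (hrp : r ≠ p) (hR : IsPGroup r R) (hRA : R ≤ normalizer (A : Set G)) (hC : ¬ R ≤ centralizer (N : Set G)) :
    IsCyclic R := by
  let ρ := (Perm.linRep hN ⊤).comp topEquiv.symm.toMonoidHom
  have hρ : ∀ g v, (ρ g v).val = g * v.val * g⁻¹ := fun _ _ => rfl
  have cn : ∀ g, (∀ v, ρ g v = v) → g ∈ centralizer (N : Set G) := fun g h x hx =>
    (mul_inv_eq_iff_eq_mul.1 (congrArg AbV.val (h (AbV.mk hN x hx)))).symm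
  rw [AbV.card_eq_pow hN, Nat.pow_dvd_pow_iff_le_right hp.out.one_lt] at h2
  rcases h2.lt_or_eq with h3 | h3
  · obtain ⟨F, _, _, e, he, -⟩ := Gen2.EqO.lin_main ρ inferInstance rfl h3 fun U W h => by
      obtain ⟨g, hg⟩ := hB (AbV.toSub U) (AbV.toSub W) (Loc.isElementaryAbelian_of_le hN (AbV.toSub_le U)).1
        (Loc.isElementaryAbelian_of_le hN (AbV.toSub_le W)).1 (by rw [AbV.card_toSub_eq_pow, AbV.card_toSub_eq_pow, h])
      refine ⟨g, Submodule.eq_of_le_of_finrank_eq ?_ (by rw [LinearEquiv.finrank_map_eq, h])⟩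
      rintro _ ⟨u, hu, rfl⟩
      rw [← AbV.val_mem_toSub, hg]
      exact ⟨u.val, AbV.val_mem_toSub.2 hu, rfl⟩
    obtain ⟨β, α, h⟩ := eo_lin3 (fun g v => ρ g v) (by simp) (by simp) e he
    haveI := AutCl.isCyclic_ringAut (F := F)
    exact eo_cyc hB hR hC α (fun z hz => cn _ (h z hz)) (β.comp R.subtype) fun x hx => hx
  obtain ⟨⟨a, ha⟩, a1⟩ := ne_bot_iff_exists_ne_one.1 h0
  obtain ⟨b, hb, b1⟩ := SetLike.exists_of_lt hA
  have li : LinearIndependent (ZMod p) ![AbV.mk hN a (hA.le ha), AbV.mk hN b hb] := by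
    refine (LinearIndependent.pair_iff' (K := ZMod p) (x := AbV.mk hN a (hA.le ha)) fun e =>
      a1 (Subtype.ext ((AbV.val_eq_one (v := AbV.mk hN a (hA.le ha))).2 e))).2 fun c e => b1 ?_
    have := congrArg AbV.val e
    rw [AbV.val_smul] at this
    exact (show a ^ c.val = b from this) ▸ pow_mem ha _
  let B := basisOfLinearIndependentOfCardEqFinrank li (by simpa using h3)
  have B0 : B 0 = AbV.mk hN a (hA.le ha) := by simp [B]
  have B1 : B 1 = AbV.mk hN b hb := by simp [B]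
  let τ : G →* Matrix (Fin 2) (Fin 2) (ZMod p) :=
    { toFun := fun g => LinearMap.toMatrix B B (ρ g)
      map_one' := by simp
      map_mul' := fun g h => by rw [← LinearMap.toMatrix_mul, map_mul]; rfl }
  obtain ⟨Z, _, α, β, h4, h5⟩ := eo_mat2 τ R (fun g hg => by
    change LinearMap.toMatrix B B (ρ g) 1 0 = 0
    rw [LinearMap.toMatrix_apply]
    by_contra hne
    replace hne : B.repr (ρ g (B 0)) 1 ≠ 0 := hne
    have s := B.sum_repr (ρ g (B 0))
    rw [Fin.sum_univ_two] at s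
    have m1 : ρ g (B 0) ∈ AbV.ofSub hN A := by
      rw [AbV.mem_ofSub, hρ, B0]; exact (mem_normalizer_iff.1 (hRA hg) a).1 ha
    have m2 : B 0 ∈ AbV.ofSub hN A := by rw [AbV.mem_ofSub, B0]; exact ha
    rw [← s, Submodule.add_mem_iff_right _ (Submodule.smul_mem _ _ m2), Submodule.smul_mem_iff _ hne, B1] at m1
    exact b1 m1) fun g hg h => by
      obtain ⟨k, hk⟩ := Loc.exists_orderOf_of_isPGroup hR hg
      exact hrp ((Nat.prime_dvd_prime_iff_eq hp.out hr.out).1 (hp.out.dvd_of_dvd_pow (hk ▸ h))).symm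
  refine eo_cyc hB hR hC α (fun z hz => cn _ fun v => ?_) β h5
  have : (ρ z : AbV hN →ₗ[ZMod p] AbV hN) = 1 := (LinearMap.toMatrix B B).injective ((h4 z hz).trans (by simp))
  exact LinearMap.congr_fun this v

theorem ccj_Z [Group.IsSolvable G] (r : ℕ) (cy : ∀ q : ℕ, q.Prime → ∀ P : Subgroup G, IsPGroup q P → IsCyclic P) :
    CCj G := by
  refine ccj_main _ G rfl (fun q hq H K a1 a2 e => ?_) r fun q hq _ => cy q hq
  haveI := Fact.mk hq
  obtain ⟨S, hS⟩ := a1.exists_le_sylow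
  obtain ⟨T, hT⟩ := a2.exists_le_sylow
  obtain ⟨g, rfl⟩ := MulAction.exists_smul_eq G S T
  haveI : IsCyclic (MulAut.conj g • S.1 : Subgroup G) := cy q hq _ (g • S).2
  exact ⟨g, Gen2.eq_of_card_eq_of_isCyclic (conj_smul_mono g hS) hT (by rw [card_conj_smul, e])⟩

theorem eo_star [Group.IsSolvable G] [hp : Fact p.Prime] (hB : BG G) {N A T U : Subgroup G} [N.Normal]
    (hN : IsElementaryAbelian p N) (h2 : p ^ 2 ∣ Nat.card N) (hA : A ≤ N)
    (t1 : T ≤ normalizer (A : Set G)) (u1 : U ≤ normalizer (A : Set G)) (t2 : IsMulCommutative T)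
    (u2 : IsMulCommutative U) (u3 : IsPiNum {p}ᶜ (Nat.card U)) (e : Nat.card T = Nat.card U) :
    ∃ g ∈ normalizer (A : Set G), MulAut.conj g • T = U := by
  obtain ⟨g, hg⟩ := hB T U t2 u2 e
  replace hg : MulAut.conj g • T = U := hg.symm
  by_cases h0 : A = ⊥ ∨ A = N
  · haveI : A.Normal := by rcases h0 with rfl | rfl <;> infer_instance
    exact ⟨g, le_normalizer_of_normal (mem_top g), hg⟩
  rw [not_or] at h0
  set C := centralizer (N : Set G)
  have nC : ∀ g : G, MulAut.conj g • C = C := fun g => conj_smul_eq_self_iff.2 (le_normalizer_of_normal (mem_top g))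
  have e1 : Nat.card (C ⊓ T : Subgroup G) = Nat.card (C ⊓ U : Subgroup G) := by
    rw [← hg, ← card_conj_smul g (C ⊓ T), smul_inf, nC]
  have pA : IsPiNum {p} (Nat.card A) := isPiNum_card_singleton_iff.2 ((isPGroup_of_pow_eq_one hN.2).to_le hA)
  have NC : N ≤ C := fun a ha b hb => congrArg Subtype.val (hN.1.is_comm.comm (⟨b, hb⟩ : N) ⟨a, ha⟩)
  have ab : ∀ T : Subgroup G, IsMulCommutative T → IsPiNum {p}ᶜ (Nat.card T) →
      A ⊔ C ⊓ T ≤ centralizer (A ⊔ C ⊓ T : Subgroup G) ∧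
      Nat.card (A ⊔ C ⊓ T : Subgroup G) = Nat.card A * Nat.card (C ⊓ T : Subgroup G) := fun T t2 t3 => by
    have c1 : C ⊓ T ≤ centralizer (A : Set G) := inf_le_left.trans (centralizer_le hA)
    refine ⟨?_, card_sup_of_coprime (c1.trans (centralizer_le_normalizer _)) (pA.coprime (t3.card_of_le inf_le_right))⟩
    rw [sup_le_iff, le_centralizer_iff, le_centralizer_iff (H := C ⊓ T)]
    exact ⟨sup_le (hA.trans (NC.trans (centralizer_le hA))) c1, sup_le (le_centralizer_iff.1 c1) fun a ha b hb =>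
      congrArg Subtype.val (t2.is_comm.comm (⟨b, hb.2⟩ : T) ⟨a, ha.2⟩)⟩
  obtain ⟨a1, a2⟩ := ab T t2 (e ▸ u3)
  obtain ⟨b1, b2⟩ := ab U u2 u3
  obtain ⟨m, hm⟩ := hB _ _ (le_centralizer_iff_isMulCommutative.1 a1) (le_centralizer_iff_isMulCommutative.1 b1)
    (by rw [a2, b2, e1])
  replace hm : MulAut.conj m • (A ⊔ C ⊓ T) = A ⊔ C ⊓ U := hm.symm
  have hall : ∀ (π : Set ℕ) (X Y : Subgroup G), X ≤ A ⊔ C ⊓ T → Y ≤ A ⊔ C ⊓ U → Nat.card X = Nat.card Y →
      IsPiNum π (Nat.card Y) → ∀ k, IsPiNum πᶜ k → Nat.card (A ⊔ C ⊓ U : Subgroup G) = Nat.card Y * k →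
      MulAut.conj m • X = Y := fun π X Y x1 y1 e h1 k h2 h3 => by
    have := Solv.card_mul_relIndex y1
    rw [h3] at this
    refine eq_of_le_of_card_ge (HallOf.le_of_normalizes (isPiHallOf_iff.2 ⟨y1, h1,
      Nat.eq_of_mul_eq_mul_left Nat.card_pos this ▸ h2⟩) (hm ▸ conj_smul_mono m x1) (by rwa [card_conj_smul, e])
      (((hm ▸ conj_smul_mono m x1 : _ ≤ A ⊔ C ⊓ U).trans (b1.trans (centralizer_le y1))).trans
        (centralizer_le_normalizer _))) (by rw [card_conj_smul, e])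
  have m1 := conj_smul_eq_self_iff.1 (hall {p} A A le_sup_left le_sup_left rfl pA _ (u3.card_of_le inf_le_right) b2)
  have m2 := hall {p}ᶜ _ _ le_sup_right le_sup_right e1 (u3.card_of_le inf_le_right) _ pA.compl_compl
    (by rw [b2, mul_comm])
  rw [smul_inf, nC] at m2
  suffices ∃ x ∈ normalizer (A : Set G), MulAut.conj x • MulAut.conj m • T = U from
    let ⟨x, h1, hx⟩ := this; ⟨x * m, mul_mem h1 m1, by rw [← conj_smul_conj_smul, hx]⟩
  replace t1 : MulAut.conj m • T ≤ normalizer (A : Set G) := by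
    rw [← conj_smul_eq_self_iff.2 (le_normalizer m1)]; exact conj_smul_mono m t1
  replace t2 : MulAut.conj m • T ≤ centralizer (MulAut.conj m • T : Subgroup G) := by
    rw [centralizer_conj_smul]; exact conj_smul_mono m (le_centralizer_iff_isMulCommutative.2 t2)
  rw [← card_conj_smul m T] at e
  clear hall hm a1 a2 e1 hg
  generalize MulAut.conj m • T = T at *
  set π := {r | r ∣ (C ⊓ U).relIndex U}
  have ri : (C ⊓ T).relIndex T = (C ⊓ U).relIndex U := Nat.eq_of_mul_eq_mul_left (Nat.card_pos (α := ↥(C ⊓ U))) (by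
    rw [Solv.card_mul_relIndex inf_le_right, ← e, ← m2, Solv.card_mul_relIndex inf_le_right])
  obtain ⟨T₁, h1⟩ := (HallOK.of_isSolvable π T).exists_hallOf
  obtain ⟨U₁, k1⟩ := (HallOK.of_isSolvable π U).exists_hallOf
  set W := normalizer (A : Set G) ⊓ centralizer (C ⊓ U : Subgroup G)
  have tW : T ≤ W := le_inf t1 (t2.trans (centralizer_le (m2 ▸ inf_le_right : C ⊓ U ≤ T)))
  have uW : U ≤ W := le_inf u1 ((le_centralizer_iff_isMulCommutative.2 u2).trans (centralizer_le (inf_le_right : C ⊓ U ≤ U)))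
  obtain ⟨L, l1, l2⟩ := (HallOK.of_isSolvable π W).exists_hallOf_ge (k1.1.trans uW) (HallOf.card k1)
  obtain ⟨w, w1, w2⟩ := (HallOK.of_isSolvable π W).exists_conj_le_hallOf l1 (h1.1.trans tW) (HallOf.card h1)
  obtain ⟨x, x1, x2⟩ := (ccj_Z (G := L) 0 fun r hr P hP => by
    haveI := Fact.mk hr
    by_cases hP0 : P = ⊥
    · rw [hP0]; infer_instance
    have r1 : r ∣ (C ⊓ U).relIndex U :=
      HallOf.card l1 r hr ((dvd_card_of_isPGroup hP hP0).trans (card_subgroup_dvd_card P))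
    obtain ⟨S, s1⟩ := (HallOK.of_isSolvable {r} U).exists_hallOf
    obtain ⟨R, s2, s3⟩ := (HallOK.of_isSolvable {r} (normalizer (A : Set G))).exists_hallOf_ge
      ((map_subtype_le P).trans (l1.1.trans inf_le_left)) (isPiNum_card_singleton_iff.2 (hP.map _))
    obtain ⟨y, -, s4⟩ := (HallOK.of_isSolvable {r} _).exists_conj_le_hallOf s2 (s1.1.trans u1) (HallOf.card s1)
    haveI := eo_sylow hB hN h2 (hA.lt_of_ne h0.2) h0.1 (r := r) (fun e => u3 r hr (r1.trans
      ⟨_, by rw [← Solv.card_mul_relIndex (inf_le_right : C ⊓ U ≤ U), mul_comm]⟩) e)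
      (isPiNum_card_singleton_iff.1 (HallOf.card s2)) s2.1 fun h => HallOf.relIndex s1 r hr (r1.trans
        (relIndex_dvd_of_le_left _ (le_inf (by
          have := conj_smul_mono y⁻¹ (s4.trans h)
          rwa [conj_inv_smul_conj_smul, nC] at this) s1.1))) rfl
    haveI := Subgroup.isCyclic_of_le s3
    exact isCyclic_of_surjective _ (P.equivMapOfInjective _ L.subtype_injective).symm.surjective).sub w2 l2 (by
    rw [card_conj_smul]
    exact IsPiNum.eq_of_mul_eq (by rw [Solv.card_mul_relIndex h1.1, Solv.card_mul_relIndex k1.1, e]) (HallOf.card h1)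
      (HallOf.relIndex h1) (HallOf.card k1) (HallOf.relIndex k1))
  have xw := mul_mem (l1.1 x1) w1
  refine ⟨x * w, xw.1, ?_⟩
  rw [← HallOf.sup_eq_of_relIndex h1 inf_le_right (by rw [ri]; exact isPiNum_setOf_dvd _), smul_sup, ← conj_smul_conj_smul x w T₁, x2,
    m2, conj_smul_eq_self_iff.2 (centralizer_le_normalizer _ xw.2),
    HallOf.sup_eq_of_relIndex k1 inf_le_right (isPiNum_setOf_dvd _)]

theorem eo_main (n : ℕ) : ∀ (G : Type u) [Group G] [Finite G] [Group.IsSolvable G], Nat.card G = n → BG G → CCj G := by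
  induction n using Nat.strong_induction_on with
  | _ n ih =>
  intro G _ _ _ hn hB
  rcases subsingleton_or_nontrivial G with h | h
  · exact fun H K _ => ⟨1, Subsingleton.elim _ _⟩
  obtain ⟨p, N, hp, hN, h0, hc, he, hP, -⟩ := exists_normal_elementary G
  haveI := Fact.mk hp
  have hA : ∀ A ≤ N, ∀ B : Subgroup G, IsMulCommutative B → Nat.card A = Nat.card B → ∃ g : G, MulAut.conj g • A = B :=
    fun A a B b e => let ⟨g, hg⟩ := hB A B (Loc.isElementaryAbelian_of_le ⟨hc, he⟩ a).1 b e; ⟨g, hg.symm⟩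
  obtain ⟨h1, h2 | ⟨h2, h3⟩⟩ := ccj_dich N h0 he fun A a x _ e => hA A a _ inferInstance (by rw [e, Nat.card_zpowers])
  · exact ccj_prime N h2 h1 (ih _ (hn ▸ card_quotient_lt h0) _ rfl (quot_sol hB ‹_› N))
  refine ccj_sylow N hP h3 (fun A a B b => hA A a B (Loc.isElementaryAbelian_of_le ⟨hc, he⟩ b).1) fun A a L hL => ?_
  have c := (isPiNum_compl_singleton_iff hp).1 (HallOf.card hL)
  refine ih _ (hn ▸ card_lt_of_ne_top fun e => hp.coprime_iff_not_dvd.1 c.symm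
    (((dvd_pow_self p two_ne_zero).trans h2).trans (card_dvd_of_le (e ▸ le_top)))) L rfl fun T U t u e => ?_
  obtain ⟨g, g1, g2⟩ := eo_star hB ⟨hc, he⟩ h2 a ((map_subtype_le T).trans hL.1) ((map_subtype_le U).trans hL.1)
    inferInstance inferInstance ((HallOf.card hL).card_of_le (map_subtype_le U))
    (by rw [card_map_of_injective L.subtype_injective, card_map_of_injective L.subtype_injective, e])
  have NM : N ≤ normalizer (A : Set G) := fun x hx => centralizer_le_normalizer _ fun b hb =>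
    congrArg Subtype.val (hc.is_comm.comm (⟨b, a hb⟩ : N) ⟨x, hx⟩)
  rw [← HallOf.sup_eq_of_relIndex hL NM ((isPiNum_compl_singleton_iff hp).2 (hp.coprime_iff_not_dvd.2 fun h =>
    h3 (h.trans (relIndex_dvd_index_of_normal _ _))).symm)] at g1
  obtain ⟨x, hx, l, hl, rfl⟩ := (mem_sup_left_of_le_normalizer le_normalizer_of_normal).1 g1
  refine ⟨⟨l, hl⟩, (eq_of_le_of_card_ge ?_ (by rw [← conj_smul_eq_map, card_conj_smul, e])).symm⟩
  rintro _ ⟨y, hy, rfl⟩
  obtain ⟨z, hz, e⟩ : x * l * y * (x * l)⁻¹ ∈ U.map L.subtype := g2 ▸ conj_mem_conj_smul _ ⟨y, hy, rfl⟩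
  have : z.1 * (l * y * l⁻¹)⁻¹ ∈ N ⊓ L := ⟨by
    have := mul_mem hx (hN.conj_mem _ (inv_mem hx) (l * y * l⁻¹))
    rw [show z.1 = _ from e]
    simpa [mul_assoc] using this, L.mul_mem z.2 (L.inv_mem (L.mul_mem (L.mul_mem hl y.2) (L.inv_mem hl)))⟩
  rw [(isPiNum_card_singleton_iff.2 hP).inf_eq_bot (HallOf.card hL), mem_bot, mul_inv_eq_one] at this
  exact (Subtype.ext this : z = (MulAut.conj (⟨l, hl⟩ : L)).toMonoidHom y) ▸ hz

end Cfsg.Agent.Mult
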