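import Cfsg.Agent.AutCl.OSplit
import Cfsg.Agent.Classical.Sym2
import Cfsg.Agent.Classical.SpTwo

/-! Non-degenerate symmetric or skew bilinear forms on `ι → F` up to similarity (`Gr.Cong`), their
similarity groups `Gr.simB`, multipliers and determinants of similarities, and the classification
over finite fields (`cong_odd`, `proj_odd`, `cong_even`, `cong_two`). -/

set_option autoImplicit false

namespace Cfsg.Agent.Mult.Gr

open Cfsg.Agent.Geom Cfsg.Agent.Geom.Formed Cfsg.Agent.AutCl Module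
open Cfsg.Agent.Classical hiding glCongr
open Matrix hiding inv_inj mul_inv_rev

variable {F : Type*} [Field F] {ι κ μ : Type} [Fintype ι] [DecidableEq ι] [Fintype κ] [DecidableEq κ]
  [Fintype μ] [DecidableEq μ]

/-- Bilinear forms on column vectors. -/
abbrev BF (ι : Type) (F : Type*) [Field F] : Type _ := LinearMap.BilinForm F (ι → F)

/-- The similarity group. -/
def simB (B : BF ι F) : Subgroup (GL ι F) := Geo.similarityGroup fun u v => B u v

/-- `h` multiplies `B` by `k`. -/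
def Mu (B : BF ι F) (h : GL ι F) (k : F) : Prop := ∀ u v, B (h.1 *ᵥ u) (h.1 *ᵥ v) = k * B u v

/-- Non-degenerate and symmetric or skew. -/
structure Rf (B : BF ι F) : Prop where
  nd : ∀ x, (∀ y, B x y = 0) → x = 0
  sy : (∀ x y, B x y = B y x) ∨ ∀ x y, B x y = -B y x

/-- Similar forms. -/
def Cong (B : BF ι F) (B' : BF κ F) : Prop :=
  ∃ (e : (ι → F) ≃ₗ[F] (κ → F)) (c : F), c ≠ 0 ∧ ∀ u v, B' (e u) (e v) = c * B u v

variable {B : BF ι F} {B' : BF κ F} {B'' : BF μ F}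

theorem mem_simB {h : GL ι F} : h ∈ simB B ↔ ∃ k : Fˣ, Mu B h k := Iff.rfl

theorem mem_simB' {h : GL ι F} : h ∈ simB B ↔ ∃ k, k ≠ 0 ∧ Mu B h k :=
  ⟨fun ⟨k, hk⟩ => ⟨k, k.ne_zero, hk⟩, fun ⟨k, h0, hk⟩ => ⟨Units.mk0 k h0, hk⟩⟩

theorem Mu.mul {h h' : GL ι F} {k k' : F} (a : Mu B h k) (b : Mu B h' k') : Mu B (h * h') (k * k') :=
  fun u v => by rw [Units.val_mul, ← mulVec_mulVec, ← mulVec_mulVec, a, b, mul_assoc]

theorem Mu.inv {h : GL ι F} {k : F} (a : Mu B h k) (hk : k ≠ 0) : Mu B h⁻¹ k⁻¹ := fun u v => by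
  have := a ((h⁻¹).1 *ᵥ u) ((h⁻¹).1 *ᵥ v)
  rw [mulVec_mulVec, mulVec_mulVec, Units.mul_inv, one_mulVec, one_mulVec] at this
  rw [this, inv_mul_cancel_left₀ hk]

theorem mu_scal (c : Fˣ) : Mu B (scal c) ((c : F) * c) := fun u v => by
  simp [scal_mulVec, mul_assoc]

theorem scal_mem_simB (c : Fˣ) : (scal c : GL ι F) ∈ simB B := ⟨c * c, mu_scal c⟩

omit [DecidableEq ι] in
theorem Rf.exists_ne (h : Rf B) [Nonempty ι] : ∃ u v, B u v ≠ 0 := by
  by_contra! H
  exact one_ne_zero (congrFun (h.nd (fun _ => 1) (H _)) (_root_.Classical.arbitrary ι))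

theorem Mu.unique (hB : Rf B) [Nonempty ι] {h : GL ι F} {k k' : F} (a : Mu B h k) (b : Mu B h k') :
    k = k' := by
  obtain ⟨u, v, h0⟩ := hB.exists_ne
  exact mul_right_cancel₀ h0 ((a u v).symm.trans (b u v))

theorem Mu.ne_zero (hB : Rf B) [Nonempty ι] {h : GL ι F} {k : F} (a : Mu B h k) : k ≠ 0 := by
  rintro rfl
  obtain ⟨u, v, h0⟩ := hB.exists_ne
  have := a ((h⁻¹).1 *ᵥ u) ((h⁻¹).1 *ᵥ v)
  rw [mulVec_mulVec, mulVec_mulVec, Units.mul_inv, one_mulVec, one_mulVec, zero_mul] at this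
  exact h0 this

omit [Fintype ι] [DecidableEq ι] in
theorem Cong.rfl : Cong B B := ⟨.refl _ _, 1, one_ne_zero, fun _ _ => (one_mul _).symm⟩

omit [Fintype ι] [DecidableEq ι] [Fintype κ] [DecidableEq κ] in
theorem Cong.symm (h : Cong B B') : Cong B' B := by
  obtain ⟨e, c, hc, h⟩ := h
  exact ⟨e.symm, c⁻¹, inv_ne_zero hc, fun u v => by
    rw [eq_inv_mul_iff_mul_eq₀ hc, ← h, e.apply_symm_apply, e.apply_symm_apply]⟩

omit [Fintype ι] [DecidableEq ι] [Fintype κ] [DecidableEq κ] [Fintype μ] [DecidableEq μ] in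
theorem Cong.trans (h : Cong B B') (h' : Cong B' B'') : Cong B B'' := by
  obtain ⟨e, c, hc, h⟩ := h
  obtain ⟨e', c', hc', h'⟩ := h'
  exact ⟨e.trans e', c' * c, mul_ne_zero hc' hc, fun u v => by
    rw [LinearEquiv.trans_apply, LinearEquiv.trans_apply, h', h, mul_assoc]⟩

omit [Fintype ι] [DecidableEq ι] [Fintype κ] [DecidableEq κ] in
theorem Cong.isAlt (h : Cong B B') (a : B.IsAlt) : B'.IsAlt := fun v => by
  obtain ⟨e, c, -, h⟩ := h
  obtain ⟨v, rfl⟩ := e.surjective v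
  rw [h, a, mul_zero]

omit [Fintype ι] [DecidableEq ι] [Fintype κ] [DecidableEq κ] in
theorem Cong.rf (h : Cong B B') (a : Rf B) : Rf B' := by
  obtain ⟨e, c, hc, h⟩ := h
  refine ⟨fun x hx => ?_, a.sy.imp (fun s x y => ?_) fun s x y => ?_⟩
  · obtain ⟨x, rfl⟩ := e.surjective x
    rw [a.nd x fun y => (mul_eq_zero.1 ((h x y).symm.trans (hx _))).resolve_left hc, map_zero]
  all_goals
    obtain ⟨x, rfl⟩ := e.surjective x
    obtain ⟨y, rfl⟩ := e.surjective y
    rw [h, h, s]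
  ring

omit [DecidableEq ι] [DecidableEq κ] in
theorem exists_cong (hc : Fintype.card ι = Fintype.card κ) (B' : BF κ F) : ∃ B : BF ι F, Cong B B' := by
  let e : (ι → F) ≃ₗ[F] (κ → F) := LinearEquiv.ofFinrankEq _ _ (by simpa)
  exact ⟨B'.compl₁₂ e.toLinearMap e.toLinearMap, e, 1, one_ne_zero, fun u v => by simp⟩

theorem det_glCongr (e : (ι → F) ≃ₗ[F] (κ → F)) (h : GL ι F) : (glCongr e h).1.det = h.1.det := by
  rw [← det_glEquiv, ← det_glEquiv, ← LinearMap.det_conj _ e]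
  congr 1; ext1; simp [glCongr, autCongr]

theorem mu_glCongr {e : (ι → F) ≃ₗ[F] (κ → F)} {c : F} (hc : c ≠ 0)
    (he : ∀ u v, B' (e u) (e v) = c * B u v) (h : GL ι F) (k : F) :
    Mu B' (glCongr e h) k ↔ Mu B h k := by
  refine ⟨fun a u v => mul_left_cancel₀ hc ?_, fun a u v => ?_⟩
  · rw [← he, ← glCongr_mulVec, ← glCongr_mulVec, a, he, mul_left_comm]
  · obtain ⟨u, rfl⟩ := e.surjective u
    obtain ⟨v, rfl⟩ := e.surjective v
    rw [glCongr_mulVec, glCongr_mulVec, he, he, a, mul_left_comm]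

theorem Cong.proj (h : Cong B B') : Nonempty (projQuot (simB B) ≃* projQuot (simB B')) := by
  obtain ⟨e, c, hc, h⟩ := h
  exact projQuot_congr e fun s => exists_congr fun k => (mu_glCongr hc h s k).symm

theorem Cong.mu (h : Cong B B') {g : GL ι F} {k : F} (a : Mu B g k) :
    ∃ g' : GL κ F, Mu B' g' k ∧ g'.1.det = g.1.det := by
  obtain ⟨e, c, hc, h⟩ := h
  exact ⟨_, (mu_glCongr hc h g k).2 a, det_glCongr e g⟩

theorem Mu.det_sq (hB : Rf B) {h : GL ι F} {k : F} (a : Mu B h k) :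
    h.1.det ^ 2 = k ^ Fintype.card ι := by
  have h1 : (LinearMap.BilinForm.toMatrix' B).det ≠ 0 := by
    rw [Ne, ← Matrix.exists_vecMul_eq_zero_iff]
    rintro ⟨v, hv, e⟩
    refine hv (hB.nd v fun y => ?_)
    rw [← Matrix.toBilin'_toMatrix' B, Matrix.toBilin'_apply', dotProduct_mulVec, e,
      zero_dotProduct]
  have h2 : h.1ᵀ * LinearMap.BilinForm.toMatrix' B * h.1 = k • LinearMap.BilinForm.toMatrix' B := by
    rw [← LinearMap.toMatrix'_toLin' h.1, ← LinearMap.BilinForm.toMatrix'_comp, ← map_smul]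
    exact congrArg _ (LinearMap.ext₂ a)
  have h3 := congrArg det h2
  rw [det_mul, det_mul, det_transpose, det_smul] at h3
  exact mul_right_cancel₀ h1 (by rw [← h3]; ring)

theorem Mu.exists_sq [Finite F] (hB : Rf B) [Nonempty ι] (h2 : Odd (Fintype.card ι) ∨ (2 : F) = 0)
    {h : GL ι F} {k : F} (a : Mu B h k) : ∃ t, k = t ^ 2 ∧ h.1.det = t ^ Fintype.card ι := by
  have h1 := a.det_sq hB
  have h0 := a.ne_zero hB
  rcases h2 with ⟨m, hm⟩ | h2
  · have h3 : (h.1.det / k ^ m) ^ 2 = k := by rw [div_pow, h1, hm]; field_simp; ring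
    exact ⟨_, h3.symm, by rw [hm, pow_succ, pow_mul, h3]; field_simp⟩
  · have : CharP F 2 := (CharP.charP_iff_prime_eq_zero Nat.prime_two).2 h2
    obtain ⟨t, rfl⟩ := isSquare_of_charTwo' k
    exact ⟨t, (sq t).symm, CharTwo.sq_inj.1 (by rw [h1]; ring)⟩

theorem mu_of_equiv (e : (ι → F) ≃ₗ[F] (ι → F)) {k : F} (he : ∀ u v, B (e u) (e v) = k * B u v) :
    Mu B ((glEquiv ι F).symm e) k := fun u v => by
  rw [glEquiv_symm_mulVec, glEquiv_symm_mulVec, he]

theorem rf_sympB (m : ℕ) : Rf (sympB m F) :=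
  ⟨sympFormed_nondeg m F, .inr fun x y => (LinearMap.IsAlt.neg (sympB_isAlt m F) y x).symm⟩

theorem gsp_eq_simB (m : ℕ) : GSp m F = simB (sympB m F) := by
  simp only [GSp, simB, sympB_apply]

theorem cong_alt (hB : Rf B) (hB' : Rf B') (a : B.IsAlt) (a' : B'.IsAlt)
    (hc : Fintype.card ι = Fintype.card κ) : Cong B B' := by
  obtain ⟨e, he⟩ := exists_equiv_alt hB.nd hB'.nd a a' (by simpa)
  exact ⟨e, 1, one_ne_zero, fun u v => by rw [he, one_mul]⟩

theorem alt_ex (hB : Rf B) (a : B.IsAlt) {k : F} (hk : k ≠ 0) : ∃ h, Mu B h k := by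
  obtain ⟨e, he⟩ := exists_equiv_alt (B := k • B) (C := B)
    (fun x hx => hB.nd x fun y => by simpa [hk] using hx y) hB.nd (fun x => by simp [a x]) a rfl
  exact ⟨_, mu_of_equiv e he⟩

theorem alt_det (hB : Rf B) (a : B.IsAlt) {m : ℕ} (hm : Fintype.card ι = 2 * m) {h : GL ι F} {k : F}
    (hk : k ≠ 0) (b : Mu B h k) : h.1.det = k ^ m := by
  obtain ⟨g, b, e⟩ := (cong_alt hB (rf_sympB m) a (sympB_isAlt m F) (by simp [hm, two_mul])).mu b
  have hd : (diagonal (Sum.elim (fun _ => k) fun _ => 1) : Matrix (Fin m ⊕ Fin m) _ F).det = k ^ m := by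
    simp [det_diagonal]
  let d : GL (Fin m ⊕ Fin m) F := GeneralLinearGroup.mkOfDetNeZero _ (hd ▸ pow_ne_zero m hk)
  have h1 : Mu (sympB m F) d k := fun u v => by
    simp only [sympB_apply, sympForm_apply, Finset.mul_sum]
    exact Finset.sum_congr rfl fun _ _ => by simp [d, mulVec_diagonal]; ring
  have h2 := b.mul (h1.inv hk)
  rw [mul_inv_cancel₀ hk] at h2
  have h3 := SymplecticGroup.det_eq_one ((mem_symplecticGroup_iff (A := (g * d⁻¹).1)).2 fun u v => by
    simpa [sympB_apply] using h2 u v)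
  rw [← e, ← hd, show g.1 = (g * d⁻¹).1 * d.1 by rw [← Units.val_mul, inv_mul_cancel_right], det_mul,
    h3, one_mul]
  rfl

/-! ### Symmetric forms in odd characteristic -/

theorem rf_polar {Q : QuadraticForm F (ι → F)} (h : (ofQuad Q).Nondeg) : Rf Q.polarBilin :=
  ⟨h, .inl fun x y => QuadraticMap.polar_comm _ x y⟩

omit [Fintype ι] [DecidableEq ι] in
theorem Rf.symm_of (hB : Rf B) (h : ¬ B.IsAlt) : ∀ x y, B x y = B y x := by
  refine hB.sy.elim id fun s x y => ?_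
  obtain ⟨v, hv⟩ := not_forall.1 h
  have h2 : (2 : F) = 0 := (mul_eq_zero.1 (show 2 * B v v = 0 by linear_combination s v v)).resolve_right hv
  linear_combination s x y - B y x * h2

omit [Fintype ι] [DecidableEq ι] in
theorem Rf.exists_quad (hB : Rf B) (h : ¬ B.IsAlt) (h2 : (2 : F) ≠ 0) :
    ∃ Q : QuadraticForm F (ι → F), (ofQuad Q).Nondeg ∧ B = Q.polarBilin := by
  have e : B = ((2 : F)⁻¹ • LinearMap.BilinMap.toQuadraticMap B).polarBilin :=
    LinearMap.ext₂ fun x y => by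
      simp [QuadraticMap.polar, hB.symm_of h y x]; field_simp; ring
  exact ⟨_, fun x hx => hB.nd x (by rw [e]; exact hx), e⟩

theorem not_isAlt_polar {Q : QuadraticForm F (ι → F)} (h : (ofQuad Q).Nondeg) (h2 : (2 : F) ≠ 0)
    [Nonempty ι] : ¬ LinearMap.BilinForm.IsAlt Q.polarBilin := fun a => by
  obtain ⟨u, v, h0⟩ := (rf_polar h).exists_ne
  exact h0 ((mul_eq_zero.1 (show 2 * Q.polarBilin u v = 0 by
    have : Q.polarBilin u v = Q.polarBilin v u := QuadraticMap.polar_comm Q u v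
    linear_combination this - LinearMap.IsAlt.neg a v u)).resolve_left h2)

omit [Fintype ι] [DecidableEq ι] [Fintype κ] [DecidableEq κ] in
theorem cong_polar_iff {Q : QuadraticForm F (ι → F)} {Q' : QuadraticForm F (κ → F)}
    (h2 : (2 : F) ≠ 0) : Cong Q.polarBilin Q'.polarBilin ↔
      ∃ c : F, c ≠ 0 ∧ ∃ e, (ofQuad (c • Q)).IsIso (ofQuad Q') e := by
  refine ⟨fun ⟨e, c, hc, h⟩ => ⟨c, hc, e, isIso_ofQuad fun x => mul_left_cancel₀ h2 ?_⟩,
    fun ⟨c, hc, e, h⟩ => ⟨e, c, hc, fun u v => (h.1 u v).trans (polar_smul_quad c u v)⟩⟩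
  simpa [mul_left_comm] using h x x

theorem simB_polar (Q : QuadraticForm F (ι → F)) (h2 : (2 : F) ≠ 0) :
    simB Q.polarBilin = Geo.quadSimilarityGroup (F := F) ⇑Q := by
  ext g
  refine exists_congr fun c => ⟨fun h v => mul_left_cancel₀ h2 ?_, fun h u v => ?_⟩
  · simpa [mul_left_comm] using h v v
  · simp only [QuadraticMap.polarBilin_apply_apply, QuadraticMap.polar, ← mulVec_add, h]; ring

theorem sIso_polar {V : Type*} [AddCommGroup V] [Module F V] (Q : QuadraticForm F V)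
    (h2 : (2 : F) ≠ 0) : sIso Q.polarBilin = (ofQuad Q).isom := by
  ext g
  exact ⟨fun h => mem_isom_ofQuad.2 fun v => mul_left_cancel₀ h2 (by simpa using h v v), fun h => h.1⟩

theorem sym_ex [Finite F] (hB : Rf B) (a : ¬ B.IsAlt) (h2 : (2 : F) ≠ 0) {m : ℕ}
    (hm : Fintype.card ι = 2 * m) {k : F} (hk : k ≠ 0) {ε : F} (hε : ε = 1 ∨ ε = -1) :
    ∃ h, Mu B h k ∧ h.1.det = ε * k ^ m := by
  obtain ⟨Q, hQ, rfl⟩ := hB.exists_quad a h2
  obtain ⟨w, hw⟩ := hQ.exists_wittIndex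
  obtain ⟨e, he⟩ := exists_isIso_of_wittIndex (nondeg_smul hQ hk) hQ rfl (by simp [hm])
    ((wittIndex_smul hk).2 hw) hw
  have h1 := mu_of_equiv (B := Q.polarBilin) e fun u v => (he.1 u v).trans (polar_smul_quad k u v)
  obtain ⟨v, hv⟩ := not_forall.1 a
  have hv : Q v ≠ 0 := fun h => hv (by simp [h])
  have h3 := h1.mul (mu_of_equiv (B := Q.polarBilin) (k := 1) (refl Q v).1 fun x y => by
    rw [one_mul]; exact (refl Q v).2.1 x y)
  have h4 : ((glEquiv ι F).symm (refl Q v).1).1.det = -1 := by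
    rw [← det_glEquiv, MulEquiv.apply_symm_apply, det_refl hv]
  have h5 := h1.det_sq (rf_polar hQ)
  rw [hm, pow_mul', sq_eq_sq_iff_eq_or_eq_neg] at h5
  rw [mul_one] at h3
  rcases h5 with h5 | h5 <;> rcases hε with rfl | rfl
  · exact ⟨_, h1, by rw [h5, one_mul]⟩
  · exact ⟨_, h3, by rw [Units.val_mul, det_mul, h4, h5]; ring⟩
  · exact ⟨_, h3, by rw [Units.val_mul, det_mul, h4, h5]; ring⟩
  · exact ⟨_, h1, by rw [h5, neg_one_mul]⟩

theorem card_proj [Finite F] [Nonempty ι] (hB : Rf B) (h : ∀ k ≠ 0, ∃ g, Mu B g k) :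
    Nat.card (projQuot (simB B)) = Nat.card (sIso B) := by
  choose μ hμ using fun g : simB B => g.2
  have hμ : ∀ g : simB B, Mu B g.1 (μ g) := hμ
  let φ : simB B →* Fˣ := MonoidHom.mk' μ fun a b =>
    Units.ext ((hμ (a * b)).unique hB ((hμ a).mul (hμ b)))
  have h1 : Function.Surjective φ := fun k => by
    obtain ⟨g, hg⟩ := h k k.ne_zero
    exact ⟨⟨g, k, hg⟩, Units.ext ((hμ _).unique hB hg)⟩
  have h2 : Nat.card φ.ker = Nat.card (sIso B) := by
    rw [← Nat.card_congr (mulEquivOfMemIff (glEquiv ι F) ((sIso B).comap (glEquiv ι F).toMonoidHom)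
      (sIso B) fun _ => Iff.rfl).toEquiv, ← Subgroup.card_subtype]
    congr 2
    ext g
    refine ⟨?_, fun hg => ⟨⟨g, 1, fun u v => by simpa using hg u v⟩, Units.ext ((hμ _).unique hB
      fun u v => by simpa using hg u v), rfl⟩⟩
    rintro ⟨g, hg, rfl⟩ u v
    have := hμ g u v
    rwa [show μ g = 1 from hg, Units.val_one, one_mul] at this
  have h3 : Nat.card ((Geo.scalars ι F).subgroupOf (simB B)) = Nat.card Fˣ := by
    rw [Nat.card_congr (Subgroup.subgroupOfEquivOfLe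
      (by rintro _ ⟨c, rfl⟩; exact scal_mem_simB c)).toEquiv]
    exact (Nat.card_congr (MonoidHom.ofInjective fun _ _ e => scal_inj e).toEquiv).symm
  have h4 := Subgroup.card_eq_card_quotient_mul_card_subgroup ((Geo.scalars ι F).subgroupOf (simB B))
  have h5 := Subgroup.card_eq_card_quotient_mul_card_subgroup φ.ker
  rw [Nat.card_congr (QuotientGroup.quotientKerEquivOfSurjective φ h1).toEquiv, h2, h4, h3,
    mul_comm] at h5
  exact Nat.eq_of_mul_eq_mul_left Nat.card_pos h5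

/-! ### Characteristic two -/

/-- The isometry group inside `GL`. -/
noncomputable def isoB (B : BF ι F) : Subgroup (GL ι F) := (sIso B).comap (glEquiv ι F).toMonoidHom

theorem mem_isoB {g : GL ι F} : g ∈ isoB B ↔ Mu B g 1 :=
  forall₂_congr fun u v => by rw [one_mul]; rfl

theorem proj_equiv_of {S S' : Subgroup (GL ι F)} (hle : S' ≤ S)
    (h : ∀ s ∈ S, ∃ c, ∃ u ∈ S', s = scal c * u) (hs : ∀ c, scal c ∈ S)
    (h1 : ∀ c, scal c ∈ S' → c = 1) : Nonempty (projQuot S ≃* S') := by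
  obtain ⟨e⟩ := projQuot_equiv_of_le hle h hs
  refine ⟨e.symm.trans ((QuotientGroup.quotientMulEquivOfEq ?_).trans QuotientGroup.quotientBot)⟩
  refine eq_bot_iff.2 fun g ⟨c, hc⟩ => Subtype.ext ?_
  have hc : scal c = g.1 := hc
  rw [← hc, h1 c (hc ▸ g.2), scal_one]; rfl

section Two
variable [Finite F] [CharP F 2]

theorem proj_two [Nonempty ι] (hB : Rf B) : Nonempty (projQuot (simB B) ≃* sIso B) := by
  obtain ⟨e⟩ := proj_equiv_of (S := simB B) (S' := isoB B) (fun g hg => ⟨1, mem_isoB.1 hg⟩)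
    (fun s ⟨k, hk⟩ => by
      obtain ⟨t, ht⟩ := isSquare_of_charTwo' (k : F)
      have h0 : t ≠ 0 := by rintro rfl; exact k.ne_zero (by simpa using ht)
      refine ⟨Units.mk0 t h0, scal (Units.mk0 t h0)⁻¹ * s, mem_isoB.2 ?_, by
        rw [scal_inv, mul_inv_cancel_left]⟩
      convert (mu_scal (Units.mk0 t h0)⁻¹).mul hk using 1
      simp [ht]; field_simp) scal_mem_simB fun c hc => Units.ext (CharTwo.sq_inj.1 (by
        rw [sq, (mu_scal c).unique hB (mem_isoB.1 hc)]; simp))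
  exact ⟨e.trans (mulEquivOfMemIff (glEquiv ι F) _ _ fun _ => Iff.rfl)⟩

theorem pgo_two (Q : QuadraticForm F (ι → F)) (hQ : ∃ v, Q v ≠ 0) :
    Nonempty (PGO F ⇑Q ≃* OG Q) := by
  obtain ⟨e⟩ := proj_equiv_of (S := Geo.quadSimilarityGroup (F := F) ⇑Q) (S' := isometryGroup F ⇑Q)
    (fun g hg => ⟨1, fun v => by simpa using mem_isometryGroup.1 hg v⟩)
    (fun s ⟨k, hk⟩ => by
      obtain ⟨t, ht⟩ := isSquare_of_charTwo' (k : F)
      have h0 : t ≠ 0 := by rintro rfl; exact k.ne_zero (by simpa using ht)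
      refine ⟨Units.mk0 t h0, scal (Units.mk0 t h0)⁻¹ * s, mem_isometryGroup.2 fun v => ?_, by
        rw [scal_inv, mul_inv_cancel_left]⟩
      rw [Units.val_mul, ← mulVec_mulVec, scal_mulVec, Q.map_smul, hk, ht]
      simp; field_simp) (fun c => ⟨c * c, fun v => by simp [scal_mulVec, Q.map_smul]⟩)
    fun c hc => Units.ext (CharTwo.sq_inj.1 (by
      obtain ⟨v, hv⟩ := hQ
      have := mem_isometryGroup.1 hc v
      rw [scal_mulVec, Q.map_smul, smul_eq_mul, mul_eq_right₀ hv] at this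
      simp [sq, this]))
  exact ⟨e.trans (isometryEquiv Q)⟩

omit [Fintype ι] [DecidableEq ι] [Finite F] in
theorem Rf.symm_two (hB : Rf B) : ∀ x y, B x y = B y x :=
  hB.sy.elim id fun s x y => by rw [s, CharTwo.neg_eq]

omit [DecidableEq ι] [DecidableEq κ] in
theorem cong_two (hB : Rf B) (hB' : Rf B') (a : B.IsAlt ↔ B'.IsAlt)
    (hc : Fintype.card ι = Fintype.card κ) : Cong B B' := by
  obtain ⟨e, he⟩ := exists_equiv_two hB.symm_two hB'.symm_two hB.nd hB'.nd a (by simpa)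
  exact ⟨e, 1, one_ne_zero, fun u v => by rw [he, one_mul]⟩

omit [Finite F] [Fintype ι] [DecidableEq ι] in
theorem fix_char_vec (hB : Rf B) {w : ι → F} (hw : ∀ v, B v v = B w v * B w v) {g}
    (hg : g ∈ sIso B) : g w = w := sub_eq_zero.1 (hB.nd _ fun y => by
  obtain ⟨y, rfl⟩ := g.surjective y
  have := (hw y).symm.trans ((hg y y).symm.trans (hw _))
  rw [← sq, ← sq, CharTwo.sq_inj] at this
  rw [map_sub, LinearMap.sub_apply, hg, this, sub_self])

omit [DecidableEq ι] in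
theorem sIso_odd (hB : Rf B) {m : ℕ} (hm : Fintype.card ι = 2 * m + 1) :
    Nonempty (sIso B ≃* (sympFormed m F).isom) := by
  have hS := hB.symm_two
  obtain ⟨w, hw⟩ := exists_char_vec hS hB.nd
  have hV : finrank F (ι → F) = 2 * m + 1 := by simpa
  have h0 : B w w ≠ 0 := fun h0 => by
    let A : BF ι F := B - (B w).smulRight (B w)
    have hA : ∀ x y, A x y = B x y - B w x * B w y := fun _ _ => rfl
    have hA' : A.IsAlt := fun v => by rw [hA, hw, sub_self]
    have hn : (ofAlt A hA').Nondeg := fun x hx => by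
      have h1 : x - B w x • w = 0 := hB.nd _ fun y => by simpa [hA] using hx y
      have h2 : B w x = 0 := by simpa [h0] using congrArg (B w) h1
      simpa [h2] using h1
    obtain ⟨n, hn'⟩ := even_finrank_of_alt hn
    omega
  have hw0 : w ≠ 0 := by rintro rfl; simp at h0
  have h1 : B w w = 1 := mul_left_cancel₀ h0 ((hw w).symm.trans (mul_one _).symm)
  let H := LinearMap.ker (B w)
  have hc : IsCompl (F ∙ w) H := by
    refine IsCompl.symm ⟨Submodule.disjoint_span_singleton' hw0 |>.2 h0, ?_⟩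
    rw [codisjoint_iff, eq_top_iff]
    exact fun v _ => Submodule.mem_sup.2 ⟨v - B w v • w, by simp [H, h1], B w v • w,
      Submodule.smul_mem _ _ (Submodule.mem_span_singleton_self w), by simp⟩
  have hA : (B.restrict H).IsAlt := fun v => (hw v).trans (by rw [LinearMap.mem_ker.1 v.2, zero_mul])
  have h2 : ∀ (a : F ∙ w) (b : H), B a b = 0 := fun a b => by
    obtain ⟨c, hc⟩ := Submodule.mem_span_singleton.1 a.2
    simp [← hc, LinearMap.mem_ker.1 b.2]
  have hn : (ofAlt _ hA).Nondeg := fun x hx => Subtype.ext (hB.nd _ fun y => by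
    obtain ⟨a, b, rfl⟩ := exists_add_of_isCompl hc y
    rw [map_add, hS, h2, zero_add]; exact hx b)
  have h3 : ∀ g : sIso B, g.1 ∈ stab H := fun g v => by
    rw [LinearMap.mem_ker, LinearMap.mem_ker, ← g.2 w v, fix_char_vec hB hw g.2]
  have h4 := Submodule.finrank_add_eq_of_isCompl hc
  rw [finrank_span_singleton hw0] at h4
  obtain ⟨e, he⟩ := exists_isIso_sympFormed hn (m := m) (by omega)
  exact ⟨MulEquiv.trans
    { toFun := fun g => ⟨restrictStab g.1 (h3 g), fun x y => g.2 x y, fun _ => rfl⟩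
      invFun := fun g => ⟨sumHom hc (1, g.1), fun x y => by
        obtain ⟨a, b, rfl⟩ := exists_add_of_isCompl hc x
        obtain ⟨a', b', rfl⟩ := exists_add_of_isCompl hc y
        have := g.2.1 b b'
        simp only [ofAlt_B, LinearMap.BilinForm.restrict_apply, LinearMap.domRestrict_apply] at this
        simp [h2, this, hS _ (a' : ι → F)]⟩
      left_inv := fun g => Subtype.ext (LinearEquiv.ext fun v => by
        obtain ⟨a, b, rfl⟩ := exists_add_of_isCompl hc v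
        have := mem_fix_span.2 (by simpa using fix_char_vec hB hw g.2) a.1 a.2
        simp [this])
      right_inv := fun g => Subtype.ext (LinearEquiv.ext fun v => Subtype.ext (by simp))
      map_mul' := fun _ _ => rfl } he.isomCongr⟩

theorem proj_symp_two {m : ℕ} (hm : 1 ≤ m) :
    Nonempty (projQuot (simB (sympB m F)) ≃* symplecticGroup (Fin m) F) := by
  have : Nonempty (Fin m ⊕ Fin m) := ⟨.inl ⟨0, hm⟩⟩
  obtain ⟨e⟩ := proj_two (rf_sympB (F := F) m)
  exact ⟨e.trans ((MulEquiv.subgroupCongr (sIso_eq_isom (sympB_isAlt m F))).trans (spEquiv m F).symm)⟩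

theorem exists_tv_form {m : ℕ} (hm : 1 ≤ m) : ∃ (B : BF (Fin m ⊕ Fin m) F)
    (t : symplecticGroup (Fin m) F), Rf B ∧ ¬ B.IsAlt ∧ IsTransvection t.1 ∧
      Nonempty (projQuot (simB B) ≃* Subgroup.centralizer {t}) := by
  have : Nonempty (Fin m ⊕ Fin m) := ⟨.inl ⟨0, hm⟩⟩
  let w : Fin m ⊕ Fin m → F := Pi.single (.inl ⟨0, hm⟩) 1
  let z : Fin m ⊕ Fin m → F := Pi.single (.inr ⟨0, hm⟩) 1
  obtain ⟨A, hA, a, hAe⟩ : ∃ A : BF _ F, Rf A ∧ (∀ v, A v v = 0) ∧ ∀ x y, sympForm m F x y = A x y :=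
    ⟨_, rf_sympB m, sympB_isAlt m F, fun x y => (sympB_apply m F x y).symm⟩
  have hS := hA.symm_two
  have hz : A w z = 1 := by
    simp [← hAe, w, z, sympForm_apply, Pi.single_apply, CharTwo.neg_eq]
  have hw : w ≠ 0 := by rintro h; simp [h] at hz
  let B : BF (Fin m ⊕ Fin m) F := A + (A w).smulRight (A w)
  have hB : ∀ x y, B x y = A x y + A w x * A w y := fun _ _ => rfl
  have rB : Rf B := ⟨fun x hx => by
    have h1 : x + A w x • w = 0 := hA.nd _ fun y => by simpa [hB] using hx y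
    have h2 : A w x = 0 := by simpa [a] using congrArg (A w) h1
    simpa [h2] using h1, .inl fun x y => by rw [hB, hB, hS, mul_comm]⟩
  have hf : ∀ {g}, g ∈ sIso B → g w = w := fix_char_vec rB fun v => by simp [hB, a]
  have ht : ∀ x, (spT w 1).1 *ᵥ x = x + A w x • w := fun x => by
    rw [hS, ← hAe, ← one_mul (sympForm m F x w)]; exact sympTransvection_mulVec w 1 x
  refine ⟨B, spT w 1, rB, fun h => by simpa [hB, a, hz] using h z, ⟨?_, ?_⟩, ?_⟩
  · have e : (spT w 1).1 - 1 = vecMulVec w (J (Fin m) F *ᵥ w) := by simp [spT, sympTransvection]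
    rw [e]
    refine le_antisymm (rank_vecMulVec_le _ _) (Nat.one_le_iff_ne_zero.2 fun h => hw ?_)
    rw [Matrix.rank, Submodule.finrank_eq_zero, LinearMap.range_eq_bot] at h
    have := LinearMap.congr_fun h z
    rwa [← e, mulVecLin_apply, sub_mulVec, ht, hz, one_mulVec, one_smul, add_sub_cancel_left] at this
  · exact Matrix.ext_iff_mulVec.2 fun x => by simp [← mulVec_mulVec, sub_mulVec, ht, a]
  · obtain ⟨e⟩ := proj_two rB
    have hle : sIso B ≤ (sympFormed m F).isom := fun g hg => (mem_sympFormed_isom m F).2 fun x y => by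
      have h4 : ∀ x, A w (g x) = A w x := fun x => by simpa [hB, a, hf hg] using hg w x
      simpa [hB, h4, hAe] using hg x y
    refine ⟨e.trans ((Subgroup.subgroupOfEquivOfLe hle).symm.trans (mulEquivOfMemIff (spEquiv m F)
      _ _ fun s => ?_).symm)⟩
    have hs : ∀ x y, A (s.1 *ᵥ x) (s.1 *ᵥ y) = A x y := by
      simpa only [hAe] using mem_symplecticGroup_iff.1 s.2
    rw [Subgroup.mem_centralizer_singleton_iff, Subtype.ext_iff, Matrix.ext_iff_mulVec]
    simp only [Submonoid.coe_mul, ← mulVec_mulVec, ht, mulVec_add, mulVec_smul, add_right_inj]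
    refine ⟨fun h x y => ?_, fun h x => ?_⟩
    · have h1 := h z
      rw [hz, one_smul] at h1
      have h2 : ∀ x, A w (s.1 *ᵥ x) = A w (s.1 *ᵥ z) * A w x := fun x =>
        smul_left_injective F hw (by simpa [h1, smul_smul, mul_comm] using (h x).symm)
      have h3 := hs w z
      rw [h1, hz] at h3
      have h4 : A w (s.1 *ᵥ z) = 1 := CharTwo.sq_inj.1 (by simpa [sq] using h3)
      change B (s.1 *ᵥ x) (s.1 *ᵥ y) = _
      rw [hB, hB, hs, h2 x, h2 y, h4, one_mul, one_mul]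
    · have h1 : s.1 *ᵥ w = w := hf h
      rw [h1, ← hs w x, h1]

end Two

/-! ### Classification -/

variable [Finite F]

omit [Finite F] [DecidableEq ι] in
theorem Rf.not_isAlt (hB : Rf B) (ho : Odd (Fintype.card ι)) : ¬ B.IsAlt := fun a => by
  have := even_finrank_of_alt (hA := a) hB.nd
  rw [finrank_fintype_fun_eq_card, ← Nat.not_odd_iff_even] at this
  exact this ho

omit [DecidableEq ι] [DecidableEq κ] in
theorem cong_odd (hB : Rf B) (hB' : Rf B') {m : ℕ} (hm : Fintype.card ι = 2 * m + 1)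
    (hm' : Fintype.card κ = 2 * m + 1) : Cong B B' := by
  have a := hB.not_isAlt ⟨m, hm⟩
  have a' := hB'.not_isAlt ⟨m, hm'⟩
  by_cases h2 : (2 : F) = 0
  · have : CharP F 2 := (CharP.charP_iff_prime_eq_zero Nat.prime_two).2 h2
    exact cong_two hB hB' (iff_of_false a a') (hm.trans hm'.symm)
  · obtain ⟨Q, hQ, rfl⟩ := hB.exists_quad a h2
    obtain ⟨Q', hQ', rfl⟩ := hB'.exists_quad a' h2
    exact (cong_polar_iff h2).2 (exists_isIso_smul_of_odd hQ hQ' (by simpa) (by simpa))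

theorem proj_odd (hB : Rf B) {m : ℕ} (hm : Fintype.card ι = 2 * m + 1) :
    Nonempty (projQuot (simB B) ≃* PGO F (quadFormOdd m F)) := by
  rw [← coe_quadOdd]
  by_cases h2 : (2 : F) = 0
  · have : CharP F 2 := (CharP.charP_iff_prime_eq_zero Nat.prime_two).2 h2
    have : Nonempty ι := Fintype.card_pos_iff.1 (by omega)
    obtain ⟨e₁⟩ := proj_two hB
    obtain ⟨e₂⟩ := sIso_odd hB hm
    obtain ⟨e₃⟩ := O_odd_equiv_sp (F := F) (m := m)
    obtain ⟨e₄⟩ := pgo_two (quadOdd F m) ⟨Pi.single (.inl ()) 1, by simp [quadOdd_apply]⟩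
    exact ⟨e₁.trans (e₂.trans (e₃.symm.trans e₄.symm))⟩
  · have := (cong_odd hB (rf_polar (quadOdd_nondeg F m h2)) hm (by simp; omega)).proj
    rwa [simB_polar _ h2] at this

omit [DecidableEq ι] in
theorem cong_even (hB : Rf B) (a : ¬ B.IsAlt) (h2 : (2 : F) ≠ 0) {m : ℕ}
    (hm : Fintype.card ι = 2 * (m + 1)) {x y : F}
    (hab : ∀ z₁ z₂ : F, z₁ ^ 2 + x * z₁ * z₂ + y * z₂ ^ 2 = 0 → z₁ = 0 ∧ z₂ = 0) :
    Cong B (quadPlus F (m + 1)).polarBilin ∨ Cong B (quadMinus F m x y).polarBilin := by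
  obtain ⟨Q, hQ, rfl⟩ := hB.exists_quad a h2
  refine (wittIndex_even hQ (m := m) (by simpa)).imp (fun h => ?_) fun h => ?_
  · exact (cong_polar_iff h2).2 ⟨1, one_ne_zero, by
      simpa using exists_isIso_plus hQ (by simpa) h⟩
  · exact (cong_polar_iff h2).2 ⟨1, one_ne_zero, by
      simpa using exists_isIso_minus hQ (by simpa [mul_add] using hm) h hab⟩

theorem not_cong_pm (h2 : (2 : F) ≠ 0) {m : ℕ} {x y : F}
    (hab : ∀ z₁ z₂ : F, z₁ ^ 2 + x * z₁ * z₂ + y * z₂ ^ 2 = 0 → z₁ = 0 ∧ z₂ = 0) :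
    ¬ Cong (quadPlus F (m + 1)).polarBilin (quadMinus F m x y).polarBilin := fun h => by
  obtain ⟨c, hc, e, he⟩ := (cong_polar_iff h2).1 h
  have := (he.wittIndex ((wittIndex_smul hc).2 (quadPlus_wittIndex F (m + 1)))).unique
    (quadMinus_wittIndex F m hab)
  omega

theorem card_proj_alt (hB : Rf B) (a : B.IsAlt) {m : ℕ} (hm : Fintype.card ι = 2 * (m + 1)) :
    Nat.card (projQuot (simB B)) = spOrd (Nat.card F) (m + 1) := by
  have : Nonempty ι := Fintype.card_pos_iff.1 (by omega)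
  rw [card_proj hB fun k => alt_ex hB a, sIso_eq_isom a, card_isom_alt hB.nd (by simpa)]

theorem card_proj_ne (hB : Rf B) (a : ¬ B.IsAlt) (h2 : (2 : F) ≠ 0) {m : ℕ}
    (hm : Fintype.card ι = 2 * (m + 1)) : Nat.card (projQuot (simB B)) ≠ spOrd (Nat.card F) (m + 1) := by
  have : Nonempty ι := Fintype.card_pos_iff.1 (by omega)
  rw [card_proj hB fun k hk => (sym_ex hB a h2 hm hk (.inl rfl)).imp fun _ h => h.1]
  obtain ⟨Q, hQ, rfl⟩ := hB.exists_quad a h2
  have h3 : 3 ≤ Nat.card F := by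
    cases nonempty_fintype F
    have := odd_card_of_two_ne_zero h2
    have := Finite.one_lt_card (α := F)
    rw [← Nat.card_eq_fintype_card, Nat.odd_iff] at *
    omega
  have h4 : 3 ≤ Nat.card F ^ (m + 1) := h3.trans (Nat.le_self_pow m.succ_ne_zero _)
  have hP : 0 < ∏ i ∈ Finset.range m, (Nat.card F ^ (2 * (i + 1)) - 1) :=
    Finset.prod_pos fun i _ => Nat.sub_pos_of_lt (Nat.one_lt_pow (by omega) (by omega))
  have h5 : 0 < Nat.card F ^ ((m + 1) * m) := by positivity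
  rw [sIso_polar Q h2, spOrd, Finset.prod_range_succ, show (m + 1) ^ 2 = (m + 1) * m + (m + 1) by ring,
    pow_add, mul_comm 2 (m + 1), pow_mul _ (m + 1) 2]
  rcases wittIndex_even hQ (m := m) (by simpa) with h | h
  · rw [card_isom_plus m hQ h (by simpa)]
    generalize Nat.card F ^ (m + 1) = t at *
    obtain ⟨t, rfl⟩ : ∃ s, t = s + 1 := ⟨t - 1, by omega⟩
    rw [show (t + 1) ^ 2 - 1 = t * (t + 2) from Nat.sub_eq_of_eq_add (by ring), Nat.add_sub_cancel]
    refine ne_of_lt ?_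
    have : 2 < (t + 1) * (t + 2) := by nlinarith
    have := Nat.mul_lt_mul_of_pos_right this (Nat.mul_pos (Nat.mul_pos h5 hP) (by omega : 0 < t))
    linarith
  · rw [card_isom_minus m hQ h (by simpa [mul_add] using hm)]
    generalize Nat.card F ^ (m + 1) = t at *
    obtain ⟨t, rfl⟩ : ∃ s, t = s + 1 := ⟨t - 1, by omega⟩
    rw [show (t + 1) ^ 2 - 1 = t * (t + 2) from Nat.sub_eq_of_eq_add (by ring)]
    refine ne_of_lt ?_
    have : 2 < (t + 1) * t := by nlinarith
    have := Nat.mul_lt_mul_of_pos_right this (Nat.mul_pos (Nat.mul_pos h5 hP) (by omega : 0 < t + 2))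
    linarith

end Cfsg.Agent.Mult.Gr
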