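import Cfsg.Agent.Mult.Gr1

/-! Involutory graph automorphisms described by bilinear forms: the abstract systems `Gr.GrSys`
(classes and centralisers) and `Gr.GrSplit` (class splitting), and the instance for `PSL`. -/

set_option autoImplicit false

namespace Cfsg.Agent.Mult.Gr

open Cfsg.Agent.Geom Cfsg.Agent.Geom.Formed Cfsg.Agent.AutCl Module
open Cfsg.Agent.Classical hiding glCongr
open Matrix hiding inv_inj mul_inv_rev

variable {F : Type*} [Field F] {ι : Type} [Fintype ι] [DecidableEq ι]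

/-- The standard symmetric form. -/
def dotB (ι : Type) [Fintype ι] [DecidableEq ι] (F : Type*) [Field F] : BF ι F := Matrix.toBilin' 1

theorem dotB_apply (u v : ι → F) : dotB ι F u v = u ⬝ᵥ v := by simp [dotB, toBilin'_apply']

theorem rf_dotB : Rf (dotB ι F) :=
  ⟨fun x hx => funext fun i => by simpa [dotB_apply] using hx (Pi.single i 1),
    .inl fun x y => by rw [dotB_apply, dotB_apply, dotProduct_comm]⟩

theorem cong_dot [Finite F] (h2 : (2 : F) ≠ 0) {m : ℕ} (hm : Fintype.card ι = 2 * (m + 1)) {x y : F}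
    (hab : ∀ z₁ z₂ : F, z₁ ^ 2 + x * z₁ * z₂ + y * z₂ ^ 2 = 0 → z₁ = 0 ∧ z₂ = 0) :
    (IsSquare ((-1 : F) ^ (m + 1)) → Cong (dotB ι F) (quadPlus F (m + 1)).polarBilin) ∧
      (¬ IsSquare ((-1 : F) ^ (m + 1)) → Cong (dotB ι F) (quadMinus F m x y).polarBilin) := by
  obtain ⟨i⟩ : Nonempty ι := Fintype.card_pos_iff.1 (by omega)
  obtain ⟨Q, hQ, e⟩ := (rf_dotB (ι := ι) (F := F)).exists_quad
    (fun a => by simpa [dotB_apply] using a (Pi.single i 1)) h2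
  have hB : ∀ u v, (ofQuad Q).B u v = u ⬝ᵥ v := fun u v => by rw [← dotB_apply, e]; rfl
  have key := hQ.plus_iff_of_orth h2 rfl (m := m + 1) (by simpa) (v := fun i : ι => Pi.single i 1)
    (fun i j h => by rw [hB]; simp [h]) (fun i => by rw [hB]; simp) (by simp)
  simp only [hB, single_dotProduct, Pi.single_eq_same, mul_one, Finset.prod_const_one] at key
  rw [e]
  refine ⟨fun h => ?_, fun h => ?_⟩
  · obtain ⟨U, hU, hd⟩ := key.2 h
    exact (cong_polar_iff h2).2 ⟨1, one_ne_zero, by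
      simpa using exists_isIso_plus hQ (by simpa) (hQ.wittIndex_of_half (by simp [hm]) hU hd)⟩
  · exact (cong_polar_iff h2).2 ⟨1, one_ne_zero, by
      simpa using exists_isIso_minus hQ (by simpa [mul_add] using hm)
        ((wittIndex_even hQ (m := m) (by simpa)).resolve_left fun w => h (key.1 w.1)) hab⟩

theorem exists_aniso (F : Type*) [Field F] [Finite F] :
    ∃ a b : F, ∀ z₁ z₂ : F, z₁ ^ 2 + a * z₁ * z₂ + b * z₂ ^ 2 = 0 → z₁ = 0 ∧ z₂ = 0 :=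
  let ⟨ζ, h⟩ := exists_irreducible_quad F; ⟨1, ζ, aniso_of_irreducible h⟩

/-- A family `𝒢` of automorphisms described, up to `H`-conjugacy, by forms up to similarity. -/
structure GrSys {X : Type*} [Group X] (H : Subgroup X) (𝒢 : X → Prop) (R : X → BF ι F → Prop) :
    Prop where
  ex : ∀ γ, 𝒢 γ → ∃ B, Rf B ∧ R γ B
  real : ∀ B, Rf B → ∃ γ, 𝒢 γ ∧ R γ B
  conj : ∀ {γ γ' B B'}, Rf B → Rf B' → R γ B → R γ' B' → (IsConjUnder H γ γ' ↔ Cong B B')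
  cen : ∀ {γ B}, Rf B → R γ B → Nonempty (↥(H ⊓ Subgroup.centralizer {γ}) ≃* projQuot (simB B))

/-- The data controlling the splitting of the `H`-classes into `K`-classes. -/
structure GrSplit {X : Type*} [Group X] (H K : Subgroup X) (R : X → BF ι F → Prop) (C : Type*)
    [CommGroup C] (T : F → F → C → Prop) : Prop where
  count : ∀ {γ B}, Rf B → R γ B → ∀ A : Subgroup C, (∀ h k c, Mu B h k → T k h.1.det c →
    c ∈ (powMonoidHom (Fintype.card ι)).range ⊔ A) → (∀ c ∈ A, ∃ h k, Mu B h k ∧ T k h.1.det c) →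
      splitClassCount H K γ = ((powMonoidHom (Fintype.card ι)).range ⊔ A).index
  one : T 1 1 1
  sq : ∀ t c, t ≠ 0 → T (t ^ 2) (t ^ Fintype.card ι) c → c ∈ (powMonoidHom (Fintype.card ι)).range
  half : ∀ m, Fintype.card ι = 2 * m → ∀ k c, k ≠ 0 → T k (k ^ m) c → c ∈ (powMonoidHom m).range
  half' : ∀ m, Fintype.card ι = 2 * m → ∀ b, ∃ k ≠ 0, T k (k ^ m) (b ^ m)
  neg : (2 : F) ≠ 0 → ∃ ε, orderOf ε = 2 ∧ ∀ k d c, T k d c → T k (-d) (ε * c)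

variable {X : Type*} [Group X] {H K : Subgroup X} {𝒢 : X → Prop} {R : X → BF ι F → Prop}

namespace GrSys
variable (S : GrSys H 𝒢 R)
include S

theorem real' {κ : Type} [Fintype κ] [DecidableEq κ] (hc : Fintype.card ι = Fintype.card κ)
    {B' : BF κ F} (h : Rf B') : ∃ γ B, 𝒢 γ ∧ Rf B ∧ R γ B ∧ Cong B B' ∧
      Nonempty (↥(H ⊓ Subgroup.centralizer {γ}) ≃* projQuot (simB B')) := by
  obtain ⟨B, hB⟩ := exists_cong hc B'
  obtain ⟨γ, h1, h2⟩ := S.real B (hB.symm.rf h)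
  obtain ⟨e⟩ := S.cen (hB.symm.rf h) h2
  obtain ⟨e'⟩ := hB.proj
  exact ⟨γ, B, h1, hB.symm.rf h, h2, hB, ⟨e.trans e'⟩⟩

variable [Finite F]

theorem odd {m : ℕ} (hm : Fintype.card ι = 2 * m + 1) {γ γ' : X} (h : 𝒢 γ) (h' : 𝒢 γ') :
    Nonempty (↥(H ⊓ Subgroup.centralizer {γ}) ≃* PGO F (quadFormOdd m F)) ∧ IsConjUnder H γ γ' := by
  obtain ⟨B, hB, r⟩ := S.ex γ h
  obtain ⟨B', hB', r'⟩ := S.ex γ' h'
  obtain ⟨e⟩ := S.cen hB r
  obtain ⟨e'⟩ := proj_odd hB hm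
  exact ⟨⟨e.trans e'⟩, (S.conj hB hB' r r').2 (cong_odd hB hB' hm hm)⟩

theorem even_odd (h2 : (2 : F) ≠ 0) {m : ℕ} (hm : Fintype.card ι = 2 * (m + 1)) :
    ∃ (γ₁ γ₂ γ₃ : X) (a b : F),
      (∀ z₁ z₂ : F, z₁ ^ 2 + a * z₁ * z₂ + b * z₂ ^ 2 = 0 → z₁ = 0 ∧ z₂ = 0) ∧ 𝒢 γ₁ ∧ 𝒢 γ₂ ∧ 𝒢 γ₃ ∧
      ¬ IsConjUnder H γ₁ γ₂ ∧ ¬ IsConjUnder H γ₁ γ₃ ∧ ¬ IsConjUnder H γ₂ γ₃ ∧
      (∀ γ, 𝒢 γ → IsConjUnder H γ₁ γ ∨ IsConjUnder H γ₂ γ ∨ IsConjUnder H γ₃ γ) ∧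
      Nonempty (↥(H ⊓ Subgroup.centralizer {γ₁}) ≃* PGSp (m + 1) F) ∧
      Nonempty (↥(H ⊓ Subgroup.centralizer {γ₂}) ≃* PGO F (quadFormPlus (m + 1) F)) ∧
      Nonempty (↥(H ⊓ Subgroup.centralizer {γ₃}) ≃* PGO F (quadFormMinus m F a b)) := by
  obtain ⟨a, b, hab⟩ := exists_aniso F
  have n2 := quadPlus_nondeg F (m + 1)
  have n3 := quadMinus_nondeg F m (disc_ne_zero_of_anisotropic hab)
  obtain ⟨γ₁, B₁, g1, f1, r1, c1, e1⟩ := S.real' (by simp [hm, two_mul]) (rf_sympB (F := F) (m + 1))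
  obtain ⟨γ₂, B₂, g2, f2, r2, c2, e2⟩ := S.real' (by simp [hm, two_mul]) (rf_polar n2)
  obtain ⟨γ₃, B₃, g3, f3, r3, c3, e3⟩ := S.real' (by simp [hm]; omega) (rf_polar n3)
  rw [simB_polar _ h2, coe_quadPlus] at e2
  rw [simB_polar _ h2, coe_quadMinus] at e3
  have a1 := c1.symm.isAlt (sympB_isAlt _ F)
  refine ⟨γ₁, γ₂, γ₃, a, b, hab, g1, g2, g3, fun h => ?_, fun h => ?_, fun h => ?_, fun γ h => ?_,
    by rwa [← gsp_eq_simB] at e1, e2, e3⟩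
  · exact not_isAlt_polar n2 h2 ((((S.conj f1 f2 r1 r2).1 h).trans c2).isAlt a1)
  · exact not_isAlt_polar n3 h2 ((((S.conj f1 f3 r1 r3).1 h).trans c3).isAlt a1)
  · exact not_cong_pm h2 hab ((c2.symm.trans ((S.conj f2 f3 r2 r3).1 h)).trans c3)
  · obtain ⟨B, hB, r⟩ := S.ex γ h
    rw [S.conj f1 hB r1 r, S.conj f2 hB r2 r, S.conj f3 hB r3 r]
    by_cases a : B.IsAlt
    · exact .inl (cong_alt f1 hB a1 a rfl)
    · exact .inr ((cong_even hB a h2 hm hab).imp (fun c => c2.trans c.symm) fun c => c3.trans c.symm)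

theorem even_two [CharP F 2] {m : ℕ} (h1 : 1 ≤ m) (hm : Fintype.card ι = 2 * m) :
    ∃ (γ₁ γ₃ : X) (t : symplecticGroup (Fin m) F), IsTransvection t.1 ∧ 𝒢 γ₁ ∧ 𝒢 γ₃ ∧
      ¬ IsConjUnder H γ₁ γ₃ ∧ (∀ γ, 𝒢 γ → IsConjUnder H γ₁ γ ∨ IsConjUnder H γ₃ γ) ∧
      Nonempty (↥(H ⊓ Subgroup.centralizer {γ₁}) ≃* symplecticGroup (Fin m) F) ∧
      Nonempty (↥(H ⊓ Subgroup.centralizer {γ₃}) ≃* Subgroup.centralizer {t}) := by
  obtain ⟨B', t, f', a', ht, ⟨e'⟩⟩ := exists_tv_form (F := F) h1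
  obtain ⟨γ₁, B₁, g1, f1, r1, c1, ⟨e1⟩⟩ := S.real' (by simp [hm, two_mul]) (rf_sympB (F := F) m)
  obtain ⟨γ₃, B₃, g3, f3, r3, c3, ⟨e3⟩⟩ := S.real' (by simp [hm, two_mul]) f'
  obtain ⟨e⟩ := proj_symp_two (F := F) h1
  have a1 := c1.symm.isAlt (sympB_isAlt _ F)
  refine ⟨γ₁, γ₃, t, ht, g1, g3, fun h => a' ((((S.conj f1 f3 r1 r3).1 h).trans c3).isAlt a1),
    fun γ h => ?_, ⟨e1.trans e⟩, ⟨e3.trans e'⟩⟩
  obtain ⟨B, hB, r⟩ := S.ex γ h
  rw [S.conj f1 hB r1 r, S.conj f3 hB r3 r]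
  by_cases a : B.IsAlt
  · exact .inl (cong_alt f1 hB a1 a rfl)
  · exact .inr (cong_two f3 hB (iff_of_false (fun h => a' (c3.isAlt h)) a) rfl)

theorem dot (h2 : (2 : F) ≠ 0) {m : ℕ} (hm : Fintype.card ι = 2 * (m + 1)) {γ : X}
    (r : R γ (dotB ι F)) : (IsSquare ((-1 : F) ^ (m + 1)) →
      Nonempty (↥(H ⊓ Subgroup.centralizer {γ}) ≃* PGO F (quadFormPlus (m + 1) F))) ∧
    (¬ IsSquare ((-1 : F) ^ (m + 1)) → ∃ a b : F,
      (∀ z₁ z₂ : F, z₁ ^ 2 + a * z₁ * z₂ + b * z₂ ^ 2 = 0 → z₁ = 0 ∧ z₂ = 0) ∧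
      Nonempty (↥(H ⊓ Subgroup.centralizer {γ}) ≃* PGO F (quadFormMinus m F a b))) := by
  obtain ⟨a, b, hab⟩ := exists_aniso F
  obtain ⟨e⟩ := S.cen rf_dotB r
  refine ⟨fun h => ?_, fun h => ⟨a, b, hab, ?_⟩⟩
  · have := ((cong_dot h2 hm hab).1 h).proj
    rw [simB_polar _ h2, coe_quadPlus] at this
    exact this.map e.trans
  · have := ((cong_dot h2 hm hab).2 h).proj
    rw [simB_polar _ h2, coe_quadMinus] at this
    exact this.map e.trans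

theorem split {C : Type*} [CommGroup C] [Finite C] [IsCyclic C] {T : F → F → C → Prop}
    (P : GrSplit H K R C T) [Nonempty ι] {γ : X} (h : 𝒢 γ) {n : ℕ} (hn : Fintype.card ι = n) :
    ((Even n ∧ (2 : F) ≠ 0 ∧ Nonempty (↥(H ⊓ Subgroup.centralizer {γ}) ≃* PGSp (n / 2) F)) →
      splitClassCount H K γ = Nat.gcd (n / 2) (Nat.card C)) ∧
    ((Even n ∧ (2 : F) ≠ 0 ∧ ¬ Nonempty (↥(H ⊓ Subgroup.centralizer {γ}) ≃* PGSp (n / 2) F)) →
      splitClassCount H K γ = Nat.gcd n (Nat.card C) / 2) ∧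
    (¬ (Even n ∧ (2 : F) ≠ 0) → splitClassCount H K γ = Nat.gcd n (Nat.card C)) := by
  obtain ⟨B, hB, r⟩ := S.ex γ h
  obtain ⟨e⟩ := S.cen hB r
  have key : Even n → (2 : F) ≠ 0 → ∃ m, Fintype.card ι = 2 * m ∧ n / 2 = m ∧
      (B.IsAlt ↔ Nonempty (↥(H ⊓ Subgroup.centralizer {γ}) ≃* PGSp (n / 2) F)) := by
    rintro ⟨m, hm⟩ h2
    have := Fintype.card_pos (α := ι)
    obtain ⟨m, rfl⟩ : ∃ k, m = k + 1 := ⟨m - 1, by omega⟩
    rw [show n / 2 = m + 1 by omega]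
    unfold PGSp
    rw [gsp_eq_simB]
    refine ⟨m + 1, by omega, rfl, fun a => ?_, fun ⟨e'⟩ => by_contra fun a => ?_⟩
    · exact (cong_alt hB (rf_sympB _) a (sympB_isAlt _ F) (by simp; omega)).proj.map e.trans
    · refine card_proj_ne hB a h2 (m := m) (by omega) ?_
      rw [← Nat.card_congr e.toEquiv, Nat.card_congr e'.toEquiv,
        card_proj_alt (m := m) (rf_sympB _) (sympB_isAlt _ F) (by simp; omega)]
  refine ⟨fun ⟨h1, h2, h3⟩ => ?_, fun ⟨h1, h2, h3⟩ => ?_, fun h1 => ?_⟩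
  · obtain ⟨m, hm, hm', a⟩ := key h1 h2
    have a := a.2 h3
    rw [P.count hB r (powMonoidHom m).range (fun g k c b t => Subgroup.mem_sup_right
      (P.half m hm k c (b.ne_zero hB) (alt_det hB a hm (b.ne_zero hB) b ▸ t))), index_sup_cyclic,
      IsCyclic.index_powMonoidHom_range, IsCyclic.index_powMonoidHom_range, hm', hm,
      Nat.gcd_eq_right (Nat.gcd_dvd_gcd_of_dvd_right _ (dvd_mul_left _ _)), Nat.gcd_comm]
    rintro _ ⟨b, rfl⟩
    obtain ⟨k, hk, t⟩ := P.half' m hm b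
    obtain ⟨g, hg⟩ := alt_ex hB a hk
    exact ⟨g, k, hg, by rwa [alt_det hB a hm hk hg]⟩
  · obtain ⟨m, hm, -, a⟩ := key h1 h2
    have a := mt a.1 h3
    obtain ⟨ε, hε, hT⟩ := P.neg h2
    have h4 : ε * ε = 1 := by rw [← _root_.sq, ← hε, pow_orderOf_eq_one]
    obtain ⟨N, hN⟩ : 2 ∣ Nat.card C := hε ▸ orderOf_dvd_natCard ε
    rw [P.count hB r ((powMonoidHom m).range ⊔ Subgroup.zpowers ε), index_sup_cyclic,
      index_sup_cyclic, IsCyclic.index_powMonoidHom_range, IsCyclic.index_powMonoidHom_range,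
      index_eq_div, Nat.card_zpowers, hε, ← hn, hm, hN, Nat.gcd_mul_left, Nat.gcd_mul_left,
      Nat.mul_div_cancel_left _ two_pos, Nat.mul_div_cancel_left _ two_pos]
    · refine Nat.dvd_antisymm (Nat.dvd_gcd (((Nat.gcd_dvd_right _ _).trans (Nat.gcd_dvd_left _ _)).trans
        (Nat.gcd_dvd_right _ _)) ((Nat.gcd_dvd_right _ _).trans (Nat.gcd_dvd_right _ _))) ?_
      exact Nat.dvd_gcd (Nat.gcd_comm m N ▸ dvd_mul_left _ _) (Nat.dvd_gcd (Nat.dvd_gcd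
        ((Nat.gcd_dvd_right _ _).trans (dvd_mul_left _ _)) (Nat.gcd_dvd_left _ _)) (Nat.gcd_dvd_right _ _))
    · refine fun g k c b t => Subgroup.mem_sup_right ?_
      have h5 := b.det_sq hB
      rw [hm, pow_mul', sq_eq_sq_iff_eq_or_eq_neg] at h5
      rcases h5 with h5 | h5
      · exact Subgroup.mem_sup_left (P.half m hm k c (b.ne_zero hB) (h5 ▸ t))
      · have := P.half m hm k _ (b.ne_zero hB) (by simpa [h5] using hT _ _ _ t)
        rw [show c = ε * c * ε by rw [mul_right_comm, h4, one_mul]]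
        exact Subgroup.mul_mem_sup this (Subgroup.mem_zpowers ε)
    · intro c hc
      obtain ⟨_, ⟨b, rfl⟩, _, ⟨i, rfl⟩, rfl⟩ := Subgroup.mem_sup.1 hc
      obtain ⟨k, hk, t⟩ := P.half' m hm b
      have h5 : ∀ j : ℤ, ε ^ (2 * j) = 1 := fun j => by
        rw [_root_.zpow_mul, zpow_two, h4, _root_.one_zpow]
      rcases Int.even_or_odd' i with ⟨j, rfl | rfl⟩
      · obtain ⟨g, hg, d⟩ := sym_ex hB a h2 hm hk (.inl rfl)
        exact ⟨g, k, hg, by simpa [d, h5] using t⟩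
      · obtain ⟨g, hg, d⟩ := sym_ex hB a h2 hm hk (.inr rfl)
        exact ⟨g, k, hg, by
          beta_reduce
          rw [_root_.zpow_add, h5, one_mul, _root_.zpow_one, mul_comm]; simpa [d] using hT _ _ _ t⟩
  · rw [P.count hB r ⊥ (fun g k c b t => ?_), sup_bot_eq, IsCyclic.index_powMonoidHom_range,
      Nat.gcd_comm, hn]
    · rintro c rfl
      exact ⟨1, 1, fun u v => by simp, by simpa using P.one⟩
    · obtain ⟨s, rfl, d⟩ := b.exists_sq hB (by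
        rw [hn, ← Nat.not_even_iff_odd]; tauto)
      exact Subgroup.mem_sup_left (P.sq s c (by simpa using b.ne_zero hB) (d ▸ t))

end GrSys

/-! ### The linear groups -/

theorem rf_of_scalar {B : BF ι F} [Nonempty ι] (nd : ∀ x, (∀ y, B x y = 0) → x = 0) {c : F}
    (h : ∀ x y, B x y = c * B y x) : Rf B := by
  obtain ⟨u, v, h0⟩ : ∃ u v, B u v ≠ 0 := by
    by_contra! H
    exact one_ne_zero (congrFun (nd (fun _ => 1) (H _)) (_root_.Classical.arbitrary ι))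
  have h1 : c * c = 1 := mul_right_cancel₀ h0 (by rw [mul_assoc, ← h, ← h, one_mul])
  exact ⟨nd, (mul_self_eq_one_iff.1 h1).imp (fun e x y => by rw [h, e, one_mul])
    fun e x y => by rw [h, e, neg_one_mul]⟩

/-- The form attached to a graph automorphism of `PSL`. -/
def pslR (γ : MulAut (ProjectiveSpecialLinearGroup ι F)) (B : BF ι F) : Prop :=
  ∃ g : GL ι F, γ = diagAut g * itAut ∧ B = Matrix.toBilin' (g⁻¹).1

theorem toBilin'_eq_iff {M N : Matrix ι ι F} {c : F} :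
    (∀ u v, Matrix.toBilin' M u v = c * Matrix.toBilin' N u v) ↔ M = c • N :=
  ⟨fun h => Matrix.ext fun i j => by simpa using h (Pi.single i 1) (Pi.single j 1),
    fun h u v => by simp [h]⟩

variable [Finite F]

theorem psl_key (h2 : 2 ≤ Fintype.card ι) (h g g' : GL ι F) :
    diagAut g' * itAut = diagAut h * (diagAut g * itAut : MulAut (ProjectiveSpecialLinearGroup ι F)) *
      (diagAut h)⁻¹ ↔ ∃ c : Fˣ, ∀ u v, Matrix.toBilin' (g'⁻¹).1 (h.1 *ᵥ u) (h.1 *ᵥ v) =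
        c * Matrix.toBilin' (g⁻¹).1 u v := by
  rw [mul_assoc, mul_assoc, ← map_inv, itAut_mul_diagAut, ← mul_assoc, ← mul_assoc, mul_left_inj,
    ← map_mul, ← map_mul, eq_comm, ← mul_inv_eq_one, ← map_inv, ← map_mul, diagAut_eq_one_iff h2]
  refine exists_congr fun c => ?_
  have e : ∀ u v, Matrix.toBilin' (g'⁻¹).1 (h.1 *ᵥ u) (h.1 *ᵥ v) =
      Matrix.toBilin' ((glIT h)⁻¹ * g'⁻¹ * h).1 u v := fun u v => by
    simp only [toBilin'_apply', Units.val_mul, glIT_inv_coe, ← mulVec_mulVec, dotProduct_mulVec,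
      vecMul_transpose]
  have e' : (c : F) • (g⁻¹).1 = (scal c * g⁻¹).1 := by simp [scal, smul_eq_diagonal_mul]
  simp only [e, toBilin'_eq_iff]
  rw [e', Units.val_inj, map_inv, scal_comm, eq_inv_mul_iff_mul_eq, ← mul_left_inj h, scal_comm,
    mul_assoc, mul_assoc, mul_assoc, mul_right_inj, mul_assoc]

theorem psl_sq (h2 : 2 ≤ Fintype.card ι) (g : GL ι F) :
    (diagAut g * itAut : MulAut (ProjectiveSpecialLinearGroup ι F)) ^ 2 = 1 ↔
      ∃ c : Fˣ, ∀ u v, Matrix.toBilin' (g⁻¹).1 u v = c * Matrix.toBilin' (g⁻¹).1 v u := by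
  rw [_root_.sq, mul_assoc, ← mul_assoc itAut, itAut_mul_diagAut, mul_assoc, itAut_mul_self, mul_one,
    ← map_mul, diagAut_eq_one_iff h2]
  have e : ∀ u v, Matrix.toBilin' (g⁻¹).1 v u = Matrix.toBilin' (glIT g).1 u v := fun u v => by
    rw [toBilin'_apply', toBilin'_apply', glIT_coe, mulVec_transpose, dotProduct_mulVec, dotProduct_comm]
  have e' : ∀ c : Fˣ, (c : F) • (glIT g).1 = (scal c * glIT g).1 := fun c => by
    simp [scal, smul_eq_diagonal_mul]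
  have key : ∀ c : Fˣ, (∀ u v, Matrix.toBilin' (g⁻¹).1 u v = c * Matrix.toBilin' (g⁻¹).1 v u) ↔
      g * glIT g = scal c⁻¹ := fun c => by
    refine (forall₂_congr fun u v => by rw [e u v]).trans (toBilin'_eq_iff.trans ?_)
    rw [e', Units.val_inj, scal_inv, eq_inv_iff_mul_eq_one, scal_comm, mul_assoc,
      inv_eq_iff_mul_eq_one]
  exact ⟨fun ⟨c, h⟩ => ⟨c⁻¹, (key _).2 (by rwa [inv_inv])⟩, fun ⟨c, h⟩ => ⟨_, (key c).1 h⟩⟩

omit [Finite F] in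
theorem nd_toBilin' (g : GL ι F) (x : ι → F) (hx : ∀ y, Matrix.toBilin' g.1 x y = 0) : x = 0 :=
  funext fun i => by
    have := hx ((g⁻¹).1 *ᵥ Pi.single i 1)
    rw [toBilin'_apply', mulVec_mulVec, Units.mul_inv, one_mulVec] at this
    simpa using this

theorem simB_eq_psl (h2 : 2 ≤ Fintype.card ι) (g s : GL ι F) :
    diagAut s ∈ Subgroup.centralizer {(diagAut g * itAut : MulAut (ProjectiveSpecialLinearGroup ι F))} ↔
      s ∈ simB (Matrix.toBilin' (g⁻¹).1) := by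
  rw [Subgroup.mem_centralizer_singleton_iff, ← mul_inv_eq_iff_eq_mul, eq_comm, psl_key h2]; rfl

theorem psl_sys {n : ℕ} (hn : 3 ≤ n) : GrSys (inndiagPSL n F)
    (fun γ => IsGraphAutClassPSL γ ∧ orderOf γ = 2) (pslR (ι := Fin n) (F := F)) := by
  obtain ⟨p, hp⟩ := CharP.exists F
  have : Fact p.Prime := ⟨CharP.char_is_prime F p⟩
  have h2 : 2 ≤ Fintype.card (Fin n) := by simp; omega
  have : Nonempty (Fin n) := ⟨⟨0, by omega⟩⟩
  rw [inndiagPSL_eq]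
  refine ⟨?_, fun B hB => ?_, ?_, ?_⟩
  · rintro _ ⟨⟨-, δ, γ, h1, h3, rfl⟩, ho⟩
    obtain ⟨g, rfl⟩ := (isInnerDiagonal_iff δ).1 h1
    obtain rfl := (isInverseTranspose_iff γ).1 h3
    obtain ⟨c, hc⟩ := (psl_sq h2 g).1 (ho ▸ pow_orderOf_eq_one _)
    exact ⟨_, rf_of_scalar (nd_toBilin' _) hc, g, rfl, rfl⟩
  · have h1 : (LinearMap.BilinForm.toMatrix' B).det ≠ 0 := by
      rw [Ne, ← Matrix.exists_vecMul_eq_zero_iff]
      rintro ⟨v, hv, e⟩
      refine hv (hB.nd v fun y => ?_)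
      rw [← Matrix.toBilin'_toMatrix' B, Matrix.toBilin'_apply', dotProduct_mulVec, e, zero_dotProduct]
    let g := (GeneralLinearGroup.mkOfDetNeZero _ h1)⁻¹
    have e : B = Matrix.toBilin' (g⁻¹).1 := (Matrix.toBilin'_toMatrix' B).symm
    refine ⟨_, ⟨⟨hn, _, _, (isInnerDiagonal_iff _).2 ⟨g, rfl⟩, (isInverseTranspose_iff _).2 rfl, rfl⟩,
      orderOf_eq_prime ((psl_sq h2 g).2 ?_) fun h => ?_⟩, g, rfl, e⟩
    · rw [← e]
      exact hB.sy.elim (fun s => ⟨1, fun u v => by simp [s u v]⟩) fun s => ⟨-1, fun u v => by simp [s u v]⟩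
    · exact itAut_ne_semilinear (p := p) (by simpa) g⁻¹ 1 (by
        rw [map_one, mul_one, map_inv, eq_inv_iff_mul_eq_one, mul_eq_one_comm, h])
  · rintro _ _ _ _ - - ⟨g, rfl, rfl⟩ ⟨g', rfl, rfl⟩
    refine ⟨?_, fun ⟨e, c, hc, h⟩ => ⟨_, ⟨(glEquiv _ F).symm e, rfl⟩, (psl_key h2 _ _ _).2
      ⟨Units.mk0 c hc, fun u v => by rw [glEquiv_symm_mulVec, glEquiv_symm_mulVec, h]; rfl⟩⟩⟩
    rintro ⟨_, ⟨h, rfl⟩, e⟩
    obtain ⟨c, hc⟩ := (psl_key h2 _ _ _).1 e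
    exact ⟨glEquiv _ F h, c, c.ne_zero, hc⟩
  · rintro _ _ - ⟨g, rfl, rfl⟩
    have h1 : (diagAut.comp (simB (Matrix.toBilin' (g⁻¹).1)).subtype).range = diagAut.range ⊓
        Subgroup.centralizer {(diagAut g * itAut : MulAut (ProjectiveSpecialLinearGroup (Fin n) F))} := by
      ext β
      exact ⟨fun ⟨s, e⟩ => e ▸ ⟨⟨s, rfl⟩, (simB_eq_psl h2 _ _).2 s.2⟩,
        fun ⟨⟨s, e⟩, hs⟩ => ⟨⟨s, (simB_eq_psl h2 _ _).1 (e ▸ hs)⟩, e⟩⟩
    exact ⟨(MulEquiv.subgroupCongr h1.symm).trans ((QuotientGroup.quotientKerEquivRange _).symm.trans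
      (QuotientGroup.quotientMulEquivOfEq (Subgroup.ext fun g =>
        (diagAut_eq_one_iff h2 _).trans (exists_congr fun _ => eq_comm))))⟩

theorem psl_split {n : ℕ} (hn : 3 ≤ n) : GrSplit (inndiagPSL n F)
    (Inn (ProjectiveSpecialLinearGroup (Fin n) F)) (pslR (ι := Fin n) (F := F)) Fˣ
    fun k d c => k ≠ 0 ∧ (c : F) = d := by
  obtain ⟨p, hp⟩ := CharP.exists F
  have : Fact p.Prime := ⟨CharP.char_is_prime F p⟩
  have h2 : 2 ≤ Fintype.card (Fin n) := by simp; omega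
  have : Nonempty (Fin n) := ⟨⟨0, by omega⟩⟩
  rw [inndiagPSL_eq]
  refine ⟨?_, ⟨one_ne_zero, rfl⟩, fun t c ht h => ⟨Units.mk0 t ht, Units.ext (by simp [h.2])⟩,
    fun m _ k c hk h => ⟨Units.mk0 k hk, Units.ext (by simp [h.2])⟩,
    fun m _ b => ⟨b, b.ne_zero, b.ne_zero, by simp⟩, fun h => ⟨-1, orderOf_eq_prime (by simp)
      (fun e => h (by have : (-1 : F) = 1 := congrArg Units.val e; linear_combination -this)),
      fun k d c h => ⟨h.1, by simp [h.2]⟩⟩⟩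
  rintro _ _ hB ⟨g, rfl, rfl⟩ A h1 h3
  refine split_of_hom diagAut rfl inn_le_range_diagAut _ GeneralLinearGroup.det
    GeneralLinearGroup.det_surjective _ A (diagAut_mem_inn_iff (p := p) h2) (fun s hs => ?_)
    fun c hc => ?_
  · obtain ⟨k, hk⟩ := (simB_eq_psl h2 _ _).1 hs
    exact h1 s k _ hk ⟨k.ne_zero, rfl⟩
  · obtain ⟨s, k, hk, h0, e⟩ := h3 c hc
    exact ⟨s, (simB_eq_psl h2 _ _).2 (mem_simB'.2 ⟨k, h0, hk⟩), Units.ext e.symm⟩

end Cfsg.Agent.Mult.Gr
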