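import Cfsg.Agent.Mult.L34a

/-! Central extensions of `L₃(4)` by elementary abelian `2`-groups: the preimages of the two `E₁₆`. -/

set_option autoImplicit false

namespace Cfsg.Agent.Mult
open Matrix Subgroup
open scoped MatrixGroups

variable {F : Type*} [Field F] {X : Type*} [Group X] {L : Type*} [Group L]

/-- coordinates for a central extension of `L₃(F)` -/
structure L3Cov (π : X →* L) (ψ : SL(3, F) →* L) (H K T : Subgroup X) : Prop where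
  sπ : Function.Surjective π
  sψ : Function.Surjective ψ
  kπ : ∀ x, π x = 1 ↔ x ∈ center X
  z2 : ∀ z ∈ center X, z ^ 2 = 1
  kψ : ∀ z, ψ z = 1 ↔ z ∈ center SL(3, F)
  mH : ∀ x, x ∈ H ↔ ∃ a c, π x = ψ (l3u a 0 c)
  mK : ∀ x, x ∈ K ↔ ∃ b c, π x = ψ (l3u 0 b c)
  mT : ∀ x, x ∈ T ↔ ∃ a b c, π x = ψ (l3u a b c)

namespace L3Cov
variable {π : X →* L} {ψ : SL(3, F) →* L} {H K T : Subgroup X}

theorem symm (h : L3Cov π ψ H K T) : L3Cov π (ψ.comp l3t) K H T where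
  sπ := h.sπ
  sψ := fun y => by
    obtain ⟨g, rfl⟩ := h.sψ y
    exact ⟨l3t g, by simp [l3t_l3t]⟩
  kπ := h.kπ
  z2 := h.z2
  kψ := fun z => by rw [MonoidHom.comp_apply, h.kψ, l3t_center]
  mH := fun x => by
    rw [h.mK]
    simp only [MonoidHom.comp_apply, l3t_l3u]
    constructor
    · rintro ⟨b, c, e⟩
      exact ⟨-b, -c, by simpa using e⟩
    · rintro ⟨b, c, e⟩
      exact ⟨-b, -c, by simpa using e⟩
  mK := fun x => by
    rw [h.mH]
    simp only [MonoidHom.comp_apply, l3t_l3u]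
    constructor
    · rintro ⟨b, c, e⟩
      exact ⟨-b, -c, by simpa using e⟩
    · rintro ⟨b, c, e⟩
      exact ⟨-b, -c, by simpa using e⟩
  mT := fun x => by
    rw [h.mT]
    simp only [MonoidHom.comp_apply, l3t_l3u]
    constructor
    · rintro ⟨a, b, c, e⟩
      exact ⟨-b, -a, a * b - c, by rw [e]; congr 2 <;> ring⟩
    · rintro ⟨a, b, c, e⟩
      exact ⟨_, _, _, e⟩

theorem eq_of (h : L3Cov π ψ H K T) {g g' : SL(3, F)} (e : ψ g = ψ g') (h1 : g.1 0 0 = 1) (h2 : g'.1 0 0 = 1) :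
    g = g' :=
  l3_center_eq (z := g * g'⁻¹) ((h.kψ _).1 (by simp [e])) (by simp) h1 h2

theorem inj (h : L3Cov π ψ H K T) {a b c a' b' c' : F} (e : ψ (l3u a b c) = ψ (l3u a' b' c')) :
    a = a' ∧ b = b' ∧ c = c' :=
  l3u_inj (h.eq_of e (by simp [l3u_val]) (by simp [l3u_val]))

theorem sq_eq (h : L3Cov π ψ H K T) (h2 : (2 : F) = 0) {x y : X} {a c : F} (hx : π x = ψ (l3u 1 0 0))
    (hy : π y = ψ (l3u a 0 c)) (hac : a ≠ 0 ∨ c ≠ 0) : y ^ 2 = x ^ 2 := by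
  obtain ⟨M, hM⟩ := l3d_trans hac
  obtain ⟨g, hg⟩ := h.sπ (ψ (l3d M))
  have hz : y⁻¹ * (g⁻¹ * x * g) ∈ center X := by
    rw [← h.kπ]
    simp only [map_mul, map_inv, hx, hy, hg]
    rw [mul_assoc (ψ (l3d M))⁻¹, ← map_mul, hM]; simp
  have hx2 : x ^ 2 ∈ center X := by
    rw [← h.kπ, map_pow, hx, ← map_pow, sq, l3u_mul, one_add_one_eq_two, h2]
    simp [l3u_zero]
  have e : g⁻¹ * x * g = y * (y⁻¹ * (g⁻¹ * x * g)) := by simp
  have e2 : (g⁻¹ * x * g) ^ 2 = x ^ 2 := by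
    rw [show (g⁻¹ * x * g) ^ 2 = g⁻¹ * (x ^ 2 * g) by simp [sq, mul_assoc], ← mem_center_iff.1 hx2 g]; simp
  rw [← e2, e, (show Commute y _ from mem_center_iff.1 hz y).mul_pow, h.z2 _ hz, mul_one]

theorem elemAb (h : L3Cov π ψ H K T) (h2 : (2 : F) = 0) {w : F} (hw : w ^ 2 + w + 1 = 0) : IsElementaryAbelian 2 H := by
  obtain ⟨x, hx⟩ := h.sπ (ψ (l3u 1 0 0))
  obtain ⟨y, hy⟩ := h.sπ (ψ (l3u 0 0 1))
  obtain ⟨v, hv⟩ := h.sπ (ψ (l3u 0 0 w))
  have hw0 : w ≠ 0 := by rintro rfl; simp at hw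
  have hw1 : 1 + w ≠ 0 := fun e => by
    have : (1 : F) = 0 := by linear_combination hw - w * e
    simp at this
  have hx2 : x ^ 2 ∈ center X := by
    rw [← h.kπ, map_pow, hx, ← map_pow, sq, l3u_mul, one_add_one_eq_two, h2]
    simp [l3u_zero]
  have key : ∀ (y : X) (c : F), c ≠ 0 → π y = ψ (l3u 0 0 c) → y * x = x ^ 2 * (x * y) := by
    intro y c hc hy
    have e1 := h.sq_eq h2 hx hy (Or.inr hc)
    have e2 := h.sq_eq h2 (y := x * y) (a := 1) (c := c) hx (by rw [map_mul, hx, hy, ← map_mul, l3u_mul]; simp)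
      (Or.inl one_ne_zero)
    have e3 := h.z2 _ hx2
    have c1 := mem_center_iff.1 hx2
    calc y * x = x⁻¹ * (x * y) ^ 2 * y⁻¹ := by simp [sq, mul_assoc]
      _ = x * y * (y ^ 2)⁻¹ := by rw [e2]; simp [sq, mul_assoc]
      _ = x ^ 2 * (x * y) := by rw [e1, inv_eq_of_mul_eq_one_right (by rw [← sq, e3]), c1]
  have k1 := key y 1 one_ne_zero hy
  have k2 := key v w hw0 hv
  have k3 := key (y * v) (1 + w) hw1 (by rw [map_mul, hv, hy, ← map_mul, l3u_mul]; simp)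
  have hc : x ^ 2 = 1 := by
    have c1 := mem_center_iff.1 hx2
    rw [mul_assoc, k2, ← mul_assoc, c1, mul_assoc, ← mul_assoc y, k1, mul_assoc, mul_assoc] at k3
    simpa using k3
  have hsq : ∀ a ∈ H, a ^ 2 = 1 := by
    intro a ha
    obtain ⟨s, t, e⟩ := (h.mH a).1 ha
    by_cases hst : s ≠ 0 ∨ t ≠ 0
    · rw [h.sq_eq h2 hx e hst, hc]
    · push Not at hst
      rw [hst.1, hst.2, l3u_zero, map_one] at e
      exact h.z2 _ ((h.kπ _).1 e)
  refine ⟨⟨⟨fun a b => Subtype.ext ?_⟩⟩, hsq⟩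
  have i : ∀ a ∈ H, a⁻¹ = a := fun a ha => inv_eq_of_mul_eq_one_right (by rw [← sq, hsq a ha])
  have := i _ (H.mul_mem a.2 b.2)
  rw [_root_.mul_inv_rev, i _ a.2, i _ b.2] at this
  exact this.symm

theorem hT (h : L3Cov π ψ H K T) : H ≤ T := fun x hx => by
  obtain ⟨a, c, e⟩ := (h.mH x).1 hx
  exact (h.mT x).2 ⟨_, _, _, e⟩

theorem center_eq (h : L3Cov π ψ H K T) (eH : IsElementaryAbelian 2 H) (eK : IsElementaryAbelian 2 K) :
    H ⊓ K = (center ↥(H ⊔ K)).map (H ⊔ K).subtype := by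
  apply le_antisymm
  · rintro x ⟨hx, hx'⟩
    refine ⟨⟨x, mem_sup_left hx⟩, mem_center_iff.2 fun g => Subtype.ext ?_, rfl⟩
    have : H ⊔ K ≤ centralizer {x} := sup_le
      (fun y hy => mem_centralizer_singleton_iff.2 (congrArg Subtype.val (eH.1.is_comm.comm (⟨y, hy⟩ : H) ⟨x, hx⟩)))
      (fun y hy => mem_centralizer_singleton_iff.2 (congrArg Subtype.val (eK.1.is_comm.comm (⟨y, hy⟩ : K) ⟨x, hx'⟩)))
    exact mem_centralizer_singleton_iff.1 (this g.2)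
  · rintro _ ⟨x, hx, rfl⟩
    obtain ⟨a, b, c, e⟩ := (h.mT x).1 (sup_le h.hT h.symm.hT x.2)
    obtain ⟨y, hy⟩ := h.sπ (ψ (l3u 1 0 0))
    obtain ⟨z, hz⟩ := h.sπ (ψ (l3u 0 1 0))
    have c1 := congrArg (fun t : ↥(H ⊔ K) => π t) (mem_center_iff.1 hx ⟨y, mem_sup_left ((h.mH y).2 ⟨_, _, hy⟩)⟩)
    have c2 := congrArg (fun t : ↥(H ⊔ K) => π t) (mem_center_iff.1 hx ⟨z, mem_sup_right ((h.mK z).2 ⟨_, _, hz⟩)⟩)
    simp only [coe_mul, map_mul, e, hy, hz] at c1 c2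
    rw [← map_mul, ← map_mul, l3u_mul, l3u_mul] at c1 c2
    have d1 := (h.inj c1).2.2
    have d2 := (h.inj c2).2.2
    have hb : b = 0 := by linear_combination d1
    have ha : a = 0 := by linear_combination -d2
    subst ha hb
    exact ⟨(h.mH _).2 ⟨_, _, e⟩, (h.mK _).2 ⟨_, _, e⟩⟩

theorem conj_mem (h : L3Cov π ψ H K T) {g x : X} {M : SL(2, F)} {a c : F} (hg : π g = ψ (l3d M * l3u a 0 c))
    (hx : x ∈ H) : g⁻¹ * x * g ∈ H := by
  obtain ⟨s, t, e⟩ := (h.mH x).1 hx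
  rw [h.mH]
  refine ⟨s * M.1 0 0 + t * M.1 1 0, s * M.1 0 1 + t * M.1 1 1, ?_⟩
  simp only [map_mul π, map_inv π, hg, e]
  rw [← map_inv, ← map_mul, ← map_mul, mul_assoc, ← mul_assoc (l3u s 0 t), l3u_mul_l3d]
  congr 1
  rw [_root_.mul_inv_rev, mul_assoc, mul_assoc, inv_mul_cancel_left, l3u_inv, l3u_mul, l3u_mul]
  congr 1 <;> ring

theorem mem_norm [Finite X] (h : L3Cov π ψ H K T) (h2 : (2 : F) = 0) (h3 : ∀ s : F, s ≠ 0 → s ^ 3 = 1) (g : X) :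
    g ∈ normalizer (H : Set X) ↔ ∃ M a c, π g = ψ (l3d M * l3u a 0 c) := by
  constructor
  · intro hg
    obtain ⟨y, hy⟩ := h.sπ (ψ (l3u 1 0 0))
    obtain ⟨G, hG⟩ := h.sψ (π g)
    obtain ⟨a, c, e⟩ := (h.mH _).1 ((mem_normalizer_iff.1 hg y).1 ((h.mH y).2 ⟨_, _, hy⟩))
    simp only [map_mul π, map_inv π, hy, ← hG] at e
    have hz : G * l3u 1 0 0 * G⁻¹ * (l3u a 0 c)⁻¹ ∈ center SL(3, F) := by
      rw [← h.kψ]; simp [e]
    have z3 := Classical.center_sl34_pow hz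
    have z2 : (G * l3u 1 0 0 * G⁻¹ * (l3u a 0 c)⁻¹) ^ 2 = 1 := by
      generalize hu : G * l3u 1 0 0 * G⁻¹ * (l3u a 0 c)⁻¹ = u at hz
      have e1 : G * l3u 1 0 0 * G⁻¹ = u * l3u a 0 c := by rw [← hu]; simp
      have e2 : (G * l3u 1 0 0 * G⁻¹) ^ 2 = 1 := by
        rw [conj_pow, sq, l3u_mul, one_add_one_eq_two, h2]; simp [l3u_zero]
      rw [e1, (show Commute u _ from (mem_center_iff.1 hz _).symm).mul_pow, sq (l3u a 0 c), l3u_mul, ← two_mul, ← two_mul c,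
        h2] at e2
      simpa [l3u_zero] using e2
    have z1 : G * l3u 1 0 0 * G⁻¹ * (l3u a 0 c)⁻¹ = 1 := by
      rw [pow_succ, z2, one_mul] at z3; exact z3
    obtain ⟨z, hz', M, a', c', e'⟩ := l3_parab h3 G (a := a) (c := c) (by
      rw [mul_inv_eq_one, mul_inv_eq_iff_eq_mul] at z1; exact z1)
    exact ⟨M, a', c', by rw [← hG, e', map_mul, (h.kψ z).2 hz', one_mul]⟩
  · rintro ⟨M, a, c, e⟩
    rw [← inv_mem_iff]
    exact mem_normalizer_fintype fun x hx => by simpa using h.conj_mem e hx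

theorem split [Finite X] (T : Sylow 2 X) (h : L3Cov π ψ H K T) (h2 : (2 : F) = 0) {w : F} (hw : w ^ 2 + w + 1 = 0)
    (h3 : ∀ s : F, s ≠ 0 → s ^ 3 = 1) :
    ∃ C : Subgroup X, C ≤ normalizer (H : Set X) ∧ C ⊓ H = ⊥ ∧ H ⊔ C = normalizer (H : Set X) ∧
      Nonempty (C ≃* SL(2, F)) := by
  have eH := h.elemAb h2 hw
  have eK := h.symm.elemAb h2 hw
  set N := normalizer (H : Set X) with hN
  have hTN : (T : Subgroup X) ≤ N := fun x hx => by
    obtain ⟨a, b, c, e⟩ := (h.mT x).1 hx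
    obtain ⟨M, hM⟩ := l3_mk !![1, b; 0, 1] (by simp [det_fin_two])
    refine (h.mem_norm h2 h3 x).2 ⟨M, a, c, ?_⟩
    rw [e]; congr 1
    ext i j
    fin_cases i <;> fin_cases j <;> simp [l3u_val, l3d_val, hM, Matrix.mul_apply, Fin.sum_univ_three]
  have hHN : H ≤ N := le_normalizer
  obtain ⟨C₀, hC1, hC2, hC3⟩ := ea2_compl K H eK
  have hsup : H ⊔ C₀ = T := by
    refine le_antisymm (sup_le h.hT (hC1.trans h.symm.hT)) fun x hx => ?_
    obtain ⟨a, b, c, e⟩ := (h.mT x).1 hx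
    obtain ⟨y, hy⟩ := h.sπ (ψ (l3u 0 b 0))
    have hy' : y ∈ H ⊔ C₀ := (hC3.trans (sup_le_sup_right inf_le_left _)) ((h.mK y).2 ⟨_, _, hy⟩)
    have : x * y⁻¹ ∈ H := (h.mH _).2 ⟨a, c - a * b, by
      rw [map_mul, map_inv, e, hy, ← map_inv, ← map_mul, l3u_inv, l3u_mul]; congr 2 <;> ring⟩
    simpa using mul_mem (mem_sup_left this) hy'
  haveI := eH.1
  haveI : IsMulCommutative (H.subgroupOf N) := ⟨⟨fun a b => Subtype.ext (Subtype.ext
    (congrArg (Subtype.val : H → X) (eH.1.is_comm.comm (⟨_, a.2⟩ : H) ⟨_, b.2⟩)))⟩⟩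
  haveI : Fact (Nat.Prime 2) := ⟨Nat.prime_two⟩
  obtain ⟨C, hC⟩ := S0051.result (H.subgroupOf N) ((T : Subgroup X).subgroupOf N) (fun x hx => h.hT hx) (by
      obtain ⟨k, hk⟩ := IsPGroup.iff_card.1 ((T.2.to_le h.hT).comap_of_injective N.subtype N.subtype_injective)
      rw [subgroupOf, hk]
      refine Nat.Coprime.pow_left _ ((Nat.Prime.coprime_iff_not_dvd Nat.prime_two).2 fun hd => T.not_dvd_index ?_)
      exact hd.trans (relIndex_dvd_index_of_le hTN))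
    (C₀.subgroupOf N) (fun x hx => h.symm.hT (hC1 hx)) (by
      rw [eq_bot_iff]
      intro x hx
      have : (x : X) ∈ C₀ ⊓ H := hx
      rw [hC2] at this
      exact Subtype.ext this) (by
      rw [← subgroupOf_sup hHN (hC1.trans (h.symm.hT.trans hTN)), hsup])
  have hex : ∀ g : N, ∃ M a c, π g = ψ (l3d M * l3u a 0 c) := fun g => (h.mem_norm h2 h3 g).1 g.2
  choose θ α γ hθ using hex
  have uniq : ∀ (g : N) M a c, π g = ψ (l3d M * l3u a 0 c) → θ g = M := fun g M a c e =>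
    l3d_mul_inj (h.eq_of ((hθ g).symm.trans e) (l3d_mul_zero ..) (l3d_mul_zero ..))
  let Θ : N →* SL(2, F) := MonoidHom.mk' θ fun g g' => uniq _ _ _ _ (by
    rw [coe_mul, map_mul, hθ, hθ, ← map_mul, mul_assoc, ← mul_assoc (l3u _ _ _), l3u_mul_l3d, mul_assoc, l3u_mul,
      ← mul_assoc, ← map_mul, add_zero])
  have hker : ∀ g : N, Θ g = 1 ↔ (g : X) ∈ H := fun g => by
    constructor
    · intro e
      have e' : θ g = 1 := e
      exact (h.mH _).2 ⟨_, _, by rw [hθ, e', map_one, one_mul]⟩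
    · intro hg
      obtain ⟨a, c, e⟩ := (h.mH _).1 hg
      exact uniq g 1 a c (by rw [e, map_one, one_mul])
  refine ⟨C.map N.subtype, map_subtype_le _, ?_, ?_, ⟨(C.equivMapOfInjective _ N.subtype_injective).symm.trans
    (MulEquiv.ofBijective (Θ.comp C.subtype) ⟨?_, ?_⟩)⟩⟩
  · rw [eq_bot_iff]
    rintro _ ⟨⟨x, hx, rfl⟩, hx'⟩
    have : x ∈ H.subgroupOf N ⊓ C := ⟨hx', hx⟩
    rw [hC.disjoint.eq_bot, mem_bot] at this
    simp [this]
  · conv_lhs => rw [← map_subgroupOf_eq_of_le hHN, ← Subgroup.map_sup, hC.sup_eq_top]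
    rw [← MonoidHom.range_eq_map, range_subtype]
  · rw [injective_iff_map_eq_one]
    intro x hx
    have : (x : N) ∈ H.subgroupOf N ⊓ C := ⟨(hker _).1 hx, x.2⟩
    rw [hC.disjoint.eq_bot, mem_bot] at this
    exact Subtype.ext this
  · intro M
    obtain ⟨g, hg⟩ := h.sπ (ψ (l3d M * l3u 0 0 0))
    have hgN : g ∈ N := (h.mem_norm h2 h3 g).2 ⟨_, _, _, hg⟩
    obtain ⟨⟨x, y⟩, e, -⟩ := hC.existsUnique (⟨g, hgN⟩ : N)
    refine ⟨y, ?_⟩
    have e1 : Θ ⟨g, hgN⟩ = M := uniq _ _ _ _ hg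
    rw [← e1, ← e, map_mul, (hker x).2 x.2, one_mul]; rfl

end L3Cov

end Cfsg.Agent.Mult
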