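import Cfsg.Agent.PGrp.Basic
import Mathlib.Combinatorics.SimpleGraph.Extremal.Turan

/-! Generators of linear `p`-groups: a `p`-group acting on an elementary abelian group of order
`p ^ m` has, modulo the kernel and the derived group, a filtration with at most `m ^ 2 / 4`
steps of order `p` (`Patt.index_le`, via Mantel's theorem). -/

set_option autoImplicit false

namespace Cfsg.Agent.Mult.Patt

open Subgroup
open scoped commutatorElement

theorem pow_inj {i j i' j' : ℕ} (h : i < j) (h' : i' < j') (e : 2 ^ j + 2 ^ i' = 2 ^ j' + 2 ^ i) :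
    i = i' ∧ j = j' := by
  have key : ∀ {i j i' j' : ℕ}, i' < j' → 2 ^ j + 2 ^ i' = 2 ^ j' + 2 ^ i → ¬ j < j' := by
    intro i j i' j' h' e hj
    obtain ⟨t, rfl⟩ : ∃ t, j' = t + 1 := ⟨j' - 1, by omega⟩
    have h1 : 2 ^ j ≤ 2 ^ t := Nat.pow_le_pow_right two_pos (by omega)
    have h2 : 2 ^ i' ≤ 2 ^ t := Nat.pow_le_pow_right two_pos (by omega)
    have h3 : 0 < 2 ^ i := Nat.two_pow_pos i
    rw [pow_succ] at e
    omega
  have h1 := key h' e
  have h2 := key h e.symm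
  obtain rfl : j = j' := by omega
  exact ⟨(Nat.pow_right_injective le_rfl (Nat.add_left_cancel e)).symm, rfl⟩

theorem mantel (m : ℕ) (E : Finset (Fin m × Fin m)) (h1 : ∀ e ∈ E, e.1 < e.2)
    (h2 : ∀ i j k, (i, j) ∈ E → (j, k) ∈ E → (i, k) ∉ E) : E.card ≤ m ^ 2 / 4 := by
  classical
  let Γ : SimpleGraph (Fin m) := SimpleGraph.fromRel fun i j => (i, j) ∈ E
  have hadj : ∀ i j, i < j → Γ.Adj i j → (i, j) ∈ E := fun i j hij h =>
    ((SimpleGraph.fromRel_adj _ _ _).1 h).2.resolve_right fun h' => lt_asymm hij (h1 _ h')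
  have hcf : Γ.CliqueFree (2 + 1) := by
    intro s hs
    obtain ⟨a, b, c, hab, hac, hbc, -⟩ := SimpleGraph.is3Clique_iff.1 hs
    have key : ∀ i j k, i < j → j < k → Γ.Adj i j → Γ.Adj j k → Γ.Adj i k → False :=
      fun i j k a b c d e => h2 i j k (hadj _ _ a c) (hadj _ _ b d) (hadj _ _ (a.trans b) e)
    rcases lt_or_gt_of_ne hab.ne with x | x <;> rcases lt_or_gt_of_ne hac.ne with y | y <;>
      rcases lt_or_gt_of_ne hbc.ne with z | z
    · exact key a b c x z hab hbc hac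
    · exact key a c b y z hac hbc.symm hab
    · exact absurd (x.trans z) (lt_asymm y)
    · exact key c a b y x hac.symm hab hbc.symm
    · exact key b a c x y hab.symm hac hbc
    · exact absurd (y.trans z) (lt_asymm x)
    · exact key b c a z y hbc hac.symm hab.symm
    · exact key c b a z x hbc.symm hab.symm hac.symm
  have h3 := hcf.card_edgeFinset_le
  have h4 : E.card ≤ Γ.edgeFinset.card := by
    refine Finset.card_le_card_of_injOn (fun e => s(e.1, e.2)) (fun e he => ?_) fun e he f hf h => ?_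
    · simp only [Finset.mem_coe, SimpleGraph.mem_edgeFinset, SimpleGraph.mem_edgeSet]
      exact (SimpleGraph.fromRel_adj _ _ _).2 ⟨(h1 e he).ne, Or.inl he⟩
    · rcases Sym2.eq_iff.1 h with ⟨a, b⟩ | ⟨a, b⟩
      · exact Prod.ext a b
      · have x := h1 e he
        have y := h1 f hf
        rw [a, b] at x
        exact absurd x (lt_asymm y)
  simp only [Fintype.card_fin] at h3
  have h5 : (m % 2).choose 2 = 0 := Nat.choose_eq_zero_of_lt (Nat.mod_lt _ two_pos)
  rw [h5] at h3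
  omega

section

variable {G V : Type*} [Group G] [AddCommGroup V] [DistribMulAction G V]

/-- Action on the quotient by an invariant subgroup. -/
@[reducible] def quotAct (U : AddSubgroup V) (h : ∀ (g : G), ∀ v ∈ U, g • v ∈ U) :
    MulAction G (V ⧸ U) where
  smul g := QuotientAddGroup.map U U (DistribSMul.toAddMonoidHom V g) fun v hv => h g v hv
  one_smul q := by
    induction q using QuotientAddGroup.induction_on with
    | H v => exact congrArg (fun w : V => (w : V ⧸ U)) (one_smul G v)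
  mul_smul a b q := by
    induction q using QuotientAddGroup.induction_on with
    | H v => exact congrArg (fun w : V => (w : V ⧸ U)) (mul_smul a b v)

theorem sub_mem_closure {U : AddSubgroup V} {S : Set V} {g : G} (h : ∀ v ∈ S, g • v - v ∈ U)
    {v : V} (hv : v ∈ AddSubgroup.closure S) : g • v - v ∈ U := by
  induction hv using AddSubgroup.closure_induction with
  | mem x hx => exact h x hx
  | zero => simp
  | add x y _ _ hx hy => rw [smul_add, add_sub_add_comm]; exact U.add_mem hx hy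
  | neg x _ hx => rw [smul_neg, ← neg_sub']; exact U.neg_mem hx

theorem exists_chain [Finite G] [Finite V] {p m : ℕ} [hp : Fact p.Prime] (hG : IsPGroup p G)
    (hV : Nat.card V = p ^ m) (t : ℕ) : ∃ a : ℕ → V,
      (∀ (g : G), ∀ j < t, g • a j - a j ∈ AddSubgroup.closure (a '' {i | i < j})) ∧
      (AddSubgroup.closure (a '' {i | i < t}) = ⊤ ∨
        p ^ t ≤ Nat.card (AddSubgroup.closure (a '' {i | i < t}))) := by
  classical
  induction t with
  | zero => exact ⟨fun _ => 0, fun _ j hj => absurd hj (Nat.not_lt_zero j), Or.inr Nat.card_pos⟩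
  | succ t ih =>
  obtain ⟨a, h1, h2⟩ := ih
  set U := AddSubgroup.closure (a '' {i | i < t}) with hU
  obtain ⟨x, hx1, hx2⟩ : ∃ x : V, (∀ g : G, g • x - x ∈ U) ∧ (U ≠ ⊤ → x ∉ U) := by
    by_cases ht : U = ⊤
    · exact ⟨0, fun g => by simp, fun h => absurd ht h⟩
    have hinv : ∀ (g : G), ∀ v ∈ U, g • v ∈ U := fun g v hv => by
      have h3 : ∀ w ∈ a '' {i | i < t}, g • w - w ∈ U := by
        rintro _ ⟨j, hj, rfl⟩
        have h4 : a '' {i | i < j} ⊆ a '' {i | i < t} :=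
          Set.image_mono fun i (hi : i < j) => lt_trans hi (show j < t from hj)
        exact AddSubgroup.closure_mono h4 (h1 g j hj)
      have := U.add_mem (sub_mem_closure h3 hv) hv
      rwa [sub_add_cancel] at this
    letI := quotAct U hinv
    have hd : p ∣ Nat.card (V ⧸ U) := by
      obtain ⟨i, -, hi⟩ := (Nat.dvd_prime_pow hp.out).1 (hV ▸ U.index_dvd_card)
      have h0 : i ≠ 0 := by
        rintro rfl
        exact ht (AddSubgroup.index_eq_one.1 hi)
      exact (dvd_pow_self p h0).trans (dvd_of_eq hi.symm)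
    obtain ⟨b, hb, hb0⟩ := hG.exists_fixed_point_of_prime_dvd_card_of_fixed_point (V ⧸ U) hd
      (a := 0) fun g => map_zero (QuotientAddGroup.map U U _ _)
    induction b using QuotientAddGroup.induction_on with
    | H x =>
    refine ⟨x, fun g => ?_, fun _ hx => hb0 ((QuotientAddGroup.eq_zero_iff x).2 hx).symm⟩
    have : ((g • x : V) : V ⧸ U) = x := hb g
    exact QuotientAddGroup.eq_iff_sub_mem.1 this
  have him : ∀ j ≤ t, Function.update a t x '' {i | i < j} = a '' {i | i < j} := fun j hj =>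
    Set.image_congr fun i hi => Function.update_of_ne (ne_of_lt (lt_of_lt_of_le hi hj)) _ _
  have hle : U ≤ AddSubgroup.closure (Function.update a t x '' {i | i < t + 1}) := by
    rw [hU, ← him t le_rfl]
    exact AddSubgroup.closure_mono (Set.image_mono fun i hi => Nat.lt_succ_of_lt hi)
  refine ⟨Function.update a t x, fun g j hj => ?_, ?_⟩
  · rw [him j (by omega)]
    rcases Nat.lt_succ_iff_lt_or_eq.1 hj with h | rfl
    · rw [Function.update_of_ne h.ne]; exact h1 g j h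
    · rw [Function.update_self]; exact hx1 g
  by_cases ht : U = ⊤
  · exact Or.inl (top_le_iff.1 (ht ▸ hle))
  right
  have h3 := h2.resolve_left ht
  obtain ⟨i, -, hi⟩ := (Nat.dvd_prime_pow hp.out).1 (hV ▸ U.card_addSubgroup_dvd_card)
  obtain ⟨l, -, hl⟩ := (Nat.dvd_prime_pow hp.out).1 (hV ▸ (AddSubgroup.closure
    (Function.update a t x '' {i | i < t + 1})).card_addSubgroup_dvd_card)
  have hlt : Nat.card U < Nat.card (AddSubgroup.closure
      (Function.update a t x '' {i | i < t + 1})) := by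
    by_contra h
    refine hx2 ht (AddSubgroup.eq_of_le_of_card_ge hle (not_lt.1 h) ▸ ?_)
    exact AddSubgroup.subset_closure ⟨t, Nat.lt_succ_self t, Function.update_self ..⟩
  rw [hi] at h3 hlt
  rw [hl] at hlt ⊢
  rw [Nat.pow_le_pow_iff_right hp.out.one_lt] at h3 ⊢
  rw [Nat.pow_lt_pow_iff_right hp.out.one_lt] at hlt
  omega

/-- The weighted flag. -/
def Bf (a : ℕ → V) (m s : ℕ) : AddSubgroup V := AddSubgroup.closure (a '' {i | i < m ∧ 2 ^ i ≤ s})

variable {a : ℕ → V} {m : ℕ}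

theorem Bf_mono {s t : ℕ} (h : s ≤ t) : Bf a m s ≤ Bf a m t :=
  AddSubgroup.closure_mono (Set.image_mono fun _ hi => ⟨hi.1, hi.2.trans h⟩)

theorem mem_Bf {j : ℕ} (hj : j < m) : a j ∈ Bf a m (2 ^ j) :=
  AddSubgroup.subset_closure ⟨j, ⟨hj, le_rfl⟩, rfl⟩

theorem Bf_nojump {s : ℕ} (h : ∀ l < m, 2 ^ l ≠ s) : Bf a m s ≤ Bf a m (s - 1) :=
  AddSubgroup.closure_mono (Set.image_mono fun i hi => ⟨hi.1, by
    have := h i hi.1
    have := hi.2
    omega⟩)

theorem Bf_jump {j : ℕ} {v : V} (hv : v ∈ Bf a m (2 ^ j)) :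
    ∃ n : ℤ, v - n • a j ∈ Bf a m (2 ^ j - 1) := by
  induction hv using AddSubgroup.closure_induction with
  | mem x hx =>
    obtain ⟨i, hi, rfl⟩ := hx
    by_cases e : i = j
    · exact ⟨1, by simp [e]⟩
    · refine ⟨0, ?_⟩
      rw [zero_smul, sub_zero]
      refine AddSubgroup.subset_closure ⟨i, ⟨hi.1, ?_⟩, rfl⟩
      have h1 : 2 ^ i ≠ 2 ^ j := fun h => e (Nat.pow_right_injective le_rfl h)
      have := hi.2
      omega
  | zero => exact ⟨0, by simp⟩
  | add x y _ _ hx hy =>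
    obtain ⟨n, hn⟩ := hx
    obtain ⟨k, hk⟩ := hy
    exact ⟨n + k, by rw [add_smul, add_sub_add_comm]; exact add_mem hn hk⟩
  | neg x _ hx =>
    obtain ⟨n, hn⟩ := hx
    exact ⟨-n, by rw [neg_smul, ← neg_sub']; exact neg_mem hn⟩

variable (hlow : ∀ (g : G), ∀ j < m, g • a j - a j ∈ AddSubgroup.closure (a '' {i | i < j}))

include hlow in
theorem sub_mem_Bf (g : G) {s : ℕ} {v : V} (hv : v ∈ Bf a m s) : g • v - v ∈ Bf a m (s - 1) := by
  refine sub_mem_closure ?_ hv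
  rintro _ ⟨j, hj, rfl⟩
  have h0 : {i | i < j} ⊆ {i | i < m ∧ 2 ^ i ≤ s - 1} := fun i hi => ⟨lt_trans hi hj.1, by
    have h1 : 2 ^ i < 2 ^ j := Nat.pow_lt_pow_right one_lt_two hi
    have := hj.2
    omega⟩
  exact AddSubgroup.closure_mono (Set.image_mono h0) (hlow g j hj.1)

include hlow in
theorem smul_mem_Bf (g : G) {s : ℕ} {v : V} (hv : v ∈ Bf a m s) : g • v ∈ Bf a m s := by
  have := add_mem (Bf_mono (Nat.sub_le s 1) (sub_mem_Bf hlow g hv)) hv
  rwa [sub_add_cancel] at this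

/-- The filtration of the acting group. -/
def Tf (w : ℕ) : Subgroup G where
  carrier := {g | ∀ j < m, g • a j - a j ∈ Bf a m (2 ^ j - w)}
  one_mem' := fun j _ => by simp
  mul_mem' := fun {g h} hg hh j hj => by
    have := add_mem (smul_mem_Bf hlow g (hh j hj)) (hg j hj)
    rwa [smul_sub, sub_add_sub_cancel, ← mul_smul] at this
  inv_mem' := fun {g} hg j hj => by
    have := neg_mem (smul_mem_Bf hlow g⁻¹ (hg j hj))
    rwa [smul_sub, inv_smul_smul, neg_sub] at this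

variable {hlow}

theorem Tf_sub {w : ℕ} {g : G} (hg : g ∈ Tf hlow w) {s : ℕ} {v : V} (hv : v ∈ Bf a m s) :
    g • v - v ∈ Bf a m (s - w) := by
  refine sub_mem_closure ?_ hv
  rintro _ ⟨j, hj, rfl⟩
  exact Bf_mono (Nat.sub_le_sub_right hj.2 w) (hg j hj.1)

theorem Tf_succ_le (w : ℕ) : Tf hlow (w + 1) ≤ Tf hlow w := fun _ hg j hj =>
  Bf_mono (by omega) (hg j hj)

theorem Tf_one : Tf hlow 1 = ⊤ := eq_top_iff.2 fun g _ _ hj => sub_mem_Bf hlow g (mem_Bf hj)

theorem exists_edge {w : ℕ} {g : G} (hg : g ∈ Tf hlow w) (hg' : g ∉ Tf hlow (w + 1)) :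
    ∃ i < m, ∃ j < m, 2 ^ j = 2 ^ i + w ∧ g • a j - a j ∉ Bf a m (2 ^ i - 1) := by
  obtain ⟨j, hj, h⟩ : ∃ j < m, g • a j - a j ∉ Bf a m (2 ^ j - (w + 1)) := by
    by_contra h
    push Not at h
    exact hg' h
  obtain ⟨i, hi, e⟩ : ∃ i < m, 2 ^ i = 2 ^ j - w := by
    by_contra h'
    push Not at h'
    exact h (Bf_nojump h' (hg j hj))
  have := Nat.two_pow_pos i
  exact ⟨i, hi, j, hj, by omega, by rwa [e]⟩

theorem edge_of {w i j : ℕ} (hw : 0 < w) (e : 2 ^ j = 2 ^ i + w) {g : G} (hg : g ∈ Tf hlow w)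
    (hg' : g ∉ Tf hlow (w + 1)) : g • a j - a j ∉ Bf a m (2 ^ i - 1) := by
  obtain ⟨i', -, j', -, e', h⟩ := exists_edge hg hg'
  obtain ⟨rfl, rfl⟩ := pow_inj (i := i) (j := j) (i' := i') (j' := j')
    ((Nat.pow_lt_pow_iff_right one_lt_two).1 (by omega))
    ((Nat.pow_lt_pow_iff_right one_lt_two).1 (by omega)) (by omega)
  exact h

theorem relIndex_Tf {p : ℕ} (hV : ∀ v : V, p • v = 0) {w : ℕ} (hw : 0 < w) :
    (Tf hlow (w + 1)).relIndex (Tf hlow w) ∣ p := by
  by_cases h : Tf hlow w ≤ Tf hlow (w + 1)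
  · rw [relIndex_eq_one.2 h]; exact one_dvd p
  obtain ⟨g0, hg0, hg0'⟩ := SetLike.not_le_iff_exists.1 h
  obtain ⟨i, hi, j, hj, e, -⟩ := exists_edge hg0 hg0'
  have hmem : ∀ g : Tf hlow w, (g : G) • a j - a j ∈ Bf a m (2 ^ i) := fun g => by
    have := g.2 j hj
    rwa [e, Nat.add_sub_cancel] at this
  let φ : Tf hlow w →* Multiplicative (V ⧸ Bf a m (2 ^ i - 1)) := MonoidHom.mk'
    (fun g => Multiplicative.ofAdd (((g : G) • a j - a j : V) : V ⧸ Bf a m (2 ^ i - 1)))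
    fun g h => by
      rw [← ofAdd_add, ← QuotientAddGroup.mk_add]
      congr 1
      rw [QuotientAddGroup.eq_iff_sub_mem]
      have := sub_mem_Bf hlow (g : G) (hmem h)
      convert this using 1
      rw [coe_mul, mul_smul, smul_sub]
      abel
  have hker : φ.ker = (Tf hlow (w + 1)).subgroupOf (Tf hlow w) := by
    ext g
    rw [MonoidHom.mem_ker, mem_subgroupOf]
    change Multiplicative.ofAdd (((g : G) • a j - a j : V) : V ⧸ Bf a m (2 ^ i - 1)) = 1 ↔ _
    rw [ofAdd_eq_one, QuotientAddGroup.eq_zero_iff]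
    refine ⟨fun h1 => by_contra fun h2 => edge_of hw e g.2 h2 h1, fun h1 => ?_⟩
    have := h1 j hj
    rwa [e, show 2 ^ i + w - (w + 1) = 2 ^ i - 1 by omega] at this
  have hr : φ.range ≤ zpowers (Multiplicative.ofAdd (a i : V ⧸ Bf a m (2 ^ i - 1))) := by
    rintro _ ⟨g, rfl⟩
    obtain ⟨n, hn⟩ := Bf_jump (hmem g)
    refine ⟨n, ?_⟩
    change Multiplicative.ofAdd (n • (a i : V ⧸ Bf a m (2 ^ i - 1))) = Multiplicative.ofAdd _
    rw [← QuotientAddGroup.mk_zsmul]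
    exact congrArg _ (QuotientAddGroup.eq_iff_sub_mem.2 hn).symm
  rw [relIndex, ← hker, index_ker]
  refine (card_dvd_of_le hr).trans ?_
  rw [Nat.card_zpowers]
  refine orderOf_dvd_of_pow_eq_one ?_
  rw [← ofAdd_nsmul, ← QuotientAddGroup.mk_nsmul, hV]
  rfl

theorem comm_edge {p : ℕ} (hp : p.Prime) (hV : ∀ v : V, p • v = 0) {i j k w1 w2 : ℕ}
    (hk : k < m) (hw1 : 0 < w1) (hw2 : 0 < w2) (e1 : 2 ^ j = 2 ^ i + w1) (e2 : 2 ^ k = 2 ^ j + w2)
    {x y : G} (hx : x ∈ Tf hlow w1) (hx' : x ∉ Tf hlow (w1 + 1)) (hy : y ∈ Tf hlow w2)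
    (hy' : y ∉ Tf hlow (w2 + 1)) :
    ⁅x, y⁆ ∈ Tf hlow (w1 + w2) ∧ ⁅x, y⁆ ∉ Tf hlow (w1 + w2 + 1) := by
  have key : ∀ v : V, ⁅x, y⁆ • v - v =
      (x • (y • (y * x)⁻¹ • v - (y * x)⁻¹ • v) - (y • (y * x)⁻¹ • v - (y * x)⁻¹ • v)) -
      (y • (x • (y * x)⁻¹ • v - (y * x)⁻¹ • v) - (x • (y * x)⁻¹ • v - (y * x)⁻¹ • v)) := by
    intro v
    have h1 : ⁅x, y⁆ • v = x • y • (y * x)⁻¹ • v := by
      rw [← mul_smul, ← mul_smul, commutatorElement_def]; congr 1; group
    have h2 : y • x • (y * x)⁻¹ • v = v := by rw [← mul_smul, smul_inv_smul]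
    rw [smul_sub, smul_sub, h1, h2]
    abel
  constructor
  · intro l hl
    have hu := smul_mem_Bf hlow (y * x)⁻¹ (mem_Bf (a := a) hl)
    rw [key]
    exact sub_mem (Bf_mono (by omega) (Tf_sub hx (Tf_sub hy hu)))
      (Bf_mono (by omega) (Tf_sub hy (Tf_sub hx hu)))
  intro hc
  have h1 := hc k hk
  rw [key, show 2 ^ k - (w1 + w2 + 1) = 2 ^ i - 1 by omega] at h1
  set u := (y * x)⁻¹ • a k with hu
  have hu1 : u ∈ Bf a m (2 ^ k) := smul_mem_Bf hlow _ (mem_Bf hk)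
  have hu2 : u - a k ∈ Bf a m (2 ^ k - 1) := sub_mem_Bf hlow _ (mem_Bf hk)
  have h2 : x • u - u ∈ Bf a m (2 ^ k - w1 - 1) := by
    refine Bf_nojump (fun l _ e => ?_) (Tf_sub hx hu1)
    have := Nat.two_pow_pos l
    have := pow_inj (i := i) (j := j) (i' := l) (j' := k)
      ((Nat.pow_lt_pow_iff_right one_lt_two).1 (by omega))
      ((Nat.pow_lt_pow_iff_right one_lt_two).1 (by omega)) (by omega)
    obtain ⟨-, rfl⟩ := this
    omega
  have h3 := add_mem h1 (Bf_mono (show 2 ^ k - w1 - 1 - w2 ≤ 2 ^ i - 1 by omega) (Tf_sub hy h2))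
  rw [sub_add_cancel] at h3
  have h4 := Bf_mono (show 2 ^ k - 1 - w2 - w1 ≤ 2 ^ i - 1 by omega) (Tf_sub hx (Tf_sub hy hu2))
  have h5 : y • a k - a k ∈ Bf a m (2 ^ j) := by
    have := hy k hk
    rwa [e2, Nat.add_sub_cancel] at this
  obtain ⟨n, hn⟩ := Bf_jump h5
  have h6 := Bf_mono (show 2 ^ j - 1 - w1 ≤ 2 ^ i - 1 by omega) (Tf_sub hx hn)
  have h7 : n • (x • a j - a j) ∈ Bf a m (2 ^ i - 1) := by
    convert sub_mem (sub_mem h3 h4) h6 using 1
    simp only [smul_sub, smul_comm x n]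
    abel
  have hpn : ¬ (p : ℤ) ∣ n := by
    rintro ⟨c, rfl⟩
    rw [mul_comm, mul_smul, natCast_zsmul, hV, smul_zero, sub_zero] at hn
    exact edge_of hw2 e2 hy hy' hn
  obtain ⟨s, t, hst⟩ := (Prime.coprime_iff_not_dvd (Nat.prime_iff_prime_int.1 hp)).2 hpn
  refine edge_of hw1 e1 hx hx' ?_
  have := zsmul_mem h7 t
  rw [← one_zsmul (x • a j - a j), ← hst, add_smul, mul_smul, natCast_zsmul, hV, smul_zero,
    zero_add, mul_smul]
  exact this

end

theorem index_le {G V : Type*} [Group G] [Finite G] [AddCommGroup V] [Finite V]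
    [DistribMulAction G V] {p m : ℕ} [hp : Fact p.Prime] (hG : IsPGroup p G)
    (hc : Nat.card V = p ^ m) (hV : ∀ v : V, p • v = 0) (K : Subgroup G)
    (h1 : ∀ x y : G, ⁅x, y⁆ ∈ K) (h2 : ∀ g : G, (∀ v : V, g • v = v) → g ∈ K) :
    K.index ≤ p ^ (m ^ 2 / 4) := by
  classical
  obtain ⟨a, hlow, htop⟩ := exists_chain hG hc m
  have htop' : AddSubgroup.closure (a '' {i | i < m}) = ⊤ := htop.elim id fun h =>
    AddSubgroup.eq_top_of_le_card _ (hc ▸ h)
  have hN : ∀ L : Subgroup G, K ≤ L → L.Normal := fun L h =>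
    ⟨fun x hx g => by
      have := L.mul_mem (h (h1 g x)) hx
      rwa [commutatorElement_def, inv_mul_cancel_right] at this⟩
  let E : Finset (Fin m × Fin m) := Finset.univ.filter fun e => e.1 < e.2 ∧
    ¬ Tf hlow (2 ^ (e.2 : ℕ) - 2 ^ (e.1 : ℕ)) ≤ K ⊔ Tf hlow (2 ^ (e.2 : ℕ) - 2 ^ (e.1 : ℕ) + 1)
  have hE : E.card ≤ m ^ 2 / 4 := by
    refine mantel m E (fun e he => (Finset.mem_filter.1 he).2.1) fun i j k a1 a2 a3 => ?_
    simp only [E, Finset.mem_filter, Finset.mem_univ, true_and] at a1 a2 a3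
    obtain ⟨x, hx, hx'⟩ := SetLike.not_le_iff_exists.1 a1.2
    obtain ⟨y, hy, hy'⟩ := SetLike.not_le_iff_exists.1 a2.2
    have b1 : 2 ^ (i : ℕ) < 2 ^ (j : ℕ) := Nat.pow_lt_pow_right one_lt_two a1.1
    have b2 : 2 ^ (j : ℕ) < 2 ^ (k : ℕ) := Nat.pow_lt_pow_right one_lt_two a2.1
    obtain ⟨c1, c2⟩ := comm_edge (i := i) (j := j) hp.out hV k.2 (by omega) (by omega) (by omega)
      (by omega) hx (fun h => hx' (mem_sup_right h)) hy fun h => hy' (mem_sup_right h)
    rw [show 2 ^ (j : ℕ) - 2 ^ (i : ℕ) + (2 ^ (k : ℕ) - 2 ^ (j : ℕ)) = 2 ^ (k : ℕ) - 2 ^ (i : ℕ) by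
      omega] at c1 c2
    set w := 2 ^ (k : ℕ) - 2 ^ (i : ℕ) with hw
    have d1 := relIndex_Tf (hlow := hlow) hV (show 0 < w by omega)
    rw [← relIndex_mul_relIndex (Tf hlow (w + 1)) ((K ⊔ Tf hlow (w + 1)) ⊓ Tf hlow w) _
      (le_inf le_sup_right (Tf_succ_le w)) inf_le_right] at d1
    have d2 := ((Nat.dvd_prime hp.out).1 (Dvd.dvd.trans (Dvd.intro _ rfl) d1)).resolve_left
      fun h => c2 (relIndex_eq_one.1 h ⟨mem_sup_left (h1 x y), c1⟩)
    rw [d2] at d1
    have d3 := Nat.dvd_one.1 (Nat.dvd_of_mul_dvd_mul_left hp.out.pos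
      (d1.trans (dvd_of_eq (mul_one p).symm)))
    exact a3.2 ((relIndex_eq_one.1 d3).trans inf_le_left)
  have main : ∀ t : ℕ, (K ⊔ Tf hlow (t + 1)).index ≤
      p ^ (E.filter fun e => 2 ^ (e.2 : ℕ) ≤ 2 ^ (e.1 : ℕ) + t).card := by
    intro t
    induction t with
    | zero => rw [Tf_one, sup_top_eq, index_top]; exact Nat.one_le_pow _ _ hp.out.pos
    | succ t ih =>
    have hsub : (E.filter fun e => 2 ^ (e.2 : ℕ) ≤ 2 ^ (e.1 : ℕ) + t) ⊆
        E.filter fun e => 2 ^ (e.2 : ℕ) ≤ 2 ^ (e.1 : ℕ) + (t + 1) := fun e he =>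
      Finset.mem_filter.2 ⟨(Finset.mem_filter.1 he).1, (Finset.mem_filter.1 he).2.trans (by omega)⟩
    by_cases h : Tf hlow (t + 1) ≤ K ⊔ Tf hlow (t + 1 + 1)
    · rw [le_antisymm (sup_le_sup_left (Tf_succ_le _) K) (sup_le le_sup_left h)]
      exact ih.trans (Nat.pow_le_pow_right hp.out.pos (Finset.card_le_card hsub))
    obtain ⟨g, hg, hg'⟩ := SetLike.not_le_iff_exists.1 h
    obtain ⟨i, hi, j, hj, e, -⟩ := exists_edge hg fun h => hg' (mem_sup_right h)
    have hlt := Finset.card_lt_card ((Finset.ssubset_iff_of_subset hsub).2 ⟨(⟨i, hi⟩, ⟨j, hj⟩),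
      Finset.mem_filter.2 ⟨Finset.mem_filter.2 ⟨Finset.mem_univ _,
        (Nat.pow_lt_pow_iff_right one_lt_two).1 (show 2 ^ i < 2 ^ j by omega), by
          rwa [show 2 ^ j - 2 ^ i = t + 1 by omega]⟩, e.le⟩,
      fun h => by have := (Finset.mem_filter.1 h).2; simp only at this; omega⟩)
    haveI := hN (K ⊔ Tf hlow (t + 1 + 1)) le_sup_left
    rw [← relIndex_mul_index (sup_le_sup_left (Tf_succ_le (t + 1)) K)]
    have h3 : (K ⊔ Tf hlow (t + 1 + 1)).relIndex (K ⊔ Tf hlow (t + 1)) ≤ p := by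
      rw [show K ⊔ Tf hlow (t + 1) = Tf hlow (t + 1) ⊔ (K ⊔ Tf hlow (t + 1 + 1)) from
        le_antisymm (sup_le (le_sup_left.trans le_sup_right) le_sup_left)
          (sup_le le_sup_right (sup_le_sup_left (Tf_succ_le _) K)), relIndex_sup_right]
      exact Nat.le_of_dvd hp.out.pos ((relIndex_dvd_of_le_left _ le_sup_right).trans
        (relIndex_Tf hV t.succ_pos))
    calc _ ≤ p * p ^ (E.filter fun e => 2 ^ (e.2 : ℕ) ≤ 2 ^ (e.1 : ℕ) + t).card :=
          Nat.mul_le_mul h3 ih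
      _ = p ^ ((E.filter fun e => 2 ^ (e.2 : ℕ) ≤ 2 ^ (e.1 : ℕ) + t).card + 1) := by ring
      _ ≤ _ := Nat.pow_le_pow_right hp.out.pos hlt
  have hfin : Tf hlow (2 ^ m + 1) ≤ K := fun g hg => h2 g fun v => by
    rw [← sub_eq_zero, ← AddSubgroup.mem_bot]
    refine sub_mem_closure ?_ (htop' ▸ AddSubgroup.mem_top v)
    rintro _ ⟨j, hj, rfl⟩
    refine (AddSubgroup.closure_le ⊥).2 ?_ (hg j hj)
    rintro _ ⟨i, hi, rfl⟩
    have b1 : 2 ^ j < 2 ^ m := Nat.pow_lt_pow_right one_lt_two hj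
    have := Nat.two_pow_pos i
    have := hi.2
    omega
  have := main (2 ^ m)
  rw [sup_eq_left.2 hfin] at this
  exact this.trans (Nat.pow_le_pow_right hp.out.pos ((Finset.card_filter_le _ _).trans hE))

end Cfsg.Agent.Mult.Patt
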