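import Cfsg.Agent.Mult.Patt1
import Cfsg.Agent.S0130
import Cfsg.Agent.Solv.BurnsideBasis
import Cfsg.Agent.CH.Reg1

/-! For odd `p`: `p`-groups whose elements of order `p` are central have at most `rank Ω₁`
generators (`Patt.pcentral_bound`), and the bound `k (k + 4) / 4` for the number of generators
of subgroups (`Patt.gens_le`). -/

set_option autoImplicit false

namespace Cfsg.Agent.Mult.Patt

open Subgroup
open scoped commutatorElement IsMulCommutative

universe u

variable {p : ℕ} [hp : Fact p.Prime]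

theorem inv_mul_pow {G : Type*} [Group G] (h2 : p ≠ 2) (hZ : ∀ x : G, x ^ p = 1 → x ∈ center G)
    {x y : G} (h : ⁅y, x⁻¹⁆ ^ p = 1) (e : x ^ p = y ^ p) : (x⁻¹ * y) ^ p = 1 := by
  rw [PGrp.mul_pow_prime hp.out h2 (PGrp.commute_of_mem_center (hZ _ h) _)
    (PGrp.commute_of_mem_center (hZ _ h) _) h, inv_pow, e, inv_mul_cancel]

theorem comm_pow_aux (h2 : p ≠ 2) (n : ℕ) : ∀ (G : Type u) [Group G] [Finite G],
    Nat.card G < n → IsPGroup p G → (∀ x : G, x ^ p = 1 → x ∈ center G) →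
    ∀ x g : G, (x ^ p) ^ p = 1 → ⁅x, g⁆ ^ p = 1 := by
  induction n with
  | zero => intro G _ _ hc; exact absurd hc (Nat.not_lt_zero _)
  | succ n ih =>
  intro G _ _ hc hG hZ x g hx
  rcases eq_top_or_exists_le_coatom (zpowers x) with h | ⟨M, hM, hxM⟩
  · obtain ⟨i, rfl⟩ := mem_zpowers_iff.1 (h ▸ mem_top g : g ∈ zpowers x)
    rw [((Commute.refl x).zpow_right i).commutator_eq, one_pow]
  haveI := PGrp.normal_of_isCoatom hG hM
  have hlt : Nat.card M < Nat.card G := by
    by_contra h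
    exact hM.1 (Subgroup.eq_top_of_le_card M (not_lt.1 h))
  have hx1 : x ∈ M := hxM (mem_zpowers x)
  have hx2 : g * x * g⁻¹ ∈ M := (inferInstance : M.Normal).conj_mem x hx1 g
  have h1 := ih M (by omega) (hG.to_subgroup M)
    (fun y hy => mem_center_iff.2 fun z =>
      Subtype.ext (mem_center_iff.1 (hZ y (congrArg Subtype.val hy)) z))
    ⟨x, hx1⟩ ⟨g * x * g⁻¹, hx2⟩⁻¹ (Subtype.ext hx)
  have h3 : ⁅x, (g * x * g⁻¹)⁻¹⁆ ^ p = 1 := congrArg Subtype.val h1
  have h4 := inv_mul_pow h2 hZ h3 (by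
    rw [conj_pow, mem_center_iff.1 (hZ _ hx) g, mul_inv_cancel_right])
  have h5 : ⁅x, g⁆ = x * ((g * x * g⁻¹)⁻¹ * x) * x⁻¹ := by
    rw [commutatorElement_def]; group
  rw [h5, conj_pow, h4, mul_one, mul_inv_cancel]

theorem pcentral_aux (h2 : p ≠ 2) (n : ℕ) : ∀ (G : Type u) [Group G] [Finite G],
    Nat.card G < n → IsPGroup p G → (∀ x : G, x ^ p = 1 → x ∈ center G) →
    ∀ K : Subgroup G, (∀ x : G, x ^ p ∈ K) → (∀ x y : G, ⁅x, y⁆ ∈ K) →
    K.index ≤ Nat.card {x : G // x ^ p = 1} := by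
  induction n with
  | zero => intro G _ _ hc; exact absurd hc (Nat.not_lt_zero _)
  | succ n ih =>
  intro G _ _ hc hG hZ K hK1 hK2
  rcases subsingleton_or_nontrivial G with h0 | h0
  · haveI : Nonempty {x : G // x ^ p = 1} := ⟨⟨1, one_pow p⟩⟩
    rw [Subsingleton.elim K ⊤, index_top]
    exact Nat.card_pos
  let A : Subgroup G :=
    { carrier := {x | x ^ p = 1}
      one_mem' := one_pow p
      mul_mem' := fun {a b} ha hb => by
        change (a * b) ^ p = 1
        rw [(PGrp.commute_of_mem_center (hZ a ha) b).mul_pow, ha, hb, one_mul]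
      inv_mem' := fun {a} ha => by
        change a⁻¹ ^ p = 1
        rw [inv_pow, ha, inv_one] }
  have hA : ∀ x, x ∈ A ↔ x ^ p = 1 := fun _ => Iff.rfl
  haveI hAn : A.Normal := ⟨fun x hx g => by rw [hA, conj_pow, hx, mul_one, mul_inv_cancel]⟩
  haveI hKn : K.Normal := ⟨fun x hx g => by
    have := K.mul_mem (hK2 g x) hx
    rwa [commutatorElement_def, inv_mul_cancel_right] at this⟩
  have hA0 : A ≠ ⊥ := by
    obtain ⟨x, hx⟩ := exists_ne (1 : G)
    obtain ⟨m, h3, h4⟩ := PGrp.exists_pow_not_mem hG (H := ⊥) (mt mem_bot.1 hx)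
    exact fun e => h3 (e ▸ (hA _).2 (mem_bot.1 h4))
  have hlt : Nat.card (G ⧸ A) < n := by
    have e1 := A.card_mul_index
    have e2 : 1 < Nat.card A := (A.one_lt_card_iff_ne_bot).2 hA0
    have e3 : 0 < A.index := Nat.pos_of_ne_zero index_ne_zero_of_finite
    change A.index < n
    nlinarith
  set f := QuotientGroup.mk' A with hf
  have hfs : Function.Surjective f := QuotientGroup.mk'_surjective A
  have hker : ∀ x, f x = 1 ↔ x ^ p = 1 := fun x => QuotientGroup.eq_one_iff x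
  have hcomm := comm_pow_aux h2 _ G (Nat.lt_succ_self _) hG hZ
  have h3 := ih (G ⧸ A) hlt (hG.to_quotient A) (fun x hx => mem_center_iff.2 fun g => by
      obtain ⟨x, rfl⟩ := hfs x
      obtain ⟨g, rfl⟩ := hfs g
      rw [← map_pow, hker] at hx
      symm
      rw [← commutatorElement_eq_one_iff_mul_comm, ← map_commutatorElement, hker]
      exact hcomm x g hx) (K.map f)
    (fun x => by obtain ⟨x, rfl⟩ := hfs x; rw [← map_pow]; exact mem_map_of_mem f (hK1 x))
    (fun x y => by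
      obtain ⟨x, rfl⟩ := hfs x
      obtain ⟨y, rfl⟩ := hfs y
      rw [← map_commutatorElement]; exact mem_map_of_mem f (hK2 x y))
  have hout : ∀ x : G ⧸ A, f x.out = x := fun x => QuotientGroup.out_eq' x
  have hpp : ∀ x : {x : G ⧸ A // x ^ p = 1}, (x.1.out ^ p) ^ p = 1 := fun x => by
    rw [← hker, map_pow, hout, x.2]
  have h4 : Nat.card {x : G ⧸ A // x ^ p = 1} ≤ Nat.card (K.subgroupOf A) := by
    refine Nat.card_le_card_of_injective (fun x => ⟨⟨x.1.out ^ p, hpp x⟩, hK1 _⟩) fun x y e => ?_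
    have e1 : x.1.out ^ p = y.1.out ^ p := congrArg (fun z : K.subgroupOf A => ((z : A) : G)) e
    have e2 := (hker _).2 (inv_mul_pow h2 hZ (hcomm _ _ (hpp y)) e1)
    rw [map_mul, map_inv, hout, hout, inv_mul_eq_one] at e2
    exact Subtype.ext e2
  rw [index_map, MonoidHom.range_eq_top.2 hfs, index_top, mul_one, QuotientGroup.ker_mk'] at h3
  rw [← relIndex_mul_index (le_sup_left : K ≤ K ⊔ A), sup_comm, relIndex_sup_right, sup_comm]
  calc _ ≤ K.relIndex A * Nat.card (K.subgroupOf A) := Nat.mul_le_mul_left _ (h3.trans h4)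
    _ = Nat.card A := by rw [mul_comm]; exact card_mul_index _

theorem pcentral_bound (h2 : p ≠ 2) {G : Type*} [Group G] [Finite G] (hG : IsPGroup p G)
    (hZ : ∀ x : G, x ^ p = 1 → x ∈ center G) (K : Subgroup G) (h1 : ∀ x : G, x ^ p ∈ K)
    (h3 : ∀ x y : G, ⁅x, y⁆ ∈ K) : K.index ≤ Nat.card {x : G // x ^ p = 1} :=
  pcentral_aux h2 _ G (Nat.lt_succ_self _) hG hZ K h1 h3

theorem gens_le {P : Type*} [Group P] [Finite P] (h2 : p ≠ 2) (hP : IsPGroup p P) (k : ℕ)
    (hab : ∀ A : Subgroup P, A.Normal → IsMulCommutative A →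
      ∃ S : Finset P, S.card ≤ k ∧ Subgroup.closure (S : Set P) = A) (H : Subgroup P) :
    ∃ S : Finset P, S.card ≤ k * (k + 4) / 4 ∧ Subgroup.closure (S : Set P) = H := by
  classical
  have h0 : (⊥ : Subgroup P) ∈ {A : Subgroup P | A.Normal ∧ IsMulCommutative A ∧
      ∀ a ∈ A, a ^ p ^ 1 = 1} :=
    ⟨inferInstance, inferInstance, fun a ha => by rw [mem_bot.1 ha, one_pow]⟩
  obtain ⟨A, ⟨hAn, hAc, hAe⟩, hmax⟩ := (Set.toFinite _).exists_maximal ⟨_, h0⟩
  have hΩ := S0130.result hP 1 (by rwa [pow_one]) A hAc hAe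
    fun B h1 h3 h4 h5 => le_antisymm (hmax ⟨h1, h3, h4⟩ h5) h5
  simp only [pow_one] at hΩ hAe
  obtain ⟨m, hm⟩ := IsPGroup.iff_card.1 (hP.to_subgroup A)
  have hmk : m ≤ k := by
    obtain ⟨S, hS, hSA⟩ := hab A hAn hAc
    have hsub : ∀ x ∈ S, x ∈ A := fun x hx => hSA ▸ subset_closure hx
    have h1 := Solv.le_card_of_closure_eq_top (hP.to_subgroup A) (n := m) (by
      rw [Solv.frattini_eq_bot_of_elementary (p := p) fun x => Subtype.ext (hAe x x.2), index_bot,
        hm]) (T := S.subtype (· ∈ A)) (by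
      apply map_injective A.subtype_injective
      rw [MonoidHom.map_closure, ← MonoidHom.range_eq_map, range_subtype]
      refine Eq.trans (congrArg Subgroup.closure ?_) hSA
      ext x
      simp only [coe_subtype, Set.mem_image, Finset.mem_coe, Finset.mem_subtype]
      exact ⟨fun ⟨y, h, e⟩ => e ▸ h, fun h => ⟨⟨x, hsub x h⟩, h, rfl⟩⟩)
    rw [Finset.card_subtype] at h1
    exact h1.trans ((Finset.card_filter_le _ _).trans hS)
  have hH := hP.to_subgroup H
  set K := frattini H with hK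
  haveI := hH.isNilpotent
  have hK1 : ∀ x : H, x ^ p ∈ K := Solv.pow_mem_frattini hH
  have hK2 : ∀ x y : H, ⁅x, y⁆ ∈ K := fun x y =>
    Solv.commutator_le_frattini (commutator_mem_commutator (mem_top x) (mem_top y))
  set C := (centralizer (A : Set P)).subgroupOf H with hC
  letI := CH.Reg.conjAct A
  have b1 : (K ⊔ C).index ≤ p ^ (m ^ 2 / 4) :=
    index_le (V := Additive A) hH hm (fun v => Subtype.ext (hAe _ v.toMul.2)) _
      (fun x y => mem_sup_left (hK2 x y)) fun g hg => mem_sup_right fun a ha => by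
        have : (g : P) * a * (g : P)⁻¹ = a :=
          congrArg (fun v : Additive A => ((v.toMul : A) : P)) (hg (Additive.ofMul ⟨a, ha⟩))
        exact (mul_inv_eq_iff_eq_mul.1 this).symm
  have hCA : ∀ x : C, x ^ p = 1 → ((x : H) : P) ∈ A := fun x hx =>
    hΩ _ x.2 (congrArg (fun z : C => ((z : H) : P)) hx)
  have b2 : K.relIndex C ≤ p ^ m := by
    refine (pcentral_bound h2 (hH.to_subgroup C) (fun x hx => mem_center_iff.2 fun y =>
      Subtype.ext (Subtype.ext (y.2 _ (hCA x hx)).symm)) (K.subgroupOf C) (fun x => hK1 x)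
      fun x y => hK2 x y).trans ?_
    rw [← hm]
    exact Nat.card_le_card_of_injective (fun x => (⟨_, hCA x.1 x.2⟩ : A)) fun x y e =>
      Subtype.ext (Subtype.ext (Subtype.ext (congrArg (Subtype.val : A → P) e)))
  obtain ⟨n, hn⟩ := hH.index K
  have b3 : p ^ n ≤ p ^ (m + m ^ 2 / 4) := by
    rw [← hn, ← relIndex_mul_index (le_sup_left : K ≤ K ⊔ C), sup_comm, relIndex_sup_right,
      sup_comm, pow_add]
    exact Nat.mul_le_mul b2 b1
  rw [Nat.pow_le_pow_iff_right hp.out.one_lt] at b3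
  haveI := Fintype.ofFinite H
  obtain ⟨T, -, hT1, hT2⟩ := Solv.exists_subset_card_eq_closure_eq_top hH hn (S := Finset.univ)
    (by simp)
  refine ⟨T.image H.subtype, Finset.card_image_le.trans ?_, ?_⟩
  · have : m ^ 2 ≤ k ^ 2 := Nat.pow_le_pow_left hmk 2
    rw [show k * (k + 4) = k ^ 2 + 4 * k by ring]
    omega
  · rw [Finset.coe_image, ← MonoidHom.map_closure, hT2, ← MonoidHom.range_eq_map, range_subtype]

end Cfsg.Agent.Mult.Patt
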