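import Cfsg.Agent.Mult.U34a

/-! A presentation of the group `3^{1+2} : SL₂(3)` of order `648`. -/

set_option autoImplicit false

namespace Cfsg.Agent.Mult
open Subgroup
open scoped commutatorElement

variable {G : Type*} [Group G]

theorem card_sup_zpowers_eq [Finite G] (H : Subgroup G) (x : G) {p : ℕ} (hp : p.Prime) (hx : ∀ h ∈ H, x * h * x⁻¹ ∈ H)
    (hxn : x ^ p ∈ H) (hn : x ∉ H) : Nat.card ↥(H ⊔ zpowers x) = p * Nat.card H := by
  refine le_antisymm (card_sup_zpowers_le H x hp.pos hx hxn) (Nat.le_of_dvd Nat.card_pos ?_)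
  haveI := Fact.mk hp
  have hN : H ⊔ zpowers x ≤ normalizer (H : Set G) := sup_le le_normalizer (zpowers_le.2 (mem_normalizer_fintype hx))
  haveI := (normal_subgroupOf_iff_le_normalizer (le_sup_left : H ≤ H ⊔ zpowers x)).2 hN
  rw [card_eq_card_quotient_mul_card_subgroup (H.subgroupOf (H ⊔ zpowers x)),
    Nat.card_congr (subgroupOfEquivOfLe le_sup_left).toEquiv]
  refine Nat.mul_dvd_mul_right ?_ _
  let y : ↥(H ⊔ zpowers x) := ⟨x, mem_sup_right (mem_zpowers x)⟩
  have : orderOf (QuotientGroup.mk' (H.subgroupOf (H ⊔ zpowers x)) y) = p :=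
    orderOf_eq_prime (by rw [← map_pow]; exact (QuotientGroup.eq_one_iff _).2 hxn)
      fun e => hn ((QuotientGroup.eq_one_iff (N := H.subgroupOf (H ⊔ zpowers x)) y).1 e)
  exact this ▸ orderOf_dvd_natCard _

theorem sup_zpowers_le_cent {H : Subgroup G} {x y : G} (h1 : H ≤ centralizer {y}) (h2 : x * y = y * x) :
    H ⊔ zpowers x ≤ centralizer {y} := sup_le h1 (zpowers_le.2 (mem_centralizer_singleton_iff.2 h2))

/-- defining relations -/
structure R648 (a b ζ s i j : G) : Prop where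
  a3 : a ^ 3 = 1
  ab : a * b = ζ * (b * a)
  ζa : a * ζ = ζ * a
  ζb : b * ζ = ζ * b
  ζs : s * ζ = ζ * s
  ζi : i * ζ = ζ * i
  ia : i * a = b * i
  ib : a * (i * b) = i
  i4 : i ^ 4 = 1
  s3 : s ^ 3 = 1
  sa : s * a = a * s
  sb : s * b = a * ζ * b * s
  si : s * i = j * s
  sj : s * j = i * j * s
  jj : j * j = i * i
  ji : i * (j * i) = j

theorem R648.card [Finite G] {a b ζ s i j : G} (h : R648 a b ζ s i j) (h1 : ζ ≠ 1) :
    Nat.card (closure {a, s, i} : Subgroup G) = 648 ∧ ∃ S ≤ closure {a, s, i}, Nat.card S = 81 ∧ ζ ∈ S := by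
  obtain ⟨a3, ab, ζa, ζb, ζs, ζi, ia, ib, i4, s3, sa, sb, si, sj, jj, ji⟩ := h
  haveI : Fact (Nat.Prime 2) := ⟨Nat.prime_two⟩
  have nab : a * b ≠ b * a := fun e => h1 (by rw [e] at ab; simpa using ab)
  have c : ∀ {x y z : G}, x * y = z * x → x * y * x⁻¹ = z := fun e => by rw [e]; simp
  have ia' := c ia
  have ib' : i * b * i⁻¹ = a⁻¹ := by
    rw [eq_inv_iff_mul_eq_one, mul_eq_one_comm, ← mul_assoc, ib, mul_inv_cancel]
  have b3 : b ^ 3 = 1 := by rw [← ia', conj_pow, a3]; simp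
  have ab' : a * b * a⁻¹ = ζ * b := c (ab.trans (mul_assoc _ _ _).symm)
  have z3 : ζ ^ 3 = 1 := by
    have : (ζ * b) ^ 3 = 1 := by rw [← ab', conj_pow, b3]; simp
    rwa [(show Commute ζ b from ζb.symm).mul_pow, b3, mul_one] at this
  have ba' : b * a * b⁻¹ = ζ⁻¹ * a := by rw [eq_inv_mul_iff_mul_eq, ← mul_assoc, ← ab]; simp
  let Z := (⊥ : Subgroup G) ⊔ zpowers ζ
  let A := Z ⊔ zpowers a
  let R := A ⊔ zpowers b
  have mζ : ζ ∈ Z := mem_sup_right (mem_zpowers _)
  have ma : a ∈ A := mem_sup_right (mem_zpowers _)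
  have mb : b ∈ R := mem_sup_right (mem_zpowers _)
  have lA : Z ≤ A := le_sup_left
  have lR : A ≤ R := le_sup_left
  have nZ : ∀ x, x * ζ = ζ * x → ∀ K : Subgroup G, ζ ∈ K → ∀ z ∈ Z, x * z * x⁻¹ ∈ K := fun x e K hK =>
    norm_sup_zpowers K (fun z hz => by rw [mem_bot.1 hz]; simp) (by rw [c e]; exact hK)
  have nR : ∀ x, x * ζ = ζ * x → ∀ K : Subgroup G, ζ ∈ K → x * a * x⁻¹ ∈ K → x * b * x⁻¹ ∈ K → ∀ z ∈ R, x * z * x⁻¹ ∈ K :=
    fun x e K h1 h2 h3 => norm_sup_zpowers K (norm_sup_zpowers K (nZ x e K h1) h2) h3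
  have kZ : Nat.card Z = 3 := by
    rw [card_sup_zpowers_eq ⊥ ζ Nat.prime_three (fun z hz => by rw [mem_bot.1 hz]; simp) (by simp [z3]) (by simpa),
      card_bot]
  have kA : Nat.card A = 9 := by
    rw [card_sup_zpowers_eq Z a Nat.prime_three (nZ a ζa Z mζ) (by simp [a3]) fun e => nab
      (mem_centralizer_singleton_iff.1 (sup_zpowers_le_cent bot_le ζb.symm e)), kZ]
  have kR : Nat.card R = 27 := by
    rw [card_sup_zpowers_eq A b Nat.prime_three (norm_sup_zpowers _ (nZ b ζb A (lA mζ))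
      (by rw [ba']; exact mul_mem (inv_mem (lA mζ)) ma)) (by simp [b3]) fun e => nab
      (mem_centralizer_singleton_iff.1 (sup_zpowers_le_cent (sup_zpowers_le_cent bot_le ζa.symm) rfl e)).symm, kA]
  have sR : ∀ K : Subgroup G, R ≤ K → ∀ z ∈ R, s * z * s⁻¹ ∈ K := fun K hK =>
    nR s ζs K (hK (lR (lA mζ))) (by rw [c sa]; exact hK (lR ma))
      (by rw [c sb]; exact hK (mul_mem (mul_mem (lR ma) (lR (lA mζ))) mb))
  have iR : ∀ K : Subgroup G, R ≤ K → ∀ z ∈ R, i * z * i⁻¹ ∈ K := fun K hK =>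
    nR i ζi K (hK (lR (lA mζ))) (by rw [ia']; exact hK mb) (by rw [ib']; exact hK (inv_mem (lR ma)))
  have kS : Nat.card ↥(R ⊔ zpowers s) = 81 := by
    refine (card_sup_zpowers_eq R s Nat.prime_three (sR R le_rfl) (by simp [s3]) fun e => ?_).trans (by rw [kR])
    have mb' : b ∈ Z ⊔ zpowers b := mem_sup_right (mem_zpowers _)
    have mζ' : ζ ∈ Z ⊔ zpowers b := mem_sup_left mζ
    have : R ≤ normalizer ((Z ⊔ zpowers b : Subgroup G) : Set G) :=
      sup_le (sup_le (le_sup_left.trans le_normalizer) (zpowers_le.2 (mem_normalizer_fintype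
        (norm_sup_zpowers _ (nZ a ζa _ mζ') (by rw [ab']; exact mul_mem mζ' mb'))))) (le_sup_right.trans le_normalizer)
    have := (mem_normalizer_iff.1 (this e) b).1 mb'
    rw [c sb, mul_mem_cancel_right mb', mul_mem_cancel_right mζ'] at this
    exact nab (mem_centralizer_singleton_iff.1 (sup_zpowers_le_cent (sup_zpowers_le_cent bot_le ζb.symm) rfl this))
  have i2 : i * i ≠ 1 := fun e => by
    have : a = a⁻¹ := by rw [← ib', ← ia']; simp [← mul_assoc, e, mul_assoc _ i⁻¹, ← _root_.mul_inv_rev]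
    rw [eq_inv_iff_mul_eq_one] at this
    rw [pow_succ, sq, this, one_mul] at a3
    exact nab (by simp [a3])
  have ji' : j * i * j⁻¹ = i⁻¹ := by rw [eq_inv_iff_mul_eq_one, mul_eq_one_comm, ← mul_assoc, ji, mul_inv_cancel]
  have mi : i ∈ zpowers i := mem_zpowers i
  have nj : j ∉ zpowers i := by
    rintro ⟨k, rfl⟩
    rw [← (Commute.self_zpow i k).eq, ← mul_assoc, mul_eq_right] at ji
    exact i2 ji
  have kQ : Nat.card ↥(zpowers i ⊔ zpowers j) = 8 := by
    rw [card_sup_zpowers_eq (zpowers i) j Nat.prime_two (fun z hz => norm_sup_zpowers (H := ⊥) (y := i) _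
      (fun z hz => by rw [mem_bot.1 hz]; simp) (by rw [ji']; exact inv_mem mi) z (mem_sup_right hz))
      (by rw [sq, jj]; exact mul_mem mi mi) nj, Nat.card_zpowers,
      orderOf_eq_prime_pow (p := 2) (n := 1) (by rwa [pow_one, sq]) i4]
    rfl
  set K : Subgroup G := closure {a, s, i}
  have aK : a ∈ K := subset_closure (by simp)
  have sK : s ∈ K := subset_closure (by simp)
  have iK : i ∈ K := subset_closure (by simp)
  have bK : b ∈ K := ia' ▸ mul_mem (mul_mem iK aK) (inv_mem iK)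
  have jK : j ∈ K := c si ▸ mul_mem (mul_mem sK iK) (inv_mem sK)
  have ζK : ζ ∈ K := by
    have := mul_mem (mul_mem aK bK) (inv_mem aK)
    rwa [ab', mul_mem_cancel_right bK] at this
  have lS : R ⊔ zpowers s ≤ K := sup_le (sup_le (sup_le (sup_le bot_le (zpowers_le.2 ζK)) (zpowers_le.2 aK))
    (zpowers_le.2 bK)) (zpowers_le.2 sK)
  refine ⟨le_antisymm ?_ (Nat.le_of_dvd Nat.card_pos (Nat.Coprime.mul_dvd_of_dvd_of_dvd (m := 81) (n := 8) (by norm_num)
    (kS ▸ card_dvd_of_le lS) (kQ ▸ card_dvd_of_le (sup_le (zpowers_le.2 iK) (zpowers_le.2 jK))))),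
    _, lS, kS, mem_sup_left (lR (lA mζ))⟩
  let I := R ⊔ zpowers i
  let J := I ⊔ zpowers j
  have mI : i ∈ I := mem_sup_right mi
  have mJ : j ∈ J := mem_sup_right (mem_zpowers j)
  have k1 := card_sup_zpowers_le R i (n := 4) (by norm_num) (iR R le_rfl) (by simp [i4])
  have jR : j ∈ normalizer (R : Set G) := by
    have := mem_normalizer_fintype (sR R le_rfl)
    exact c si ▸ mul_mem (mul_mem this (mem_normalizer_fintype (iR R le_rfl))) (inv_mem this)
  have k2 := card_sup_zpowers_le I j two_pos (norm_sup_zpowers _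
    (fun z hz => mem_sup_left ((mem_normalizer_iff.1 jR z).1 hz)) (by rw [ji']; exact inv_mem mI))
    (by rw [sq, jj]; exact mul_mem mI mI)
  have k3 := card_sup_zpowers_le J s three_pos (norm_sup_zpowers _ (norm_sup_zpowers _
    (sR _ (le_sup_left.trans le_sup_left)) (by rw [c si]; exact mJ)) (by rw [c sj]; exact mul_mem (mem_sup_left mI) mJ))
    (by simp [s3])
  have : K ≤ J ⊔ zpowers s := by
    rw [closure_le]
    rintro _ (rfl | rfl | rfl)
    · exact mem_sup_left (mem_sup_left (mem_sup_left (lR ma)))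
    · exact mem_sup_right (mem_zpowers _)
    · exact mem_sup_left (mem_sup_left mI)
  have k4 := card_le_of_le this
  change Nat.card I ≤ _ at k1
  change Nat.card J ≤ _ at k2
  omega

theorem R648.equiv {G' : Type*} [Group G'] [Finite G] [Finite G'] {a b ζ s i j : G} {a' b' ζ' s' i' j' : G'}
    (h : R648 a b ζ s i j) (h' : R648 a' b' ζ' s' i' j') (h1 : ζ ≠ 1) (h1' : ζ' ≠ 1) :
    Nonempty ((closure {a, s, i} : Subgroup G) ≃* (closure {a', s', i'} : Subgroup G')) := by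
  have k := (R648.card (G := G × G') (a := (a, a')) (b := (b, b')) (ζ := (ζ, ζ')) (s := (s, s')) (i := (i, i')) (j := (j, j'))
    ⟨Prod.ext h.a3 h'.a3, Prod.ext h.ab h'.ab, Prod.ext h.ζa h'.ζa, Prod.ext h.ζb h'.ζb, Prod.ext h.ζs h'.ζs,
      Prod.ext h.ζi h'.ζi, Prod.ext h.ia h'.ia, Prod.ext h.ib h'.ib, Prod.ext h.i4 h'.i4, Prod.ext h.s3 h'.s3,
      Prod.ext h.sa h'.sa, Prod.ext h.sb h'.sb, Prod.ext h.si h'.si, Prod.ext h.sj h'.sj, Prod.ext h.jj h'.jj,
      Prod.ext h.ji h'.ji⟩ fun e => h1 (congrArg Prod.fst e)).1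
  set D : Subgroup (G × G') := closure {(a, a'), (s, s'), (i, i')}
  have e1 : D.map (MonoidHom.fst G G') = closure {a, s, i} := by
    rw [MonoidHom.map_closure]; simp [Set.image_insert_eq]
  have e2 : D.map (MonoidHom.snd G G') = closure {a', s', i'} := by
    rw [MonoidHom.map_closure]; simp [Set.image_insert_eq]
  exact ⟨((MulEquiv.ofBijective _ (((MonoidHom.fst G G').subgroupMap_surjective D).bijective_of_nat_card_le
      (by rw [k, e1, (h.card h1).1]))).trans (MulEquiv.subgroupCongr e1)).symm.trans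
    ((MulEquiv.ofBijective _ (((MonoidHom.snd G G').subgroupMap_surjective D).bijective_of_nat_card_le
      (by rw [k, e2, (h'.card h1').1]))).trans (MulEquiv.subgroupCongr e2))⟩

end Cfsg.Agent.Mult
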