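import Cfsg.Agent.Mult.S43a
import Mathlib.LinearAlgebra.Matrix.SpecialLinearGroup
import Mathlib.GroupTheory.SpecificGroups.Cyclic
import Mathlib.Data.ZMod.Basic

/-! A group of shape `3^{1+2}.SL₂(3)` with `O₂ = 1` containing `3³` satisfies `R648`. -/

set_option autoImplicit false

namespace Cfsg.Agent.Mult
open Subgroup
open scoped commutatorElement MatrixGroups

theorem sl23_t1 : ∀ g : SL(2, ZMod 3), ∃ u v : SL(2, ZMod 3), g = u * u * (v * v) := by decide +kernel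
theorem sl23_t2 : ∀ g h : SL(2, ZMod 3), g * g = 1 → g * h = h * g ∧ (h * h = 1 → g ≠ 1 → h ≠ 1 → g = h) := by
  decide +kernel
theorem sl23_t3 : ∀ g : SL(2, ZMod 3), g * g * g = 1 → g ≠ 1 → ∃ i j : SL(2, ZMod 3), g * i = j * g ∧ g * j = i * j * g ∧
    j * j = i * i ∧ i * (j * i) = j ∧ i * i ≠ 1 ∧ i * i * (i * i) = 1 := by decide +kernel
theorem sl23_t4 : Nat.card SL(2, ZMod 3) = 24 := by rw [Nat.card_eq_fintype_card]; decide +kernel

theorem exists_R648 {X : Type*} [Group X] [Finite X] (R : Subgroup X) [R.Normal] (hZ : commutator R = center R)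
    (hZc : Nat.card (center R) = 3) (hc : Nat.card R = 27) (hexp : ∀ r ∈ R, r ^ 3 = 1) (π : X →* SL(2, ZMod 3))
    (sπ : Function.Surjective π) (kπ : ∀ x, π x = 1 ↔ x ∈ R) (hO : ∀ z : X, z * z = 1 → (∀ g, g * z = z * g) → z = 1)
    (E : Subgroup X) (hE1 : ∀ a ∈ E, ∀ b ∈ E, a * b = b * a) (hE2 : ∀ a ∈ E, a ^ 3 = 1) (hE3 : Nat.card E = 27) :
    Nat.card X = 648 ∧ ∃ a b ζ s i j : X, R648 a b ζ s i j ∧ ζ ≠ 1 := by
  haveI : Fact (Nat.Prime 2) := ⟨Nat.prime_two⟩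
  haveI : Fact (Nat.Prime 3) := ⟨Nat.prime_three⟩
  have ker : π.ker = R := Subgroup.ext kπ
  have hX : Nat.card X = 648 := by
    rw [card_eq_card_quotient_mul_card_subgroup π.ker, Nat.card_congr (QuotientGroup.quotientKerEquivOfSurjective π sπ).toEquiv,
      sl23_t4, ker, hc]
  refine ⟨hX, ?_⟩
  have cj : ∀ x ∈ R, ∀ g, g * x * g⁻¹ ∈ R := (inferInstance : R.Normal).conj_mem
  set Z := (center R).map R.subtype with hZ'
  have cZ : Nat.card Z = 3 := by rw [card_map_of_injective R.subtype_injective, hZc]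
  have ZR : Z ≤ R := map_subtype_le _
  have mZ : ∀ x, x ∈ Z ↔ x ∈ R ∧ ∀ y ∈ R, y * x = x * y := fun x => by
    constructor
    · rintro ⟨x, hx, rfl⟩
      exact ⟨x.2, fun y hy => congrArg Subtype.val (mem_center_iff.1 hx ⟨y, hy⟩)⟩
    · rintro ⟨h1, h2⟩
      exact ⟨⟨x, h1⟩, mem_center_iff.2 fun y => Subtype.ext (h2 y y.2), rfl⟩
  have Zc : ∀ c ∈ Z, ∀ g, g * c = c * g := fun c hc g => by
    haveI : IsCyclic Z := isCyclic_of_prime_card cZ
    have sq : ∀ u : X, Commute (u * u) c := fun u => by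
      have := pow_card_eq_one' (x := (MulAut.conjNormal u : MulAut Z))
      rw [IsCyclic.card_mulAut, cZ, show Nat.totient 3 = 2 by decide, ← map_pow, sq] at this
      exact mul_inv_eq_iff_eq_mul.1 (congrArg (fun t : MulAut Z => (t ⟨c, hc⟩ : X)) this)
    obtain ⟨u, v, e⟩ := sl23_t1 (π g)
    obtain ⟨u, rfl⟩ := sπ u
    obtain ⟨v, rfl⟩ := sπ v
    have : g * (u * u * (v * v))⁻¹ ∈ R := (kπ _).1 (by simp [e, mul_assoc])
    rw [← inv_mul_cancel_right g (u * u * (v * v))]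
    exact Commute.mul_left (((mZ c).1 hc).2 _ this) ((sq u).mul_left (sq v))
  have cm : ∀ x ∈ R, ∀ y ∈ R, ⁅x, y⁆ ∈ Z := fun x hx y hy =>
    ⟨⁅(⟨x, hx⟩ : R), ⟨y, hy⟩⁆, hZ ▸ commutator_mem_commutator trivial trivial, rfl⟩
  have bil : ∀ x ∈ R, ∀ y ∈ R, ∀ w ∈ R, ⁅x, y * w⁆ = ⁅x, y⁆ * ⁅x, w⁆ := fun x hx y hy w hw => by
    rw [commutatorElement_mul_right_eq_mul_conj, mul_assoc, mul_assoc, ← Zc _ (cm x hx w hw), mul_inv_cancel_left]
  have cjZ : ∀ c ∈ Z, ∀ g, g * c * g⁻¹ = c := fun c hc g => by rw [Zc c hc]; simp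
  have sqZ : ∀ x ∈ R, x * x ∈ Z → x ∈ Z := fun x hx h => by
    have := mul_mem h h
    rwa [show x * x * (x * x) = x ^ 3 * x by simp [pow_succ, mul_assoc], hexp x hx, one_mul] at this
  have sq1 : ∀ x ∈ R, x * x = 1 → x = 1 := fun x hx h => by
    have := hexp x hx
    rwa [pow_succ, sq, h, one_mul] at this
  have CR : ∀ a ∈ R, a ∉ Z → ∀ x ∈ R, x * a = a * x → ∃ c ∈ Z, ∃ k : ℕ, x = c * a ^ k := fun a ha ha' x hx h => by
    have k1 := card_sup_zpowers_eq Z a Nat.prime_three (fun c hc => by rw [cjZ c hc]; exact hc) (by simp [hexp a ha]) ha'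
    have l1 : Z ⊔ zpowers a ≤ R ⊓ centralizer {a} := le_inf (sup_le ZR (zpowers_le.2 ha))
      (sup_zpowers_le_cent (fun c hc => mem_centralizer_singleton_iff.2 (Zc c hc a).symm) rfl)
    have l2 : Nat.card ↥(R ⊓ centralizer {a}) ≤ 9 := by
      have d : Nat.card ↥(R ⊓ centralizer {a}) ∣ 3 ^ 3 := (card_dvd_of_le inf_le_left).trans (by rw [hc]; rfl)
      obtain ⟨k, hk, e⟩ := (Nat.dvd_prime_pow Nat.prime_three).1 d
      have : k ≠ 3 := by
        rintro rfl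
        have := eq_of_le_of_card_ge (inf_le_left : R ⊓ centralizer {a} ≤ R) (by rw [e, hc]; rfl)
        exact ha' ((mZ a).2 ⟨ha, fun y hy => mem_centralizer_singleton_iff.1 (this.ge hy).2⟩)
      rw [e]
      exact Nat.pow_le_pow_right (by norm_num) (show k ≤ 2 by omega)
    have : x ∈ Z ⊔ zpowers a := (eq_of_le_of_card_ge l1 (by rw [k1, cZ]; exact l2)).ge ⟨hx, mem_centralizer_singleton_iff.2 h⟩
    rw [← SetLike.mem_coe, normal_mul] at this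
    obtain ⟨c, hc, y, hy, rfl⟩ := this
    obtain ⟨k, rfl⟩ := mem_powers_iff_mem_zpowers.2 hy
    exact ⟨c, hc, k, rfl⟩
  obtain ⟨z, hz⟩ := exists_prime_orderOf_dvd_card' (G := X) 2 (by rw [hX]; norm_num)
  have zz : z * z = 1 := by rw [← sq]; exact hz ▸ pow_orderOf_eq_one z
  have z1 : z ≠ 1 := by rintro rfl; simp at hz
  have zi : z⁻¹ = z := inv_eq_of_mul_eq_one_right zz
  have pz : π z * π z = 1 := by rw [← map_mul, zz, map_one]
  have pz1 : π z ≠ 1 := fun e => z1 (sq1 z ((kπ z).1 e) zz)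
  have zR : ∀ g, z⁻¹ * (g * z * g⁻¹) ∈ R := fun g => (kπ _).1 (by
    simp only [map_mul, map_inv]; rw [← (sl23_t2 _ (π g) pz).1]; simp)
  have Fr : ∀ g, ∃ r ∈ R, r * g * z = z * (r * g) := fun g => by
    have h0 := zR g
    obtain ⟨r, hr⟩ : ∃ r, r = z⁻¹ * (g * z * g⁻¹) := ⟨_, rfl⟩
    rw [← hr] at h0
    have e1 : g * z * g⁻¹ = z * r := by rw [hr]; simp
    have e2 : r * z = z * r⁻¹ := by
      have : z * r * (z * r) = 1 := by rw [← e1, ← sq, conj_pow, sq, zz]; simp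
      rw [eq_mul_inv_iff_mul_eq, ← zi, eq_inv_iff_mul_eq_one, mul_eq_one_comm, ← this, zi]; simp [mul_assoc]
    refine ⟨r * r, mul_mem h0 h0, ?_⟩
    calc r * r * g * z = r * (r * z) * r * g := by rw [mul_assoc _ g, mul_inv_eq_iff_eq_mul.1 e1]; simp [mul_assoc]
      _ = z * (r ^ 3)⁻¹ * (r * r * g) := by rw [e2, ← mul_assoc, e2]; simp [pow_succ, mul_assoc]
      _ = _ := by rw [hexp r h0]; simp
  have invz : ∀ x, z * (x * (z * x⁻¹ * z⁻¹)) * z⁻¹ = (x * (z * x⁻¹ * z⁻¹))⁻¹ := fun x => by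
    calc _ = z * x * (z * z) * z⁻¹ * x⁻¹ * (z * z)⁻¹ * z * z * (z * z)⁻¹ := by group
      _ = _ := by rw [zz, mul_assoc _ z z, zz]; group
  have U : ∀ x, ∀ c ∈ Z, z * x * z⁻¹ = x⁻¹ → z * (c * x) * z⁻¹ = (c * x)⁻¹ → c = 1 := fun x c hc h1 h2 => by
    rw [show z * (c * x) * z⁻¹ = z * c * z⁻¹ * (z * x * z⁻¹) by group, cjZ c hc, h1, mul_inv_rev, ← Zc c hc,
      mul_right_inj, eq_inv_iff_mul_eq_one] at h2
    exact sq1 c (ZR hc) h2
  have inv : ∀ y ∈ R, y * (z * y * z⁻¹) ∈ Z := by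
    obtain ⟨a, ha, ha', ha2⟩ : ∃ a ∈ R, a ∉ Z ∧ z * a * z⁻¹ = a⁻¹ := by
      by_contra h
      push Not at h
      have h1 : ∀ x ∈ R, x * z = z * x := fun x hx => by
        have m : x * (z * x⁻¹ * z⁻¹) ∈ R := mul_mem hx (cj _ (inv_mem hx) z)
        have m' : x * (z * x⁻¹ * z⁻¹) ∈ Z := by_contra fun e => h _ m e (invz x)
        have := U 1 _ m' (by simp) (by simpa only [mul_one] using invz x)
        rw [← commutatorElement_eq_one_iff_mul_comm, ← this, commutatorElement_def]; group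
      refine z1 (hO z zz fun g => ?_)
      have e1 : g * z * g⁻¹ = z * (z⁻¹ * (g * z * g⁻¹)) := by simp
      have e2 : (g * z * g⁻¹) ^ 2 = 1 := by rw [conj_pow, sq, zz]; simp
      rw [e1, (show Commute z _ from (h1 _ (zR g)).symm).mul_pow, sq, zz, one_mul, sq] at e2
      rw [sq1 _ (zR g) e2, mul_one, mul_inv_eq_iff_eq_mul] at e1
      exact e1
    intro y hy
    have hy' := cj y hy z
    have e1 : ⁅a, y * (z * y * z⁻¹)⁆ = 1 := by
      have e2 : ⁅a, y⁆ = ⁅a⁻¹, z * y * z⁻¹⁆ := by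
        rw [← cjZ _ (cm a ha y hy) z, ← ha2]; simp only [commutatorElement_def]; group
      rw [bil a ha y hy _ hy', e2, ← cjZ _ (cm _ (inv_mem ha) _ hy') a]
      simp only [commutatorElement_def]; group
    obtain ⟨c, hc, k, e⟩ := CR a ha ha' _ (mul_mem hy hy') (commutatorElement_eq_one_iff_mul_comm.1 e1).symm
    have e3 : z * (y * (z * y * z⁻¹)) * z⁻¹ = ⁅z * y * z⁻¹, y⁆ * (y * (z * y * z⁻¹)) := by
      calc _ = z * y * z⁻¹ * ((z * z) * y * (z * z)⁻¹) := by group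
        _ = _ := by rw [zz, commutatorElement_def]; group
    have e4 : z * (c * a ^ k) * z⁻¹ = c * (a ^ k)⁻¹ := by
      rw [show z * (c * a ^ k) * z⁻¹ = z * c * z⁻¹ * (z * a * z⁻¹) ^ k by rw [conj_pow]; group, cjZ c hc, ha2, inv_pow]
    rw [e] at e3 ⊢
    rw [e4] at e3
    refine mul_mem hc (sqZ _ (pow_mem ha k) ?_)
    have : a ^ k * a ^ k = c⁻¹ * ⁅z * y * z⁻¹, y⁆⁻¹ * c := by
      generalize ⁅z * y * z⁻¹, y⁆ = w at e3
      rw [show w = c * (a ^ k)⁻¹ * (c * a ^ k)⁻¹ by rw [e3]; simp [mul_assoc]]; group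
    rw [this]
    exact mul_mem (mul_mem (inv_mem hc) (inv_mem (cm _ hy' _ hy))) hc
  have RZ : ∀ x ∈ R, x * z = z * x → x ∈ Z := fun x hx h => by
    have := inv x hx
    rw [← h, mul_inv_cancel_right] at this
    exact sqZ x hx this
  have Eq4 : ∀ x y, x * z = z * x → y * z = z * y → x ^ 4 = 1 → y ^ 4 = 1 → π x = π y → x = y := fun x y h1 h2 h3 h4 h5 => by
    have m : x * y⁻¹ ∈ Z := RZ _ ((kπ _).1 (by simp [h5])) ((show Commute x z from h1).mul_left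
      (show Commute y z from h2).inv_left)
    have e : x = x * y⁻¹ * y := by simp
    rw [e, (show Commute (x * y⁻¹) y from (Zc _ m y).symm).mul_pow, h4, mul_one, pow_succ, hexp _ (ZR m), one_mul] at h3
    exact mul_inv_eq_one.1 h3
  obtain ⟨s₀, hs₀, hs₀'⟩ : ∃ s ∈ E, s ∉ R := by
    by_contra h
    push Not at h
    have e := eq_of_le_of_card_ge (show E ≤ R from h) (by rw [hc, hE3])
    have : R ≤ Z := fun x hx => (mZ x).2 ⟨hx, fun y hy => hE1 y (e ▸ hy) x (e ▸ hx)⟩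
    have := card_le_of_le this
    omega
  obtain ⟨a₀, ha₀, ha₀'⟩ : ∃ a ∈ E ⊓ R, a ∉ Z := by
    by_contra h
    push Not at h
    have k1 := card_le_of_le (show E ⊓ R ≤ Z from h)
    have k2 : Nat.card (E.map π) ∣ Nat.gcd 27 24 := Nat.dvd_gcd (hE3 ▸ card_map_dvd E π) (sl23_t4 ▸ card_subgroup_dvd_card _)
    have k3 := Nat.le_of_dvd (by norm_num) k2
    have k4 := (R.subgroupOf E).card_mul_index
    rw [← relIndex, ← ker, relIndex_ker, ker, ← inf_subgroupOf_left, Nat.card_congr (subgroupOfEquivOfLe inf_le_left).toEquiv,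
      hE3] at k4
    have := Nat.mul_le_mul k1 k3
    rw [k4, cZ] at this
    norm_num at this
  have ia := invz a₀
  have hc₀ := inv _ (inv_mem ha₀.2)
  have ea : a₀ * (z * a₀⁻¹ * z⁻¹) = a₀ * a₀ * (a₀⁻¹ * (z * a₀⁻¹ * z⁻¹)) := by group
  generalize a₀⁻¹ * (z * a₀⁻¹ * z⁻¹) = c₀ at hc₀ ea
  generalize a₀ * (z * a₀⁻¹ * z⁻¹) = a at ia ea
  have ha : a ∈ R := ea ▸ mul_mem (mul_mem ha₀.2 ha₀.2) (ZR hc₀)
  have ha' : a ∉ Z := fun h => ha₀' (sqZ _ ha₀.2 (by rwa [ea, mul_mem_cancel_right hc₀] at h))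
  have sa₀ : Commute s₀ a := by
    have : Commute s₀ a₀ := hE1 _ hs₀ _ ha₀.1
    exact ea ▸ (this.mul_right this).mul_right (Zc _ hc₀ _)
  obtain ⟨r, hr, sz⟩ := Fr s₀
  have cz : ∀ g x, g * z = z * g → z * x * z⁻¹ = x⁻¹ → z * (g * x * g⁻¹) * z⁻¹ = (g * x * g⁻¹)⁻¹ := fun g x h1 h2 => by
    calc _ = (z * g * z⁻¹) * (z * x * z⁻¹) * (z * g * z⁻¹)⁻¹ := by group
      _ = _ := by rw [← h1, h2]; group
  have ra : Commute r a := by
    have e : r * s₀ * a * (r * s₀)⁻¹ = ⁅r, a⁆ * a := by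
      rw [mul_assoc r, sa₀.eq, commutatorElement_def]; group
    exact commutatorElement_eq_one_iff_commute.1 (U a _ (cm r hr a ha) ia (e ▸ cz _ _ sz ia))
  have s3 : (r * s₀) ^ 3 = 1 := by
    obtain ⟨c, hc, k, e⟩ := CR a ha ha' r hr ra
    have : Commute r s₀ := e ▸ Commute.mul_left (Zc c hc s₀).symm (sa₀.symm.pow_left k)
    rw [this.mul_pow, hexp r hr, hE2 _ hs₀, mul_one]
  have sa : r * s₀ * a = a * (r * s₀) := ra.mul_left sa₀
  have ps : π (r * s₀) ≠ 1 := fun e => hs₀' ((mul_mem_cancel_left hr).1 ((kπ _).1 e))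
  generalize r * s₀ = s at sz s3 sa ps
  obtain ⟨i', j', t1, t2, t3, t4, t5, t6⟩ := sl23_t3 (π s) (by rw [← pow_three', ← map_pow, s3, map_one]) ps
  obtain ⟨i, pi, iz, i4⟩ : ∃ i, π i = i' ∧ i * z = z * i ∧ i ^ 4 = 1 := by
    obtain ⟨i₀, rfl⟩ := sπ i'
    obtain ⟨r, hr, e⟩ := Fr i₀
    have p1 : π (r * i₀) = π i₀ := by rw [map_mul, (kπ r).2 hr, one_mul]
    have p4 : π i₀ ^ 4 = 1 := by rw [← t6]; simp [pow_succ, mul_assoc]
    refine ⟨(r * i₀) ^ 9, ?_, ((show Commute (r * i₀) z from e).pow_left 9).eq, ?_⟩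
    · rw [map_pow, p1, show 9 = 4 * 2 + 1 by rfl, pow_succ, pow_mul, p4]; simp
    · rw [← pow_mul, show 9 * 4 = 4 * 3 * 3 by rfl, pow_mul, pow_mul, hexp ((r * i₀) ^ 4) ((kπ _).1 (by rw [map_pow, p1, p4])), one_pow]
  obtain ⟨j, hj⟩ : ∃ j, j = s * i * s⁻¹ := ⟨_, rfl⟩
  obtain ⟨b, hb⟩ : ∃ b, b = i * a * i⁻¹ := ⟨_, rfl⟩
  have pj : π j = j' := by rw [hj, map_mul, map_mul, pi, t1]; simp
  have ciz : Commute i z := iz
  have csz : Commute s z := sz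
  have cjz : Commute j z := hj ▸ (csz.mul_left ciz).mul_left csz.inv_left
  have j4 : j ^ 4 = 1 := by rw [hj, conj_pow, i4]; simp
  have p8 : ∀ x : X, x ^ 4 = 1 → (x * x) ^ 4 = 1 := fun x h => by rw [(Commute.refl x).mul_pow, h, mul_one]
  have ii : i * i = z := Eq4 _ _ (ciz.mul_left ciz) rfl (p8 i i4) (by rw [show 4 = 2 * 2 by rfl, pow_mul, sq z, zz, one_pow])
    (by rw [map_mul, pi]; exact (sl23_t2 _ _ t6).2 pz t5 pz1)
  have jj : j * j = i * i := Eq4 _ _ (cjz.mul_left cjz) (ciz.mul_left ciz) (p8 j j4) (p8 i i4) (by simp [pi, pj, t3])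
  have ji : j * i * j⁻¹ = i⁻¹ := Eq4 _ _ ((cjz.mul_left ciz).mul_left cjz.inv_left) ciz.inv_left (by rw [conj_pow, i4]; simp)
    (by rw [inv_pow, i4, inv_one]) (by
      simp only [map_mul, map_inv, pi, pj]
      rw [eq_inv_iff_mul_eq_one, mul_eq_one_comm, ← mul_assoc, t4, mul_inv_cancel])
  have ji' : i * (j * i) = j := by rw [mul_inv_eq_iff_eq_mul.1 ji]; simp
  have sj : s * j * s⁻¹ = i * j := Eq4 _ _ ((csz.mul_left cjz).mul_left csz.inv_left) (ciz.mul_left cjz)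
    (by rw [conj_pow, j4]; simp) (by
      rw [show 4 = 2 * 2 by rfl, pow_mul, sq (i * j), ← mul_assoc, mul_assoc i, ji', ← sq, ← pow_mul, j4])
    (by simp [pi, pj, t2])
  have hbR : b ∈ R := hb ▸ cj a ha i
  have ib : i * b * i⁻¹ = a⁻¹ := by rw [← ia, ← ii, hb]; group
  have zb : z * b * z⁻¹ = b⁻¹ := hb ▸ cz i a iz ia
  have hζ := cm a ha b hbR
  have ζ1 : ⁅a, b⁆ ≠ 1 := fun e => by
    obtain ⟨c, hc, k, e⟩ := CR a ha ha' b hbR (commutatorElement_eq_one_iff_mul_comm.1 e).symm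
    have cc : Commute c (a ^ k) := (Zc c hc _).symm
    have e1 : a⁻¹ = c * (c ^ k * a ^ (k * k)) := by
      rw [← ib, pow_mul, ← cc.mul_pow, ← e]
      conv_lhs => rw [e]
      rw [show i * (c * a ^ k) * i⁻¹ = i * c * i⁻¹ * (i * a * i⁻¹) ^ k by rw [conj_pow]; group, cjZ c hc, ← hb]
    have e2 : a ^ (k * k + 1) ∈ Z := by
      rw [inv_eq_iff_mul_eq_one, ← mul_assoc c, ← mul_assoc, Zc _ (mul_mem hc (pow_mem hc k)), mul_assoc] at e1
      rw [pow_succ', eq_inv_of_mul_eq_one_right e1]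
      exact inv_mem (mul_mem hc (pow_mem hc k))
    rw [pow_eq_pow_mod _ (hexp a ha)] at e2
    have : (k * k + 1) % 3 = 1 ∨ (k * k + 1) % 3 = 2 := by
      rcases (by omega : k % 3 = 0 ∨ k % 3 = 1 ∨ k % 3 = 2) with h | h | h <;> simp [Nat.add_mod, Nat.mul_mod, h]
    rcases this with h | h <;> rw [h] at e2
    · exact ha' (by simpa using e2)
    · exact ha' (sqZ a ha (by rwa [sq] at e2))
  have sa' : s * a * s⁻¹ = a := by rw [sa]; simp
  have βs : ∀ x ∈ R, ⁅a, s * x * s⁻¹⁆ = ⁅a, x⁆ := fun x hx => by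
    rw [← cjZ _ (cm a ha x hx) s]
    conv_lhs => rw [← sa']
    simp only [commutatorElement_def]; group
  have sb : s * b * s⁻¹ = a * ⁅a, b⁆ * b := by
    have m := cj b hbR s
    obtain ⟨c, hc, k, e⟩ := CR a ha ha' (s * b * s⁻¹ * b⁻¹) (mul_mem m (inv_mem hbR)) (by
      rw [eq_comm, ← commutatorElement_eq_one_iff_mul_comm, bil a ha _ m _ (inv_mem hbR), βs b hbR,
        ← bil a ha b hbR _ (inv_mem hbR)]; simp)
    rw [mul_inv_eq_iff_eq_mul] at e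
    have βp : ∀ n : ℕ, ⁅a, b ^ n⁆ = ⁅a, b⁆ ^ n := fun n => by
      induction n with
      | zero => simp
      | succ n ih => rw [pow_succ, bil a ha _ (pow_mem hbR n) _ hbR, ih, pow_succ]
    have e1 : s * (s * b * s⁻¹) * s⁻¹ = i * (s * b * s⁻¹) * i⁻¹ := by
      have s1 : s⁻¹ * a * s = a := by rw [mul_assoc, ← sa]; simp
      calc _ = (s * j * s⁻¹) * (s * (s * a * s⁻¹) * s⁻¹) * (s * j * s⁻¹)⁻¹ := by rw [hb, hj]; group
        _ = i * (s * i * (s⁻¹ * a * s) * i⁻¹ * s⁻¹) * i⁻¹ := by rw [sj, sa', sa', hj]; group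
        _ = _ := by rw [s1, hb]; group
    have e2 : ⁅a, s * (s * b * s⁻¹) * s⁻¹⁆ = ⁅a, i * (s * b * s⁻¹) * i⁻¹⁆ := by rw [e1]
    rw [βs _ m, βs _ hbR, e, show i * (c * a ^ k * b) * i⁻¹ = i * c * i⁻¹ * (i * a * i⁻¹) ^ k * (i * b * i⁻¹) by
      rw [conj_pow]; group, cjZ c hc, ← hb, ib, bil a ha _ (mul_mem (ZR hc) (pow_mem hbR k)) _ (inv_mem ha),
      bil a ha _ (ZR hc) _ (pow_mem hbR k), βp, commutatorElement_eq_one_iff_mul_comm.2 (Zc c hc a),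
      commutatorElement_eq_one_iff_commute.2 (Commute.refl a).inv_right, one_mul, mul_one] at e2
    have hk : a ^ k = a := by
      have := pow_eq_pow_iff_modEq.1 ((pow_one _).trans e2)
      rw [orderOf_eq_prime (hexp _ (ZR hζ)) ζ1] at this
      rw [pow_eq_pow_mod _ (hexp a ha), ← this]; simp
    rw [hk] at e
    have e3 : z * (a * ⁅a, b⁆ * b) * z⁻¹ = (a * ⁅a, b⁆ * b)⁻¹ := by
      have z3 := hexp _ (ZR hζ)
      have c1 := Zc _ hζ
      have ab : a * b = ⁅a, b⁆ * (b * a) := by simp [commutatorElement_def]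
      rw [show z * (a * ⁅a, b⁆ * b) * z⁻¹ = z * a * z⁻¹ * (z * ⁅a, b⁆ * z⁻¹) * (z * b * z⁻¹) by group, ia, zb, cjZ _ hζ]
      generalize ⁅a, b⁆ = ζ at *
      rw [eq_inv_iff_mul_eq_one, c1, c1]
      calc _ = ζ * a⁻¹ * (b⁻¹ * ζ) * (a * b) := by group
        _ = ζ * (a⁻¹ * ζ) * (b⁻¹ * ζ) * (b * a) := by rw [ab, c1 b⁻¹]; simp only [mul_assoc]; rw [← mul_assoc b⁻¹, c1 b⁻¹]; simp only [mul_assoc]
        _ = _ := by rw [c1 a⁻¹, c1 b⁻¹, mul_assoc ζ, mul_assoc ζ a⁻¹, ← mul_assoc a⁻¹, c1 a⁻¹, ← z3]; simp [pow_succ, mul_assoc]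
    have e4 : s * b * s⁻¹ = c * ⁅a, b⁆⁻¹ * (a * ⁅a, b⁆ * b) := by rw [e, Zc _ hζ]; group
    rw [e4, U _ _ (mul_mem hc (inv_mem hζ)) e3 (e4 ▸ cz s b sz zb), one_mul]
  exact ⟨a, b, ⁅a, b⁆, s, i, j, ⟨hexp a ha, by simp [commutatorElement_def], Zc _ hζ _, Zc _ hζ _, Zc _ hζ _, Zc _ hζ _,
    by simp [hb], by rw [mul_inv_eq_iff_eq_mul.1 ib]; simp, i4, s3, sa, mul_inv_eq_iff_eq_mul.1 sb, by simp [hj],
    mul_inv_eq_iff_eq_mul.1 sj, jj, ji'⟩, ζ1⟩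

end Cfsg.Agent.Mult
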