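import Cfsg.Agent.Mult.U34a
import Mathlib.Data.Finite.Perm

/-! A group of order `320` with derived subgroup of order `64` whose centre is a four-group satisfies `R320`. -/

set_option autoImplicit false

namespace Cfsg.Agent.Mult
open Subgroup
open scoped commutatorElement

variable {G : Type*} [Group G]

theorem norm_five_eq_one (P : Subgroup G) [P.Normal] (hc : ∀ x ∈ P, ∀ y ∈ P, x * y = y * x) {σ : G} (h5 : σ ^ 5 = 1)
    (htop : ∀ g : G, ∃ x ∈ P, ∃ k : ℕ, g = x * σ ^ k) (hP : P ≤ commutator G) : ∀ x ∈ P, (x * σ) ^ 5 = 1 := by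
  letI : CommGroup P := { (inferInstance : Group P) with mul_comm := fun x y => Subtype.ext (hc _ x.2 _ y.2) }
  let φ : MulAut P := MulAut.conjNormal σ
  have φ5 : φ ^ 5 = 1 := by rw [← map_pow, h5, map_one]
  let ν : P →* P := MonoidHom.mk' (fun x => x * φ x * (φ ^ 2) x * (φ ^ 3) x * (φ ^ 4) x) fun x y => by
    simp only [map_mul]; ac_rfl
  have hν : ∀ x, ν x = x * φ x * (φ ^ 2) x * (φ ^ 3) x * (φ ^ 4) x := fun _ => rfl
  have ν1 : ∀ x, ν (φ x) = ν x := fun x => by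
    have e : ∀ k, (φ ^ k) (φ x) = (φ ^ (k + 1)) x := fun k => by rw [pow_succ]; rfl
    have e1 : φ (φ x) = (φ ^ 2) x := by rw [sq]; rfl
    rw [hν, hν, e, e, e, e1, φ5]
    simp only [Nat.reduceAdd, MulAut.one_apply]; ac_rfl
  have νk : ∀ (k : ℕ) x, ν ((φ ^ k) x) = ν x := fun k => by
    induction k with
    | zero => intro x; rfl
    | succ k ih => intro x; rw [pow_succ', MulAut.mul_apply, ν1, ih]
  have hφ : ∀ (k : ℕ) (x : P), ((φ ^ k) x : G) = σ ^ k * x * (σ ^ k)⁻¹ := fun k x => by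
    rw [← map_pow]; rfl
  have : commutator G ≤ ν.ker.map P.subtype := by
    rw [commutator_def, commutator_le]
    intro g _ h _
    obtain ⟨x, hx, i, rfl⟩ := htop g
    obtain ⟨y, hy, j, rfl⟩ := htop h
    refine ⟨⟨x, hx⟩ * (φ ^ i) ⟨y, hy⟩ * ((φ ^ j) ⟨x, hx⟩)⁻¹ * (⟨y, hy⟩ : P)⁻¹, ?_, ?_⟩
    · simp only [SetLike.mem_coe, MonoidHom.mem_ker, map_mul, map_inv, νk]
      rw [mul_right_comm (ν _), mul_inv_cancel, one_mul, mul_inv_cancel]
    · simp only [coe_subtype, coe_mul, coe_inv, hφ, commutatorElement_def]; group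
  intro x hx
  obtain ⟨y, hy, rfl⟩ := this (hP hx)
  have e := congrArg Subtype.val (MonoidHom.mem_ker.1 hy)
  rw [hν] at e
  have e1 := hφ 1 y
  rw [pow_one] at e1
  simp only [coe_mul, hφ, e1, coe_one] at e
  rw [← e, ← mul_one (_ * (σ ^ 4 * (y : G) * (σ ^ 4)⁻¹)), ← h5]
  simp only [coe_subtype, pow_succ]; group

theorem exists_R320 [Finite G] (hG : Nat.card G = 320) (hD : Nat.card (commutator G) = 64)
    (hZ : IsKleinFour (center (commutator G))) : ∃ σ a : G, R320 σ a ∧ closure {σ, a} = ⊤ := by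
  haveI : Fact (Nat.Prime 5) := ⟨Nat.prime_five⟩
  haveI : Fact (Nat.Prime 2) := ⟨Nat.prime_two⟩
  set P := commutator G with hP
  obtain ⟨σ, hσ⟩ := exists_prime_orderOf_dvd_card' (G := G) 5 (by rw [hG]; norm_num)
  have h5 : σ ^ 5 = 1 := hσ ▸ pow_orderOf_eq_one σ
  have hsup : P ⊔ zpowers σ = ⊤ := by
    apply eq_top_of_le_card
    have d1 : 64 ∣ Nat.card ↥(P ⊔ zpowers σ) := hD ▸ card_dvd_of_le le_sup_left
    have d2 : 5 ∣ Nat.card ↥(P ⊔ zpowers σ) := by rw [← hσ, ← Nat.card_zpowers]; exact card_dvd_of_le le_sup_right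
    rw [hG]
    exact Nat.le_of_dvd Nat.card_pos (Nat.Coprime.mul_dvd_of_dvd_of_dvd (by norm_num) d1 d2)
  have htop : ∀ g : G, ∃ x ∈ P, ∃ k : ℕ, g = x * σ ^ k := fun g => by
    have : g ∈ P ⊔ zpowers σ := hsup ▸ mem_top g
    rw [← SetLike.mem_coe, normal_mul] at this
    obtain ⟨x, hx, y, hy, rfl⟩ := this
    obtain ⟨k, rfl⟩ := mem_powers_iff_mem_zpowers.2 hy
    exact ⟨x, hx, k, rfl⟩
  set Z := (center P).map P.subtype with hZ'
  have cZ : Nat.card Z = 4 := by rw [card_map_of_injective P.subtype_injective, hZ.card_four]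
  have ZP : Z ≤ P := map_subtype_le _
  have Z2 : ∀ z ∈ Z, z ^ 2 = 1 := by
    rintro _ ⟨z, hz, rfl⟩
    have := congrArg (fun t : center P => ((t : P) : G)) (IsKleinFour.mul_self (⟨z, hz⟩ : center P))
    simpa [sq] using this
  have Zc : Z ≤ center G := by
    intro z hz
    have e1 : ∀ x ∈ P, x * z = z * x := fun x hx => by
      obtain ⟨z, hz, rfl⟩ := hz
      exact congrArg Subtype.val (mem_center_iff.1 hz ⟨x, hx⟩)
    have e2 : Commute σ z := by
      let φ : Equiv.Perm Z := (MulAut.toPerm Z).comp MulAut.conjNormal σ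
      have a1 : φ ^ 5 = 1 := by rw [← map_pow, h5, map_one]
      have a2 : φ ^ 24 = 1 := by
        have := pow_card_eq_one' (x := φ)
        rwa [Nat.card_perm, cZ] at this
      have a3 : φ = 1 := by
        have : φ ^ 25 = 1 := by rw [show 25 = 5 * 5 by rfl, pow_mul, a1, one_pow]
        rwa [pow_succ, a2, one_mul] at this
      have := congrArg (fun t : Equiv.Perm Z => (t ⟨z, hz⟩ : G)) a3
      exact mul_inv_eq_iff_eq_mul.1 this
    rw [mem_center_iff]
    intro g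
    obtain ⟨x, hx, k, rfl⟩ := htop g
    rw [mul_assoc, (e2.pow_left k).eq, ← mul_assoc, e1 x hx, mul_assoc]
  let M : Subgroup G := closure ((fun x => x ^ 2) '' P)
  have hM : ∀ x ∈ P, x ^ 2 ∈ M := fun x hx => subset_closure ⟨x, hx, rfl⟩
  have MP : M ≤ P := by
    rw [closure_le]
    rintro _ ⟨x, hx, rfl⟩
    exact pow_mem hx 2
  haveI : M.Normal := ⟨fun m hm g => by
    have : M ≤ M.comap (MulAut.conj g).toMonoidHom := by
      rw [closure_le]
      rintro _ ⟨x, hx, rfl⟩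
      have := hM _ (Normal.conj_mem inferInstance x hx g)
      rw [conj_pow] at this
      exact this
    exact this hm⟩
  let π := QuotientGroup.mk' M
  have sπ : Function.Surjective π := QuotientGroup.mk'_surjective M
  have kπ : ∀ x, π x = 1 ↔ x ∈ M := QuotientGroup.eq_one_iff
  haveI : (P.map π).Normal := Normal.map inferInstance π sπ
  have q2 : ∀ x ∈ P.map π, x ^ 2 = 1 := by
    rintro _ ⟨x, hx, rfl⟩
    rw [← map_pow, kπ]; exact hM x hx
  have qc : ∀ x ∈ P.map π, ∀ y ∈ P.map π, x * y = y * x := fun x hx y hy => by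
    have i : ∀ a ∈ P.map π, a⁻¹ = a := fun a ha => inv_eq_of_mul_eq_one_right (by rw [← sq, q2 a ha])
    have := i _ (mul_mem hx hy)
    rw [mul_inv_rev, i _ hx, i _ hy] at this
    exact this.symm
  have q5 : π σ ^ 5 = 1 := by rw [← map_pow, h5, map_one]
  have hn := norm_five_eq_one (P.map π) qc q5 (fun g => by
      obtain ⟨g, rfl⟩ := sπ g
      obtain ⟨x, hx, k, rfl⟩ := htop g
      exact ⟨_, ⟨x, hx, rfl⟩, k, by simp⟩) (by
      rw [hP, _root_.commutator_def, map_commutator]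
      exact commutator_mono le_top le_top)
  have fpf : ∀ x ∈ P.map π, π σ * x * (π σ)⁻¹ = x → x = 1 := fun x hx e => by
    have := hn x hx
    rw [(show Commute x (π σ) from (mul_inv_eq_iff_eq_mul.1 e).symm).mul_pow, q5, mul_one, show 5 = 2 * 2 + 1 by rfl,
      pow_succ, pow_mul, q2 x hx] at this
    simpa using this
  have c16 : ∀ A : Subgroup (G ⧸ M), A ≤ P.map π → A ≠ ⊥ → (∀ x ∈ A, π σ * x * (π σ)⁻¹ ∈ A) → Nat.card A = 16 := by
    intro A h1 h2 h3
    have m := card_mod_of_fpf q5 A h3 fun x hx => fpf x (h1 hx)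
    have d : Nat.card A ∣ 2 ^ 6 := (card_dvd_of_le h1).trans ((card_map_dvd _ _).trans (by rw [hD]; norm_num))
    obtain ⟨k, hk, e⟩ := (Nat.dvd_prime_pow Nat.prime_two).1 d
    have := mt (card_eq_one (H := A)).1 h2
    rw [e] at m this ⊢
    clear e d
    interval_cases k <;> first | rfl | exact absurd m (by decide) | exact absurd rfl this
  have nb : P.map π ≠ ⊥ := by
    intro e
    obtain ⟨W, hW⟩ := Sylow.exists_subgroup_card_pow_prime (G := P) 2 (n := 5) (by rw [hD]; norm_num)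
    have i2 : W.index = 2 := by
      have := W.card_mul_index
      rw [hW, hD] at this
      omega
    have : M ≤ W.map P.subtype := by
      rw [closure_le]
      rintro _ ⟨x, hx, rfl⟩
      exact ⟨_, sq_mem_of_index_two i2 ⟨x, hx⟩, rfl⟩
    have h1 : P ≤ M := fun x hx => (kπ x).1 (mem_bot.1 (e ▸ mem_map_of_mem π hx))
    have := card_le_of_le (h1.trans this)
    rw [card_map_of_injective P.subtype_injective, hW, hD] at this
    omega
  have cP := c16 _ le_rfl nb fun x hx => Normal.conj_mem inferInstance x hx _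
  have cM : Nat.card M = 4 := by
    have e1 : Nat.card M * M.relIndex P = Nat.card P := by
      rw [← (M.subgroupOf P).card_mul_index, Nat.card_congr (subgroupOfEquivOfLe MP).toEquiv]; rfl
    have e2 : M.relIndex P = Nat.card (P.map π) := by
      rw [← relIndex_ker, QuotientGroup.ker_mk']
    rw [e2, cP, hD] at e1
    omega
  have ZM : Z = M := eq_of_le_of_card_ge (fun z hz => (kπ z).1 (fpf _ (mem_map_of_mem π (ZP hz)) (by
    rw [← map_mul, mem_center_iff.1 (Zc hz)]; simp))) (by rw [cM, cZ])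
  obtain ⟨a₀, ha₀, ha₀'⟩ : ∃ a ∈ P, a ∉ M := by
    by_contra h
    push Not at h
    have := card_le_of_le (show P ≤ M from h)
    omega
  have hn0 : (a₀ * σ) ^ 5 ∈ M := (kπ _).1 (by rw [map_pow, map_mul]; exact hn _ (mem_map_of_mem π ha₀))
  obtain ⟨a, ha, ha', hna⟩ : ∃ a ∈ P, a ∉ M ∧ (a * σ) ^ 5 = 1 := by
    refine ⟨(a₀ * σ) ^ 5 * a₀, mul_mem (MP hn0) ha₀, fun h => ha₀' ((mul_mem_cancel_left hn0).1 h), ?_⟩
    rw [← ZM] at hn0
    rw [mul_assoc, (show Commute ((a₀ * σ) ^ 5) _ from (mem_center_iff.1 (Zc hn0) _).symm).mul_pow, ← pow_succ,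
      show 5 + 1 = 2 * 3 by rfl, pow_mul, Z2 _ hn0, one_pow]
  have cm : ∀ x ∈ P, ∀ y ∈ P, ⁅x, y⁆ ∈ Z := fun x hx y hy => by
    rw [ZM, ← kπ, map_commutatorElement, commutatorElement_eq_one_iff_mul_comm]
    exact qc _ (mem_map_of_mem π hx) _ (mem_map_of_mem π hy)
  have k1 := cm a ha _ (Normal.conj_mem inferInstance a ha σ)
  have k2 := cm a ha _ (Normal.conj_mem inferInstance a ha (σ ^ 2))
  have k3 : a ^ 2 ∈ Z := ZM ▸ hM a ha
  refine ⟨σ, a, ⟨h5, hna, mem_center_iff.1 (Zc k1) _, mem_center_iff.1 (Zc k1) _, Z2 _ k1, mem_center_iff.1 (Zc k2) _,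
    mem_center_iff.1 (Zc k2) _, Z2 _ k2, mem_center_iff.1 (Zc k3) _, Z2 _ k3⟩, ?_⟩
  set K : Subgroup G := closure {σ, a}
  have σK : σ ∈ K := subset_closure (by simp)
  have aK : a ∈ K := subset_closure (by simp)
  have e1 : (K ⊓ P).map π = P.map π := eq_of_le_of_card_ge (map_mono inf_le_right) (by
    rw [cP, c16 _ (map_mono inf_le_right)]
    · intro e
      exact ha' ((kπ a).1 (mem_bot.1 (e ▸ mem_map_of_mem π (show a ∈ K ⊓ P from ⟨aK, ha⟩))))
    · rintro _ ⟨x, hx, rfl⟩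
      exact ⟨σ * x * σ⁻¹, ⟨K.mul_mem (K.mul_mem σK hx.1) (K.inv_mem σK), Normal.conj_mem inferInstance x hx.2 σ⟩, by simp⟩)
  have e2 : ∀ x ∈ P, ∃ y ∈ K, y⁻¹ * x ∈ M := fun x hx => by
    obtain ⟨y, hy, e⟩ : π x ∈ (K ⊓ P).map π := e1 ▸ mem_map_of_mem π hx
    exact ⟨y, hy.1, (kπ _).1 (by simp [e])⟩
  have MK : M ≤ K := by
    rw [closure_le]
    rintro _ ⟨x, hx, rfl⟩
    obtain ⟨y, hy, e⟩ := e2 x hx
    rw [← ZM] at e
    have : x = y * (y⁻¹ * x) := by simp
    change x ^ 2 ∈ K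
    rw [this, (show Commute y _ from mem_center_iff.1 (Zc e) y).mul_pow, Z2 _ e, mul_one]
    exact pow_mem hy 2
  rw [eq_top_iff, ← hsup]
  refine sup_le (fun x hx => ?_) (zpowers_le.2 σK)
  obtain ⟨y, hy, e⟩ := e2 x hx
  simpa using mul_mem hy (MK e)

end Cfsg.Agent.Mult
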